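import Mathlib
import Cfsg.Agent.Helper68.Ito

/-!
# S4135 (helper60): normal subgroups with two `G`-class sizes containing a non-central Sylow
subgroup of `G` - definitions and base lemmas for the CALL.
-/

set_option autoImplicit false
open Subgroup

namespace Cfsg.Agent.Helper60.NC

/-- the context: `N` normal, `G`-class sizes `1` or `m` on `N`, all `r`-elements lie in `N` -/
structure Ctx (G : Type*) [Group G] (r : ℕ) (N : Subgroup G) (m : ℕ) : Prop where
  nN : N.Normal
  h : ∀ x ∈ N, (centralizer ({x} : Set G)).index = 1 ∨ (centralizer ({x} : Set G)).index = m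
  hr : ∀ g : G, (∃ k : ℕ, g ^ r ^ k = 1) → g ∈ N

/-- `C_N(v) ≤ Z(C_G(v))` -/
def Good {G : Type*} [Group G] (N : Subgroup G) (v : G) : Prop :=
  ∀ c ∈ N, c ∈ centralizer ({v} : Set G) → ∀ d ∈ centralizer ({v} : Set G), c * d = d * c

/-- a non-central `r'`-element `y` of `N` commuting with a non-central `r`-element `w` -/
structure Mix (G : Type*) [Group G] (r : ℕ) (N : Subgroup G) (y w : G) : Prop where
  yN : y ∈ N
  yZ : y ∉ center G
  yr : (orderOf y).Coprime r
  wr : ∃ k : ℕ, w ^ r ^ k = 1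
  wZ : w ∉ center G
  comm : Commute y w

variable {G : Type*} [Group G] {r : ℕ} {N : Subgroup G} {m : ℕ}

theorem Ctx.index_eq (hc : Ctx G r N m) {x : G} (hx : x ∈ N) (hxZ : x ∉ center G) :
    (centralizer ({x} : Set G)).index = m := by
  rcases hc.h x hx with h1 | h1
  · exact absurd ((Cfsg.Agent.Helper68.mem_center_iff_index x).2 h1) hxZ
  · exact h1

theorem Ctx.card_eq [Finite G] (hc : Ctx G r N m) {u v : G} (hu : u ∈ N) (hv : v ∈ N)
    (huZ : u ∉ center G) (hvZ : v ∉ center G) :
    Nat.card (centralizer ({u} : Set G)) = Nat.card (centralizer ({v} : Set G)) := by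
  have h1 := (centralizer ({u} : Set G)).card_mul_index
  have h2 := (centralizer ({v} : Set G)).card_mul_index
  rw [hc.index_eq hu huZ] at h1
  rw [hc.index_eq hv hvZ] at h2
  have hn : 0 < m := by
    rcases Nat.eq_zero_or_pos m with h0 | h0
    · rw [h0, mul_zero] at h1
      exact absurd h1.symm Nat.card_pos.ne'
    · exact h0
  exact Nat.eq_of_mul_eq_mul_right hn (h1.trans h2.symm)

/-- CEQ: centralizers of non-central elements of `N` are not properly comparable -/
theorem Ctx.cent_eq [Finite G] (hc : Ctx G r N m) {u v : G} (hu : u ∈ N) (hv : v ∈ N)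
    (huZ : u ∉ center G) (hvZ : v ∉ center G)
    (hle : centralizer ({u} : Set G) ≤ centralizer ({v} : Set G)) :
    centralizer ({u} : Set G) = centralizer ({v} : Set G) :=
  Subgroup.eq_of_le_of_card_ge hle (hc.card_eq hu hv huZ hvZ).ge

/-- COP: if `y ∈ N` is non-central and `u ∈ N` commutes with `y` and has coprime order,
then `C(y) ≤ C(u)` -/
theorem Ctx.cop [Finite G] (hc : Ctx G r N m) {y u : G} (hy : y ∈ N) (hyZ : y ∉ center G)
    (hu : u ∈ N) (hcomm : Commute y u) (hcop : (orderOf y).Coprime (orderOf u)) :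
    centralizer ({y} : Set G) ≤ centralizer ({u} : Set G) := by
  have hy1 : y ∈ zpowers (y * u) := Cfsg.Agent.Helper68.mem_zpowers_mul_of_coprime hcomm hcop
  have hu1 : u ∈ zpowers (y * u) := by
    have e : y⁻¹ * (y * u) = u := by group
    have h0 := mul_mem (inv_mem hy1) (mem_zpowers (y * u))
    rwa [e] at h0
  have hyu : y * u ∉ center G := by
    intro hcz
    apply hyZ
    obtain ⟨i, hi⟩ := mem_zpowers_iff.1 hy1
    rw [← hi]
    exact zpow_mem hcz i
  have h1 := hc.cent_eq (N.mul_mem hy hu) hy hyu hyZ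
    (Cfsg.Agent.Helper68.centralizer_le_of_mem_zpowers hy1)
  rw [← h1]
  exact Cfsg.Agent.Helper68.centralizer_le_of_mem_zpowers hu1

theorem orderOf_coprime_of_pow {a : G} {r : ℕ} (_hr : r.Prime) (ha : ∃ k : ℕ, a ^ r ^ k = 1)
    {n : ℕ} (hn : n.Coprime r) : (orderOf a).Coprime n := by
  obtain ⟨k, hk⟩ := ha
  have h1 : orderOf a ∣ r ^ k := orderOf_dvd_of_pow_eq_one hk
  exact Nat.Coprime.coprime_dvd_left h1 (Nat.Coprime.pow_left k hn.symm)

/-- splitting an element of `N ∩ C(v)` into its `r`-part and `r'`-part -/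
theorem split_r [Finite G] (r : ℕ) [Fact r.Prime] (c : G) :
    ∃ a b : G, a ∈ zpowers c ∧ b ∈ zpowers c ∧ a * b = c ∧ (∃ k : ℕ, a ^ r ^ k = 1) ∧
      (orderOf b).Coprime r := by
  obtain ⟨a, b, ha, hb, hab, ⟨k, hk⟩, hbr⟩ :=
    Cfsg.Agent.Helper68.exists_p_decomp c (orderOf_pos c) r
  refine ⟨a, b, ha, hb, hab, ⟨k, ?_⟩, ?_⟩
  · rw [← hk]
    exact pow_orderOf_eq_one a
  · exact (Nat.Coprime.symm ((Nat.Prime.coprime_iff_not_dvd Fact.out).2 hbr))

/-- the mixed situation: `y` is good and `C(w) = C(y)` -/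
theorem Mix.cw [Finite G] [Fact r.Prime] (hc : Ctx G r N m) {y w : G} (hM : Mix G r N y w) :
    centralizer ({w} : Set G) = centralizer ({y} : Set G) := by
  have hwN : w ∈ N := hc.hr w hM.wr
  have h1 : (orderOf y).Coprime (orderOf w) :=
    (orderOf_coprime_of_pow Fact.out hM.wr hM.yr).symm
  exact (hc.cent_eq hM.yN hwN hM.yZ hM.wZ (hc.cop hM.yN hM.yZ hwN hM.comm h1)).symm

theorem Mix.good [Finite G] [Fact r.Prime] (hc : Ctx G r N m) {y w : G} (hM : Mix G r N y w) :
    Good N y := by
  intro c hcN hcC d hd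
  have hwN : w ∈ N := hc.hr w hM.wr
  obtain ⟨a, b, ha, hb, hab, har, hbr⟩ := split_r r c
  have hzle : zpowers c ≤ N ⊓ centralizer ({y} : Set G) :=
    zpowers_le.2 ⟨hcN, hcC⟩
  have haN := (hzle ha).1
  have haC := (hzle ha).2
  have hbN := (hzle hb).1
  have hbC := (hzle hb).2
  -- `a` is an `r`-element: coprime to `y`
  have h1 : centralizer ({y} : Set G) ≤ centralizer ({a} : Set G) := by
    apply hc.cop hM.yN hM.yZ haN
    · exact (mem_centralizer_singleton_iff.1 haC).symm
    · exact (orderOf_coprime_of_pow Fact.out har hM.yr).symm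
  -- `b` is an `r'`-element: coprime to `w`
  have h2 : centralizer ({y} : Set G) ≤ centralizer ({b} : Set G) := by
    rw [← hM.cw hc]
    apply hc.cop hwN hM.wZ hbN
    · have : b ∈ centralizer ({w} : Set G) := by rw [hM.cw hc]; exact hbC
      exact (mem_centralizer_singleton_iff.1 this).symm
    · exact orderOf_coprime_of_pow Fact.out hM.wr hbr
  have hda : a * d = d * a := (mem_centralizer_singleton_iff.1 (h1 hd)).symm
  have hdb : b * d = d * b := (mem_centralizer_singleton_iff.1 (h2 hd)).symm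
  rw [← hab, mul_assoc, hdb, ← mul_assoc, hda, mul_assoc]

/-- for a good `v`: a non-central element of `N ∩ C(v)` has centralizer `C(v)` -/
theorem Good.cen [Finite G] (hc : Ctx G r N m) {v : G} (hg : Good N v) (hv : v ∈ N)
    (hvZ : v ∉ center G) {c : G} (hcN : c ∈ N) (hcC : c ∈ centralizer ({v} : Set G))
    (hcZ : c ∉ center G) : centralizer ({c} : Set G) = centralizer ({v} : Set G) := by
  refine (hc.cent_eq hv hcN hvZ hcZ ?_).symm
  intro d hd
  rw [mem_centralizer_singleton_iff]
  exact (hg c hcN hcC d hd).symm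

theorem Mix.cen [Finite G] [Fact r.Prime] (hc : Ctx G r N m) {y w : G} (hM : Mix G r N y w)
    {c : G} (hcN : c ∈ N) (hcC : c ∈ centralizer ({y} : Set G)) (hcZ : c ∉ center G) :
    centralizer ({c} : Set G) = centralizer ({y} : Set G) :=
  (hM.good hc).cen hc hM.yN hM.yZ hcN hcC hcZ

/-- GOODFROM: if commuting `r`-elements `u` (non-central), `s` always satisfy `C(u) ≤ C(s)`,
then every non-central `r`-element is good -/
theorem good_of_pairs [Finite G] [Fact r.Prime] (hc : Ctx G r N m)
    (hpair : ∀ u s : G, (∃ k : ℕ, u ^ r ^ k = 1) → u ∉ center G → (∃ k : ℕ, s ^ r ^ k = 1) →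
      Commute u s → centralizer ({u} : Set G) ≤ centralizer ({s} : Set G))
    (u : G) (hu : ∃ k : ℕ, u ^ r ^ k = 1) (huZ : u ∉ center G) : Good N u := by
  intro c hcN hcC d hd
  have huN : u ∈ N := hc.hr u hu
  obtain ⟨a, b, ha, hb, hab, har, hbr⟩ := split_r r c
  have hzle : zpowers c ≤ N ⊓ centralizer ({u} : Set G) :=
    zpowers_le.2 ⟨hcN, hcC⟩
  have haC := (hzle ha).2
  have hbN := (hzle hb).1
  have hbC := (hzle hb).2
  have h1 : centralizer ({u} : Set G) ≤ centralizer ({a} : Set G) :=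
    hpair u a hu huZ har (mem_centralizer_singleton_iff.1 haC).symm
  have h2 : centralizer ({u} : Set G) ≤ centralizer ({b} : Set G) := by
    apply hc.cop huN huZ hbN
    · exact (mem_centralizer_singleton_iff.1 hbC).symm
    · exact orderOf_coprime_of_pow Fact.out hu hbr
  have hda : a * d = d * a := (mem_centralizer_singleton_iff.1 (h1 hd)).symm
  have hdb : b * d = d * b := (mem_centralizer_singleton_iff.1 (h2 hd)).symm
  rw [← hab, mul_assoc, hdb, ← mul_assoc, hda, mul_assoc]

end Cfsg.Agent.Helper60.NC
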