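import Mathlib
import Cfsg.Agent.Helper60.SLTv

/-!
# Transitivity and extension lemmas for `SL(V)`
-/

set_option autoImplicit false

namespace Cfsg.Agent.Helper60.MinIdx

open Module

section DualLemmas

variable {F V : Type*} [Field F] [AddCommGroup V] [Module F V]

theorem exists_dual_one_of_notMem (p : Submodule F V) {x : V} (hx : x ∉ p) :
    ∃ ψ : Dual F V, ψ x = 1 ∧ ∀ y ∈ p, ψ y = 0 := by
  obtain ⟨f, hf, hp⟩ := Submodule.exists_dual_map_eq_bot_of_notMem hx inferInstance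
  refine ⟨(f x)⁻¹ • f, ?_, fun y hy => ?_⟩
  · rw [LinearMap.smul_apply, smul_eq_mul, inv_mul_cancel₀ hf]
  · have h1 : f y ∈ p.map f := Submodule.mem_map_of_mem hy
    rw [hp, Submodule.mem_bot] at h1
    rw [LinearMap.smul_apply, h1, smul_zero]

theorem exists_dual_one {x : V} (hx : x ≠ 0) : ∃ ψ : Dual F V, ψ x = 1 := by
  obtain ⟨ψ, h1, -⟩ := exists_dual_one_of_notMem (⊥ : Submodule F V) (x := x) (by simpa using hx)
  exact ⟨ψ, h1⟩

theorem exists_dual_zero_one {u x : V} (hx : x ∉ Submodule.span F {u}) :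
    ∃ ψ : Dual F V, ψ u = 0 ∧ ψ x = 1 := by
  obtain ⟨ψ, h1, h2⟩ := exists_dual_one_of_notMem _ hx
  exact ⟨ψ, h2 u (Submodule.mem_span_singleton_self u), h1⟩

theorem notMem_span_singleton_ne_zero {u x : V} (hx : x ∉ Submodule.span F {u}) : x ≠ 0 := by
  rintro rfl; exact hx (Submodule.zero_mem _)

/-- if `x ∉ F u` and `u ≠ 0` then `u ∉ F x`. -/
theorem notMem_span_singleton_symm {u x : V} (hu : u ≠ 0) (hx : x ∉ Submodule.span F {u}) :
    u ∉ Submodule.span F {x} := by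
  intro h
  obtain ⟨c, hc⟩ := Submodule.mem_span_singleton.mp h
  have hc0 : c ≠ 0 := by
    rintro rfl; rw [zero_smul] at hc; exact hu hc.symm
  apply hx
  rw [Submodule.mem_span_singleton]
  refine ⟨c⁻¹, ?_⟩
  rw [← hc, smul_smul, inv_mul_cancel₀ hc0, one_smul]

end DualLemmas

section Trans

variable {F V : Type*} [Field F] [AddCommGroup V] [Module F V] [Module.Finite F V]

/-- `SL(V)` is transitive on nonzero vectors when `dim V ≥ 2`. -/
theorem sl_trans_vec (h2 : 2 ≤ finrank F V) {u u' : V} (hu : u ≠ 0) (hu' : u' ≠ 0) :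
    ∃ g : SpecialLinearGroup F V, g u = u' := by
  obtain ⟨g, hdet, hg⟩ := Cfsg.Agent.Helper38.exists_linearEquiv_det_one_map (K := F)
    (fun _ : Unit => u) (fun _ : Unit => u')
    (linearIndependent_unique_iff.mpr hu) (linearIndependent_unique_iff.mpr hu')
    (by simp; omega)
  exact ⟨⟨g, hdet⟩, hg ()⟩

/-- The stabiliser of a line is transitive on the vectors outside the line. -/
theorem sl_trans_line (h2 : 2 ≤ finrank F V) {v₀ u u' : V} (hv : v₀ ≠ 0)
    (hu : u ∉ Submodule.span F {v₀}) (hu' : u' ∉ Submodule.span F {v₀}) :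
    ∃ g : SpecialLinearGroup F V, (∃ c : Fˣ, g v₀ = c • v₀) ∧ g u = u' := by
  have hu0 : u ≠ 0 := notMem_span_singleton_ne_zero hu
  have hu0' : u' ≠ 0 := notMem_span_singleton_ne_zero hu'
  obtain ⟨g₁, hg₁⟩ := sl_trans_vec h2 hu0 hu0'
  have hv1 : v₀ ∉ Submodule.span F {u'} := notMem_span_singleton_symm hv hu'
  have hx1 : g₁ v₀ ∉ Submodule.span F {u'} := by
    intro h
    obtain ⟨c, hc⟩ := Submodule.mem_span_singleton.mp h
    have h3 : v₀ = c • u := by
      have h4 : g₁ (c • u) = g₁ v₀ := by rw [sl_map_smul, hg₁, hc]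
      exact (sl_injective g₁ h4).symm
    exact notMem_span_singleton_symm hv hu (by
      rw [Submodule.mem_span_singleton]
      have hc0 : c ≠ 0 := by
        rintro rfl; rw [zero_smul] at h3; exact hv h3
      exact ⟨c, h3.symm⟩) |>.elim
  -- a functional with `ψ u' = 0`, `ψ x = 1`, `ψ v₀ ≠ 0`
  obtain ⟨ψ, hψu, hψx, hψv⟩ : ∃ ψ : Dual F V, ψ u' = 0 ∧ ψ (g₁ v₀) = 1 ∧ ψ v₀ ≠ 0 := by
    obtain ⟨ψ₁, h1u, h1x⟩ := exists_dual_zero_one hx1
    by_cases h1v : ψ₁ v₀ = 0
    · obtain ⟨ψ₂, h2u, h2v⟩ := exists_dual_zero_one hv1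
      by_cases h2x : ψ₂ (g₁ v₀) = 0
      · refine ⟨ψ₁ + ψ₂, ?_, ?_, ?_⟩
        · rw [LinearMap.add_apply, h1u, h2u, add_zero]
        · rw [LinearMap.add_apply, h1x, h2x, add_zero]
        · rw [LinearMap.add_apply, h1v, h2v, zero_add]; exact one_ne_zero
      · refine ⟨(ψ₂ (g₁ v₀))⁻¹ • ψ₂, ?_, ?_, ?_⟩
        · rw [LinearMap.smul_apply, h2u, smul_zero]
        · rw [LinearMap.smul_apply, smul_eq_mul, inv_mul_cancel₀ h2x]
        · rw [LinearMap.smul_apply, h2v, smul_eq_mul, mul_one]; exact inv_ne_zero h2x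
    · exact ⟨ψ₁, h1u, h1x, h1v⟩
  set γ : F := (ψ v₀)⁻¹ with hγ
  set d : V := γ • v₀ - g₁ v₀ with hd
  have hψd : ψ d = 0 := by
    rw [hd, map_sub, map_smul, hψx, smul_eq_mul, hγ, inv_mul_cancel₀ hψv, sub_self]
  refine ⟨tv ψ d * g₁, ⟨Units.mk0 γ (inv_ne_zero hψv), ?_⟩, ?_⟩
  · rw [sl_mul_apply, tv_apply hψd, hψx, one_smul, hd]
    rw [Units.smul_def, Units.val_mk0]
    abel
  · rw [sl_mul_apply, hg₁, tv_apply hψd, hψu, zero_smul, add_zero]

/-- Extension of elements of `SL(K)` to `SL(V)`, for a subspace `K` of dimension `≥ 2`. -/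
theorem sl_extend (K : Submodule F V) (hK : 2 ≤ finrank F K) (e : SpecialLinearGroup F K) :
    ∃ g : SpecialLinearGroup F V, (∀ x : K, g (x : V) = (e x : V)) ∧ ∀ x : V, g x - x ∈ K := by
  let E : Subgroup (SpecialLinearGroup F K) :=
    { carrier := {e | ∃ g : SpecialLinearGroup F V,
        (∀ x : K, g (x : V) = (e x : V)) ∧ ∀ x : V, g x - x ∈ K}
      one_mem' := ⟨1, fun x => rfl, fun x => by rw [sl_one_apply, sub_self]; exact K.zero_mem⟩
      mul_mem' := by
        rintro e₁ e₂ ⟨g₁, h₁, h₁'⟩ ⟨g₂, h₂, h₂'⟩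
        refine ⟨g₁ * g₂, fun x => ?_, fun x => ?_⟩
        · rw [sl_mul_apply, h₂, h₁, sl_mul_apply]
        · rw [sl_mul_apply]
          have : g₁ (g₂ x) - x = (g₁ (g₂ x) - g₂ x) + (g₂ x - x) := by abel
          rw [this]; exact K.add_mem (h₁' _) (h₂' _)
      inv_mem' := by
        rintro e₁ ⟨g₁, h₁, h₁'⟩
        refine ⟨g₁⁻¹, fun x => ?_, fun x => ?_⟩
        · have h3 : g₁ ((e₁⁻¹ x : K) : V) = (x : V) := by
            rw [h₁, sl_apply_inv_apply]
          rw [← h3, sl_inv_apply_apply]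
        · have h3 := h₁' (g₁⁻¹ x)
          rw [sl_apply_inv_apply] at h3
          have : g₁⁻¹ x - x = -(x - g₁⁻¹ x) := by abel
          rw [this]; exact K.neg_mem h3 }
  have hE : E = ⊤ := by
    apply tv_generate hK
    intro φ a hφa
    obtain ⟨π, hπ⟩ := LinearMap.exists_leftInverse_of_injective K.subtype K.ker_subtype
    have hπ' : ∀ x : K, π (x : V) = x := fun x => by
      have := congrArg (fun l => l x) hπ
      simpa using this
    have h0 : (φ.comp π) (a : V) = 0 := by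
      rw [LinearMap.comp_apply, hπ', hφa]
    refine ⟨tv (φ.comp π) (a : V), fun x => ?_, fun x => ?_⟩
    · rw [tv_apply h0, tv_apply hφa, LinearMap.comp_apply, hπ']
      simp
    · rw [tv_apply h0, add_sub_cancel_left]
      exact K.smul_mem _ a.2
  have : e ∈ E := by rw [hE]; trivial
  exact this

/-- Extension of elements of `SL(ker f)` to elements of `SL(V)` preserving `f`. -/
theorem sl_extend_ker (f : Dual F V) (hK : 2 ≤ finrank F (LinearMap.ker f))
    (e : SpecialLinearGroup F (LinearMap.ker f)) :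
    ∃ g : SpecialLinearGroup F V, (∀ x : LinearMap.ker f, g (x : V) = (e x : V)) ∧ cg g f = f := by
  obtain ⟨g, h1, h2⟩ := sl_extend (LinearMap.ker f) hK e
  refine ⟨g, h1, ?_⟩
  ext x
  rw [cg_apply]
  have h3 := h2 (g⁻¹ x)
  rw [sl_apply_inv_apply, LinearMap.mem_ker, map_sub] at h3
  exact (sub_eq_zero.mp h3).symm

/-- Transvections with the same axis are conjugate. -/
theorem tv_conj_same_axis {f : Dual F V} (hK : 2 ≤ finrank F (LinearMap.ker f)) {a a' : V}
    (ha : f a = 0) (ha' : f a' = 0) (hane : a ≠ 0) (hane' : a' ≠ 0) :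
    ∃ g : SpecialLinearGroup F V, g * tv f a * g⁻¹ = tv f a' := by
  have h1 : (⟨a, ha⟩ : LinearMap.ker f) ≠ 0 := by
    intro h; exact hane (congrArg Subtype.val h)
  have h2 : (⟨a', ha'⟩ : LinearMap.ker f) ≠ 0 := by
    intro h; exact hane' (congrArg Subtype.val h)
  obtain ⟨e, he⟩ := sl_trans_vec hK h1 h2
  obtain ⟨g, hg1, hg2⟩ := sl_extend_ker f hK e
  refine ⟨g, ?_⟩
  rw [tv_conj, hg2]
  have := hg1 ⟨a, ha⟩
  rw [he] at this
  rw [this]

end Trans

end Cfsg.Agent.Helper60.MinIdx
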