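import Mathlib
import Cfsg.Agent.Helper60.SLExt

/-!
# A Fisher-type inequality for additive subgroups of a vector space

If `W` is a proper nonzero additive subgroup of a finite vector space `V` of dimension `≥ 2`,
then `W` has at least as many `SL(V)`-translates as `V` has lines, and in case of equality `W`
is closed under scalar multiplication.
-/

set_option autoImplicit false
set_option linter.unusedSectionVars false
set_option linter.style.haveILetI false
set_option linter.unusedSimpArgs false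

namespace Cfsg.Agent.Helper60.MinIdx

open Module Pointwise

section Arith

theorem fisher_arith {p r m a b : ℕ} (hp : p.Prime) (hr : 0 < r) (hm : 2 ≤ m) (hb1 : 1 ≤ b)
    (hba : b ≤ a) (ha : a < r * m) :
    (p ^ (r * m) - p ^ r) * (p ^ b - 1) ≠ (p ^ r - 1) * (p ^ a - p ^ b) := by
  intro heq
  have := Fact.mk hp
  have hp1 : 1 < p := hp.one_lt
  obtain ⟨c, rfl⟩ : ∃ c, a = b + c := ⟨a - b, by omega⟩
  obtain ⟨m', rfl⟩ : ∃ m', m = m' + 1 := ⟨m - 1, by omega⟩
  have e1 : p ^ (r * (m' + 1)) - p ^ r = p ^ r * (p ^ (r * m') - 1) := by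
    rw [Nat.mul_sub, mul_one, ← pow_add]; congr 2; ring
  have e2 : p ^ (b + c) - p ^ b = p ^ b * (p ^ c - 1) := by
    rw [Nat.mul_sub, mul_one, ← pow_add]
  rw [e1, e2] at heq
  have hge : ∀ k, 0 < k → 2 ≤ p ^ k := by
    intro k hk
    calc 2 ≤ p := hp1
      _ = p ^ 1 := (pow_one p).symm
      _ ≤ p ^ k := Nat.pow_le_pow_right (by omega) hk
  have hnd : ∀ k, 0 < k → ¬ p ∣ p ^ k - 1 := by
    intro k hk hdvd
    have h1 : p ∣ p ^ k := dvd_pow_self p (by omega)
    have h2 : p ∣ p ^ k - (p ^ k - 1) := Nat.dvd_sub h1 hdvd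
    have h3 : p ^ k - (p ^ k - 1) = 1 := by have := hge k hk; omega
    rw [h3] at h2
    exact hp1.ne' (Nat.dvd_one.mp h2)
  have hpos : ∀ k, 0 < k → 0 < p ^ k - 1 := fun k hk => by have := hge k hk; omega
  have hrm' : 0 < r * m' := Nat.mul_pos hr (by omega)
  by_cases hc : c = 0
  · subst hc
    rw [pow_zero, Nat.sub_self, mul_zero, mul_zero] at heq
    have h1 : 0 < p ^ r * (p ^ (r * m') - 1) * (p ^ b - 1) :=
      Nat.mul_pos (Nat.mul_pos (by positivity) (hpos _ hrm')) (hpos _ hb1)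
    omega
  · have hc' : 0 < c := by omega
    have v1 : padicValNat p (p ^ r * (p ^ (r * m') - 1) * (p ^ b - 1)) = r := by
      rw [padicValNat.mul (Nat.mul_pos (by positivity) (hpos _ hrm')).ne' (hpos _ hb1).ne',
        padicValNat.mul (by positivity) (hpos _ hrm').ne', padicValNat.prime_pow,
        padicValNat.eq_zero_of_not_dvd (hnd _ hrm'), padicValNat.eq_zero_of_not_dvd (hnd _ hb1)]
      omega
    have v2 : padicValNat p ((p ^ r - 1) * (p ^ b * (p ^ c - 1))) = b := by
      rw [padicValNat.mul (hpos _ hr).ne' (Nat.mul_pos (by positivity) (hpos _ hc')).ne',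
        padicValNat.mul (by positivity) (hpos _ hc').ne', padicValNat.prime_pow,
        padicValNat.eq_zero_of_not_dvd (hnd _ hr), padicValNat.eq_zero_of_not_dvd (hnd _ hc')]
      omega
    rw [heq, v2] at v1
    subst v1
    have h5 : p ^ (b * m') - 1 = p ^ c - 1 := by
      have hx : 0 < p ^ b * (p ^ b - 1) := Nat.mul_pos (by positivity) (hpos b hb1)
      apply Nat.eq_of_mul_eq_mul_left hx
      calc p ^ b * (p ^ b - 1) * (p ^ (b * m') - 1)
          = p ^ b * (p ^ (b * m') - 1) * (p ^ b - 1) := by ring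
        _ = (p ^ b - 1) * (p ^ b * (p ^ c - 1)) := heq
        _ = p ^ b * (p ^ b - 1) * (p ^ c - 1) := by ring
    have h6 : p ^ (b * m') = p ^ c := by
      have := hpos (b * m') hrm'; have := hpos c hc'; omega
    have h7 : b * m' = c := Nat.pow_right_injective hp1 h6
    rw [← h7] at ha
    have : b * (m' + 1) = b * m' + b := by ring
    omega

end Arith

section Fisher

open Classical

variable {F V : Type*} [Field F] [Fintype F] [AddCommGroup V] [Module F V] [Fintype V]
  [Fintype (SpecialLinearGroup F V)]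

/-- Indicator function of the nonzero elements of an additive subgroup. -/
noncomputable def ind (W : AddSubgroup V) : V → ℚ := fun v => if v ∈ W ∧ v ≠ 0 then 1 else 0

theorem ind_smul (g : SpecialLinearGroup F V) (W : AddSubgroup V) (x : V) :
    ind (g • W) x = ind W (g⁻¹ x) := by
  unfold ind
  have h1 : x ∈ g • W ↔ g⁻¹ x ∈ W := AddSubgroup.mem_pointwise_smul_iff_inv_smul_mem
  have h2 : x ≠ 0 ↔ g⁻¹ x ≠ 0 := not_congr (sl_map_eq_zero_iff g⁻¹ x).symm
  simp only [h1, h2]

theorem ind_nonneg (W : AddSubgroup V) (x : V) : 0 ≤ ind W x := by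
  unfold ind; split_ifs <;> norm_num

/-- The sum of the indicator functions of the translates of `W` under a subgroup `P`. -/
noncomputable def avgP (P : Subgroup (SpecialLinearGroup F V)) (W : AddSubgroup V) : V → ℚ :=
  fun x => ∑ g : P, ind W ((g : SpecialLinearGroup F V)⁻¹ x)

theorem avgP_zero (P : Subgroup (SpecialLinearGroup F V)) (W : AddSubgroup V) :
    avgP P W 0 = 0 := by
  unfold avgP
  apply Finset.sum_eq_zero
  intro g _
  unfold ind
  rw [sl_map_zero]; simp

theorem avgP_invariant (P : Subgroup (SpecialLinearGroup F V)) (W : AddSubgroup V)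
    {p : SpecialLinearGroup F V} (hp : p ∈ P) (x : V) : avgP P W (p x) = avgP P W x := by
  unfold avgP
  refine Fintype.sum_equiv (Equiv.mulLeft (⟨p, hp⟩⁻¹ : P)) _ _ (fun g => ?_)
  simp only [Equiv.coe_mulLeft, Subgroup.coe_mul, Subgroup.coe_inv, mul_inv_rev, inv_inv,
    sl_mul_apply]

theorem avgP_translate (P : Subgroup (SpecialLinearGroup F V)) (W : AddSubgroup V)
    (h : SpecialLinearGroup F V) :
    (fun x => avgP P W (h⁻¹ x)) = ∑ g : P, ind ((h * (g : SpecialLinearGroup F V)) • W) := by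
  funext x
  rw [Finset.sum_apply]
  unfold avgP
  refine Finset.sum_congr rfl (fun g _ => ?_)
  rw [ind_smul, mul_inv_rev, sl_mul_apply]

/-- Double counting: the sum of `avgP` over a `P`-invariant set. -/
theorem avgP_sum (P : Subgroup (SpecialLinearGroup F V)) (W : AddSubgroup V) (T : Finset V)
    (hT : ∀ g ∈ P, ∀ x : V, g x ∈ T ↔ x ∈ T) :
    ∑ x ∈ T, avgP P W x =
      (Fintype.card P : ℚ) * ((T.filter (fun x => x ∈ W ∧ x ≠ 0)).card : ℚ) := by
  unfold avgP
  rw [Finset.sum_comm]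
  have h1 : ∀ g : P, ∑ x ∈ T, ind W ((g : SpecialLinearGroup F V)⁻¹ x) =
      ((T.filter (fun x => x ∈ W ∧ x ≠ 0)).card : ℚ) := by
    intro g
    have h2 : ∑ x ∈ T, ind W ((g : SpecialLinearGroup F V)⁻¹ x) = ∑ x ∈ T, ind W x := by
      rw [← Finset.sum_filter_add_sum_filter_not T (fun x => True)]
      simp only [Finset.filter_true, not_true_eq_false, Finset.filter_false, Finset.sum_empty,
        add_zero]
      refine Finset.sum_bij' (fun x _ => (g : SpecialLinearGroup F V)⁻¹ x)
        (fun x _ => (g : SpecialLinearGroup F V) x) ?_ ?_ ?_ ?_ ?_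
      · intro x hx
        have := hT g g.2 ((g : SpecialLinearGroup F V)⁻¹ x)
        rw [sl_apply_inv_apply] at this
        exact this.mp hx
      · intro x hx
        exact (hT g g.2 x).mpr hx
      · intro x _; exact sl_apply_inv_apply _ x
      · intro x _; exact sl_inv_apply_apply _ x
      · intro x _; rfl
    rw [h2]
    unfold ind
    rw [Finset.sum_ite, Finset.sum_const_zero, add_zero, Finset.sum_const, nsmul_eq_mul, mul_one]
  rw [Finset.sum_congr rfl (fun g _ => h1 g), Finset.sum_const, Finset.card_univ, nsmul_eq_mul]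

variable (F) in
/-- The stabiliser of the line through `v₀`. -/
def lineStab (v₀ : V) : Subgroup (SpecialLinearGroup F V) where
  carrier := {g | ∃ c : Fˣ, g v₀ = c • v₀}
  one_mem' := ⟨1, by rw [sl_one_apply, one_smul]⟩
  mul_mem' := by
    rintro g h ⟨c, hc⟩ ⟨d, hd⟩
    refine ⟨d * c, ?_⟩
    rw [sl_mul_apply, hd, Units.smul_def, sl_map_smul, hc, Units.smul_def, Units.smul_def,
      smul_smul, Units.val_mul]
  inv_mem' := by
    rintro g ⟨c, hc⟩
    refine ⟨c⁻¹, ?_⟩
    have h1 : g ((c⁻¹ : Fˣ) • v₀) = v₀ := by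
      rw [Units.smul_def, sl_map_smul, hc, ← Units.smul_def, inv_smul_smul]
    calc g⁻¹ v₀ = g⁻¹ (g ((c⁻¹ : Fˣ) • v₀)) := by rw [h1]
      _ = (c⁻¹ : Fˣ) • v₀ := sl_inv_apply_apply _ _

theorem mem_lineStab {v₀ : V} {g : SpecialLinearGroup F V} :
    g ∈ lineStab F v₀ ↔ ∃ c : Fˣ, g v₀ = c • v₀ := Iff.rfl

theorem lineStab_map_mem_span {v₀ : V} {g : SpecialLinearGroup F V} (hg : g ∈ lineStab F v₀)
    (x : V) : g x ∈ Submodule.span F {v₀} ↔ x ∈ Submodule.span F {v₀} := by
  have key : ∀ g' : SpecialLinearGroup F V, g' ∈ lineStab F v₀ → ∀ y : V,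
      y ∈ Submodule.span F {v₀} → g' y ∈ Submodule.span F {v₀} := by
    rintro g' ⟨c, hc⟩ y hy
    obtain ⟨d, rfl⟩ := Submodule.mem_span_singleton.mp hy
    rw [sl_map_smul, hc]
    exact Submodule.smul_mem _ _ (Submodule.smul_mem _ _ (Submodule.mem_span_singleton_self v₀))
  constructor
  · intro h
    have := key g⁻¹ ((lineStab F v₀).inv_mem hg) _ h
    rwa [sl_inv_apply_apply] at this
  · exact key g hg x

theorem avgP_lineStab_on (hm : 2 ≤ finrank F V) (W : AddSubgroup V) {v₀ x : V} (hv0 : v₀ ≠ 0)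
    (hx : x ∈ Submodule.span F {v₀}) (hx0 : x ≠ 0) :
    avgP (lineStab F v₀) W x = avgP (lineStab F v₀) W v₀ := by
  obtain ⟨c, rfl⟩ := Submodule.mem_span_singleton.mp hx
  have hc : c ≠ 0 := by rintro rfl; rw [zero_smul] at hx0; exact hx0 rfl
  obtain ⟨p, hp⟩ := sl_trans_vec hm hv0 hx0
  have hpP : p ∈ lineStab F v₀ := ⟨Units.mk0 c hc, by rw [hp]; rfl⟩
  rw [← hp, avgP_invariant _ _ hpP]

theorem avgP_lineStab_off (hm : 2 ≤ finrank F V) (W : AddSubgroup V) {v₀ u u' : V} (hv0 : v₀ ≠ 0)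
    (hu : u ∉ Submodule.span F {v₀}) (hu' : u' ∉ Submodule.span F {v₀}) :
    avgP (lineStab F v₀) W u' = avgP (lineStab F v₀) W u := by
  obtain ⟨g, hg, hgu⟩ := sl_trans_line hm hv0 hu hu'
  rw [← hgu, avgP_invariant _ _ (mem_lineStab.mpr hg)]

theorem card_filter_mem_addSubgroup (H : AddSubgroup V) :
    (Finset.univ.filter (fun x : V => x ∈ H)).card = Nat.card H := by
  rw [Nat.card_eq_fintype_card, Fintype.card_subtype]

theorem card_span_singleton {v₀ : V} (hv0 : v₀ ≠ 0) :
    Nat.card (Submodule.span F {v₀}).toAddSubgroup = Fintype.card F := by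
  rw [← Nat.card_eq_fintype_card]
  exact (Nat.card_congr (LinearEquiv.toSpanNonzeroSingleton F V v₀ hv0).toEquiv).symm

theorem fisher_alpha_ne_beta (hm : 2 ≤ finrank F V) (W : AddSubgroup V) (hW1 : W ≠ ⊤)
    {v₀ u₀ : V} (hv0 : v₀ ≠ 0) (hvW : v₀ ∈ W) (hu₀ : u₀ ∉ Submodule.span F {v₀}) :
    avgP (lineStab F v₀) W v₀ ≠ avgP (lineStab F v₀) W u₀ := by
  intro hαβ
  set P := lineStab F v₀ with hP
  set L := Submodule.span F {v₀} with hL
  set T₁ : Finset V := Finset.univ.filter (fun x => x ∈ L ∧ x ≠ 0) with hT₁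
  set T₂ : Finset V := Finset.univ.filter (fun x => x ∉ L) with hT₂
  set W₀ : AddSubgroup V := W ⊓ L.toAddSubgroup with hW₀
  have hinv₁ : ∀ g ∈ P, ∀ x : V, g x ∈ T₁ ↔ x ∈ T₁ := by
    intro g hg x
    simp only [hT₁, Finset.mem_filter, Finset.mem_univ, true_and]
    rw [lineStab_map_mem_span hg x, Ne, sl_map_eq_zero_iff]
  have hinv₂ : ∀ g ∈ P, ∀ x : V, g x ∈ T₂ ↔ x ∈ T₂ := by
    intro g hg x
    simp only [hT₂, Finset.mem_filter, Finset.mem_univ, true_and]
    rw [lineStab_map_mem_span hg x]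
  have s₁ := avgP_sum P W T₁ hinv₁
  have s₂ := avgP_sum P W T₂ hinv₂
  have c₁ : ∑ x ∈ T₁, avgP P W x = (T₁.card : ℚ) * avgP P W v₀ := by
    rw [Finset.sum_congr rfl (fun x hx => ?_), Finset.sum_const, nsmul_eq_mul]
    simp only [hT₁, Finset.mem_filter, Finset.mem_univ, true_and] at hx
    exact avgP_lineStab_on hm W hv0 hx.1 hx.2
  have c₂ : ∑ x ∈ T₂, avgP P W x = (T₂.card : ℚ) * avgP P W u₀ := by
    rw [Finset.sum_congr rfl (fun x hx => ?_), Finset.sum_const, nsmul_eq_mul]
    simp only [hT₂, Finset.mem_filter, Finset.mem_univ, true_and] at hx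
    exact avgP_lineStab_off hm W hv0 hu₀ hx
  rw [c₁] at s₁
  rw [c₂, ← hαβ] at s₂
  -- cardinalities
  set q := Fintype.card F with hq
  set m := finrank F V with hmdef
  have hcardV : Fintype.card V = q ^ m := Module.card_eq_pow_finrank
  have hcardL : (Finset.univ.filter (fun x : V => x ∈ L)).card = q := by
    have := card_filter_mem_addSubgroup (L.toAddSubgroup)
    rw [card_span_singleton hv0] at this
    exact this
  have hT₁card : T₁.card + 1 = q := by
    rw [← hcardL]
    have h0 : (0 : V) ∈ Finset.univ.filter (fun x : V => x ∈ L) := by simp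
    have : T₁ = (Finset.univ.filter (fun x : V => x ∈ L)).erase 0 := by
      ext x; simp [hT₁, and_comm]
    rw [this, Finset.card_erase_of_mem h0]
    have := Finset.card_pos.mpr ⟨0, h0⟩
    omega
  have hT₂card : T₂.card + q = q ^ m := by
    rw [← hcardV, ← hcardL, ← Finset.card_univ (α := V)]
    rw [add_comm]
    exact Finset.card_filter_add_card_filter_not (s := Finset.univ) (fun x : V => x ∈ L)
  set w := Nat.card W with hw
  set w₀ := Nat.card W₀ with hw₀
  have hr₁ : (T₁.filter (fun x => x ∈ W ∧ x ≠ 0)).card + 1 = w₀ := by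
    rw [hw₀, ← card_filter_mem_addSubgroup]
    have h0 : (0 : V) ∈ Finset.univ.filter (fun x : V => x ∈ W₀) := by simp
    have : T₁.filter (fun x => x ∈ W ∧ x ≠ 0) =
        (Finset.univ.filter (fun x : V => x ∈ W₀)).erase 0 := by
      ext x
      simp only [hT₁, hW₀, Finset.mem_filter, Finset.mem_univ, true_and, Finset.mem_erase,
        AddSubgroup.mem_inf, Submodule.mem_toAddSubgroup]
      tauto
    rw [this, Finset.card_erase_of_mem h0]
    have := Finset.card_pos.mpr ⟨0, h0⟩
    omega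
  have hr₂ : (T₂.filter (fun x => x ∈ W ∧ x ≠ 0)).card + w₀ = w := by
    rw [hw, hw₀, ← card_filter_mem_addSubgroup, ← card_filter_mem_addSubgroup]
    have e1 : T₂.filter (fun x => x ∈ W ∧ x ≠ 0) =
        (Finset.univ.filter (fun x : V => x ∈ W)).filter (fun x => ¬ x ∈ L) := by
      ext x
      simp only [hT₂, Finset.mem_filter, Finset.mem_univ, true_and]
      constructor
      · rintro ⟨h1, h2, -⟩; exact ⟨h2, h1⟩
      · rintro ⟨h1, h2⟩
        exact ⟨h2, h1, fun h => h2 (h ▸ L.zero_mem)⟩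
    have e2 : Finset.univ.filter (fun x : V => x ∈ W₀) =
        (Finset.univ.filter (fun x : V => x ∈ W)).filter (fun x => x ∈ L) := by
      ext x
      simp only [hW₀, Finset.mem_filter, Finset.mem_univ, true_and, AddSubgroup.mem_inf,
        Submodule.mem_toAddSubgroup]
    rw [e1, e2, add_comm]
    exact Finset.card_filter_add_card_filter_not (fun x : V => x ∈ L)
  -- the equation
  have hPpos : (Fintype.card P : ℚ) ≠ 0 := by
    have : 0 < Fintype.card P := Fintype.card_pos
    exact_mod_cast this.ne'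
  have heq : T₂.card * (T₁.filter (fun x => x ∈ W ∧ x ≠ 0)).card =
      T₁.card * (T₂.filter (fun x => x ∈ W ∧ x ≠ 0)).card := by
    have h1 : (Fintype.card P : ℚ) * ((T₂.card : ℚ) * ((T₁.filter (fun x => x ∈ W ∧ x ≠ 0)).card : ℚ)) =
        (Fintype.card P : ℚ) * ((T₁.card : ℚ) * ((T₂.filter (fun x => x ∈ W ∧ x ≠ 0)).card : ℚ)) := by
      calc (Fintype.card P : ℚ) * ((T₂.card : ℚ) * ((T₁.filter (fun x => x ∈ W ∧ x ≠ 0)).card : ℚ))
          = (T₂.card : ℚ) * ((Fintype.card P : ℚ) * ((T₁.filter (fun x => x ∈ W ∧ x ≠ 0)).card : ℚ)) := by ring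
        _ = (T₂.card : ℚ) * ((T₁.card : ℚ) * avgP P W v₀) := by rw [s₁]
        _ = (T₁.card : ℚ) * ((T₂.card : ℚ) * avgP P W v₀) := by ring
        _ = (T₁.card : ℚ) * ((Fintype.card P : ℚ) * ((T₂.filter (fun x => x ∈ W ∧ x ≠ 0)).card : ℚ)) := by rw [s₂]
        _ = _ := by ring
    have h2 := mul_left_cancel₀ hPpos h1
    exact_mod_cast h2
  -- prime powers
  obtain ⟨p, hchar⟩ := CharP.exists F
  obtain ⟨r, hp, hqr⟩ := FiniteField.card F p
  have hr : 0 < (r : ℕ) := r.pos
  have hwdvd : w ∣ p ^ ((r : ℕ) * m) := by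
    rw [pow_mul, ← hqr, ← hq, ← hcardV, ← Nat.card_eq_fintype_card]
    exact AddSubgroup.card_addSubgroup_dvd_card W
  have hw₀dvd : w₀ ∣ p ^ (r : ℕ) := by
    rw [← hqr, ← card_span_singleton hv0]
    exact AddSubgroup.card_dvd_of_le inf_le_right
  have hw₀w : w₀ ∣ w := AddSubgroup.card_dvd_of_le inf_le_left
  obtain ⟨a, ha, hwa⟩ := (Nat.dvd_prime_pow hp).mp hwdvd
  obtain ⟨b, hb, hwb⟩ := (Nat.dvd_prime_pow hp).mp hw₀dvd
  have hba : b ≤ a := by
    rw [hwa, hwb] at hw₀w
    exact (Nat.pow_dvd_pow_iff_le_right hp.one_lt).mp hw₀w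
  have hb1 : 1 ≤ b := by
    by_contra hb0
    have hb0' : b = 0 := by omega
    rw [hb0', pow_zero] at hwb
    have hbot : W₀ = ⊥ := AddSubgroup.eq_bot_of_card_eq W₀ hwb
    have hmem : v₀ ∈ W₀ := by
      rw [hW₀, AddSubgroup.mem_inf]
      exact ⟨hvW, Submodule.mem_span_singleton_self v₀⟩
    rw [hbot, AddSubgroup.mem_bot] at hmem
    exact hv0 hmem
  have ha' : a < (r : ℕ) * m := by
    rcases Nat.lt_or_ge a ((r : ℕ) * m) with h | h
    · exact h
    · exfalso
      have haeq : a = (r : ℕ) * m := le_antisymm ha h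
      apply hW1
      apply AddSubgroup.eq_top_of_card_eq
      rw [← hw, hwa, haeq, pow_mul, ← hqr, ← hq, ← hcardV, Nat.card_eq_fintype_card]
  refine fisher_arith hp hr hm hb1 hba ha' ?_
  have e1 : p ^ ((r : ℕ) * m) - p ^ (r : ℕ) = T₂.card := by
    rw [pow_mul, ← hqr, ← hq]; omega
  have e2 : p ^ b - 1 = (T₁.filter (fun x => x ∈ W ∧ x ≠ 0)).card := by
    rw [← hwb]; omega
  have e3 : p ^ (r : ℕ) - 1 = T₁.card := by
    rw [← hqr, ← hq]; omega
  have e4 : p ^ a - p ^ b = (T₂.filter (fun x => x ∈ W ∧ x ≠ 0)).card := by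
    rw [← hwb, ← hwa]; omega
  rw [e1, e2, e3, e4]
  exact heq

variable (F) in
/-- Indicator function of the nonzero vectors of the line through `v`. -/
noncomputable def lineIndF (v : V) : V → ℚ :=
  fun x => if x ≠ 0 ∧ x ∈ Submodule.span F {v} then 1 else 0

variable (F) in
/-- The span of the indicator functions of the translates of `W`. -/
noncomputable def fisherSpan (W : AddSubgroup V) : Submodule ℚ (V → ℚ) :=
  Submodule.span ℚ (Set.range
    (fun T : MulAction.orbit (SpecialLinearGroup F V) W => ind (T : AddSubgroup V)))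

theorem ind_smul_mem_fisherSpan (W : AddSubgroup V) (g : SpecialLinearGroup F V) :
    ind (g • W) ∈ fisherSpan F W :=
  Submodule.subset_span ⟨⟨g • W, MulAction.mem_orbit W g⟩, rfl⟩

theorem avgP_translate_mem (P : Subgroup (SpecialLinearGroup F V)) (W : AddSubgroup V)
    (h : SpecialLinearGroup F V) : (fun x => avgP P W (h⁻¹ x)) ∈ fisherSpan F W := by
  rw [avgP_translate]
  exact Submodule.sum_mem _ (fun g _ => ind_smul_mem_fisherSpan W _)

theorem exists_mem_ne_zero_of_ne_bot {W : AddSubgroup V} (hW0 : W ≠ ⊥) :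
    ∃ w₁ ∈ W, w₁ ≠ 0 := by
  by_contra hcon
  push Not at hcon
  exact hW0 ((AddSubgroup.eq_bot_iff_forall W).mpr hcon)

theorem nz_mem_fisherSpan (hm : 2 ≤ finrank F V) (W : AddSubgroup V) (hW0 : W ≠ ⊥) :
    (fun x : V => if x ≠ 0 then (1 : ℚ) else 0) ∈ fisherSpan F W := by
  obtain ⟨w₁, hw₁, hw₁0⟩ := exists_mem_ne_zero_of_ne_bot hW0
  set c := avgP (⊤ : Subgroup (SpecialLinearGroup F V)) W w₁ with hc
  have hcpos : 0 < c := by
    have h1 : ind W (((1 : (⊤ : Subgroup (SpecialLinearGroup F V))) :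
        SpecialLinearGroup F V)⁻¹ w₁) = 1 := by
      simp [ind, hw₁, hw₁0, sl_one_apply]
    have h2 : ind W (((1 : (⊤ : Subgroup (SpecialLinearGroup F V))) :
        SpecialLinearGroup F V)⁻¹ w₁) ≤ c :=
      Finset.single_le_sum (f := fun g : (⊤ : Subgroup (SpecialLinearGroup F V)) =>
        ind W ((g : SpecialLinearGroup F V)⁻¹ w₁)) (fun g _ => ind_nonneg W _) (Finset.mem_univ 1)
    rw [h1] at h2
    exact lt_of_lt_of_le one_pos h2
  have hconst : ∀ x : V, x ≠ 0 → avgP (⊤ : Subgroup (SpecialLinearGroup F V)) W x = c := by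
    intro x hx
    obtain ⟨g, hg⟩ := sl_trans_vec hm hw₁0 hx
    rw [← hg, avgP_invariant _ _ (Subgroup.mem_top g)]
  have hmem := avgP_translate_mem (⊤ : Subgroup (SpecialLinearGroup F V)) W 1
  have heq : (fun x : V => if x ≠ 0 then (1 : ℚ) else 0) =
      c⁻¹ • (fun x => avgP (⊤ : Subgroup (SpecialLinearGroup F V)) W
        ((1 : SpecialLinearGroup F V)⁻¹ x)) := by
    funext x
    simp only [Pi.smul_apply, smul_eq_mul, inv_one, sl_one_apply]
    by_cases hx : x = 0
    · subst hx; simp [avgP_zero]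
    · rw [if_pos hx, hconst x hx, inv_mul_cancel₀ hcpos.ne']
  rw [heq]
  exact Submodule.smul_mem _ _ hmem

theorem lineIndF_mem_fisherSpan (hm : 2 ≤ finrank F V) (W : AddSubgroup V) (hW0 : W ≠ ⊥)
    (hW1 : W ≠ ⊤) {v : V} (hv : v ≠ 0) : lineIndF F v ∈ fisherSpan F W := by
  obtain ⟨w₁, hw₁, hw₁0⟩ := exists_mem_ne_zero_of_ne_bot hW0
  obtain ⟨u₀, hu₀⟩ : ∃ u₀, u₀ ∉ Submodule.span F {w₁} := by
    by_contra hcon
    push Not at hcon
    have htop : Submodule.span F {w₁} = ⊤ := eq_top_iff.mpr (fun x _ => hcon x)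
    have h1 : finrank F (Submodule.span F {w₁}) = 1 := finrank_span_singleton hw₁0
    rw [htop, finrank_top] at h1
    omega
  set P := lineStab F w₁ with hP
  set α := avgP P W w₁ with hα
  set β := avgP P W u₀ with hβ
  have hαβ : α ≠ β := fisher_alpha_ne_beta hm W hW1 hw₁0 hw₁ hu₀
  obtain ⟨h, hh⟩ := sl_trans_vec hm hw₁0 hv
  have hS := avgP_translate_mem P W h
  have hnz := nz_mem_fisherSpan hm W hW0
  have heq : lineIndF F v = (α - β)⁻¹ • ((fun x => avgP P W (h⁻¹ x)) -
      β • (fun x : V => if x ≠ 0 then (1 : ℚ) else 0)) := by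
    funext x
    simp only [lineIndF, Pi.smul_apply, Pi.sub_apply, smul_eq_mul]
    by_cases hx : x = 0
    · subst hx; simp [sl_map_zero, avgP_zero]
    · by_cases hxv : x ∈ Submodule.span F {v}
      · have h1 : h⁻¹ x ∈ Submodule.span F {w₁} := by
          obtain ⟨c, rfl⟩ := Submodule.mem_span_singleton.mp hxv
          rw [sl_map_smul, ← hh, sl_inv_apply_apply]
          exact Submodule.smul_mem _ _ (Submodule.mem_span_singleton_self _)
        have h2 : h⁻¹ x ≠ 0 := fun h0 => hx ((sl_map_eq_zero_iff _ _).mp h0)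
        rw [avgP_lineStab_on hm W hw₁0 h1 h2, if_pos ⟨hx, hxv⟩, if_pos hx, mul_one,
          inv_mul_cancel₀ (sub_ne_zero.mpr hαβ)]
      · have h1 : h⁻¹ x ∉ Submodule.span F {w₁} := by
          intro hmem
          obtain ⟨c, hc⟩ := Submodule.mem_span_singleton.mp hmem
          apply hxv
          rw [Submodule.mem_span_singleton]
          refine ⟨c, ?_⟩
          rw [← hh, ← sl_map_smul, hc, sl_apply_inv_apply]
        rw [avgP_lineStab_off hm W hw₁0 hu₀ h1, if_neg (fun hc => hxv hc.2), if_pos hx, mul_one,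
          sub_self, mul_zero]
  rw [heq]
  exact Submodule.smul_mem _ _ (Submodule.sub_mem _ hS (Submodule.smul_mem _ _ hnz))

theorem lineIndF_rep_apply (ℓ ℓ' : Projectivization F V) :
    lineIndF F ℓ.rep ℓ'.rep = if ℓ' = ℓ then 1 else 0 := by
  unfold lineIndF
  have h : (ℓ'.rep ≠ 0 ∧ ℓ'.rep ∈ Submodule.span F {ℓ.rep}) ↔ ℓ' = ℓ := by
    constructor
    · rintro ⟨-, h2⟩
      obtain ⟨c, hc⟩ := Submodule.mem_span_singleton.mp h2
      rw [← ℓ'.mk_rep, ← ℓ.mk_rep, Projectivization.mk_eq_mk_iff']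
      exact ⟨c, hc⟩
    · rintro rfl
      exact ⟨ℓ'.rep_nonzero, Submodule.mem_span_singleton_self _⟩
  simp only [h]

theorem lineIndF_linearIndependent [Fintype (Projectivization F V)] :
    LinearIndependent ℚ (fun ℓ : Projectivization F V => lineIndF F ℓ.rep) := by
  rw [Fintype.linearIndependent_iff]
  intro g hg ℓ₀
  have h1 := congrFun hg ℓ₀.rep
  simp only [Finset.sum_apply, Pi.smul_apply, smul_eq_mul, Pi.zero_apply, lineIndF_rep_apply,
    mul_ite, mul_one, mul_zero, Finset.sum_ite_eq, Finset.mem_univ, if_true] at h1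
  exact h1

theorem lineIndF_smul_apply (v : V) {c : F} (hc : c ≠ 0) (x : V) :
    lineIndF F v (c • x) = lineIndF F v x := by
  unfold lineIndF
  have h1 : c • x ≠ 0 ↔ x ≠ 0 := by
    rw [Ne, smul_eq_zero]; constructor
    · intro h hx; exact h (Or.inr hx)
    · rintro h (h' | h'); exact hc h'; exact h h'
  have h2 : c • x ∈ Submodule.span F {v} ↔ x ∈ Submodule.span F {v} :=
    Submodule.smul_mem_iff _ hc
  simp only [h1, h2]

theorem lemmaL_card' (hm : 2 ≤ finrank F V) (W : AddSubgroup V) (hW0 : W ≠ ⊥) (hW1 : W ≠ ⊤) :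
    Nat.card (Projectivization F V) ≤ Nat.card (MulAction.orbit (SpecialLinearGroup F V) W) := by
  haveI : Fintype (Projectivization F V) := Fintype.ofFinite _
  haveI : Fintype (MulAction.orbit (SpecialLinearGroup F V) W) := Fintype.ofFinite _
  have hLI := lineIndF_linearIndependent (F := F) (V := V)
  have h1 : Submodule.span ℚ (Set.range (fun ℓ : Projectivization F V => lineIndF F ℓ.rep)) ≤
      fisherSpan F W := by
    rw [Submodule.span_le]
    rintro _ ⟨ℓ, rfl⟩
    exact lineIndF_mem_fisherSpan hm W hW0 hW1 ℓ.rep_nonzero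
  have h2 := finrank_span_eq_card hLI
  have h3 : finrank ℚ (fisherSpan F W) ≤ Fintype.card (MulAction.orbit (SpecialLinearGroup F V) W) :=
    finrank_range_le_card _
  have h4 := Submodule.finrank_mono h1
  rw [Nat.card_eq_fintype_card, Nat.card_eq_fintype_card]
  omega

theorem lemmaL_smul' (hm : 2 ≤ finrank F V) (W : AddSubgroup V) (hW0 : W ≠ ⊥) (hW1 : W ≠ ⊤)
    (hle : Nat.card (MulAction.orbit (SpecialLinearGroup F V) W) ≤ Nat.card (Projectivization F V))
    (c : F) (v : V) (hv : v ∈ W) : c • v ∈ W := by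
  haveI : Fintype (Projectivization F V) := Fintype.ofFinite _
  haveI : Fintype (MulAction.orbit (SpecialLinearGroup F V) W) := Fintype.ofFinite _
  have hLI := lineIndF_linearIndependent (F := F) (V := V)
  have h1 : Submodule.span ℚ (Set.range (fun ℓ : Projectivization F V => lineIndF F ℓ.rep)) ≤
      fisherSpan F W := by
    rw [Submodule.span_le]
    rintro _ ⟨ℓ, rfl⟩
    exact lineIndF_mem_fisherSpan hm W hW0 hW1 ℓ.rep_nonzero
  have h2 := finrank_span_eq_card hLI
  have h3 : finrank ℚ (fisherSpan F W) ≤ Fintype.card (MulAction.orbit (SpecialLinearGroup F V) W) :=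
    finrank_range_le_card _
  rw [Nat.card_eq_fintype_card, Nat.card_eq_fintype_card] at hle
  have h5 : Submodule.span ℚ (Set.range (fun ℓ : Projectivization F V => lineIndF F ℓ.rep)) =
      fisherSpan F W := Submodule.eq_of_le_of_finrank_le h1 (by omega)
  have h6 : ind W ∈ fisherSpan F W :=
    Submodule.subset_span ⟨⟨W, MulAction.mem_orbit_self W⟩, rfl⟩
  rw [← h5] at h6
  have h7 : ∀ φ ∈ Submodule.span ℚ (Set.range (fun ℓ : Projectivization F V => lineIndF F ℓ.rep)),
      ∀ (d : F), d ≠ 0 → ∀ x : V, φ (d • x) = φ x := by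
    intro φ hφ
    induction hφ using Submodule.span_induction with
    | mem φ hφ =>
      obtain ⟨ℓ, rfl⟩ := hφ
      intro d hd x
      exact lineIndF_smul_apply _ hd x
    | zero => intro d _ x; rfl
    | add φ ψ _ _ hφ hψ =>
      intro d hd x
      rw [Pi.add_apply, Pi.add_apply, hφ d hd x, hψ d hd x]
    | smul a φ _ hφ =>
      intro d hd x
      rw [Pi.smul_apply, Pi.smul_apply, hφ d hd x]
  by_cases hc : c = 0
  · subst hc; rw [zero_smul]; exact W.zero_mem
  by_cases hv0 : v = 0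
  · subst hv0; rw [smul_zero]; exact W.zero_mem
  have h8 := h7 _ h6 c hc v
  have h9 : ind W v = 1 := by unfold ind; rw [if_pos ⟨hv, hv0⟩]
  rw [h9] at h8
  by_contra hcon
  have h10 : ind W (c • v) = 0 := by unfold ind; rw [if_neg (fun h => hcon h.1)]
  rw [h10] at h8
  exact zero_ne_one h8

end Fisher

section Final

variable {F V : Type*} [Field F] [Finite F] [AddCommGroup V] [Module F V] [Finite V]

instance sl_finite : Finite (SpecialLinearGroup F V) :=
  Finite.of_injective (fun g : SpecialLinearGroup F V => (fun x => g x : V → V))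
    (fun g h hgh => SpecialLinearGroup.ext g h (congrFun hgh))

/-- **Fisher-type inequality**: a proper nonzero additive subgroup `W` of `V` has at least as
many `SL(V)`-translates as `V` has lines. -/
theorem lemmaL_card (hm : 2 ≤ finrank F V) (W : AddSubgroup V) (hW0 : W ≠ ⊥) (hW1 : W ≠ ⊤) :
    Nat.card (Projectivization F V) ≤ Nat.card (MulAction.orbit (SpecialLinearGroup F V) W) := by
  classical
  haveI := Fintype.ofFinite F
  haveI := Fintype.ofFinite V
  haveI := Fintype.ofFinite (SpecialLinearGroup F V)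
  exact lemmaL_card' hm W hW0 hW1

/-- Equality case: `W` is closed under scalar multiplication. -/
theorem lemmaL_smul (hm : 2 ≤ finrank F V) (W : AddSubgroup V) (hW0 : W ≠ ⊥) (hW1 : W ≠ ⊤)
    (hle : Nat.card (MulAction.orbit (SpecialLinearGroup F V) W) ≤ Nat.card (Projectivization F V))
    (c : F) (v : V) (hv : v ∈ W) : c • v ∈ W := by
  classical
  haveI := Fintype.ofFinite F
  haveI := Fintype.ofFinite V
  haveI := Fintype.ofFinite (SpecialLinearGroup F V)
  exact lemmaL_smul' hm W hW0 hW1 hle c v hv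

end Final

end Cfsg.Agent.Helper60.MinIdx
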