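import Mathlib
import Cfsg.Agent.Helper60.SLFisher

/-!
# Subgroups of `SL(V)` containing a full transvection subgroup, and duality
-/

set_option autoImplicit false
set_option linter.unusedSectionVars false
set_option linter.style.haveILetI false
set_option linter.unusedSimpArgs false

namespace Cfsg.Agent.Helper60.MinIdx

open Module Pointwise

section Centre

variable {F V : Type*} [Field F] [Finite F] [AddCommGroup V] [Module F V] [Finite V]

/-- The set of centres `b` all of whose transvections lie in `M`, as a subspace. -/
def centreSpace (M : Subgroup (SpecialLinearGroup F V)) : Submodule F V where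
  carrier := {b | ∀ ψ : Dual F V, ψ b = 0 → tv ψ b ∈ M}
  zero_mem' := by
    intro ψ _
    rw [tv_zero_right]; exact M.one_mem
  smul_mem' := by
    intro c b hb ψ hψ
    rw [tv_smul]
    apply hb
    rw [LinearMap.smul_apply, smul_eq_mul]
    rw [map_smul, smul_eq_mul] at hψ
    exact hψ
  add_mem' := by
    intro b b' hb hb' ψ hψ
    by_cases hbb : b ∈ Submodule.span F {b'}
    · obtain ⟨c, rfl⟩ := Submodule.mem_span_singleton.mp hbb
      have h1 : c • b' + b' = (c + 1) • b' := by rw [add_smul, one_smul]
      rw [h1] at hψ ⊢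
      rw [tv_smul]
      apply hb'
      rw [LinearMap.smul_apply, smul_eq_mul]
      rw [map_smul, smul_eq_mul] at hψ
      exact hψ
    · obtain ⟨χ, hχ1, hχ2⟩ := exists_dual_zero_one hbb
      have hg : tv χ b' ∈ M := hb' χ hχ1
      have hgb : tv χ b' b = b + b' := by rw [tv_apply hχ1, hχ2, one_smul]
      have h2 : tv ψ (b + b') = tv χ b' * tv (cg (tv χ b')⁻¹ ψ) b * (tv χ b')⁻¹ := by
        rw [tv_conj, cg_cg_inv, hgb]
      rw [h2]
      refine M.mul_mem (M.mul_mem hg (hb _ ?_)) (M.inv_mem hg)
      rw [cg_apply, inv_inv, hgb]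
      exact hψ

theorem mem_centreSpace {M : Subgroup (SpecialLinearGroup F V)} {b : V} :
    b ∈ centreSpace M ↔ ∀ ψ : Dual F V, ψ b = 0 → tv ψ b ∈ M := Iff.rfl

theorem centreSpace_stable {M : Subgroup (SpecialLinearGroup F V)} {m : SpecialLinearGroup F V}
    (hm : m ∈ M) {b : V} (hb : b ∈ centreSpace M) : m b ∈ centreSpace M := by
  intro ψ hψ
  have h2 : tv ψ (m b) = m * tv (cg m⁻¹ ψ) b * m⁻¹ := by
    rw [tv_conj, cg_cg_inv]
  rw [h2]
  refine M.mul_mem (M.mul_mem hm (hb _ ?_)) (M.inv_mem hm)
  rw [cg_apply, inv_inv]
  exact hψ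

/-- **Centre version**: a subgroup containing all transvections with a given centre is either
everything or has index at least the number of points. -/
theorem lemmaO_centre (hn : 2 ≤ finrank F V) (M : Subgroup (SpecialLinearGroup F V)) {b : V}
    (hb : b ≠ 0) (hbM : ∀ ψ : Dual F V, ψ b = 0 → tv ψ b ∈ M) :
    M = ⊤ ∨ Nat.card (Projectivization F V) ≤ M.index := by
  by_cases htop : centreSpace M = ⊤
  · left
    apply tv_generate hn
    intro f a hfa
    have : a ∈ centreSpace M := by rw [htop]; trivial
    exact this f hfa
  · right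
    set W : AddSubgroup V := (centreSpace M).toAddSubgroup with hW
    have hW0 : W ≠ ⊥ := by
      intro h
      have : b ∈ W := hbM
      rw [h, AddSubgroup.mem_bot] at this
      exact hb this
    have hW1 : W ≠ ⊤ := by
      intro h
      apply htop
      rw [eq_top_iff]
      intro x _
      have : x ∈ W := by rw [h]; trivial
      exact this
    have h1 := lemmaL_card hn W hW0 hW1
    have h2 : M ≤ MulAction.stabilizer (SpecialLinearGroup F V) W := by
      intro m hm
      rw [MulAction.mem_stabilizer_iff]
      ext x
      rw [AddSubgroup.mem_pointwise_smul_iff_inv_smul_mem]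
      constructor
      · intro hx
        have := centreSpace_stable hm hx
        rwa [sl_smul_eq, sl_apply_inv_apply] at this
      · intro hx
        exact centreSpace_stable (M.inv_mem hm) hx
    have h3 := Subgroup.index_dvd_of_le h2
    have h4 : M.index ≠ 0 := Subgroup.index_ne_zero_of_finite
    have h5 := Nat.le_of_dvd (Nat.pos_of_ne_zero h4) h3
    rw [MulAction.index_stabilizer, ← Nat.card_coe_set_eq] at h5
    exact le_trans h1 h5

end Centre

section Duality

variable {F V : Type*} [Field F] [AddCommGroup V] [Module F V] [Module.Finite F V]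

/-- The contragredient action as a homomorphism `SL(V) → SL(V*)`. -/
noncomputable def tauHom : SpecialLinearGroup F V →* SpecialLinearGroup F (Dual F V) where
  toFun g := SpecialLinearGroup.dualMap g⁻¹
  map_one' := by
    apply SpecialLinearGroup.ext
    intro φ
    rfl
  map_mul' g h := by
    apply SpecialLinearGroup.ext
    intro φ
    apply LinearMap.ext
    intro x
    show φ ((g * h)⁻¹ x) = φ (h⁻¹ (g⁻¹ x))
    rw [mul_inv_rev, sl_mul_apply]

theorem tauHom_apply (g : SpecialLinearGroup F V) (φ : Dual F V) : tauHom g φ = cg g φ := rfl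

theorem tauHom_tv (f : Dual F V) (a : V) :
    tauHom (tv f a) = tv (Dual.eval F V a) (-f) := by
  by_cases h : f a = 0
  · have h' : Dual.eval F V a (-f) = 0 := by
      rw [Dual.eval_apply, LinearMap.neg_apply, h, neg_zero]
    apply SpecialLinearGroup.ext
    intro φ
    rw [tauHom_apply, tv_apply h']
    apply LinearMap.ext
    intro x
    have hna : f (-a) = 0 := by rw [map_neg, h, neg_zero]
    rw [cg_apply, tv_inv, tv_apply hna, Dual.eval_apply]
    simp
    ring
  · have h' : Dual.eval F V a (-f) ≠ 0 := by
      rw [Dual.eval_apply, LinearMap.neg_apply]; exact neg_ne_zero.mpr h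
    rw [tv_of_ne h, tv_of_ne h', map_one]

theorem tauHom_injective : Function.Injective (tauHom (F := F) (V := V)) := by
  rw [injective_iff_map_eq_one]
  intro g hg
  apply SpecialLinearGroup.ext
  intro x
  rw [sl_one_apply]
  have h1 : ∀ φ : Dual F V, φ (g⁻¹ x - x) = 0 := by
    intro φ
    have h2 : tauHom g φ x = φ x := by rw [hg]; rfl
    rw [tauHom_apply, cg_apply] at h2
    rw [map_sub, h2, sub_self]
  have h3 := (Module.forall_dual_apply_eq_zero_iff F (g⁻¹ x - x)).mp h1
  have h4 : g⁻¹ x = x := sub_eq_zero.mp h3
  have h5 := sl_apply_inv_apply g x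
  rw [h4] at h5
  exact h5

end Duality

section DualityFinite

variable {F V : Type*} [Field F] [Finite F] [AddCommGroup V] [Module F V] [Finite V]

instance dual_finite : Finite (Dual F V) := Module.finite_of_finite F

theorem tauHom_bijective : Function.Bijective (tauHom (F := F) (V := V)) := by
  classical
  apply Function.Injective.bijective_of_nat_card_le tauHom_injective
  let e : V ≃ₗ[F] Dual F V := (Module.Free.chooseBasis F V).toDualEquiv
  exact (Nat.card_congr (SpecialLinearGroup.congr_linearEquiv e).toEquiv).ge

/-- Duality as an isomorphism `SL(V) ≃* SL(V*)`. -/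
noncomputable def tauEquiv : SpecialLinearGroup F V ≃* SpecialLinearGroup F (Dual F V) :=
  MulEquiv.ofBijective tauHom tauHom_bijective

theorem tauEquiv_apply (g : SpecialLinearGroup F V) : tauEquiv g = tauHom g := rfl

theorem tauEquiv_tv (f : Dual F V) (a : V) :
    tauEquiv (tv f a) = tv (Dual.eval F V a) (-f) := tauHom_tv f a

theorem card_proj_dual :
    Nat.card (Projectivization F (Dual F V)) = Nat.card (Projectivization F V) := by
  rw [Projectivization.card_of_finrank F V rfl,
    Projectivization.card_of_finrank F (Dual F V) Subspace.dual_finrank_eq]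

/-- every element of the double dual is an evaluation -/
theorem exists_eval_eq (Ψ : Dual F (Dual F V)) : ∃ a : V, Dual.eval F V a = Ψ :=
  ⟨(Module.evalEquiv F V).symm Ψ, by
    rw [← Module.evalEquiv_apply, LinearEquiv.apply_symm_apply]⟩

/-- **Axis version**: a subgroup containing all transvections with a given axis is either
everything or has index at least the number of points. -/
theorem lemmaO_axis (hn : 2 ≤ finrank F V) (M : Subgroup (SpecialLinearGroup F V))
    {f : Dual F V} (hf : f ≠ 0) (hfM : ∀ a : V, f a = 0 → tv f a ∈ M) :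
    M = ⊤ ∨ Nat.card (Projectivization F V) ≤ M.index := by
  have hn' : 2 ≤ finrank F (Dual F V) := by rw [Subspace.dual_finrank_eq]; exact hn
  have key : ∀ Ψ : Dual F (Dual F V), Ψ f = 0 →
      tv Ψ f ∈ M.map (tauEquiv (F := F) (V := V) : SpecialLinearGroup F V →* _) := by
    intro Ψ hΨ
    obtain ⟨a, rfl⟩ := exists_eval_eq Ψ
    rw [Dual.eval_apply] at hΨ
    refine ⟨tv (-f) a, ?_, ?_⟩
    · rw [← tv_neg_right, ← tv_inv]
      exact M.inv_mem (hfM a hΨ)
    · show tauEquiv (tv (-f) a) = _
      rw [tauEquiv_tv, neg_neg]
  rcases lemmaO_centre hn' _ hf key with h | h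
  · left
    rw [eq_top_iff]
    intro g _
    have : tauEquiv g ∈ M.map (tauEquiv (F := F) (V := V) : SpecialLinearGroup F V →* _) := by
      rw [h]; trivial
    obtain ⟨m, hm, hmg⟩ := this
    have : m = g := tauEquiv.injective hmg
    rw [← this]; exact hm
  · right
    rw [Subgroup.index_map_equiv, card_proj_dual] at h
    exact h

end DualityFinite

end Cfsg.Agent.Helper60.MinIdx
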