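import Mathlib
import Cfsg.Agent.Helper60.SLDual

/-!
# Counting fixed points of transvections in a small transitive action of `SL(V)`
-/

set_option autoImplicit false
set_option linter.unusedSectionVars false
set_option linter.style.haveILetI false
set_option linter.unusedSimpArgs false

namespace Cfsg.Agent.Helper60.MinIdx

open Module Pointwise

section Count

open Classical

variable {F V : Type*} [Field F] [Fintype F] [AddCommGroup V] [Module F V] [Fintype V]
variable {Ω : Type*} [MulAction (SpecialLinearGroup F V) Ω] [Fintype Ω]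

/-- The stabiliser of a point in the group of transvections with axis `ker f`, as an additive
subgroup of `ker f`. -/
def Wx (f : Dual F V) (x : Ω) : AddSubgroup (LinearMap.ker f) where
  carrier := {a | tv f (a : V) • x = x}
  zero_mem' := by
    show tv f ((0 : LinearMap.ker f) : V) • x = x
    rw [Submodule.coe_zero, tv_zero_right, one_smul]
  add_mem' := by
    intro a b ha hb
    show tv f ((a + b : LinearMap.ker f) : V) • x = x
    rw [Submodule.coe_add, ← tv_add_left (LinearMap.mem_ker.mp a.2) (LinearMap.mem_ker.mp b.2),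
      mul_smul]
    have hb' : tv f (b : V) • x = x := hb
    have ha' : tv f (a : V) • x = x := ha
    rw [hb', ha']
  neg_mem' := by
    intro a ha
    show tv f ((-a : LinearMap.ker f) : V) • x = x
    have ha' : tv f (a : V) • x = x := ha
    rw [Submodule.coe_neg, ← tv_inv, inv_smul_eq_iff, ha']

theorem mem_Wx {f : Dual F V} {x : Ω} {a : LinearMap.ker f} :
    a ∈ Wx f x ↔ tv f (a : V) • x = x := Iff.rfl

variable (Ω) in
/-- The number of fixed points of `g` on `Ω`. -/
noncomputable def fixN (g : SpecialLinearGroup F V) : ℕ :=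
  (Finset.univ.filter (fun x : Ω => g • x = x)).card

theorem fixN_one : fixN Ω (1 : SpecialLinearGroup F V) = Fintype.card Ω := by
  unfold fixN
  simp

theorem fixN_le (g : SpecialLinearGroup F V) : fixN Ω g ≤ Fintype.card Ω := by
  unfold fixN
  exact Finset.card_filter_le _ _

theorem fixN_conj (g t : SpecialLinearGroup F V) : fixN Ω (g * t * g⁻¹) = fixN Ω t := by
  unfold fixN
  refine Finset.card_bij (fun x _ => g⁻¹ • x) ?_ ?_ ?_
  · intro x hx
    simp only [Finset.mem_filter, Finset.mem_univ, true_and] at hx ⊢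
    have h2 : g⁻¹ • ((g * t * g⁻¹) • x) = g⁻¹ • x := by rw [hx]
    rw [← mul_smul, ← mul_assoc, ← mul_assoc, inv_mul_cancel, one_mul, mul_smul] at h2
    exact h2
  · intro x _ y _ h
    exact smul_left_cancel _ h
  · intro y hy
    simp only [Finset.mem_filter, Finset.mem_univ, true_and] at hy
    refine ⟨g • y, ?_, inv_smul_smul g y⟩
    simp only [Finset.mem_filter, Finset.mem_univ, true_and]
    rw [← mul_smul, mul_assoc, mul_assoc, inv_mul_cancel, mul_one, mul_smul, hy]

theorem finrank_ker_eq {f : Dual F V} (hf : f ≠ 0) :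
    finrank F (LinearMap.ker f) = finrank F V - 1 := by
  have := Module.Dual.finrank_ker_add_one_of_ne_zero hf
  omega

theorem fixN_same_axis (hn : 3 ≤ finrank F V) {f : Dual F V} (hf : f ≠ 0) {a a' : V}
    (ha : f a = 0) (ha' : f a' = 0) (ha0 : a ≠ 0) (ha0' : a' ≠ 0) :
    fixN Ω (tv f a) = fixN Ω (tv f a') := by
  have hK : 2 ≤ finrank F (LinearMap.ker f) := by rw [finrank_ker_eq hf]; omega
  obtain ⟨g, hg⟩ := tv_conj_same_axis hK ha ha' ha0 ha0'
  rw [← hg, fixN_conj]

/-- Double counting of the pairs `(a, x)` with `T(a, f) x = x`. -/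
theorem sum_card_Wx (f : Dual F V) :
    ∑ x : Ω, Nat.card (Wx f x) = ∑ a : LinearMap.ker f, fixN Ω (tv f (a : V)) := by
  have hL : ∀ x : Ω, Nat.card (Wx f x) =
      ∑ a : LinearMap.ker f, if tv f (a : V) • x = x then 1 else 0 := by
    intro x
    rw [Nat.card_eq_fintype_card, ← Finset.card_filter]
    exact Fintype.card_of_subtype _ (fun a => by simp [mem_Wx])
  have hR : ∀ a : LinearMap.ker f, fixN Ω (tv f (a : V)) =
      ∑ x : Ω, if tv f (a : V) • x = x then 1 else 0 := by
    intro a
    unfold fixN
    rw [Finset.card_filter]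
  rw [Finset.sum_congr rfl (fun x _ => hL x), Finset.sum_congr rfl (fun a _ => hR a),
    Finset.sum_comm]

/-- The homomorphism `a ↦ T(a, f)` from `ker f`. -/
noncomputable def axisHom (f : Dual F V) :
    Multiplicative (LinearMap.ker f) →* SpecialLinearGroup F V where
  toFun a := tv f ((Multiplicative.toAdd a : LinearMap.ker f) : V)
  map_one' := by
    show tv f ((0 : LinearMap.ker f) : V) = 1
    rw [Submodule.coe_zero, tv_zero_right]
  map_mul' a b := by
    show tv f ((Multiplicative.toAdd a + Multiplicative.toAdd b : LinearMap.ker f) : V) = _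
    rw [Submodule.coe_add, ← tv_add_left (LinearMap.mem_ker.mp (Multiplicative.toAdd a).2)
      (LinearMap.mem_ker.mp (Multiplicative.toAdd b).2)]

theorem Wx_tv_smul (f : Dual F V) (a : LinearMap.ker f) (x : Ω) :
    Wx f (tv f (a : V) • x) = Wx f x := by
  ext b
  rw [mem_Wx, mem_Wx]
  have hcomm : tv f (b : V) * tv f (a : V) = tv f (a : V) * tv f (b : V) := by
    rw [tv_add_left (LinearMap.mem_ker.mp b.2) (LinearMap.mem_ker.mp a.2),
      tv_add_left (LinearMap.mem_ker.mp a.2) (LinearMap.mem_ker.mp b.2), add_comm]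
  rw [← mul_smul, hcomm, mul_smul]
  constructor
  · intro h; exact smul_left_cancel _ h
  · intro h; rw [h]

/-- Burnside's lemma for the group of transvections with a given axis. -/
theorem axis_burnside (f : Dual F V) :
    ∃ k : ℕ, (∑ a : LinearMap.ker f, fixN Ω (tv f (a : V))) = k * Fintype.card (LinearMap.ker f) ∧
      Nat.card (Set.range (fun x : Ω => Wx f x)) ≤ k := by
  letI : MulAction (Multiplicative (LinearMap.ker f)) Ω := MulAction.compHom Ω (axisHom f)
  haveI : Fintype (Quotient (MulAction.orbitRel (Multiplicative (LinearMap.ker f)) Ω)) :=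
    Fintype.ofFinite _
  have hB := MulAction.sum_card_fixedBy_eq_card_orbits_mul_card_group
    (Multiplicative (LinearMap.ker f)) Ω
  refine ⟨Fintype.card (Quotient (MulAction.orbitRel (Multiplicative (LinearMap.ker f)) Ω)),
    ?_, ?_⟩
  · have h1 : Fintype.card (Multiplicative (LinearMap.ker f)) = Fintype.card (LinearMap.ker f) :=
      Fintype.card_congr Multiplicative.toAdd
    rw [← h1, ← hB]
    refine (Fintype.sum_equiv Multiplicative.toAdd _ _ (fun a => ?_)).symm
    unfold fixN
    refine Fintype.card_of_subtype _ (fun x => ?_)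
    simp only [Finset.mem_filter, Finset.mem_univ, true_and, MulAction.mem_fixedBy]
    rfl
  · have hlift : ∀ x y : Ω, (MulAction.orbitRel (Multiplicative (LinearMap.ker f)) Ω) x y →
        Wx f x = Wx f y := by
      intro x y hxy
      rw [MulAction.orbitRel_apply] at hxy
      obtain ⟨a, rfl⟩ := hxy
      exact Wx_tv_smul f (Multiplicative.toAdd a) y
    have hrange : Set.range (fun x : Ω => Wx f x) =
        Set.range (Quotient.lift (fun x : Ω => Wx f x) hlift) := by
      ext W
      constructor
      · rintro ⟨x, rfl⟩; exact ⟨Quotient.mk _ x, rfl⟩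
      · rintro ⟨q, rfl⟩
        induction q using Quotient.inductionOn with
        | _ x => exact ⟨x, rfl⟩
    rw [hrange, ← Nat.card_eq_fintype_card]
    exact Finite.card_range_le _

end Count

section PartI

open Classical

variable {F V : Type*} [Field F] [Fintype F] [AddCommGroup V] [Module F V] [Fintype V]
variable {Ω : Type*} [MulAction (SpecialLinearGroup F V) Ω] [Fintype Ω]
  [MulAction.IsPretransitive (SpecialLinearGroup F V) Ω]

/-- No point stabiliser contains all transvections with a given axis. -/
theorem not_axis_fix (hn : 3 ≤ finrank F V) (h1 : 1 < Fintype.card Ω)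
    (hN : Fintype.card Ω < Nat.card (Projectivization F V)) {f : Dual F V} (hf : f ≠ 0) (y : Ω) :
    ¬ ∀ a : V, f a = 0 → tv f a • y = y := by
  intro hall
  have h2 := lemmaO_axis (by omega) (MulAction.stabilizer (SpecialLinearGroup F V) y) hf
    (fun a ha => MulAction.mem_stabilizer_iff.mpr (hall a ha))
  have h3 : (MulAction.stabilizer (SpecialLinearGroup F V) y).index = Nat.card Ω :=
    MulAction.index_stabilizer_of_transitive _ y
  rw [Nat.card_eq_fintype_card] at h3
  rcases h2 with h2 | h2
  · rw [h2, Subgroup.index_top] at h3; omega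
  · rw [h3] at h2; omega

theorem card_ker_eq {f : Dual F V} (hf : f ≠ 0) :
    Fintype.card (LinearMap.ker f) = Fintype.card F ^ (finrank F V - 1) := by
  rw [Module.card_eq_pow_finrank (K := F), finrank_ker_eq hf]

theorem card_ker_proj {f : Dual F V} (hf : f ≠ 0) :
    Fintype.card F ^ (finrank F V - 1) =
      Nat.card (Projectivization F (LinearMap.ker f)) * (Fintype.card F - 1) + 1 := by
  have h2 := Projectivization.card' F (LinearMap.ker f)
  rw [Nat.card_eq_fintype_card, card_ker_eq hf, Nat.card_eq_fintype_card (α := F)] at h2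
  exact h2

theorem card_proj_eq (hn : 1 ≤ finrank F V) {f : Dual F V} (hf : f ≠ 0) :
    Nat.card (Projectivization F V) =
      Nat.card (Projectivization F (LinearMap.ker f)) + Fintype.card F ^ (finrank F V - 1) := by
  have h1 := Projectivization.card' F V
  rw [Nat.card_eq_fintype_card, Module.card_eq_pow_finrank (K := F),
    Nat.card_eq_fintype_card (α := F)] at h1
  have h2 := card_ker_proj hf
  have hq2 : 2 ≤ Fintype.card F := Fintype.one_lt_card
  obtain ⟨t, ht⟩ : ∃ t, Fintype.card F = t + 1 := ⟨Fintype.card F - 1, by omega⟩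
  have ht0 : 0 < t := by omega
  have h3 : Fintype.card F ^ finrank F V = Fintype.card F * Fintype.card F ^ (finrank F V - 1) := by
    rw [← pow_succ']; congr 1; omega
  rw [h3] at h1
  set Q := Fintype.card F ^ (finrank F V - 1) with hQ
  set N := Nat.card (Projectivization F V) with hNdef
  set N' := Nat.card (Projectivization F (LinearMap.ker f)) with hN'def
  rw [ht] at h1 h2
  simp only [Nat.add_sub_cancel] at h1 h2
  apply Nat.eq_of_mul_eq_mul_left ht0
  rw [h2] at h1 ⊢
  nlinarith [h1]

/-- **Part I**: fixed-point counts of transvections in a transitive action of degree less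
than the number of points. -/
theorem partI (hn : 3 ≤ finrank F V) (h1 : 1 < Fintype.card Ω)
    (hN : Fintype.card Ω < Nat.card (Projectivization F V)) {f : Dual F V} (hf : f ≠ 0) :
    (∀ a : V, f a = 0 → a ≠ 0 →
      fixN Ω (tv f a) + Fintype.card F ^ (finrank F V - 1) = Fintype.card Ω) ∧
    Nat.card (Set.range (fun x : Ω => Wx f x)) + Fintype.card F ^ (finrank F V - 1) ≤
      Fintype.card Ω + 1 ∧
    (∑ x : Ω, Nat.card (Wx f x)) +
        Fintype.card F ^ (finrank F V - 1) * Fintype.card F ^ (finrank F V - 1) =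
      (Fintype.card Ω + 1) * Fintype.card F ^ (finrank F V - 1) := by
  have hQcard : Fintype.card (LinearMap.ker f) = Fintype.card F ^ (finrank F V - 1) :=
    card_ker_eq hf
  have hNN := card_proj_eq (by omega) hf
  have hQN := card_ker_proj hf
  have hq2 : 2 ≤ Fintype.card F := Fintype.one_lt_card
  set Q := Fintype.card F ^ (finrank F V - 1) with hQ
  have hQ2 : 2 ≤ Q := by
    calc 2 ≤ Fintype.card F := hq2
      _ = Fintype.card F ^ 1 := (pow_one _).symm
      _ ≤ Q := Nat.pow_le_pow_right (by omega) (by omega)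
  obtain ⟨a₀, ha₀⟩ : ∃ a₀ : LinearMap.ker f, a₀ ≠ 0 := by
    haveI : Nontrivial (LinearMap.ker f) :=
      Fintype.one_lt_card_iff_nontrivial.mp (by rw [hQcard]; omega)
    exact exists_ne 0
  set c := fixN Ω (tv f (a₀ : V)) with hc
  have hconst : ∀ a : LinearMap.ker f, a ≠ 0 → fixN Ω (tv f (a : V)) = c := by
    intro a ha
    exact fixN_same_axis hn hf (LinearMap.mem_ker.mp a.2) (LinearMap.mem_ker.mp a₀.2)
      (fun h => ha (Subtype.ext h)) (fun h => ha₀ (Subtype.ext h))
  obtain ⟨k, hk, hrange⟩ := axis_burnside (Ω := Ω) f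
  have hsum : ∑ a : LinearMap.ker f, fixN Ω (tv f (a : V)) = Fintype.card Ω + (Q - 1) * c := by
    rw [← Finset.add_sum_erase Finset.univ _ (Finset.mem_univ (0 : LinearMap.ker f))]
    congr 1
    · rw [Submodule.coe_zero, tv_zero_right, fixN_one]
    · rw [Finset.sum_congr rfl (fun a ha => hconst a (Finset.ne_of_mem_erase ha)),
        Finset.sum_const, Finset.card_erase_of_mem (Finset.mem_univ _), Finset.card_univ, hQcard,
        smul_eq_mul]
  have hsumW := sum_card_Wx (Ω := Ω) f
  rw [hsum] at hk hsumW
  rw [hQcard] at hk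
  have hcle : c ≤ Fintype.card Ω := fixN_le _
  have hlt2 : Fintype.card Ω < 2 * Q := by
    have h5 : Nat.card (Projectivization F (LinearMap.ker f)) ≤
        Nat.card (Projectivization F (LinearMap.ker f)) * (Fintype.card F - 1) :=
      Nat.le_mul_of_pos_right _ (by omega)
    omega
  have e0 : (Q - 1) * c + c = Q * c := by
    obtain ⟨Q', hQ'⟩ : ∃ Q', Q = Q' + 1 := ⟨Q - 1, by omega⟩
    rw [hQ', Nat.add_sub_cancel]; ring
  have e1 : Fintype.card Ω + Q * c = k * Q + c := by omega
  have hck : c ≤ k := by
    by_contra hlt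
    push Not at hlt
    have h6 : (k + 1) * Q ≤ c * Q := Nat.mul_le_mul_right Q hlt
    nlinarith
  obtain ⟨j, rfl⟩ : ∃ j, k = c + j := ⟨k - c, by omega⟩
  have e2 : j * Q + c = Fintype.card Ω := by nlinarith
  have hj : j < 2 := by
    by_contra hj
    push Not at hj
    have h7 : 2 * Q ≤ j * Q := Nat.mul_le_mul_right Q hj
    omega
  interval_cases j
  · exfalso
    have hcΩ : c = Fintype.card Ω := by omega
    have hall : ∀ a : LinearMap.ker f, a ≠ 0 → ∀ x : Ω, tv f (a : V) • x = x := by
      intro a ha x
      have h8 := hconst a ha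
      rw [hcΩ] at h8
      unfold fixN at h8
      rw [← Finset.card_univ, Finset.card_filter_eq_iff] at h8
      exact h8 x (Finset.mem_univ x)
    obtain ⟨y⟩ : Nonempty Ω := Fintype.card_pos_iff.mp (by omega)
    refine not_axis_fix hn h1 hN hf y (fun a ha => ?_)
    by_cases ha0 : a = 0
    · rw [ha0, tv_zero_right, one_smul]
    · exact hall ⟨a, LinearMap.mem_ker.mpr ha⟩ (fun h => ha0 (congrArg Subtype.val h)) y
  · refine ⟨fun a ha ha0 => ?_, ?_, ?_⟩
    · have h8 := hconst ⟨a, LinearMap.mem_ker.mpr ha⟩ (fun h => ha0 (congrArg Subtype.val h))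
      simp only at h8
      omega
    · omega
    · rw [hsumW]
      nlinarith

end PartI

end Cfsg.Agent.Helper60.MinIdx
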