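import Mathlib
import Cfsg.Agent.Helper60.SLCount

/-!
# The transvections of a small-index subgroup of `SL(V)` with a given axis or centre
-/

set_option autoImplicit false
set_option linter.unusedSectionVars false
set_option linter.style.haveILetI false
set_option linter.unusedSimpArgs false

namespace Cfsg.Agent.Helper60.MinIdx

open Module Pointwise

section C1

open Classical

variable {F V : Type*} [Field F] [Fintype F] [AddCommGroup V] [Module F V] [Fintype V]
variable {Ω : Type*} [MulAction (SpecialLinearGroup F V) Ω] [Fintype Ω]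
  [MulAction.IsPretransitive (SpecialLinearGroup F V) Ω]

theorem Wx_ne_top (hn : 3 ≤ finrank F V) (h1 : 1 < Fintype.card Ω)
    (hN : Fintype.card Ω < Nat.card (Projectivization F V)) {f : Dual F V} (hf : f ≠ 0) (y : Ω) :
    Wx f y ≠ ⊤ := by
  intro h
  refine not_axis_fix hn h1 hN hf y (fun a ha => ?_)
  have : (⟨a, LinearMap.mem_ker.mpr ha⟩ : LinearMap.ker f) ∈ Wx f y := by rw [h]; trivial
  exact this

theorem Wx_ne_bot (hn : 3 ≤ finrank F V) (h1 : 1 < Fintype.card Ω)
    (hN : Fintype.card Ω < Nat.card (Projectivization F V)) {f : Dual F V} (hf : f ≠ 0)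
    (hc : Fintype.card F ^ (finrank F V - 1) < Fintype.card Ω) (y₀ : Ω) : Wx f y₀ ≠ ⊥ := by
  intro hbot
  obtain ⟨hI1, -, -⟩ := partI hn h1 hN hf (Ω := Ω)
  have hQcard : Fintype.card (LinearMap.ker f) = Fintype.card F ^ (finrank F V - 1) :=
    card_ker_eq hf
  set Q := Fintype.card F ^ (finrank F V - 1) with hQ
  let ι : LinearMap.ker f → Ω := fun a => tv f (a : V) • y₀
  have hι : Function.Injective ι := by
    intro a a' h
    have h2 : tv f ((a - a' : LinearMap.ker f) : V) • y₀ = y₀ := by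
      have h3 : tv f ((a - a' : LinearMap.ker f) : V) = (tv f (a' : V))⁻¹ * tv f (a : V) := by
        have hn' : f (-(a' : V)) = 0 := by rw [map_neg, LinearMap.mem_ker.mp a'.2, neg_zero]
        rw [tv_inv, tv_add_left hn' (LinearMap.mem_ker.mp a.2)]
        congr 1
        rw [Submodule.coe_sub]; abel
      rw [h3, mul_smul]
      exact inv_smul_eq_iff.mpr h
    have h4 : a - a' ∈ Wx f y₀ := h2
    rw [hbot, AddSubgroup.mem_bot] at h4
    exact sub_eq_zero.mp h4
  set 𝒪 : Finset Ω := Finset.univ.image ι with h𝒪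
  have h𝒪card : 𝒪.card = Q := by
    rw [h𝒪, Finset.card_image_of_injective _ hι, Finset.card_univ, hQcard]
  have hcompl : 𝒪ᶜ.card + Q = Fintype.card Ω := by
    rw [Finset.card_compl, h𝒪card]
    omega
  have hfix : ∀ a : LinearMap.ker f, a ≠ 0 →
      Finset.univ.filter (fun x : Ω => tv f (a : V) • x = x) = 𝒪ᶜ := by
    intro a ha
    apply Finset.eq_of_subset_of_card_le
    · intro x hx
      rw [Finset.mem_filter] at hx
      rw [Finset.mem_compl, h𝒪, Finset.mem_image]
      rintro ⟨a', -, rfl⟩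
      have h6 : Wx f (ι a') = Wx f y₀ := Wx_tv_smul f a' y₀
      have h7 : a ∈ Wx f (ι a') := hx.2
      rw [h6, hbot, AddSubgroup.mem_bot] at h7
      exact ha h7
    · have h8 := hI1 a (LinearMap.mem_ker.mp a.2) (fun h => ha (Subtype.ext h))
      unfold fixN at h8
      omega
  have hne : 𝒪ᶜ.Nonempty := by rw [← Finset.card_pos]; omega
  obtain ⟨z, hz⟩ := hne
  refine not_axis_fix hn h1 hN hf z (fun a ha => ?_)
  by_cases ha0 : a = 0
  · rw [ha0, tv_zero_right, one_smul]
  · have h9 := hfix ⟨a, LinearMap.mem_ker.mpr ha⟩ (fun h => ha0 (congrArg Subtype.val h))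
    rw [← h9, Finset.mem_filter] at hz
    exact hz.2

theorem fixN_pos_of_fixed {g : SpecialLinearGroup F V} {x : Ω} (h : g • x = x) :
    0 < fixN Ω g := by
  unfold fixN
  rw [Finset.card_pos]
  exact ⟨x, by rw [Finset.mem_filter]; exact ⟨Finset.mem_univ _, h⟩⟩

theorem Wx_smul_extend (hn : 3 ≤ finrank F V) {f : Dual F V} (hf : f ≠ 0)
    (e : SpecialLinearGroup F (LinearMap.ker f)) (y : Ω) : ∃ y' : Ω, Wx f y' = e • Wx f y := by
  have hK : 2 ≤ finrank F (LinearMap.ker f) := by rw [finrank_ker_eq hf]; omega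
  obtain ⟨g, hg1, hg2⟩ := sl_extend_ker f hK e
  refine ⟨g • y, ?_⟩
  ext a
  rw [AddSubgroup.mem_pointwise_smul_iff_inv_smul_mem, mem_Wx, mem_Wx]
  have h1 : g⁻¹ (a : V) = ((e⁻¹ a : LinearMap.ker f) : V) := by
    have h2 := hg1 (e⁻¹ a)
    rw [sl_apply_inv_apply] at h2
    calc g⁻¹ (a : V) = g⁻¹ (g ((e⁻¹ a : LinearMap.ker f) : V)) := by rw [h2]
      _ = ((e⁻¹ a : LinearMap.ker f) : V) := sl_inv_apply_apply _ _
  have h5 : cg g⁻¹ f = f := by
    conv_lhs => rw [← hg2]
    exact cg_inv_cg g f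
  have h3 : g⁻¹ * tv f (a : V) * g = tv f ((e⁻¹ a : LinearMap.ker f) : V) := by
    have h4 := tv_conj g⁻¹ f (a : V)
    rw [inv_inv] at h4
    rw [h4, h1, h5]
  have h6 : tv f (a : V) • g • y = g • (tv f ((e⁻¹ a : LinearMap.ker f) : V) • y) := by
    rw [← h3, ← mul_smul, ← mul_smul]
    congr 1
    group
  rw [h6]
  constructor
  · intro h; exact smul_left_cancel g h
  · intro h
    have h' : tv f ((e⁻¹ a : LinearMap.ker f) : V) • y = y := h
    rw [h']

end C1

section CardSmul

variable {F K : Type*} [Field F] [AddCommGroup K] [Module F K]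

theorem card_smul_addSubgroup (e : SpecialLinearGroup F K) (W : AddSubgroup K) :
    Nat.card (e • W : AddSubgroup K) = Nat.card W := by
  apply Nat.card_congr
  exact
    { toFun := fun b => ⟨e⁻¹ • (b : K), AddSubgroup.mem_pointwise_smul_iff_inv_smul_mem.mp b.2⟩
      invFun := fun a => ⟨e • (a : K), AddSubgroup.smul_mem_pointwise_smul _ _ _ a.2⟩
      left_inv := fun b => Subtype.ext (smul_inv_smul e (b : K))
      right_inv := fun a => Subtype.ext (inv_smul_smul e (a : K)) }

end CardSmul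

section C1Main

open Classical

variable {F V : Type*} [Field F] [Fintype F] [AddCommGroup V] [Module F V] [Fintype V]
variable {Ω : Type*} [MulAction (SpecialLinearGroup F V) Ω] [Fintype Ω]
  [MulAction.IsPretransitive (SpecialLinearGroup F V) Ω]

theorem c1_main (hn : 3 ≤ finrank F V) (h1 : 1 < Fintype.card Ω)
    (hN : Fintype.card Ω < Nat.card (Projectivization F V))
    (hc : Fintype.card F ^ (finrank F V - 1) < Fintype.card Ω) {f : Dual F V} (hf : f ≠ 0)
    (x : Ω) :
    (∀ (c : F) (a : LinearMap.ker f), a ∈ Wx f x → c • a ∈ Wx f x) ∧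
      Nat.card (Wx f x) * Fintype.card F = Fintype.card F ^ (finrank F V - 1) := by
  obtain ⟨hI1, hI2, hI3⟩ := partI hn h1 hN hf (Ω := Ω)
  have hNN := card_proj_eq (by omega) hf
  have hQN := card_ker_proj hf
  have hq2 : 2 ≤ Fintype.card F := Fintype.one_lt_card
  set Q := Fintype.card F ^ (finrank F V - 1) with hQ
  set N' := Nat.card (Projectivization F (LinearMap.ker f)) with hN'
  have hQ2 : 2 ≤ Q := by
    calc 2 ≤ Fintype.card F := hq2
      _ = Fintype.card F ^ 1 := (pow_one _).symm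
      _ ≤ Q := Nat.pow_le_pow_right (by omega) (by omega)
  have hK : 2 ≤ finrank F (LinearMap.ker f) := by rw [finrank_ker_eq hf]; omega
  have hfin : (Set.range (fun y : Ω => Wx f y)).Finite := Set.finite_range _
  have hsub : ∀ y : Ω, MulAction.orbit (SpecialLinearGroup F (LinearMap.ker f)) (Wx f y) ⊆
      Set.range (fun y : Ω => Wx f y) := by
    rintro y _ ⟨e, rfl⟩
    obtain ⟨y', hy'⟩ := Wx_smul_extend hn hf e y
    exact ⟨y', hy'⟩
  have horb : ∀ y : Ω, N' ≤
      Nat.card (MulAction.orbit (SpecialLinearGroup F (LinearMap.ker f)) (Wx f y)) :=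
    fun y => lemmaL_card hK (Wx f y) (Wx_ne_bot hn h1 hN hf hc y) (Wx_ne_top hn h1 hN hf y)
  have hle : ∀ y : Ω,
      Nat.card (MulAction.orbit (SpecialLinearGroup F (LinearMap.ker f)) (Wx f y)) ≤
        Nat.card (Set.range (fun y : Ω => Wx f y)) := fun y => Nat.card_mono hfin (hsub y)
  have hΩ : Fintype.card Ω + 1 ≤ N' + Q := by omega
  have hrange : Nat.card (Set.range (fun y : Ω => Wx f y)) = N' := by
    have := horb x; have := hle x; omega
  have hΩeq : Fintype.card Ω + 1 = N' + Q := by omega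
  constructor
  · intro c a ha
    exact lemmaL_smul hK (Wx f x) (Wx_ne_bot hn h1 hN hf hc x) (Wx_ne_top hn h1 hN hf x)
      (by have := hle x; omega) c a ha
  · have horbeq : MulAction.orbit (SpecialLinearGroup F (LinearMap.ker f)) (Wx f x) =
        Set.range (fun y : Ω => Wx f y) := by
      apply Set.eq_of_subset_of_ncard_le (hsub x) _ hfin
      rw [← Nat.card_coe_set_eq, ← Nat.card_coe_set_eq]
      have := horb x; omega
    have hcardeq : ∀ y : Ω, Nat.card (Wx f y) = Nat.card (Wx f x) := by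
      intro y
      have hmem : Wx f y ∈ MulAction.orbit (SpecialLinearGroup F (LinearMap.ker f)) (Wx f x) := by
        rw [horbeq]; exact ⟨y, rfl⟩
      obtain ⟨e, he⟩ := hmem
      rw [← he]
      exact card_smul_addSubgroup e _
    rw [Finset.sum_congr rfl (fun y _ => hcardeq y), Finset.sum_const, Finset.card_univ,
      smul_eq_mul] at hI3
    set w := Nat.card (Wx f x) with hw
    obtain ⟨t, ht⟩ : ∃ t, Fintype.card F = t + 1 := ⟨Fintype.card F - 1, by omega⟩
    rw [ht] at hQN ⊢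
    simp only [Nat.add_sub_cancel] at hQN
    have hΩ2 : Fintype.card Ω = N' * (t + 1) := by
      rw [hQN] at hΩeq; linarith
    have hN'pos : 0 < N' := by
      rcases Nat.eq_zero_or_pos N' with h0 | h0
      · rw [h0] at hQN; omega
      · exact h0
    apply Nat.eq_of_mul_eq_mul_left hN'pos
    rw [hΩ2] at hI3
    have hΩeq' : N' * (t + 1) + 1 = N' + Q := by rw [← hΩ2]; exact hΩeq
    rw [hΩeq'] at hI3
    nlinarith [hI3]

end C1Main

section Sub

variable {F V : Type*} [Field F] [Finite F] [AddCommGroup V] [Module F V] [Finite V]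

/-- **(c1)**: for a proper subgroup `M` of index less than the number of points that contains a
nontrivial transvection, the centres of the transvections of `M` with a given axis form a
subspace with `q ^ (n - 2)` elements. -/
theorem c1_subgroup (hn : 3 ≤ finrank F V) (M : Subgroup (SpecialLinearGroup F V)) (hM : M ≠ ⊤)
    (hidx : M.index < Nat.card (Projectivization F V))
    (htv : ∃ (f₁ : Dual F V) (a₁ : V), f₁ ≠ 0 ∧ a₁ ≠ 0 ∧ f₁ a₁ = 0 ∧ tv f₁ a₁ ∈ M)
    {f : Dual F V} (hf : f ≠ 0) :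
    (∀ (c : F) (a : V), f a = 0 → tv f a ∈ M → tv f (c • a) ∈ M) ∧
      Nat.card {a : V // f a = 0 ∧ tv f a ∈ M} * Nat.card F =
        Nat.card F ^ (finrank F V - 1) := by
  classical
  haveI := Fintype.ofFinite F
  haveI := Fintype.ofFinite V
  haveI : Fintype (SpecialLinearGroup F V ⧸ M) := Fintype.ofFinite _
  have hidx0 : M.index ≠ 0 := Subgroup.index_ne_zero_of_finite
  have hidx1 : M.index ≠ 1 := fun h => hM (Subgroup.index_eq_one.mp h)
  have hcard : Fintype.card (SpecialLinearGroup F V ⧸ M) = M.index := by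
    rw [Subgroup.index_eq_card, Nat.card_eq_fintype_card]
  have h1 : 1 < Fintype.card (SpecialLinearGroup F V ⧸ M) := by rw [hcard]; omega
  have hN : Fintype.card (SpecialLinearGroup F V ⧸ M) < Nat.card (Projectivization F V) := by
    rw [hcard]; exact hidx
  set x₀ : SpecialLinearGroup F V ⧸ M := ((1 : SpecialLinearGroup F V) : SpecialLinearGroup F V ⧸ M)
    with hx₀
  have hiff : ∀ g : SpecialLinearGroup F V, g • x₀ = x₀ ↔ g ∈ M := by
    intro g
    rw [← MulAction.mem_stabilizer_iff, hx₀, MulAction.stabilizer_quotient]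
  have hc : Fintype.card F ^ (finrank F V - 1) < Fintype.card (SpecialLinearGroup F V ⧸ M) := by
    obtain ⟨f₁, a₁, hf₁, ha₁, hfa, hmem⟩ := htv
    obtain ⟨hI1, -, -⟩ := partI hn h1 hN hf₁ (Ω := SpecialLinearGroup F V ⧸ M)
    have h2 := hI1 a₁ hfa ha₁
    have h3 : 0 < fixN (SpecialLinearGroup F V ⧸ M) (tv f₁ a₁) :=
      fixN_pos_of_fixed ((hiff _).mpr hmem)
    omega
  obtain ⟨hA, hB⟩ := c1_main hn h1 hN hc hf x₀
  constructor
  · intro c a ha hmem
    have h4 : (⟨a, LinearMap.mem_ker.mpr ha⟩ : LinearMap.ker f) ∈ Wx f x₀ :=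
      mem_Wx.mpr ((hiff _).mpr hmem)
    have h5 := hA c _ h4
    exact (hiff _).mp (mem_Wx.mp h5)
  · rw [Nat.card_eq_fintype_card (α := F)]
    rw [← hB]
    congr 1
    apply Nat.card_congr
    exact
      { toFun := fun a => ⟨⟨a.1, LinearMap.mem_ker.mpr a.2.1⟩, mem_Wx.mpr ((hiff _).mpr a.2.2)⟩
        invFun := fun a => ⟨(a.1 : V), LinearMap.mem_ker.mp a.1.2, (hiff _).mp (mem_Wx.mp a.2)⟩
        left_inv := fun a => rfl
        right_inv := fun a => rfl }

theorem eval_ne_zero {a : V} (ha : a ≠ 0) : Dual.eval F V a ≠ 0 := by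
  intro h
  apply ha
  rw [← Module.forall_dual_apply_eq_zero_iff F a]
  intro φ
  have := congrArg (fun Ψ => Ψ φ) h
  simpa using this

theorem tv_eval_mem_map_iff (M : Subgroup (SpecialLinearGroup F V)) (a : V) (φ : Dual F V) :
    tv (Dual.eval F V a) φ ∈
        M.map (tauEquiv (F := F) (V := V) : SpecialLinearGroup F V →* SpecialLinearGroup F (Dual F V)) ↔ tv φ a ∈ M := by
  have h1 : tv (Dual.eval F V a) φ = tauEquiv (tv (-φ) a) := by rw [tauEquiv_tv, neg_neg]
  have h2 : tv (-φ) a = (tv φ a)⁻¹ := by rw [← tv_neg_right, ← tv_inv]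
  rw [h1, h2]
  constructor
  · rintro ⟨m, hm, hmg⟩
    have h3 : m = (tv φ a)⁻¹ := tauEquiv.injective hmg
    rw [h3] at hm
    exact M.inv_mem_iff.mp hm
  · intro h
    exact ⟨_, M.inv_mem h, rfl⟩

/-- **(c2)**: the dual statement, for the axes of the transvections of `M` with a given
centre. -/
theorem c2_subgroup (hn : 3 ≤ finrank F V) (M : Subgroup (SpecialLinearGroup F V)) (hM : M ≠ ⊤)
    (hidx : M.index < Nat.card (Projectivization F V))
    (htv : ∃ (f₁ : Dual F V) (a₁ : V), f₁ ≠ 0 ∧ a₁ ≠ 0 ∧ f₁ a₁ = 0 ∧ tv f₁ a₁ ∈ M)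
    {a : V} (ha : a ≠ 0) :
    (∀ (c : F) (φ : Dual F V), φ a = 0 → tv φ a ∈ M → tv (c • φ) a ∈ M) ∧
      Nat.card {φ : Dual F V // φ a = 0 ∧ tv φ a ∈ M} * Nat.card F =
        Nat.card F ^ (finrank F V - 1) := by
  have hn' : 3 ≤ finrank F (Dual F V) := by rw [Subspace.dual_finrank_eq]; exact hn
  set M' := M.map (tauEquiv (F := F) (V := V) : SpecialLinearGroup F V →* SpecialLinearGroup F (Dual F V)) with hM'
  have hM'top : M' ≠ ⊤ := by
    intro h
    apply hM
    rw [eq_top_iff]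
    intro g _
    have : tauEquiv g ∈ M' := by rw [h]; trivial
    obtain ⟨m, hm, hmg⟩ := this
    have : m = g := tauEquiv.injective hmg
    rw [← this]; exact hm
  have hidx' : M'.index < Nat.card (Projectivization F (Dual F V)) := by
    rw [hM', Subgroup.index_map_equiv, card_proj_dual]; exact hidx
  have htv' : ∃ (Ψ₁ : Dual F (Dual F V)) (φ₁ : Dual F V), Ψ₁ ≠ 0 ∧ φ₁ ≠ 0 ∧ Ψ₁ φ₁ = 0 ∧
      tv Ψ₁ φ₁ ∈ M' := by
    obtain ⟨f₁, a₁, hf₁, ha₁, hfa, hmem⟩ := htv
    exact ⟨Dual.eval F V a₁, f₁, eval_ne_zero ha₁, hf₁, by rw [Dual.eval_apply]; exact hfa,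
      (tv_eval_mem_map_iff M a₁ f₁).mpr hmem⟩
  obtain ⟨h1, h2⟩ := c1_subgroup hn' M' hM'top hidx' htv' (eval_ne_zero ha)
  constructor
  · intro c φ hφ hmem
    have h3 := h1 c φ (by rw [Dual.eval_apply]; exact hφ) ((tv_eval_mem_map_iff M a φ).mpr hmem)
    exact (tv_eval_mem_map_iff M a (c • φ)).mp h3
  · rw [Subspace.dual_finrank_eq] at h2
    rw [← h2]
    congr 1
    apply Nat.card_congr
    exact Equiv.subtypeEquivRight (fun φ => by rw [Dual.eval_apply, tv_eval_mem_map_iff])

end Sub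

end Cfsg.Agent.Helper60.MinIdx
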