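import Mathlib
import Cfsg.Agent.Helper60.SLC1

/-!
# A small-index subgroup of `SL(V)` contains no transvection
-/

set_option autoImplicit false
set_option linter.unusedSectionVars false
set_option linter.style.haveILetI false
set_option linter.unusedSimpArgs false

namespace Cfsg.Agent.Helper60.MinIdx

open Module

section CaseA

variable {F V : Type*} [Field F] [Finite F] [AddCommGroup V] [Module F V] [Finite V]

/-- The axes of the transvections of `M` with centre `a`, as a subspace of the dual. -/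
def PhiSub (M : Subgroup (SpecialLinearGroup F V))
    (hsm : ∀ (a : V) (c : F) (φ : Dual F V), φ a = 0 → tv φ a ∈ M → tv (c • φ) a ∈ M) (a : V) :
    Submodule F (Dual F V) where
  carrier := {φ | φ a = 0 ∧ tv φ a ∈ M}
  zero_mem' := ⟨LinearMap.zero_apply a, by rw [tv_zero_left]; exact M.one_mem⟩
  add_mem' := by
    rintro φ ψ ⟨h1, h2⟩ ⟨h3, h4⟩
    refine ⟨by rw [LinearMap.add_apply, h1, h3, add_zero], ?_⟩
    rw [← tv_add_right h1 h3]; exact M.mul_mem h2 h4
  smul_mem' := by
    rintro c φ ⟨h1, h2⟩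
    exact ⟨by rw [LinearMap.smul_apply, h1, smul_zero], hsm a c φ h1 h2⟩

theorem mem_PhiSub {M : Subgroup (SpecialLinearGroup F V)}
    {hsm : ∀ (a : V) (c : F) (φ : Dual F V), φ a = 0 → tv φ a ∈ M → tv (c • φ) a ∈ M} {a : V}
    {φ : Dual F V} : φ ∈ PhiSub M hsm a ↔ φ a = 0 ∧ tv φ a ∈ M := Iff.rfl

theorem PhiSub_conj {M : Subgroup (SpecialLinearGroup F V)}
    {hsm : ∀ (a : V) (c : F) (φ : Dual F V), φ a = 0 → tv φ a ∈ M → tv (c • φ) a ∈ M} {a : V}
    {φ : Dual F V} {g : SpecialLinearGroup F V} (hg : g ∈ M) (hφ : φ ∈ PhiSub M hsm a) :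
    cg g φ ∈ PhiSub M hsm (g a) := by
  refine ⟨by rw [cg_apply_apply]; exact hφ.1, ?_⟩
  rw [← tv_conj]
  exact M.mul_mem (M.mul_mem hg hφ.2) (M.inv_mem hg)

/-- The line-field contradiction. -/
theorem line_field_false (hn : 3 ≤ finrank F V) (M : Subgroup (SpecialLinearGroup F V))
    (hsm : ∀ (a : V) (c : F) (φ : Dual F V), φ a = 0 → tv φ a ∈ M → tv (c • φ) a ∈ M)
    (hcard : ∀ a : V, a ≠ 0 →
      Nat.card (PhiSub M hsm a) * Nat.card F = Nat.card F ^ (finrank F V - 1)) : False := by
  have hq2 : 2 ≤ Nat.card F := Finite.one_lt_card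
  -- dimensions
  have hfr : ∀ a : V, a ≠ 0 → finrank F (PhiSub M hsm a) + 2 = finrank F V := by
    intro a ha
    have h1 := hcard a ha
    rw [Module.natCard_eq_pow_finrank (K := F) (V := PhiSub M hsm a), ← pow_succ] at h1
    have h2 := Nat.pow_right_injective hq2 h1
    omega
  have hL2 : ∀ a : V, a ≠ 0 → finrank F (PhiSub M hsm a).dualCoannihilator = 2 := by
    intro a ha
    have h1 := Subspace.finrank_add_finrank_dualCoannihilator_eq (PhiSub M hsm a)
    have h2 := hfr a ha
    omega
  have haL : ∀ a : V, a ∈ (PhiSub M hsm a).dualCoannihilator := by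
    intro a
    rw [Submodule.mem_dualCoannihilator]
    intro φ hφ
    exact hφ.1
  have hann : ∀ (a : V) (φ : Dual F V),
      φ ∈ PhiSub M hsm a ↔ ∀ x ∈ (PhiSub M hsm a).dualCoannihilator, φ x = 0 := by
    intro a φ
    rw [← Submodule.mem_dualAnnihilator, Subspace.dualCoannihilator_dualAnnihilator_eq]
  -- Step A
  have stepA : ∀ a b : V, a ≠ 0 → b ∈ (PhiSub M hsm a).dualCoannihilator →
      b ∉ Submodule.span F {a} → PhiSub M hsm b = PhiSub M hsm a := by
    intro a b ha hbL hba
    have hb0 : b ≠ 0 := notMem_span_singleton_ne_zero hba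
    have hfreq : finrank F (PhiSub M hsm b) = finrank F (PhiSub M hsm a) := by
      have := hfr a ha; have := hfr b hb0; omega
    by_cases hall : ∀ ψ ∈ PhiSub M hsm b, ψ a = 0
    · -- Φ b ≤ Φ a
      apply Submodule.eq_of_le_of_finrank_eq _ hfreq
      intro ψ hψ
      rw [hann a ψ]
      have hspan : Submodule.span F {a, b} = (PhiSub M hsm a).dualCoannihilator := by
        apply Submodule.eq_of_le_of_finrank_eq
        · rw [Submodule.span_le]
          rintro x (rfl | rfl)
          · exact haL _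
          · exact hbL
        · rw [hL2 a ha]
          have hli : LinearIndependent F ![a, b] := by
            rw [LinearIndependent.pair_iff]
            intro s t hst
            have ht : t = 0 := by
              by_contra ht
              apply hba
              rw [Submodule.mem_span_singleton]
              refine ⟨-(t⁻¹ * s), ?_⟩
              have h3 : t • b = -(s • a) := by
                rw [eq_neg_iff_add_eq_zero, add_comm]; exact hst
              have h4 : b = t⁻¹ • (t • b) := by rw [smul_smul, inv_mul_cancel₀ ht, one_smul]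
              rw [h4, h3, smul_neg, smul_smul, neg_smul]
            rw [ht, zero_smul, add_zero] at hst
            rcases smul_eq_zero.mp hst with h | h
            · exact ⟨h, ht⟩
            · exact absurd h ha
          have h5 := finrank_span_eq_card hli
          rw [Matrix.range_cons_cons_empty] at h5
          rw [h5]; rfl
      intro x hx
      rw [← hspan] at hx
      refine Submodule.span_induction ?_ ?_ ?_ ?_ hx
      · rintro y (rfl | rfl)
        · exact hall ψ hψ
        · exact hψ.1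
      · exact map_zero ψ
      · intro y z _ _ hy hz; rw [map_add, hy, hz, add_zero]
      · intro c y _ hy; rw [map_smul, hy, smul_zero]
    · -- Φ a ≤ Φ b
      push Not at hall
      obtain ⟨ψ₀, hψ₀, hψ₀a⟩ := hall
      symm
      apply Submodule.eq_of_le_of_finrank_eq _ hfreq.symm
      set ψ : Dual F V := (ψ₀ a)⁻¹ • ψ₀ with hψdef
      have hψ : ψ ∈ PhiSub M hsm b := Submodule.smul_mem _ _ hψ₀
      have hψa : ψ a = 1 := by
        rw [hψdef, LinearMap.smul_apply, smul_eq_mul, inv_mul_cancel₀ hψ₀a]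
      have hψb : ψ b = 0 := hψ.1
      have hgM : tv ψ b ∈ M := hψ.2
      have hga : tv ψ b a = a + b := by rw [tv_apply hψb, hψa, one_smul]
      intro φ hφ
      have hφb : φ b = 0 := (hann a φ).mp hφ b hbL
      have h1 := PhiSub_conj hgM hφ
      rw [hga] at h1
      have h2 : cg (tv ψ b) φ = φ := by
        ext x
        have hnb : ψ (-b) = 0 := by rw [map_neg, hψb, neg_zero]
        rw [cg_apply, tv_inv, tv_apply hnb, map_add, map_smul, map_neg, hφb, neg_zero, smul_zero,
          add_zero]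
      rw [h2] at h1
      refine ⟨hφb, ?_⟩
      have hna : φ (-a) = 0 := by rw [map_neg, hφ.1, neg_zero]
      have h3 : tv φ b = tv φ (-a) * tv φ (a + b) := by
        rw [tv_add_left hna h1.1]; congr 1; abel
      rw [h3, ← tv_inv]
      exact M.mul_mem (M.inv_mem hφ.2) h1.2
  -- Step B
  haveI : Nontrivial V := Module.nontrivial_of_finrank_pos (R := F) (by omega)
  obtain ⟨a, ha⟩ := exists_ne (0 : V)
  set La := (PhiSub M hsm a).dualCoannihilator with hLa
  obtain ⟨a₀, ha₀L, ha₀⟩ : ∃ a₀ ∈ La, a₀ ∉ Submodule.span F {a} := by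
    by_contra hcon
    push Not at hcon
    have h1 : La ≤ Submodule.span F {a} := fun x hx => hcon x hx
    have h2 := Submodule.finrank_mono h1
    rw [finrank_span_singleton ha, hLa, hL2 a ha] at h2
    omega
  obtain ⟨b, hb⟩ : ∃ b, b ∉ La := by
    by_contra hcon
    push Not at hcon
    have h1 : La = ⊤ := eq_top_iff.mpr (fun x _ => hcon x)
    have h2 := hL2 a ha
    rw [← hLa, h1, finrank_top] at h2
    omega
  have hb0 : b ≠ 0 := fun h => hb (h ▸ La.zero_mem)
  have ha₀0 : a₀ ≠ 0 := notMem_span_singleton_ne_zero ha₀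
  have hab : a ∉ Submodule.span F {b} := by
    intro h
    obtain ⟨t, ht⟩ := Submodule.mem_span_singleton.mp h
    have ht0 : t ≠ 0 := by rintro rfl; rw [zero_smul] at ht; exact ha ht.symm
    apply hb
    have : b = t⁻¹ • a := by rw [← ht, smul_smul, inv_mul_cancel₀ ht0, one_smul]
    rw [this]; exact La.smul_mem _ (haL a)
  have hLne : ∀ c : V, c ≠ 0 → c ∈ La → c ∈ (PhiSub M hsm b).dualCoannihilator → False := by
    intro c hc0 hcLa hcLb
    have hcb : c ∉ Submodule.span F {b} := by
      intro h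
      obtain ⟨t, ht⟩ := Submodule.mem_span_singleton.mp h
      have ht0 : t ≠ 0 := by rintro rfl; rw [zero_smul] at ht; exact hc0 ht.symm
      apply hb
      have : b = t⁻¹ • c := by rw [← ht, smul_smul, inv_mul_cancel₀ ht0, one_smul]
      rw [this]; exact La.smul_mem _ hcLa
    have hΦ : PhiSub M hsm a = PhiSub M hsm b := by
      by_cases hca : c ∈ Submodule.span F {a}
      · obtain ⟨s, hs⟩ := Submodule.mem_span_singleton.mp hca
        have hs0 : s ≠ 0 := by rintro rfl; rw [zero_smul] at hs; exact hc0 hs.symm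
        have haLb : a ∈ (PhiSub M hsm b).dualCoannihilator := by
          have : a = s⁻¹ • c := by rw [← hs, smul_smul, inv_mul_cancel₀ hs0, one_smul]
          rw [this]; exact Submodule.smul_mem _ _ hcLb
        exact stepA b a hb0 haLb hab
      · have h1 := stepA a c ha hcLa hca
        have h2 := stepA b c hb0 hcLb hcb
        rw [← h1, h2]
    apply hb
    rw [hLa, hΦ]
    exact haL b
  -- the functional ψ
  have hnot : a ∉ (PhiSub M hsm b).dualCoannihilator ⊔ Submodule.span F {a₀} := by
    intro h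
    obtain ⟨l, hl, z, hz, hlz⟩ := Submodule.mem_sup.mp h
    obtain ⟨s, rfl⟩ := Submodule.mem_span_singleton.mp hz
    have hlLa : l ∈ La := by
      have : l = a - s • a₀ := by rw [← hlz]; abel
      rw [this]; exact La.sub_mem (haL a) (La.smul_mem _ ha₀L)
    have hl0 : l = 0 := by
      by_contra hl0
      exact hLne l hl0 hlLa hl
    rw [hl0, zero_add] at hlz
    have hs0 : s ≠ 0 := by rintro rfl; rw [zero_smul] at hlz; exact ha hlz.symm
    apply ha₀
    rw [Submodule.mem_span_singleton]
    exact ⟨s⁻¹, by rw [← hlz, smul_smul, inv_mul_cancel₀ hs0, one_smul]⟩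
  obtain ⟨ψ, hψa, hψ0⟩ := exists_dual_one_of_notMem _ hnot
  have hψΦ : ψ ∈ PhiSub M hsm b := by
    rw [hann b ψ]
    intro x hx
    exact hψ0 x (Submodule.mem_sup_left hx)
  have hψa₀ : ψ a₀ = 0 := hψ0 a₀ (Submodule.mem_sup_right (Submodule.mem_span_singleton_self a₀))
  have hψb : ψ b = 0 := hψΦ.1
  have hgM : tv ψ b ∈ M := hψΦ.2
  have hga : tv ψ b a = a + b := by rw [tv_apply hψb, hψa, one_smul]
  have hab0 : a + b ≠ 0 := by
    intro h
    apply hb
    have : b = -a := by rw [eq_neg_iff_add_eq_zero, add_comm]; exact h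
    rw [this]; exact La.neg_mem (haL a)
  -- Φ (a + b) is the image of Φ a
  have himg : (PhiSub M hsm a).map ((tauHom (tv ψ b)).1 : Dual F V →ₗ[F] Dual F V) =
      PhiSub M hsm (a + b) := by
    apply Submodule.eq_of_le_of_finrank_eq
    · rintro _ ⟨φ, hφ, rfl⟩
      have h1 := PhiSub_conj hgM hφ
      rw [hga] at h1
      exact h1
    · have h1 := LinearEquiv.finrank_map_eq (tauHom (tv ψ b)).1 (PhiSub M hsm a)
      have h2 := hfr a ha
      have h3 := hfr (a + b) hab0
      omega
  have ha₀L' : a₀ ∈ (PhiSub M hsm (a + b)).dualCoannihilator := by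
    rw [Submodule.mem_dualCoannihilator]
    intro φ' hφ'
    rw [← himg] at hφ'
    obtain ⟨φ, hφ, rfl⟩ := hφ'
    have hnb : ψ (-b) = 0 := by rw [map_neg, hψb, neg_zero]
    show cg (tv ψ b) φ a₀ = 0
    rw [cg_apply, tv_inv, tv_apply hnb, hψa₀, zero_smul, add_zero]
    exact (hann a φ).mp hφ a₀ ha₀L
  have ha₀ab : a₀ ∉ Submodule.span F {a + b} := by
    intro h
    obtain ⟨t, ht⟩ := Submodule.mem_span_singleton.mp h
    have ht0 : t ≠ 0 := by rintro rfl; rw [zero_smul] at ht; exact ha₀0 ht.symm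
    apply hb
    have h1 : a + b = t⁻¹ • a₀ := by rw [← ht, smul_smul, inv_mul_cancel₀ ht0, one_smul]
    have h2 : b = t⁻¹ • a₀ - a := by rw [← h1]; abel
    rw [h2]; exact La.sub_mem (La.smul_mem _ ha₀L) (haL a)
  have e1 := stepA (a + b) a₀ hab0 ha₀L' ha₀ab
  have e2 := stepA a a₀ ha ha₀L ha₀
  have e3 : PhiSub M hsm (a + b) = PhiSub M hsm a := by rw [← e1, e2]
  apply hb
  have h4 : a + b ∈ La := by rw [hLa, ← e3]; exact haL (a + b)
  have h5 : b = (a + b) - a := by abel
  rw [h5]; exact La.sub_mem h4 (haL a)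

/-- **Case A is impossible**: a proper subgroup of `SL(V)` of index less than the number of
points contains no nontrivial transvection. -/
theorem no_transvection (hn : 3 ≤ finrank F V) (M : Subgroup (SpecialLinearGroup F V))
    (hM : M ≠ ⊤) (hidx : M.index < Nat.card (Projectivization F V))
    {f₁ : Dual F V} {a₁ : V} (hf₁ : f₁ ≠ 0) (ha₁ : a₁ ≠ 0) (hfa : f₁ a₁ = 0) :
    tv f₁ a₁ ∉ M := by
  intro hmem
  have htv : ∃ (f₁ : Dual F V) (a₁ : V), f₁ ≠ 0 ∧ a₁ ≠ 0 ∧ f₁ a₁ = 0 ∧ tv f₁ a₁ ∈ M :=
    ⟨f₁, a₁, hf₁, ha₁, hfa, hmem⟩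
  have hsm : ∀ (a : V) (c : F) (φ : Dual F V), φ a = 0 → tv φ a ∈ M → tv (c • φ) a ∈ M := by
    intro a c φ h1 h2
    by_cases ha : a = 0
    · rw [ha, tv_zero_right]; exact M.one_mem
    · exact (c2_subgroup hn M hM hidx htv ha).1 c φ h1 h2
  refine line_field_false hn M hsm (fun a ha => ?_)
  exact (c2_subgroup hn M hM hidx htv ha).2

end CaseA

end Cfsg.Agent.Helper60.MinIdx
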