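import Mathlib
import Cfsg.Agent.Helper60.SLLine

/-!
# A subgroup of `SL(V)` of index `q ^ (n - 1)` without transvections does not exist
-/

set_option autoImplicit false
set_option linter.unusedSectionVars false
set_option linter.style.haveILetI false
set_option linter.unusedSimpArgs false

namespace Cfsg.Agent.Helper60.MinIdx

open Module

section Heis

variable {F V : Type*} [Field F] [AddCommGroup V] [Module F V]

/-- The data of the regular case: `M` contains no nontrivial transvection, and the transvections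
with axis `ker f` act regularly on the cosets of `M`. -/
structure HeisData (M : Subgroup (SpecialLinearGroup F V)) (f : Dual F V) (b : V) : Prop where
  hno : ∀ (φ : Dual F V) (a : V), φ ≠ 0 → a ≠ 0 → φ a = 0 → tv φ a ∉ M
  hR : ∀ g : SpecialLinearGroup F V, ∃ a : V, f a = 0 ∧ tv f a * g ∈ M
  hf : f ≠ 0
  hb : b ≠ 0
  hfb : f b = 0

variable {M : Subgroup (SpecialLinearGroup F V)} {f : Dual F V} {b : V}

/-- The unique `a ∈ ker f` with `T(a, f) T(b, ψ) ∈ M`. -/
noncomputable def aF (H : HeisData M f b) (ψ : Dual F V) : V :=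
  Classical.choose (H.hR (tv ψ b))

theorem HeisData.aF_spec (H : HeisData M f b) (ψ : Dual F V) :
    f (aF H ψ) = 0 ∧ tv f (aF H ψ) * tv ψ b ∈ M :=
  Classical.choose_spec (H.hR (tv ψ b))

theorem HeisData.uniq (H : HeisData M f b) {a a' : V} {g : SpecialLinearGroup F V}
    (ha : f a = 0) (ha' : f a' = 0) (h : tv f a * g ∈ M) (h' : tv f a' * g ∈ M) : a = a' := by
  have h1 : tv f a * g * (tv f a' * g)⁻¹ ∈ M := M.mul_mem h (M.inv_mem h')
  have hn' : f (-a') = 0 := by rw [map_neg, ha', neg_zero]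
  have h2 : tv f a * g * (tv f a' * g)⁻¹ = tv f (a + -a') := by
    rw [← tv_add_left ha hn', ← tv_inv]; group
  rw [h2] at h1
  by_contra hne
  have h3 : a + -a' ≠ 0 := fun h0 => hne (add_neg_eq_zero.mp h0)
  exact H.hno f (a + -a') H.hf h3 (by rw [map_add, ha, hn', add_zero]) h1

theorem HeisData.aF_eq (H : HeisData M f b) {ψ : Dual F V} {a : V} (ha : f a = 0)
    (h : tv f a * tv ψ b ∈ M) : aF H ψ = a :=
  H.uniq (H.aF_spec ψ).1 ha (H.aF_spec ψ).2 h

theorem HeisData.aF_smul_f (H : HeisData M f b) (s : F) : aF H (s • f) = -(s • b) := by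
  have h0 : f (s • b) = 0 := by rw [map_smul, H.hfb, smul_zero]
  have h1 : f (-(s • b)) = 0 := by rw [map_neg, h0, neg_zero]
  apply H.aF_eq h1
  rw [← tv_smul, tv_add_left h1 h0, neg_add_cancel, tv_zero_right]
  exact M.one_mem

theorem HeisData.aF_zero (H : HeisData M f b) : aF H 0 = 0 := by
  have := H.aF_smul_f 0
  rwa [zero_smul, zero_smul, neg_zero] at this

theorem HeisData.comm_lemma (H : HeisData M f b) {ψ : Dual F V} (hψ : ψ b = 0) (a' : V) :
    tv ψ b * tv f a' = tv f (a' + ψ a' • b) * tv ψ b := by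
  have h1 := tv_conj (tv ψ b) f a'
  have hnb : ψ (-b) = 0 := by rw [map_neg, hψ, neg_zero]
  have h2 : cg (tv ψ b) f = f := by
    ext x
    rw [cg_apply, tv_inv, tv_apply hnb, map_add, map_smul, map_neg, H.hfb, neg_zero, smul_zero,
      add_zero]
  rw [h2, tv_apply hψ] at h1
  rw [← h1]; group

theorem HeisData.cocycle (H : HeisData M f b) {ψ ψ' : Dual F V} (hψ : ψ b = 0) (hψ' : ψ' b = 0) :
    aF H (ψ + ψ') = aF H ψ + aF H ψ' + ψ (aF H ψ') • b := by
  have ha := (H.aF_spec ψ).1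
  have ha' := (H.aF_spec ψ').1
  have hb' : f (aF H ψ' + ψ (aF H ψ') • b) = 0 := by
    rw [map_add, map_smul, ha', H.hfb, smul_zero, add_zero]
  have hsum : f (aF H ψ + aF H ψ' + ψ (aF H ψ') • b) = 0 := by
    rw [add_assoc, map_add, ha, hb', add_zero]
  apply H.aF_eq hsum
  have h1 : tv f (aF H ψ + aF H ψ' + ψ (aF H ψ') • b) * tv (ψ + ψ') b =
      (tv f (aF H ψ) * tv ψ b) * (tv f (aF H ψ') * tv ψ' b) := by
    have e1 : (tv f (aF H ψ) * tv ψ b) * (tv f (aF H ψ') * tv ψ' b) =
        tv f (aF H ψ) * (tv ψ b * tv f (aF H ψ')) * tv ψ' b := by group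
    rw [e1, H.comm_lemma hψ, ← tv_add_right hψ hψ', add_assoc, ← tv_add_left ha hb']
    group
  rw [h1]
  exact M.mul_mem (H.aF_spec ψ).2 (H.aF_spec ψ').2

theorem HeisData.symm (H : HeisData M f b) {χ ψ : Dual F V} (hχ : χ b = 0) (hψ : ψ b = 0) :
    χ (aF H ψ) = ψ (aF H χ) := by
  have h1 := H.cocycle hχ hψ
  have h2 := H.cocycle hψ hχ
  rw [add_comm χ ψ, h2] at h1
  have h3 : ψ (aF H χ) • b = χ (aF H ψ) • b := by
    have h4 : aF H ψ + aF H χ + ψ (aF H χ) • b = aF H ψ + aF H χ + χ (aF H ψ) • b := by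
      rw [h1]; abel
    exact add_left_cancel h4
  exact (smul_left_injective F H.hb h3).symm

theorem HeisData.eq_smul_f_of (H : HeisData M f b) {ψ : Dual F V} (hψ : ψ b = 0) {s : F}
    (h : aF H ψ = -(s • b)) : ψ = s • f := by
  have hm := (H.aF_spec ψ).2
  rw [h, ← neg_smul, tv_smul] at hm
  have h1 : ((-s) • f) b = 0 := by rw [LinearMap.smul_apply, H.hfb, smul_zero]
  rw [tv_add_right h1 hψ] at hm
  by_contra hne
  have h2 : (-s) • f + ψ ≠ 0 := by
    intro h0
    apply hne
    have : ψ = -((-s) • f) := by rw [eq_neg_iff_add_eq_zero, add_comm]; exact h0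
    rw [this]
    ext x
    simp
  exact H.hno _ b h2 H.hb (by rw [LinearMap.add_apply, h1, hψ, add_zero]) hm

/-- Equivariance of the function `aF` under elements normalising the configuration. -/
theorem HeisData.equivariance (H : HeisData M f b) (l : SpecialLinearGroup F V) {t c : F}
    (ht : t ≠ 0) (hc : c ≠ 0) (hlb : l b = t • b) (hlf : cg l f = c • f) {χ ψ : Dual F V}
    (hχ : χ b = 0) (hψ : ψ b = 0) : χ (aF H (t • cg l ψ)) = c * χ (l (aF H ψ)) := by
  obtain ⟨a₀, ha₀, hl'⟩ := H.hR l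
  set l' := tv f a₀ * l with hl'def
  have hcgtv : ∀ φ : Dual F V, cg (tv f a₀) φ = φ - φ a₀ • f := by
    intro φ
    ext x
    have hna : f (-a₀) = 0 := by rw [map_neg, ha₀, neg_zero]
    rw [cg_apply, tv_inv, tv_apply hna]
    simp only [map_add, map_smul, map_neg, smul_eq_mul, LinearMap.sub_apply, LinearMap.smul_apply]
    ring
  have hl'b : l' b = t • b := by
    rw [hl'def, sl_mul_apply, hlb, tv_apply ha₀, map_smul, H.hfb, smul_zero, zero_smul, add_zero]
  have hl'f : cg l' f = c • f := by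
    rw [hl'def, cg_mul, hlf, cg_smul, hcgtv, ha₀, zero_smul, sub_zero]
  have hfl : ∀ x, f (l x) = c⁻¹ * f x := by
    intro x
    have h1 : cg l f (l x) = f x := cg_apply_apply l f x
    rw [hlf, LinearMap.smul_apply, smul_eq_mul] at h1
    rw [← h1, ← mul_assoc, inv_mul_cancel₀ hc, one_mul]
  have hfl' : ∀ x, f (l' x) = c⁻¹ * f x := by
    intro x
    have h1 : cg l' f (l' x) = f x := cg_apply_apply l' f x
    rw [hl'f, LinearMap.smul_apply, smul_eq_mul] at h1
    rw [← h1, ← mul_assoc, inv_mul_cancel₀ hc, one_mul]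
  have haf : f (aF H ψ) = 0 := (H.aF_spec ψ).1
  have ham : tv f (aF H ψ) * tv ψ b ∈ M := (H.aF_spec ψ).2
  have hconj : l' * (tv f (aF H ψ) * tv ψ b) * l'⁻¹ =
      tv f (c • l' (aF H ψ)) * tv (t • cg l' ψ) b := by
    have e1 : l' * (tv f (aF H ψ) * tv ψ b) * l'⁻¹ =
        (l' * tv f (aF H ψ) * l'⁻¹) * (l' * tv ψ b * l'⁻¹) := by group
    rw [e1, tv_conj, tv_conj, hl'f, hl'b, tv_smul c f, tv_smul t]
  have hmem : tv f (c • l' (aF H ψ)) * tv (t • cg l' ψ) b ∈ M := by
    rw [← hconj]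
    exact M.mul_mem (M.mul_mem hl' ham) (M.inv_mem hl')
  have hfa' : f (c • l' (aF H ψ)) = 0 := by
    rw [map_smul, hfl', haf, mul_zero, smul_zero]
  have h1 : aF H (t • cg l' ψ) = c • l' (aF H ψ) := H.aF_eq hfa' hmem
  have hla : l' (aF H ψ) = l (aF H ψ) := by
    rw [hl'def, sl_mul_apply, tv_apply ha₀, hfl, haf, mul_zero, zero_smul, add_zero]
  have hcg : cg l' ψ = cg l ψ - (cg l ψ) a₀ • f := by rw [hl'def, cg_mul, hcgtv]
  have h2 : t • cg l ψ = (t • cg l' ψ) + (t * (cg l ψ) a₀) • f := by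
    rw [hcg, smul_sub, smul_smul, sub_add_cancel]
  have hb1 : (t • cg l' ψ) b = 0 := by
    have h3 : l'⁻¹ b = t⁻¹ • b := by
      have h4 : l' (t⁻¹ • b) = b := by
        rw [sl_map_smul, hl'b, smul_smul, inv_mul_cancel₀ ht, one_smul]
      calc l'⁻¹ b = l'⁻¹ (l' (t⁻¹ • b)) := by rw [h4]
        _ = t⁻¹ • b := sl_inv_apply_apply _ _
    rw [LinearMap.smul_apply, cg_apply, h3, map_smul, hψ, smul_zero, smul_zero]
  have hb2 : ((t * (cg l ψ) a₀) • f) b = 0 := by
    rw [LinearMap.smul_apply, H.hfb, smul_zero]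
  have h5 := H.cocycle hb1 hb2
  rw [← h2, h1, H.aF_smul_f, hla] at h5
  rw [h5]
  simp only [map_add, map_neg, map_smul, hχ, smul_eq_mul, mul_zero, neg_zero, add_zero]

theorem HeisData.zero_of_common (H : HeisData M f b) {χ₀ ψ χ : Dual F V} (hψ : ψ b = 0)
    (hχ₀ : χ₀ b = 0) (hχ : χ b = 0) {d : V} (hfd : f d = 0) (hχ₀d : χ₀ d = 0) (hψd : ψ d = 0)
    (hχd : χ d = 1) : χ₀ (aF H ψ) = 0 := by
  have hlb : tv χ₀ d b = (1 : F) • b := by
    rw [tv_apply hχ₀d, hχ₀, zero_smul, add_zero, one_smul]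
  have hnd : χ₀ (-d) = 0 := by rw [map_neg, hχ₀d, neg_zero]
  have hlf : cg (tv χ₀ d) f = (1 : F) • f := by
    ext x
    rw [cg_apply, tv_inv, tv_apply hnd, one_smul, map_add, map_smul, map_neg, hfd, neg_zero,
      smul_zero, add_zero]
  have hlψ : cg (tv χ₀ d) ψ = ψ := by
    ext x
    rw [cg_apply, tv_inv, tv_apply hnd, map_add, map_smul, map_neg, hψd, neg_zero,
      smul_zero, add_zero]
  have h := H.equivariance (tv χ₀ d) one_ne_zero one_ne_zero hlb hlf hχ hψ
  rw [one_smul, hlψ, one_mul, tv_apply hχ₀d, map_add, map_smul, hχd, smul_eq_mul, mul_one] at h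
  exact left_eq_add.mp h

end Heis

section HeisBasis

variable {F V : Type*} [Field F] [AddCommGroup V] [Module F V]

theorem coord_basis {n : ℕ} (e : Basis (Fin n) F V) (i j : Fin n) :
    e.coord j (e i) = if i = j then 1 else 0 := by
  rw [Basis.coord_apply, Basis.repr_self, Finsupp.single_apply]

theorem coord_ne_zero' {n : ℕ} (e : Basis (Fin n) F V) (j : Fin n) : e.coord j ≠ 0 := by
  intro h
  have h1 := congrArg (fun φ : Dual F V => φ (e j)) h
  simp only [coord_basis, if_true, LinearMap.zero_apply] at h1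
  exact one_ne_zero h1

theorem HeisData.basis_contra {n : ℕ} (e : Basis (Fin n) F V) {i0 i1 il : Fin n}
    (h01 : i0 ≠ i1) (h1l : i1 ≠ il) {M : Subgroup (SpecialLinearGroup F V)}
    (H : HeisData M (e.coord il) (e i0))
    (hz : ∀ j : Fin n, j ≠ i0 → (e.coord j) (aF H (e.coord i1)) = 0) : False := by
  have hsum : aF H (e.coord i1) = (e.coord i0) (aF H (e.coord i1)) • e i0 := by
    conv_lhs => rw [← e.sum_repr (aF H (e.coord i1))]
    rw [Finset.sum_eq_single i0]
    · rfl
    · intro j _ hj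
      have h1 := hz j hj
      rw [Basis.coord_apply] at h1
      rw [h1, zero_smul]
    · intro h; exact absurd (Finset.mem_univ _) h
  have hψ : (e.coord i1) (e i0) = 0 := by rw [coord_basis, if_neg h01]
  have h3 := H.eq_smul_f_of hψ (s := -(e.coord i0) (aF H (e.coord i1)))
    (by rw [neg_smul, neg_neg]; exact hsum)
  have h4 := congrArg (fun φ : Dual F V => φ (e i1)) h3
  simp only [LinearMap.smul_apply, coord_basis, if_true, if_neg h1l, smul_zero] at h4
  exact one_ne_zero h4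

theorem exists_diag {n : ℕ} (e : Basis (Fin n) F V) (d : Fin n → F) (hd : ∏ i, d i = 1) :
    ∃ l : SpecialLinearGroup F V, ∀ i, l (e i) = d i • e i := by
  let A : Matrix.SpecialLinearGroup (Fin n) F :=
    ⟨Matrix.diagonal d, by rw [Matrix.det_diagonal]; exact hd⟩
  refine ⟨Matrix.SpecialLinearGroup.toLin_equiv e A, fun i => ?_⟩
  have h1 : ((Matrix.SpecialLinearGroup.toLin_equiv e A : SpecialLinearGroup F V).1 :
      V →ₗ[F] V) (e i) = d i • e i := by
    rw [Matrix.SpecialLinearGroup.toLin_equiv.toLinearMap_eq, Matrix.toLin_self]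
    simp [A, Matrix.diagonal_apply]
  exact h1

theorem diag_coord {n : ℕ} (e : Basis (Fin n) F V) (l : SpecialLinearGroup F V) {d : Fin n → F}
    (hl : ∀ i, l (e i) = d i • e i) (j : Fin n) (y : V) :
    e.coord j (l y) = d j * e.coord j y := by
  have h1 : (e.coord j).comp ((l.1 : V ≃ₗ[F] V) : V →ₗ[F] V) = d j • e.coord j := by
    apply e.ext
    intro i
    have h2 : ((l.1 : V ≃ₗ[F] V) : V →ₗ[F] V) (e i) = d i • e i := hl i
    rw [LinearMap.comp_apply, h2, map_smul, LinearMap.smul_apply, coord_basis]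
    by_cases hij : i = j
    · rw [hij]
    · rw [if_neg hij, smul_zero, smul_zero]
  have h3 := congrArg (fun φ : Dual F V => φ y) h1
  exact h3

theorem diag_cg {n : ℕ} (e : Basis (Fin n) F V) (l : SpecialLinearGroup F V) {d : Fin n → F}
    (hl : ∀ i, l (e i) = d i • e i) (hd0 : ∀ i, d i ≠ 0) (j : Fin n) :
    cg l (e.coord j) = (d j)⁻¹ • e.coord j := by
  apply e.ext
  intro i
  have h1 : l⁻¹ (e i) = (d i)⁻¹ • e i := by
    have h2 : l ((d i)⁻¹ • e i) = e i := by
      rw [sl_map_smul, hl, smul_smul, inv_mul_cancel₀ (hd0 i), one_smul]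
    calc l⁻¹ (e i) = l⁻¹ (l ((d i)⁻¹ • e i)) := by rw [h2]
      _ = (d i)⁻¹ • e i := sl_inv_apply_apply _ _
  rw [cg_apply, h1, map_smul, LinearMap.smul_apply, coord_basis]
  by_cases hij : i = j
  · rw [hij]
  · rw [if_neg hij, smul_zero, smul_zero]

theorem heis_ge5 {n : ℕ} (hn : 5 ≤ n) (e : Basis (Fin n) F V)
    (M : Subgroup (SpecialLinearGroup F V))
    (hno : ∀ (φ : Dual F V) (a : V), φ ≠ 0 → a ≠ 0 → φ a = 0 → tv φ a ∉ M)
    (hR : ∀ f : Dual F V, f ≠ 0 → ∀ g : SpecialLinearGroup F V,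
      ∃ a : V, f a = 0 ∧ tv f a * g ∈ M) : False := by
  obtain ⟨i0, hi0⟩ : ∃ i : Fin n, i.val = 0 := ⟨⟨0, by omega⟩, rfl⟩
  obtain ⟨i1, hi1⟩ : ∃ i : Fin n, i.val = 1 := ⟨⟨1, by omega⟩, rfl⟩
  obtain ⟨i2, hi2⟩ : ∃ i : Fin n, i.val = 2 := ⟨⟨2, by omega⟩, rfl⟩
  obtain ⟨i3, hi3⟩ : ∃ i : Fin n, i.val = 3 := ⟨⟨3, by omega⟩, rfl⟩
  obtain ⟨il, hil⟩ : ∃ i : Fin n, i.val = n - 1 := ⟨⟨n - 1, by omega⟩, rfl⟩
  have h01 : i0 ≠ i1 := Fin.ne_of_val_ne (by omega)
  have h1l : i1 ≠ il := Fin.ne_of_val_ne (by omega)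
  have h0l : i0 ≠ il := Fin.ne_of_val_ne (by omega)
  have H : HeisData M (e.coord il) (e i0) :=
    ⟨hno, hR _ (coord_ne_zero' e il), coord_ne_zero' e il, e.ne_zero i0,
      by rw [coord_basis, if_neg h0l]⟩
  refine H.basis_contra e h01 h1l (fun j hj => ?_)
  have hc1b : (e.coord i1) (e i0) = 0 := by rw [coord_basis, if_neg h01]
  by_cases hjl : j = il
  · rw [hjl, H.symm (by rw [coord_basis, if_neg h0l]) hc1b]
    have h1 := H.aF_smul_f 1
    rw [one_smul, one_smul] at h1
    rw [h1, map_neg, hc1b, neg_zero]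
  · obtain ⟨i, hi_0, hi_1, hi_j, hi_l⟩ : ∃ i : Fin n, i ≠ i0 ∧ i ≠ i1 ∧ i ≠ j ∧ i ≠ il := by
      by_cases hj2 : j.val = 2
      · exact ⟨i3, Fin.ne_of_val_ne (by omega), Fin.ne_of_val_ne (by omega),
          Fin.ne_of_val_ne (by omega), Fin.ne_of_val_ne (by omega)⟩
      · exact ⟨i2, Fin.ne_of_val_ne (by omega), Fin.ne_of_val_ne (by omega),
          Fin.ne_of_val_ne (by omega), Fin.ne_of_val_ne (by omega)⟩
    exact H.zero_of_common (χ₀ := e.coord j) (ψ := e.coord i1) (χ := e.coord i) (d := e i) hc1b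
      (by rw [coord_basis, if_neg (Ne.symm hj)]) (by rw [coord_basis, if_neg (Ne.symm hi_0)])
      (by rw [coord_basis, if_neg hi_l]) (by rw [coord_basis, if_neg hi_j])
      (by rw [coord_basis, if_neg hi_1]) (by rw [coord_basis, if_pos rfl])

theorem heis_three (e : Basis (Fin 3) F V) (M : Subgroup (SpecialLinearGroup F V))
    (hno : ∀ (φ : Dual F V) (a : V), φ ≠ 0 → a ≠ 0 → φ a = 0 → tv φ a ∉ M)
    (hR : ∀ f : Dual F V, f ≠ 0 → ∀ g : SpecialLinearGroup F V,
      ∃ a : V, f a = 0 ∧ tv f a * g ∈ M) : False := by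
  have hc1b : (e.coord 1) (e 0) = 0 := by rw [coord_basis, if_neg (by decide)]
  have hc2b : (e.coord 2) (e 0) = 0 := by rw [coord_basis, if_neg (by decide)]
  have H : HeisData M (e.coord 2) (e 0) :=
    ⟨hno, hR _ (coord_ne_zero' e 2), coord_ne_zero' e 2, e.ne_zero 0, hc2b⟩
  refine H.basis_contra e (i0 := 0) (i1 := 1) (il := 2) (by decide) (by decide) (fun j hj => ?_)
  have hj' : j = 1 ∨ j = 2 := by
    fin_cases j
    · exact absurd rfl hj
    · left; rfl
    · right; rfl
  rcases hj' with rfl | rfl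
  · by_cases h2 : (2 : F) = 0
    · have h1 := H.cocycle hc1b hc1b
      have h3 : e.coord 1 + e.coord 1 = (0 : Dual F V) := by
        ext x
        rw [LinearMap.add_apply, ← two_mul, h2, zero_mul, LinearMap.zero_apply]
      have h4 : aF H (e.coord 1) + aF H (e.coord 1) = 0 := by
        rw [← two_smul F (aF H (e.coord 1)), h2, zero_smul]
      rw [h3, H.aF_zero, h4, zero_add] at h1
      rcases smul_eq_zero.mp h1.symm with h5 | h5
      · exact h5
      · exact absurd h5 (e.ne_zero 0)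
    · obtain ⟨l, hl⟩ := exists_diag e ![1, -1, -1] (by simp [Fin.prod_univ_three])
      have hd0 : ∀ i, (![1, -1, -1] : Fin 3 → F) i ≠ 0 := by
        intro i; fin_cases i <;> simp
      have hlb : l (e 0) = (1 : F) • e 0 := by simpa using hl 0
      have hlf : cg l (e.coord 2) = (-1 : F) • e.coord 2 := by
        have h5 := diag_cg e l hl hd0 2
        rw [h5]
        congr 1
        simp [inv_neg]
      have h := H.equivariance l one_ne_zero (neg_ne_zero.mpr one_ne_zero) hlb hlf hc1b hc1b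
      have hcg1 : cg l (e.coord 1) = -(e.coord 1) := by
        have h5 := diag_cg e l hl hd0 1
        rw [h5]
        ext x
        simp [inv_neg]
      have hco : (e.coord 1) (l (aF H (e.coord 1))) = -(e.coord 1) (aF H (e.coord 1)) := by
        have h5 := diag_coord e l hl 1 (aF H (e.coord 1))
        rw [h5]
        simp
      rw [one_smul, hcg1, hco] at h
      have hneg : (-(e.coord 1)) (e 0) = 0 := by rw [LinearMap.neg_apply, hc1b, neg_zero]
      rw [H.symm hc1b hneg, LinearMap.neg_apply] at h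
      have h6 : (2 : F) * (e.coord 1) (aF H (e.coord 1)) = 0 := by linear_combination -h
      rcases mul_eq_zero.mp h6 with h5 | h5
      · exact absurd h5 h2
      · exact h5
  · rw [H.symm hc2b hc1b]
    have h1 := H.aF_smul_f 1
    rw [one_smul, one_smul] at h1
    rw [h1, map_neg, hc1b, neg_zero]

theorem heis_four (e : Basis (Fin 4) F V) (hq : ∃ s : F, s ≠ 0 ∧ s ≠ 1)
    (M : Subgroup (SpecialLinearGroup F V))
    (hno : ∀ (φ : Dual F V) (a : V), φ ≠ 0 → a ≠ 0 → φ a = 0 → tv φ a ∉ M)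
    (hR : ∀ f : Dual F V, f ≠ 0 → ∀ g : SpecialLinearGroup F V,
      ∃ a : V, f a = 0 ∧ tv f a * g ∈ M) : False := by
  have hc1b : (e.coord 1) (e 0) = 0 := by rw [coord_basis, if_neg (by decide)]
  have hc2b : (e.coord 2) (e 0) = 0 := by rw [coord_basis, if_neg (by decide)]
  have hc3b : (e.coord 3) (e 0) = 0 := by rw [coord_basis, if_neg (by decide)]
  have H : HeisData M (e.coord 3) (e 0) :=
    ⟨hno, hR _ (coord_ne_zero' e 3), coord_ne_zero' e 3, e.ne_zero 0, hc3b⟩
  refine H.basis_contra e (i0 := 0) (i1 := 1) (il := 3) (by decide) (by decide) (fun j hj => ?_)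
  have hj' : j = 1 ∨ j = 2 ∨ j = 3 := by
    fin_cases j
    · exact absurd rfl hj
    · left; rfl
    · right; left; rfl
    · right; right; rfl
  have h11 : (e.coord 1) (aF H (e.coord 1)) = 0 :=
    H.zero_of_common (χ₀ := e.coord 1) (ψ := e.coord 1) (χ := e.coord 2) (d := e 2) hc1b hc1b hc2b
      (by rw [coord_basis, if_neg (by decide)]) (by rw [coord_basis, if_neg (by decide)])
      (by rw [coord_basis, if_neg (by decide)]) (by rw [coord_basis, if_pos rfl])
  rcases hj' with rfl | rfl | rfl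
  · exact h11
  · have hsym : (e.coord 2) (aF H (e.coord 1)) = (e.coord 1) (aF H (e.coord 2)) :=
      H.symm hc2b hc1b
    by_cases h2 : (2 : F) = 0
    · obtain ⟨s, hs0, hs1⟩ := hq
      obtain ⟨l, hl⟩ := exists_diag e ![1, s, 1, s⁻¹] (by simp [Fin.prod_univ_four, hs0])
      have hd0 : ∀ i, (![1, s, 1, s⁻¹] : Fin 4 → F) i ≠ 0 := by
        intro i; fin_cases i <;> simp [hs0]
      have hlb : l (e 0) = (1 : F) • e 0 := by simpa using hl 0
      have hlf : cg l (e.coord 3) = s • e.coord 3 := by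
        have h5 := diag_cg e l hl hd0 3
        rw [h5]
        congr 1
        simp
      have h := H.equivariance l one_ne_zero hs0 hlb hlf hc1b hc2b
      have hcg2 : cg l (e.coord 2) = e.coord 2 := by
        have h5 := diag_cg e l hl hd0 2
        rw [h5]
        ext x
        simp
      have hco : (e.coord 1) (l (aF H (e.coord 2))) = s * (e.coord 1) (aF H (e.coord 2)) := by
        have h5 := diag_coord e l hl 1 (aF H (e.coord 2))
        rw [h5]
        simp
      rw [one_smul, hcg2, hco] at h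
      rw [hsym]
      have hss : s * s ≠ 1 := by
        intro hss
        have h7 : (s - 1) * (s - 1) = 0 := by linear_combination hss + (1 - s) * h2
        rcases mul_eq_zero.mp h7 with h5 | h5 <;> exact hs1 (sub_eq_zero.mp h5)
      have h8 : (1 - s * s) * (e.coord 1) (aF H (e.coord 2)) = 0 := by linear_combination h
      rcases mul_eq_zero.mp h8 with h5 | h5
      · exact absurd (sub_eq_zero.mp h5).symm hss
      · exact h5
    · have h22 : (e.coord 2) (aF H (e.coord 2)) = 0 :=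
        H.zero_of_common (χ₀ := e.coord 2) (ψ := e.coord 2) (χ := e.coord 1) (d := e 1) hc2b hc2b
          hc1b (by rw [coord_basis, if_neg (by decide)]) (by rw [coord_basis, if_neg (by decide)])
          (by rw [coord_basis, if_neg (by decide)]) (by rw [coord_basis, if_pos rfl])
      have hsb : (e.coord 1 + e.coord 2) (e 0) = 0 := by
        rw [LinearMap.add_apply, hc1b, hc2b, add_zero]
      have hss : (e.coord 1 + e.coord 2) (aF H (e.coord 1 + e.coord 2)) = 0 :=
        H.zero_of_common (χ₀ := e.coord 1 + e.coord 2) (ψ := e.coord 1 + e.coord 2)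
          (χ := e.coord 1) (d := e 1 - e 2) hsb hsb hc1b
          (by simp [coord_basis]) (by simp [coord_basis]) (by simp [coord_basis])
          (by simp [coord_basis])
      rw [H.cocycle hc1b hc2b] at hss
      simp only [LinearMap.add_apply, map_add, map_smul, hc1b, hc2b, smul_eq_mul, mul_zero,
        add_zero, h11, h22, zero_add] at hss
      rw [hsym] at hss ⊢
      have h6 : (2 : F) * (e.coord 1) (aF H (e.coord 2)) = 0 := by linear_combination hss
      rcases mul_eq_zero.mp h6 with h5 | h5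
      · exact absurd h5 h2
      · exact h5
  · rw [H.symm hc3b hc1b]
    have h1 := H.aF_smul_f 1
    rw [one_smul, one_smul] at h1
    rw [h1, map_neg, hc1b, neg_zero]

end HeisBasis

end Cfsg.Agent.Helper60.MinIdx
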