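import Mathlib
import Cfsg.Agent.Helper60.SLHeis

/-!
# The minimal index of a proper subgroup of `SL(V)` and of `PSL_n(q)`

For a vector space `V` of dimension `n ≥ 3` over a finite field with `q` elements,
`(n, q) ≠ (4, 2)`, every proper subgroup of `SL(V)` has index at least the number
`(q ^ n - 1) / (q - 1)` of points of the projective space.
-/

set_option autoImplicit false
set_option linter.unusedSectionVars false
set_option linter.style.haveILetI false
set_option linter.unusedSimpArgs false

namespace Cfsg.Agent.Helper60.MinIdx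

open Module

section FixZero

open Classical

variable {F V : Type*} [Field F] [Fintype F] [AddCommGroup V] [Module F V] [Fintype V]
variable {Ω : Type*} [MulAction (SpecialLinearGroup F V) Ω] [Fintype Ω]

theorem fixN_eq_zero_of {g : SpecialLinearGroup F V} (h : ∀ x : Ω, g • x ≠ x) : fixN Ω g = 0 := by
  unfold fixN
  rw [Finset.card_eq_zero, Finset.filter_eq_empty_iff]
  intro x _
  exact h x

end FixZero

section Final

variable {F V : Type*} [Field F] [Finite F] [AddCommGroup V] [Module F V] [Finite V]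

theorem caseB_false (hn : 3 ≤ finrank F V) (hexc : ¬(finrank F V = 4 ∧ Nat.card F = 2))
    (M : Subgroup (SpecialLinearGroup F V))
    (hno : ∀ (φ : Dual F V) (a : V), φ ≠ 0 → a ≠ 0 → φ a = 0 → tv φ a ∉ M)
    (hR : ∀ f : Dual F V, f ≠ 0 → ∀ g : SpecialLinearGroup F V,
      ∃ a : V, f a = 0 ∧ tv f a * g ∈ M) : False := by
  obtain ⟨n, hn'⟩ : ∃ n, finrank F V = n := ⟨_, rfl⟩
  have e : Basis (Fin n) F V := Module.finBasisOfFinrankEq F V hn'
  rcases Nat.lt_or_ge n 5 with h5 | h5
  · have h34 : n = 3 ∨ n = 4 := by omega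
    rcases h34 with rfl | rfl
    · exact heis_three e M hno hR
    · have hq : ∃ s : F, s ≠ 0 ∧ s ≠ 1 := by
        classical
        haveI := Fintype.ofFinite F
        by_contra hcon
        push Not at hcon
        have hsub : (Finset.univ : Finset F) ⊆ {0, 1} := by
          intro s _
          by_cases hs : s = 0
          · simp [hs]
          · simp [hcon s hs]
        have h1 := Finset.card_le_card hsub
        have h2 : ({0, 1} : Finset F).card ≤ 2 := Finset.card_le_two
        have h3 : 2 ≤ Nat.card F := Finite.one_lt_card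
        rw [Nat.card_eq_fintype_card] at h3
        rw [Finset.card_univ] at h1
        exact hexc ⟨hn', by rw [Nat.card_eq_fintype_card]; omega⟩
      exact heis_four e hq M hno hR
  · exact heis_ge5 h5 e M hno hR

theorem regular_of_small_index (hn : 3 ≤ finrank F V) (M : Subgroup (SpecialLinearGroup F V))
    (hM : M ≠ ⊤) (hidx : M.index < Nat.card (Projectivization F V))
    (hno : ∀ (φ : Dual F V) (a : V), φ ≠ 0 → a ≠ 0 → φ a = 0 → tv φ a ∉ M) :
    ∀ f : Dual F V, f ≠ 0 → ∀ g : SpecialLinearGroup F V,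
      ∃ a : V, f a = 0 ∧ tv f a * g ∈ M := by
  classical
  haveI := Fintype.ofFinite F
  haveI := Fintype.ofFinite V
  haveI : Fintype (SpecialLinearGroup F V ⧸ M) := Fintype.ofFinite _
  intro f hf g
  have hidx0 : M.index ≠ 0 := Subgroup.index_ne_zero_of_finite
  have hidx1 : M.index ≠ 1 := fun h => hM (Subgroup.index_eq_one.mp h)
  have hcard : Fintype.card (SpecialLinearGroup F V ⧸ M) = M.index := by
    rw [Subgroup.index_eq_card, Nat.card_eq_fintype_card]
  have h1 : 1 < Fintype.card (SpecialLinearGroup F V ⧸ M) := by rw [hcard]; omega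
  have hN : Fintype.card (SpecialLinearGroup F V ⧸ M) < Nat.card (Projectivization F V) := by
    rw [hcard]; exact hidx
  obtain ⟨hI1, -, -⟩ := partI hn h1 hN hf (Ω := SpecialLinearGroup F V ⧸ M)
  have hQcard : Fintype.card (LinearMap.ker f) = Fintype.card F ^ (finrank F V - 1) :=
    card_ker_eq hf
  have hconj : ∀ (h : SpecialLinearGroup F V) (x : V), f x = 0 → h⁻¹ * tv f x * h ∈ M → x = 0 := by
    intro h x hx hmem
    by_contra hx0
    have h5 := tv_conj h⁻¹ f x
    rw [inv_inv] at h5
    rw [h5] at hmem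
    exact hno (cg h⁻¹ f) (h⁻¹ x) ((cg_eq_zero_iff _ _).not.mpr hf)
      ((sl_map_eq_zero_iff _ _).not.mpr hx0) (by rw [cg_apply_apply]; exact hx) hmem
  have hnofix : ∀ a : V, f a = 0 → a ≠ 0 → ∀ x : SpecialLinearGroup F V ⧸ M,
      tv f a • x ≠ x := by
    intro a ha ha0 x
    induction x using QuotientGroup.induction_on with
    | H h =>
      intro hfix
      rw [MulAction.Quotient.smul_mk, smul_eq_mul, QuotientGroup.eq] at hfix
      have h3 := M.inv_mem hfix
      have h4 : ((tv f a * h)⁻¹ * h)⁻¹ = h⁻¹ * tv f a * h := by group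
      rw [h4] at h3
      exact ha0 (hconj h a ha h3)
  have hΩ : Fintype.card (LinearMap.ker f) = Fintype.card (SpecialLinearGroup F V ⧸ M) := by
    have hq2 : 2 ≤ Fintype.card F := Fintype.one_lt_card
    have hQ2 : 2 ≤ Fintype.card F ^ (finrank F V - 1) := by
      calc 2 ≤ Fintype.card F := hq2
        _ = Fintype.card F ^ 1 := (pow_one _).symm
        _ ≤ Fintype.card F ^ (finrank F V - 1) := Nat.pow_le_pow_right (by omega) (by omega)
    obtain ⟨a₀, ha₀⟩ : ∃ a₀ : LinearMap.ker f, a₀ ≠ 0 := by
      haveI : Nontrivial (LinearMap.ker f) :=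
        Fintype.one_lt_card_iff_nontrivial.mp (by rw [hQcard]; omega)
      exact exists_ne 0
    have ha₀' : (a₀ : V) ≠ 0 := fun h => ha₀ (Subtype.ext h)
    have h6 := hI1 a₀ (LinearMap.mem_ker.mp a₀.2) ha₀'
    have h7 : fixN (SpecialLinearGroup F V ⧸ M) (tv f (a₀ : V)) = 0 :=
      fixN_eq_zero_of (hnofix a₀ (LinearMap.mem_ker.mp a₀.2) ha₀')
    rw [hQcard]; omega
  let ι : LinearMap.ker f → SpecialLinearGroup F V ⧸ M :=
    fun a => ((tv f (a : V) * g : SpecialLinearGroup F V) : SpecialLinearGroup F V ⧸ M)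
  have hι : Function.Injective ι := by
    intro a a' h
    have h8 : (tv f (a : V) * g)⁻¹ * (tv f (a' : V) * g) ∈ M := QuotientGroup.eq.mp h
    have hna : f (-(a : V)) = 0 := by rw [map_neg, LinearMap.mem_ker.mp a.2, neg_zero]
    have h9 : (tv f (a : V) * g)⁻¹ * (tv f (a' : V) * g) =
        g⁻¹ * tv f (-(a : V) + (a' : V)) * g := by
      rw [← tv_add_left hna (LinearMap.mem_ker.mp a'.2), ← tv_inv]; group
    rw [h9] at h8
    have h10 := hconj g _ (by rw [map_add, hna, LinearMap.mem_ker.mp a'.2, add_zero]) h8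
    apply Subtype.ext
    have h11 : (a' : V) = (a : V) := by
      have := neg_add_eq_zero.mp h10
      exact this.symm
    exact h11.symm
  have hbij := (Fintype.bijective_iff_injective_and_card ι).mpr ⟨hι, hΩ⟩
  obtain ⟨a, ha⟩ := hbij.2 ((1 : SpecialLinearGroup F V) : SpecialLinearGroup F V ⧸ M)
  refine ⟨a, LinearMap.mem_ker.mp a.2, ?_⟩
  have h12 : (tv f (a : V) * g)⁻¹ * 1 ∈ M := QuotientGroup.eq.mp ha
  rw [mul_one] at h12
  exact M.inv_mem_iff.mp h12

/-- **Minimal index of a proper subgroup of `SL(V)`**: `dim V = n ≥ 3`, `(n, q) ≠ (4, 2)`. -/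
theorem sl_min_index (hn : 3 ≤ finrank F V) (hexc : ¬(finrank F V = 4 ∧ Nat.card F = 2))
    (M : Subgroup (SpecialLinearGroup F V)) (hM : M ≠ ⊤) :
    Nat.card (Projectivization F V) ≤ M.index := by
  by_contra hlt
  push Not at hlt
  have hno : ∀ (φ : Dual F V) (a : V), φ ≠ 0 → a ≠ 0 → φ a = 0 → tv φ a ∉ M :=
    fun φ a hφ ha hφa => no_transvection hn M hM hlt hφ ha hφa
  exact caseB_false hn hexc M hno (regular_of_small_index hn M hM hlt hno)

end Final

section PSL

theorem map_equiv_ne_top {G G' : Type*} [Group G] [Group G'] (e : G ≃* G') {H : Subgroup G}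
    (h : H ≠ ⊤) : H.map (e : G →* G') ≠ ⊤ := by
  intro htop
  apply h
  rw [eq_top_iff]
  intro g _
  have h1 : e g ∈ H.map (e : G →* G') := by rw [htop]; trivial
  obtain ⟨m, hm, hmg⟩ := h1
  have h2 : m = g := e.injective hmg
  rw [← h2]; exact hm

/-- **Minimal index of a proper subgroup of `PSL_n(q)`**, `n ≥ 3`, `(n, q) ≠ (4, 2)`. -/
theorem psl_min_index {F : Type*} [Field F] [Fintype F] {q : ℕ} (hF : Fintype.card F = q) (n : ℕ)
    (hn : 3 ≤ n) (hexc : ¬ (n = 4 ∧ q = 2)) :
    (∀ H : Subgroup (Matrix.ProjectiveSpecialLinearGroup (Fin n) F), H ≠ ⊤ →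
        (q ^ n - 1) / (q - 1) ≤ H.index) ∧
      (∃ H : Subgroup (Matrix.ProjectiveSpecialLinearGroup (Fin n) F),
        H.index = (q ^ n - 1) / (q - 1)) := by
  have hNcard : Nat.card (Projectivization F (Fin n → F)) = (q ^ n - 1) / (q - 1) := by
    rw [Projectivization.card'' F (Fin n → F), Nat.card_fun, Nat.card_eq_fintype_card, hF,
      Nat.card_fin]
  have hfr : finrank F (Fin n → F) = n := Module.finrank_fin_fun F
  constructor
  · intro H hH
    rw [← hNcard]
    set π : Matrix.SpecialLinearGroup (Fin n) F →* Matrix.ProjectiveSpecialLinearGroup (Fin n) F :=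
      QuotientGroup.mk' (Subgroup.center (Matrix.SpecialLinearGroup (Fin n) F)) with hπ
    have hπs : Function.Surjective π := QuotientGroup.mk'_surjective _
    have h1 : (H.comap π).index = H.index := Subgroup.index_comap_of_surjective H hπs
    have h2 : H.comap π ≠ ⊤ := by
      intro htop
      apply hH
      rw [eq_top_iff]
      intro x _
      obtain ⟨y, rfl⟩ := hπs x
      have : y ∈ H.comap π := by rw [htop]; trivial
      exact this
    have h3 := map_equiv_ne_top (Matrix.SpecialLinearGroup.toLin'_equiv (n := Fin n) (R := F)) h2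
    have h4 := Subgroup.index_map_equiv (H.comap π)
      (Matrix.SpecialLinearGroup.toLin'_equiv (n := Fin n) (R := F))
    have h5 := sl_min_index (F := F) (V := Fin n → F) (by rw [hfr]; exact hn)
      (by
        rintro ⟨h6, h7⟩
        rw [hfr] at h6
        rw [Nat.card_eq_fintype_card, hF] at h7
        exact hexc ⟨h6, h7⟩) _ h3
    rw [h4, h1] at h5
    exact h5
  · have hv : (fun _ : Fin n => (1 : F)) ≠ 0 := by
      intro h
      have := congrFun h ⟨0, by omega⟩
      simp at this
    refine ⟨MulAction.stabilizer (Matrix.ProjectiveSpecialLinearGroup (Fin n) F)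
      (Projectivization.mk F (fun _ : Fin n => (1 : F)) hv), ?_⟩
    rw [MulAction.index_stabilizer_of_transitive, hNcard]

end PSL

end Cfsg.Agent.Helper60.MinIdx
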