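import Mathlib
import Cfsg.Agent.Helper60.SLMin
import Cfsg.Agent.Helper90.MDDefs

/-!
# Matrix side of the minimal-degree descent for `SL(V)` (S2332): definitions

`Tsub φ W = {tv φ a : a ∈ W, φ a = 0}` (groups of transvections with a common axis), the basic
conjugation formula and closure properties of the stabiliser sets of `Helper90.MDDefs`.
-/

set_option autoImplicit false

namespace Cfsg.Agent.Helper60.MD

open Module Cfsg.Agent.Helper60.MinIdx Cfsg.Agent.Helper90.MD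

variable {F V : Type*} [Field F] [AddCommGroup V] [Module F V]

/-- The group of the transvections `tv φ a` with `a ∈ W`, `φ a = 0`. -/
def Tsub (φ : Dual F V) (W : Submodule F V) : Subgroup (SpecialLinearGroup F V) where
  carrier := {x | ∃ a ∈ W, φ a = 0 ∧ x = tv φ a}
  mul_mem' := by
    rintro x y ⟨a, haW, ha, rfl⟩ ⟨b, hbW, hb, rfl⟩
    exact ⟨a + b, W.add_mem haW hbW, by rw [map_add, ha, hb, add_zero], tv_add_left ha hb⟩
  one_mem' := ⟨0, W.zero_mem, map_zero φ, (tv_zero_right φ).symm⟩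
  inv_mem' := by
    rintro x ⟨a, haW, ha, rfl⟩
    exact ⟨-a, W.neg_mem haW, by rw [map_neg, ha, neg_zero], tv_inv φ a⟩

theorem mem_Tsub {φ : Dual F V} {W : Submodule F V} {x : SpecialLinearGroup F V} :
    x ∈ Tsub φ W ↔ ∃ a ∈ W, φ a = 0 ∧ x = tv φ a := Iff.rfl

theorem tv_mem_Tsub {φ : Dual F V} {W : Submodule F V} {a : V} (haW : a ∈ W) (ha : φ a = 0) :
    tv φ a ∈ Tsub φ W := ⟨a, haW, ha, rfl⟩

theorem Tsub_comm (φ : Dual F V) (W : Submodule F V) :
    ∀ x ∈ Tsub φ W, ∀ y ∈ Tsub φ W, x * y = y * x := by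
  rintro x ⟨a, -, ha, rfl⟩ y ⟨b, -, hb, rfl⟩
  rw [tv_add_left ha hb, tv_add_left hb ha, add_comm]

theorem Tsub_mono (φ : Dual F V) {W W' : Submodule F V} (h : W ≤ W') : Tsub φ W ≤ Tsub φ W' := by
  rintro x ⟨a, haW, ha, rfl⟩
  exact ⟨a, h haW, ha, rfl⟩

/-- `cg` of a transvection. -/
theorem cg_tv {ψ : Dual F V} {b : V} (hψb : ψ b = 0) (φ : Dual F V) :
    cg (tv ψ b) φ = φ - φ b • ψ := by
  ext x
  rw [cg_apply, tv_inv, tv_apply (by rw [map_neg, hψb, neg_zero])]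
  simp only [map_add, map_smul, map_neg, smul_eq_mul, LinearMap.sub_apply, LinearMap.smul_apply]
  ring

/-- Conjugation of `tv φ a` by a transvection whose centre lies on the axis of `φ`. -/
theorem tv_conj_tv {φ ψ : Dual F V} {b : V} (hφb : φ b = 0) (hψb : ψ b = 0) (a : V) :
    tv ψ b * tv φ a * (tv ψ b)⁻¹ = tv φ (a + ψ a • b) := by
  rw [tv_conj, cg_tv hψb, hφb, zero_smul, sub_zero, tv_apply hψb]

theorem tv_conj_tv' {φ ψ : Dual F V} {b : V} (hφb : φ b = 0) (hψb : ψ b = 0) (a : V) :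
    (tv ψ b)⁻¹ * tv φ a * tv ψ b = tv φ (a - ψ a • b) := by
  have h := tv_conj_tv (φ := φ) (ψ := ψ) (b := -b) (by rw [map_neg, hφb, neg_zero])
    (by rw [map_neg, hψb, neg_zero]) a
  rw [← tv_inv, inv_inv] at h
  rw [h, smul_neg, sub_eq_add_neg]

/-- A transvection with centre in `W ⊓ ker φ` normalises `Tsub φ W`. -/
theorem normBy_tv_Tsub {φ ψ : Dual F V} {b : V} {W : Submodule F V} (hφb : φ b = 0)
    (hbW : b ∈ W) : NormBy (tv ψ b) (Tsub φ W) := by
  by_cases hψb : ψ b = 0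
  · constructor
    · rintro x ⟨a, haW, ha, rfl⟩
      rw [tv_conj_tv hφb hψb]
      exact ⟨_, W.add_mem haW (W.smul_mem _ hbW), by
        rw [map_add, map_smul, ha, hφb, smul_zero, add_zero], rfl⟩
    · rintro x ⟨a, haW, ha, rfl⟩
      rw [tv_conj_tv' hφb hψb]
      exact ⟨_, W.sub_mem haW (W.smul_mem _ hbW), by
        rw [map_sub, map_smul, ha, hφb, smul_zero, sub_zero], rfl⟩
  · rw [tv_of_ne hψb]
    exact ⟨fun x hx => by simpa using hx, fun x hx => by simpa using hx⟩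

section Stab

variable {G : Type*} [Group G]

theorem normBy_mul {g h : G} {A : Subgroup G} (hg : NormBy g A) (hh : NormBy h A) :
    NormBy (g * h) A := (normSub A).mul_mem hg hh

theorem normBy_inv {g : G} {A : Subgroup G} (hg : NormBy g A) : NormBy g⁻¹ A :=
  (normSub A).inv_mem hg

theorem stabSet_mul {N A : Subgroup G} {lam : G → ℂ} {s t : G} (hs : s ∈ stabSet N A lam)
    (ht : t ∈ stabSet N A lam) : s * t ∈ stabSet N A lam := by
  obtain ⟨hsN, hsA, hsl⟩ := hs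
  obtain ⟨htN, htA, htl⟩ := ht
  refine ⟨N.mul_mem hsN htN, normBy_mul hsA htA, fun x hx => ?_⟩
  have h1 : s * t * x * (s * t)⁻¹ = s * (t * x * t⁻¹) * s⁻¹ := by group
  rw [h1, hsl _ (htA.1 x hx), htl x hx]

theorem stabSet_inv {N A : Subgroup G} {lam : G → ℂ} {s : G} (hs : s ∈ stabSet N A lam) :
    s⁻¹ ∈ stabSet N A lam := by
  obtain ⟨hsN, hsA, hsl⟩ := hs
  refine ⟨N.inv_mem hsN, normBy_inv hsA, fun x hx => ?_⟩
  have h1 := hsl (s⁻¹ * x * s) (hsA.2 x hx)
  have h2 : s * (s⁻¹ * x * s) * s⁻¹ = x := by group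
  rw [h2] at h1
  rw [inv_inv]
  exact h1.symm

/-- A commutator of two elements of the stabiliser set lies in `commSet`. -/
theorem comm_mem_commSet {S : Set G} {s t : G} (hs : s ∈ S) (ht : t ∈ S) :
    s * t * s⁻¹ * t⁻¹ ∈ commSet S :=
  Subgroup.subset_closure ⟨s, hs, t, ht, rfl⟩

end Stab

end Cfsg.Agent.Helper60.MD
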