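import Mathlib
import Cfsg.Agent.Helper60.MDMat
import Cfsg.Agent.Helper90.MDSLDefs

/-!
# Matrix side of the minimal-degree descent for `SL(V)` (S2332): tools

Separation of independent covectors, normalising `Qsub φ`, transvections in the stabiliser of a
character of `Qsub φ`, the commutator identity, the rank-one torus `tor`, and the "kernel of a
character has codimension at most one" lemma `exists_kl`.
-/

set_option autoImplicit false

namespace Cfsg.Agent.Helper60.MD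

open Module Cfsg.Agent.Helper60.MinIdx Cfsg.Agent.Helper90.MD

section
variable {F V0 : Type*} [Field F] [AddCommGroup V0] [Module F V0]

/-- Separation: `f` is not a multiple of `g`. -/
theorem sep2 {f g : Dual F V0} (hf : ∀ α : F, f ≠ α • g) : ∃ e, f e = 1 ∧ g e = 0 := by
  by_contra hcon
  have h0 : ∀ e, g e = 0 → f e = 0 := by
    intro e he
    by_contra hfe
    exact hcon ⟨(f e)⁻¹ • e, by rw [map_smul, smul_eq_mul, inv_mul_cancel₀ hfe],
      by rw [map_smul, he, smul_zero]⟩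
  by_cases hg : g = 0
  · apply hf 0
    rw [zero_smul]
    ext v
    exact h0 v (by rw [hg]; rfl)
  · obtain ⟨x, hx⟩ : ∃ x, g x ≠ 0 := by
      by_contra h
      exact hg (LinearMap.ext fun y => by_contra fun hy => h ⟨y, hy⟩)
    apply hf (f x / g x)
    ext v
    have h1 := h0 (v - (g v / g x) • x)
      (by rw [map_sub, map_smul, smul_eq_mul, div_mul_cancel₀ _ hx, sub_self])
    rw [map_sub, map_smul, smul_eq_mul, sub_eq_zero] at h1
    rw [LinearMap.smul_apply, smul_eq_mul, h1]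
    field_simp

/-- Separation: `f` is not in the span of `g`, `h`. -/
theorem sep3 {f g h : Dual F V0} (hf : ∀ α β : F, f ≠ α • g + β • h) :
    ∃ e, f e = 1 ∧ g e = 0 ∧ h e = 0 := by
  by_contra hcon
  have h0 : ∀ e, g e = 0 → h e = 0 → f e = 0 := by
    intro e he he'
    by_contra hfe
    exact hcon ⟨(f e)⁻¹ • e, by rw [map_smul, smul_eq_mul, inv_mul_cancel₀ hfe],
      by rw [map_smul, he, smul_zero], by rw [map_smul, he', smul_zero]⟩
  have h1 : f ∈ Submodule.span F (Set.range ![g, h]) := by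
    apply mem_span_of_iInf_ker_le_ker
    intro x hx
    rw [Submodule.mem_iInf] at hx
    exact LinearMap.mem_ker.mpr (h0 x (LinearMap.mem_ker.mp (hx 0)) (LinearMap.mem_ker.mp (hx 1)))
  obtain ⟨c, hc⟩ := (Submodule.mem_span_range_iff_exists_fun F).mp h1
  rw [Fin.sum_univ_two] at hc
  exact hf (c 0) (c 1) hc.symm

theorem indep2_sep {f g : Dual F V0} (hli : LinearIndependent F ![f, g]) :
    (∃ e, f e = 1 ∧ g e = 0) ∧ (∃ e, f e = 0 ∧ g e = 1) := by
  rw [LinearIndependent.pair_iff] at hli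
  refine ⟨?_, ?_⟩
  · apply sep2
    intro α hE
    have h1 := (hli 1 (-α) (by rw [hE]; module)).1
    exact one_ne_zero h1
  · obtain ⟨e, h1, h2⟩ := sep2 (f := g) (g := f) (by
      intro α hE
      have h1 := (hli (-α) 1 (by rw [hE]; module)).2
      exact one_ne_zero h1)
    exact ⟨e, h2, h1⟩

theorem indep3_sep {f g h : Dual F V0} (hli : LinearIndependent F ![f, g, h]) :
    (∃ e, f e = 1 ∧ g e = 0 ∧ h e = 0) ∧ (∃ e, f e = 0 ∧ g e = 1 ∧ h e = 0) ∧
      (∃ e, f e = 0 ∧ g e = 0 ∧ h e = 1) := by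
  rw [Fintype.linearIndependent_iff] at hli
  refine ⟨?_, ?_, ?_⟩
  · apply sep3
    intro α β hE
    have hsum : ∑ i, (![1, -α, -β] : Fin 3 → F) i • (![f, g, h] : Fin 3 → Dual F V0) i = 0 := by
      rw [Fin.sum_univ_three]
      show (1 : F) • f + (-α) • g + (-β) • h = 0
      rw [hE]; module
    have h1 : (1 : F) = 0 := hli _ hsum 0
    exact one_ne_zero h1
  · obtain ⟨e, h1, h2, h3⟩ := sep3 (f := g) (g := f) (h := h) (by
      intro α β hE
      have hsum : ∑ i, (![-α, 1, -β] : Fin 3 → F) i • (![f, g, h] : Fin 3 → Dual F V0) i = 0 := by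
        rw [Fin.sum_univ_three]
        show (-α) • f + (1 : F) • g + (-β) • h = 0
        rw [hE]; module
      have h1 : (1 : F) = 0 := hli _ hsum 1
      exact one_ne_zero h1)
    exact ⟨e, h2, h1, h3⟩
  · obtain ⟨e, h1, h2, h3⟩ := sep3 (f := h) (g := f) (h := g) (by
      intro α β hE
      have hsum : ∑ i, (![-α, -β, 1] : Fin 3 → F) i • (![f, g, h] : Fin 3 → Dual F V0) i = 0 := by
        rw [Fin.sum_univ_three]
        show (-α) • f + (-β) • g + (1 : F) • h = 0
        rw [hE]; module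
      have h1 : (1 : F) = 0 := hli _ hsum 2
      exact one_ne_zero h1)
    exact ⟨e, h2, h3, h1⟩

/-- `g` normalises `Qsub φ` when it scales `φ`. -/
theorem normBy_qsub_of_cg {g : SpecialLinearGroup F V0} {φ : Dual F V0} {μ : F} (hμ : μ ≠ 0)
    (h : cg g φ = μ • φ) : NormBy g (Qsub φ) := by
  have key : ∀ (g : SpecialLinearGroup F V0) (μ : F), μ ≠ 0 → cg g φ = μ • φ →
      ∀ x ∈ Qsub φ, g * x * g⁻¹ ∈ Qsub φ := by
    intro g μ hμ h x hx
    obtain ⟨a, ha, rfl⟩ := hx
    have h1 : φ (g a) = 0 := by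
      have h2 := congrArg (fun f : Dual F V0 => f (g a)) h
      simp only [cg_apply, sl_inv_apply_apply, LinearMap.smul_apply, smul_eq_mul] at h2
      rw [ha] at h2
      rcases mul_eq_zero.mp h2.symm with h3 | h3
      · exact absurd h3 hμ
      · exact h3
    refine ⟨μ • g a, by rw [map_smul, h1, smul_zero], ?_⟩
    rw [tv_conj, h, tv_smul]
  refine ⟨key g μ hμ h, fun x hx => ?_⟩
  have h' : cg g⁻¹ φ = μ⁻¹ • φ := by
    have h2 := cg_inv_cg g φ
    rw [h, cg_smul] at h2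
    calc cg g⁻¹ φ = μ⁻¹ • (μ • cg g⁻¹ φ) := by rw [smul_smul, inv_mul_cancel₀ hμ, one_smul]
      _ = μ⁻¹ • φ := by rw [h2]
  have h3 := key g⁻¹ μ⁻¹ (inv_ne_zero hμ) h' x hx
  rwa [inv_inv] at h3

/-- A transvection whose centre is killed by the character lies in the stabiliser set. -/
theorem tv_mem_stabSet {φ η : Dual F V0} {c : V0} {lam : SpecialLinearGroup F V0 → ℂ}
    (hlam : IsCharOn (Qsub φ) lam) (hφc : φ c = 0) (hηc : η c = 0)
    (hc : ∀ t : F, lam (tv φ (t • c)) = 1) : tv η c ∈ stabSet ⊤ (Qsub φ) lam := by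
  refine ⟨Subgroup.mem_top _, normBy_qsub_of_cg (μ := 1) one_ne_zero
    (by rw [one_smul, cg_tv hηc, hφc, zero_smul, sub_zero]), ?_⟩
  rintro x ⟨a, ha, rfl⟩
  have h0 : φ (η a • c) = 0 := by rw [map_smul, hφc, smul_zero]
  rw [tv_conj_tv hφc hηc, ← tv_add_left ha h0, hlam.2 _ ⟨a, ha, rfl⟩ _ ⟨_, h0, rfl⟩, hc, mul_one]

/-- The commutator identity. -/
theorem comm_tv {η ψ : Dual F V0} {b c : V0} (hηb : η b = 0) (hηc : η c = 1) (hψb : ψ b = 0)
    (hψc : ψ c = 0) : tv η b * tv ψ c * (tv η b)⁻¹ * (tv ψ c)⁻¹ = tv ψ b := by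
  rw [tv_conj, cg_tv hηb, hψb, zero_smul, sub_zero, tv_apply hηb, hηc, one_smul, tv_inv,
    tv_add_left (by rw [map_add, hψc, hψb, add_zero]) (by rw [map_neg, hψc, neg_zero])]
  congr 1
  abel

/-- The torus element `diag(t, t⁻¹)` on the plane `⟨u, w⟩` with coordinates `υ`, `ω`, as a
product of four transvections. -/
noncomputable def tor (υ ω : Dual F V0) (u w : V0) (t : F) : SpecialLinearGroup F V0 :=
  tv ((-t) • ω) u * tv ((t⁻¹ - 1) • υ) w * tv ω u * tv ((t - 1) • υ) w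

theorem tor_apply {υ ω : Dual F V0} {u w : V0} (hυu : υ u = 1) (hυw : υ w = 0) (hωu : ω u = 0)
    (hωw : ω w = 1) {t : F} (ht : t ≠ 0) (v : V0) :
    tor υ ω u w t v = v + ((t - 1) * υ v) • u + ((t⁻¹ - 1) * ω v) • w := by
  unfold tor
  have h1 : ((-t) • ω) u = 0 := by rw [LinearMap.smul_apply, hωu, smul_zero]
  have h2 : ((t⁻¹ - 1) • υ) w = 0 := by rw [LinearMap.smul_apply, hυw, smul_zero]
  have h3 : ((t - 1) • υ) w = 0 := by rw [LinearMap.smul_apply, hυw, smul_zero]
  rw [sl_mul_apply, sl_mul_apply, sl_mul_apply, tv_apply h3, tv_apply hωu, tv_apply h2,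
    tv_apply h1]
  simp only [map_add, map_smul, LinearMap.smul_apply, smul_eq_mul, hυu, hυw, hωu, hωw]
  match_scalars <;> field_simp <;> ring

theorem tor_inv_apply {υ ω : Dual F V0} {u w : V0} (hυu : υ u = 1) (hυw : υ w = 0)
    (hωu : ω u = 0) (hωw : ω w = 1) {t : F} (ht : t ≠ 0) (v : V0) :
    (tor υ ω u w t)⁻¹ v = v + ((t⁻¹ - 1) * υ v) • u + ((t - 1) * ω v) • w := by
  have h1 : tor υ ω u w t (v + ((t⁻¹ - 1) * υ v) • u + ((t - 1) * ω v) • w) = v := by
    rw [tor_apply hυu hυw hωu hωw ht]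
    simp only [map_add, map_smul, smul_eq_mul, hυu, hυw, hωu, hωw]
    match_scalars <;> field_simp <;> ring
  calc (tor υ ω u w t)⁻¹ v
      = (tor υ ω u w t)⁻¹
          (tor υ ω u w t (v + ((t⁻¹ - 1) * υ v) • u + ((t - 1) * ω v) • w)) := by rw [h1]
    _ = _ := sl_inv_apply_apply _ _

theorem tor_cg {υ ω : Dual F V0} {u w : V0} (hυu : υ u = 1) (hυw : υ w = 0)
    (hωu : ω u = 0) (hωw : ω w = 1) {t : F} (ht : t ≠ 0) (f : Dual F V0) :
    cg (tor υ ω u w t) f = f + ((t⁻¹ - 1) * f u) • υ + ((t - 1) * f w) • ω := by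
  ext v
  rw [cg_apply, tor_inv_apply hυu hυw hωu hωw ht]
  simp only [map_add, map_smul, smul_eq_mul, LinearMap.add_apply, LinearMap.smul_apply]
  ring

theorem tor_mem_stabSet {φ υ ω : Dual F V0} {u w : V0} {lam : SpecialLinearGroup F V0 → ℂ}
    (hlam : IsCharOn (Qsub φ) lam) (hυw : υ w = 0) (hωu : ω u = 0) (hφu : φ u = 0)
    (hφw : φ w = 0) (hu : ∀ t : F, lam (tv φ (t • u)) = 1)
    (hw : ∀ t : F, lam (tv φ (t • w)) = 1) (t : F) :
    tor υ ω u w t ∈ stabSet ⊤ (Qsub φ) lam := by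
  unfold tor
  refine stabSet_mul (stabSet_mul (stabSet_mul ?_ ?_) ?_) ?_
  · exact tv_mem_stabSet hlam hφu (by rw [LinearMap.smul_apply, hωu, smul_zero]) hu
  · exact tv_mem_stabSet hlam hφw (by rw [LinearMap.smul_apply, hυw, smul_zero]) hw
  · exact tv_mem_stabSet hlam hφu hωu hu
  · exact tv_mem_stabSet hlam hφw (by rw [LinearMap.smul_apply, hυw, smul_zero]) hw

/-- The set of `c` with `lam (tv φ (t • c)) = 1` for all `t` is closed under scaling. -/
theorem kl_smul {φ : Dual F V0} {lam : SpecialLinearGroup F V0 → ℂ} {c : V0}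
    (hc : ∀ t : F, lam (tv φ (t • c)) = 1) (s : F) : ∀ t : F, lam (tv φ (t • s • c)) = 1 := by
  intro t
  rw [smul_smul]
  exact hc _

end

section Fin
variable {F V0 : Type*} [Field F] [Finite F] [AddCommGroup V0] [Module F V0]

/-- The kernel `{a ∈ ker φ | ∀ t, lam (tv φ (t • a)) = 1}` of a character of `Qsub φ` has
codimension at most one in `ker φ`. -/
theorem exists_kl {φ : Dual F V0} {lam : SpecialLinearGroup F V0 → ℂ}
    (hlam : IsCharOn (Qsub φ) lam) {a x : V0} (ha : φ a = 0) (hx : φ x = 0)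
    (hna : ¬ ∀ t : F, lam (tv φ (t • a)) = 1) :
    ∃ d : F, ∀ t : F, lam (tv φ (t • (x - d • a))) = 1 := by
  classical
  have := Fintype.ofFinite F
  have hz : ∀ (y : V0), φ y = 0 → ∀ t : F, φ (t • y) = 0 := by
    intro y hy t
    rw [map_smul, hy, smul_zero]
  let χ : ∀ y : V0, φ y = 0 → AddChar F ℂ := fun y hy =>
    { toFun := fun t => lam (tv φ (t • y))
      map_zero_eq_one' := by rw [zero_smul, tv_zero_right]; exact hlam.1
      map_add_eq_mul' := fun s t => by
        rw [add_smul, ← tv_add_left (hz y hy s) (hz y hy t)]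
        exact hlam.2 _ ⟨_, hz y hy s, rfl⟩ _ ⟨_, hz y hy t, rfl⟩ }
  have hχ : ∀ y hy t, χ y hy t = lam (tv φ (t • y)) := fun y hy t => rfl
  have hne : χ a ha ≠ 1 := by
    intro h
    apply hna
    intro t
    rw [← hχ a ha t, h]
    rfl
  have hprim := AddChar.IsPrimitive.of_ne_one hne
  have hinj := AddChar.to_mulShift_inj_of_isPrimitive hprim
  have hsurj : Function.Surjective (χ a ha).mulShift := by
    have hb := (Fintype.bijective_iff_injective_and_card _).mpr ⟨hinj, (AddChar.card_eq).symm⟩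
    exact hb.2
  obtain ⟨d, hd⟩ := hsurj (χ x hx)
  refine ⟨d, fun t => ?_⟩
  have h1 : lam (tv φ (t • x)) = lam (tv φ ((d * t) • a)) := by
    have h2 := congrArg (fun ψ : AddChar F ℂ => ψ t) hd
    simp only [AddChar.mulShift_apply] at h2
    exact h2.symm
  have h2 : t • (x - d • a) = t • x + (-(d * t)) • a := by
    rw [smul_sub, smul_smul, neg_smul, sub_eq_add_neg, mul_comm]
  rw [h2, ← tv_add_left (hz x hx t) (hz a ha _),
    hlam.2 _ ⟨_, hz x hx t, rfl⟩ _ ⟨_, hz a ha _, rfl⟩, h1,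
    ← hlam.2 _ ⟨_, hz a ha _, rfl⟩ _ ⟨_, hz a ha _, rfl⟩,
    tv_add_left (hz a ha _) (hz a ha _), ← add_smul, add_neg_cancel, zero_smul, tv_zero_right]
  exact hlam.1

end Fin

end Cfsg.Agent.Helper60.MD
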