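import Mathlib
import Cfsg.Agent.Helper60.MDTools
import Cfsg.Agent.Helper66.MDMSNORM

/-!
# S2332, piece MSE4: property (T) at level two via a torus element (any `n`, `q ≥ 3`)
-/

set_option autoImplicit false

namespace Cfsg.Agent.Helper60

open Module Cfsg.Agent.Helper90.MD Cfsg.Agent.Helper60.MinIdx Cfsg.Agent.Helper60.MD

section
variable {F V0 : Type*} [Field F] [Finite F] [AddCommGroup V0] [Module F V0] [Module.Finite F V0]

theorem md_exists_ne_zero_one (hq : 3 ≤ Nat.card F) : ∃ t : F, t ≠ 0 ∧ t ≠ 1 := by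
  classical
  have := Fintype.ofFinite F
  by_contra hcon
  have h1 : (Finset.univ : Finset F) ⊆ {0, 1} := by
    intro x _
    by_contra hx
    simp only [Finset.mem_insert, Finset.mem_singleton, not_or] at hx
    exact hcon ⟨x, hx.1, hx.2⟩
  have h2 := Finset.card_le_card h1
  rw [Finset.card_univ, ← Nat.card_eq_fintype_card] at h2
  have h3 : ({0, 1} : Finset F).card ≤ 2 := Finset.card_le_two
  omega

/-- Property (T) at level two for `q ≥ 3` (any dimension). -/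
theorem propT1_of_three_le (hq : 3 ≤ Nat.card F) {φ ψ ψ' : Dual F V0} {b : V0}
    (hli : LinearIndependent F ![φ, ψ, ψ']) (hφb : φ b = 0) (hψb : ψ b = 0) (hψ'b : ψ' b = 0)
    (hb : b ≠ 0) :
    PropT (normSub (Qsub φ)) (Xsub φ ψ) (csub (Xsub φ ψ) (tv ψ' b)) (tv ψ' b) := by
  have hψ : ψ ≠ 0 := hli.ne_zero 1
  obtain ⟨⟨e₀, hφe, hψe, hψ'e⟩, -, -⟩ := indep3_sep hli
  have hbe : b ∉ Submodule.span F {e₀} := by
    intro h
    obtain ⟨β, rfl⟩ := Submodule.mem_span_singleton.mp h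
    rw [map_smul, hφe, smul_eq_mul, mul_one] at hφb
    rw [hφb, zero_smul] at hb
    exact hb rfl
  obtain ⟨υ, hυe, hυb⟩ := exists_dual_zero_one hbe
  obtain ⟨t, ht0, ht1⟩ := md_exists_ne_zero_one hq
  intro lam hlam _ htriv
  have hK : ∀ c : F, lam (tv ψ (c • b)) = 1 := by
    intro c
    apply htriv
    refine ⟨⟨c • b, by rw [map_smul, hφb, smul_zero], by rw [map_smul, hψb, smul_zero], rfl⟩, ?_⟩
    exact (Cfsg.Agent.Helper66.msnorm_comm_iff hψ hψ'b hψb hb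
      (by rw [map_smul, hψb, smul_zero])).mpr (by rw [map_smul, hψ'b, smul_zero])
  have hadd : ∀ (b' : V0) (c : F), φ b' = 0 → ψ b' = 0 →
      lam (tv ψ (b' + c • b)) = lam (tv ψ b') := by
    intro b' c h1 h2
    have h3 : ψ (c • b) = 0 := by rw [map_smul, hψb, smul_zero]
    rw [← tv_add_left h2 h3, hlam.2 _ ⟨b', h1, h2, rfl⟩ _
      ⟨c • b, by rw [map_smul, hφb, smul_zero], h3, rfl⟩, hK, mul_one]
  set s := tor υ φ b e₀ t with hs
  have hcgφ : cg s φ = t • φ := by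
    rw [hs, tor_cg hυb hυe hφb hφe ht0, hφb, hφe, mul_zero, zero_smul, add_zero, mul_one]
    module
  have hcgψ : cg s ψ = ψ := by
    rw [hs, tor_cg hυb hυe hφb hφe ht0, hψb, hψe]
    simp
  have hcgψ' : cg s ψ' = ψ' := by
    rw [hs, tor_cg hυb hυe hφb hφe ht0, hψ'b, hψ'e]
    simp
  have hsK : ∀ b' : V0, φ b' = 0 → s b' = b' + ((t - 1) * υ b') • b := by
    intro b' h1
    rw [hs, tor_apply hυb hυe hφb hφe ht0, h1, mul_zero, zero_smul, add_zero]
  have hsK' : ∀ b' : V0, φ b' = 0 → s⁻¹ b' = b' + ((t⁻¹ - 1) * υ b') • b := by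
    intro b' h1
    rw [hs, tor_inv_apply hυb hυe hφb hφe ht0, h1, mul_zero, zero_smul, add_zero]
  have hcgψi : cg s⁻¹ ψ = ψ := by
    have h1 := cg_inv_cg s ψ
    rwa [hcgψ] at h1
  have hs_mem : s ∈ stabSet (normSub (Qsub φ)) (Xsub φ ψ) lam := by
    refine ⟨normBy_qsub_of_cg ht0 hcgφ, ⟨?_, ?_⟩, ?_⟩
    · rintro x ⟨b', h1, h2, rfl⟩
      rw [tv_conj, hcgψ, hsK b' h1]
      exact ⟨_, by rw [map_add, map_smul, h1, hφb, smul_zero, add_zero],
        by rw [map_add, map_smul, h2, hψb, smul_zero, add_zero], rfl⟩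
    · rintro x ⟨b', h1, h2, rfl⟩
      have h3 := tv_conj s⁻¹ ψ b'
      rw [inv_inv] at h3
      rw [h3, hcgψi, hsK' b' h1]
      exact ⟨_, by rw [map_add, map_smul, h1, hφb, smul_zero, add_zero],
        by rw [map_add, map_smul, h2, hψb, smul_zero, add_zero], rfl⟩
    · rintro x ⟨b', h1, h2, rfl⟩
      rw [tv_conj, hcgψ, hsK b' h1]
      exact hadd b' _ h1 h2
  have ht1' : t - 1 ≠ 0 := sub_ne_zero.mpr ht1
  set y : F := (t - 1)⁻¹ with hy
  have h1 : φ (y • b) = 0 := by rw [map_smul, hφb, smul_zero]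
  have h2 : ψ (y • b) = 0 := by rw [map_smul, hψb, smul_zero]
  have h3 : ψ' (y • b) = 0 := by rw [map_smul, hψ'b, smul_zero]
  have hg_mem : tv ψ' (y • b) ∈ stabSet (normSub (Qsub φ)) (Xsub φ ψ) lam := by
    refine ⟨normBy_qsub_of_cg (μ := 1) one_ne_zero
      (by rw [one_smul, cg_tv h3, h1, zero_smul, sub_zero]),
      Cfsg.Agent.Helper66.tv_normBy_xsub h1 h2 h3, ?_⟩
    rintro x ⟨b', h4, h5, rfl⟩
    rw [tv_conj_tv h2 h3, smul_smul]
    exact hadd b' _ h4 h5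
  have hcomm : s * tv ψ' (y • b) * s⁻¹ * (tv ψ' (y • b))⁻¹ = tv ψ' b := by
    have h4 : s (y • b) = (y * t) • b := by
      rw [hsK _ h1, map_smul, hυb, smul_eq_mul, mul_one]
      module
    have h5 : y * t - y = 1 := by
      rw [hy]
      field_simp
    rw [tv_conj, hcgψ', h4, tv_inv,
      tv_add_left (by rw [map_smul, hψ'b, smul_zero]) (by rw [map_neg, h3, neg_zero])]
    congr 1
    calc (y * t) • b + -(y • b) = (y * t - y) • b := by rw [sub_smul, sub_eq_add_neg]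
      _ = b := by rw [h5, one_smul]
  rw [← hcomm]
  exact comm_mem_commSet hs_mem hg_mem

theorem propT1_four (hn : finrank F V0 = 4) (hq : 3 ≤ Nat.card F) {φ ψ ψ' : Dual F V0} {b : V0}
    (hli : LinearIndependent F ![φ, ψ, ψ']) (hφb : φ b = 0) (hψb : ψ b = 0) (hψ'b : ψ' b = 0)
    (hb : b ≠ 0) :
    PropT (normSub (Qsub φ)) (Xsub φ ψ) (csub (Xsub φ ψ) (tv ψ' b)) (tv ψ' b) :=
  propT1_of_three_le hq hli hφb hψb hψ'b hb

end

end Cfsg.Agent.Helper60
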