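import Mathlib
import Cfsg.Agent.Helper60.MDTools
import Cfsg.Agent.Helper66.MDMSNORM

/-!
# S2332, piece MSU: the elements `u = x * tv ψ' b`, `x ∈ C ∖ B`, at level two
-/

set_option autoImplicit false

namespace Cfsg.Agent.Helper60

open Module Cfsg.Agent.Helper90.MD Cfsg.Agent.Helper60.MinIdx Cfsg.Agent.Helper60.MD

section
variable {F V0 : Type*} [Field F] [AddCommGroup V0] [Module F V0]

theorem msu_apply {ψ ψ' : Dual F V0} {b b₀ : V0} (hψb : ψ b = 0) (hψb₀ : ψ b₀ = 0)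
    (hψ'b : ψ' b = 0) (a : V0) :
    (tv ψ b₀ * tv ψ' b) a = a + ψ' a • b + ψ a • b₀ := by
  rw [sl_mul_apply, tv_apply hψ'b, tv_apply hψb₀, map_add, map_smul, hψb, smul_zero, add_zero]

theorem msu_cg {φ ψ ψ' : Dual F V0} {b b₀ : V0} (hφb : φ b = 0) (hφb₀ : φ b₀ = 0)
    (hψb₀ : ψ b₀ = 0) (hψ'b : ψ' b = 0) : cg (tv ψ b₀ * tv ψ' b) φ = φ := by
  rw [cg_mul, cg_tv hψ'b, hφb, zero_smul, sub_zero, cg_tv hψb₀, hφb₀, zero_smul, sub_zero]

theorem msu_conj {φ ψ ψ' : Dual F V0} {b b₀ : V0} (hφb : φ b = 0) (hφb₀ : φ b₀ = 0)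
    (hψb : ψ b = 0) (hψb₀ : ψ b₀ = 0) (hψ'b : ψ' b = 0) (a : V0) :
    (tv ψ b₀ * tv ψ' b) * tv φ a * (tv ψ b₀ * tv ψ' b)⁻¹ = tv φ (a + ψ' a • b + ψ a • b₀) := by
  rw [tv_conj, msu_cg hφb hφb₀ hψb₀ hψ'b, msu_apply hψb hψb₀ hψ'b]

theorem msu_comm {φ ψ ψ' : Dual F V0} {b b₀ : V0} (hφb : φ b = 0) (hφb₀ : φ b₀ = 0)
    (hψb : ψ b = 0) (hψb₀ : ψ b₀ = 0) (hψ'b : ψ' b = 0) {a : V0} (ha : φ a = 0) :
    tv φ a * (tv ψ b₀ * tv ψ' b) * (tv φ a)⁻¹ * (tv ψ b₀ * tv ψ' b)⁻¹ =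
      tv φ (-(ψ' a • b + ψ a • b₀)) := by
  have h1 : tv φ a * (tv ψ b₀ * tv ψ' b) * (tv φ a)⁻¹ * (tv ψ b₀ * tv ψ' b)⁻¹ =
      tv φ a * ((tv ψ b₀ * tv ψ' b) * tv φ a * (tv ψ b₀ * tv ψ' b)⁻¹)⁻¹ := by group
  have h2 : φ (a + ψ' a • b + ψ a • b₀) = 0 := by
    rw [map_add, map_add, map_smul, map_smul, ha, hφb, hφb₀, smul_zero, smul_zero, add_zero,
      add_zero]
  rw [h1, msu_conj hφb hφb₀ hψb hψb₀ hψ'b, tv_inv, tv_add_left ha (by rw [map_neg, h2, neg_zero])]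
  congr 1
  abel

end

section
variable {F V0 : Type*} [Field F] [Finite F] [AddCommGroup V0] [Module F V0] [Module.Finite F V0]

theorem level2_u (hn : 5 ≤ finrank F V0) {φ ψ ψ' : Dual F V0} {b : V0}
    (hli : LinearIndependent F ![φ, ψ, ψ']) (hφb : φ b = 0) (hψb : ψ b = 0) (hψ'b : ψ' b = 0)
    (hb : b ≠ 0) (x : SpecialLinearGroup F V0) (hx : x ∈ csub (Xsub φ ψ) (tv ψ' b))
    (hxB : x ∉ bsub (Xsub φ ψ) (tv ψ' b)) :
    x ∈ Qsub ψ ∧ x ∉ bsub (Qsub ψ) (tv ψ' b) ∧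
      cent (Qsub φ) (x * tv ψ' b) = Nat.card F ^ (finrank F V0 - 3) ∧
      PropT ⊤ (Qsub φ) (bsub (Qsub φ) (x * tv ψ' b)) (x * tv ψ' b) := by
  have hφ : φ ≠ 0 := hli.ne_zero 0
  have hψ : ψ ≠ 0 := hli.ne_zero 1
  obtain ⟨-, ⟨c₁, hφc₁, hψc₁, hψ'c₁⟩, ⟨c₀, hφc₀, hψc₀, hψ'c₀⟩⟩ := indep3_sep hli
  obtain ⟨⟨b₀, hφb₀, hψb₀, rfl⟩, hcomm⟩ := hx
  have hψ'b₀ : ψ' b₀ = 0 :=
    (Cfsg.Agent.Helper66.msnorm_comm_iff hψ hψ'b hψb hb hψb₀).mp hcomm
  have hb₀ : b₀ ∉ Submodule.span F {b} := by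
    intro h
    obtain ⟨β, rfl⟩ := Submodule.mem_span_singleton.mp h
    apply hxB
    have h1 : ψ ((-β) • c₀) = 0 := by rw [map_smul, hψc₀, smul_zero]
    have h2 := Cfsg.Agent.Helper66.msnorm_comm_gen (ψ := ψ) (ψ' := ψ') (b := b)
      (c := (-β) • c₀) h1 hψb hψ'b
    have h3 : -(ψ' ((-β) • c₀) • b) = β • b := by
      rw [map_smul, hψ'c₀, smul_eq_mul, mul_one, neg_smul, neg_neg]
    rw [h3] at h2
    rw [← h2]
    exact Subgroup.subset_closure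
      ⟨tv ψ ((-β) • c₀), ⟨_, by rw [map_smul, hφc₀, smul_zero], h1, rfl⟩, rfl⟩
  have hb' : b ∉ Submodule.span F {b₀} := notMem_span_singleton_symm hb hb₀
  refine ⟨⟨b₀, hψb₀, rfl⟩, ?_, ?_, ?_⟩
  · intro hmem
    have key : ∀ z ∈ bsub (Qsub ψ) (tv ψ' b), ∃ t : F, z = tv ψ (t • b) := by
      intro z hz
      unfold bsub at hz
      induction hz using Subgroup.closure_induction with
      | mem z hz =>
        obtain ⟨y, ⟨a, ha, rfl⟩, rfl⟩ := hz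
        refine ⟨-(ψ' a), ?_⟩
        rw [Cfsg.Agent.Helper66.msnorm_comm_gen ha hψb hψ'b, neg_smul]
      | one => exact ⟨0, by rw [zero_smul, tv_zero_right]⟩
      | mul z w _ _ hz hw =>
        obtain ⟨t, rfl⟩ := hz
        obtain ⟨t', rfl⟩ := hw
        exact ⟨t + t', by
          rw [tv_add_left (by rw [map_smul, hψb, smul_zero]) (by rw [map_smul, hψb, smul_zero]),
            add_smul]⟩
      | inv z _ hz =>
        obtain ⟨t, rfl⟩ := hz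
        exact ⟨-t, by rw [tv_inv, neg_smul]⟩
    obtain ⟨t, ht⟩ := key _ hmem
    have h1 := tv_left_injective hψ hψb₀ (by rw [map_smul, hψb, smul_zero]) ht
    exact hb₀ (Submodule.mem_span_singleton.mpr ⟨t, h1.symm⟩)
  · have key : ∀ a : V0, φ a = 0 →
        ((tv ψ b₀ * tv ψ' b) * tv φ a = tv φ a * (tv ψ b₀ * tv ψ' b) ↔ ψ a = 0 ∧ ψ' a = 0) := by
      intro a ha
      rw [← mul_inv_eq_iff_eq_mul, msu_conj hφb hφb₀ hψb hψb₀ hψ'b]
      constructor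
      · intro h
        have h2 := tv_left_injective hφ (by
          rw [map_add, map_add, map_smul, map_smul, ha, hφb, hφb₀, smul_zero, smul_zero, add_zero,
            add_zero]) ha h
        have h3 : ψ' a • b + ψ a • b₀ = 0 := by
          have h4 : a + ψ' a • b + ψ a • b₀ = a + (ψ' a • b + ψ a • b₀) := by abel
          rw [h4] at h2
          exact add_eq_left.mp h2
        have h4 : ψ a = 0 := by
          by_contra h5
          apply hb₀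
          rw [Submodule.mem_span_singleton]
          refine ⟨-(ψ a)⁻¹ * ψ' a, ?_⟩
          have h6 : ψ a • b₀ = -(ψ' a • b) := eq_neg_of_add_eq_zero_right h3
          calc (-(ψ a)⁻¹ * ψ' a) • b = (ψ a)⁻¹ • (-(ψ' a • b)) := by
                rw [mul_smul, neg_smul, smul_neg]
            _ = (ψ a)⁻¹ • (ψ a • b₀) := by rw [h6]
            _ = b₀ := by rw [smul_smul, inv_mul_cancel₀ h5, one_smul]
        refine ⟨h4, ?_⟩
        rw [h4, zero_smul, add_zero] at h3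
        rcases smul_eq_zero.mp h3 with h5 | h5
        · exact h5
        · exact absurd h5 hb
      · rintro ⟨h1, h2⟩
        rw [h1, h2, zero_smul, zero_smul, add_zero, add_zero]
    unfold cent
    rw [← Cfsg.Agent.Helper66.msnorm_card3 hli]
    symm
    refine Nat.card_congr (Equiv.ofBijective
      (fun a : {a : V0 // (φ a = 0 ∧ ψ a = 0) ∧ ψ' a = 0} =>
        (⟨tv φ a.1, ⟨a.1, a.2.1.1, rfl⟩, (key a.1 a.2.1.1).mpr ⟨a.2.1.2, a.2.2⟩⟩ :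
          {z : SpecialLinearGroup F V0 // z ∈ Qsub φ ∧
            (tv ψ b₀ * tv ψ' b) * z = z * (tv ψ b₀ * tv ψ' b)})) ⟨?_, ?_⟩)
    · rintro ⟨a, ha⟩ ⟨a', ha'⟩ h
      have h1 : tv φ a = tv φ a' := congrArg Subtype.val h
      exact Subtype.ext (tv_left_injective hφ ha.1.1 ha'.1.1 h1)
    · rintro ⟨z, ⟨a, ha, rfl⟩, hz⟩
      have h1 := (key a ha).mp hz
      exact ⟨⟨a, ⟨ha, h1.1⟩, h1.2⟩, rfl⟩
  · intro lam hlam _ htriv
    have hbK : ∀ t : F, lam (tv φ (t • b)) = 1 := by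
      intro t
      apply htriv
      have ha : φ ((-t) • c₀) = 0 := by rw [map_smul, hφc₀, smul_zero]
      have h1 := msu_comm hφb hφb₀ hψb hψb₀ hψ'b ha
      have h2 : -(ψ' ((-t) • c₀) • b + ψ ((-t) • c₀) • b₀) = t • b := by
        rw [map_smul, map_smul, hψ'c₀, hψc₀, smul_zero, zero_smul, add_zero, smul_eq_mul, mul_one,
          neg_smul, neg_neg]
      rw [h2] at h1
      rw [← h1]
      exact Subgroup.subset_closure ⟨tv φ ((-t) • c₀), ⟨_, ha, rfl⟩, rfl⟩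
    have hb₀K : ∀ t : F, lam (tv φ (t • b₀)) = 1 := by
      intro t
      apply htriv
      have ha : φ ((-t) • c₁) = 0 := by rw [map_smul, hφc₁, smul_zero]
      have h1 := msu_comm hφb hφb₀ hψb hψb₀ hψ'b ha
      have h2 : -(ψ' ((-t) • c₁) • b + ψ ((-t) • c₁) • b₀) = t • b₀ := by
        rw [map_smul, map_smul, hψ'c₁, hψc₁, smul_zero, zero_smul, zero_add, smul_eq_mul, mul_one,
          neg_smul, neg_neg]
      rw [h2] at h1
      rw [← h1]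
      exact Subgroup.subset_closure ⟨tv φ ((-t) • c₁), ⟨_, ha, rfl⟩, rfl⟩
    obtain ⟨η₁, hη₁b, hη₁b₀⟩ := exists_dual_zero_one hb₀
    obtain ⟨η₂, hη₂b₀, hη₂b⟩ := exists_dual_zero_one hb'
    have hc1 := comm_tv hη₁b hη₁b₀ hψ'b hψ'b₀
    have hc2 := comm_tv hη₂b₀ hη₂b hψb₀ hψb
    have hs1 := tv_mem_stabSet hlam hφb hη₁b hbK
    have hs2 := tv_mem_stabSet hlam hφb₀ hψ'b₀ hb₀K
    have hs3 := tv_mem_stabSet hlam hφb₀ hη₂b₀ hb₀K
    have hs4 := tv_mem_stabSet hlam hφb hψb hbK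
    have hm1 := comm_mem_commSet hs1 hs2
    have hm2 := comm_mem_commSet hs3 hs4
    rw [hc1] at hm1
    rw [hc2] at hm2
    exact Subgroup.mul_mem _ hm2 hm1

end

end Cfsg.Agent.Helper60
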