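import Mathlib
import Cfsg.Agent.Helper60.NCDefs
import Cfsg.Agent.Helper5.NCNILFIX
import Cfsg.Agent.Helper87.NCORD
import Cfsg.Agent.Helper39.NCNOFREE

/-!
# S4135 piece INDEXR (helper60)
-/

set_option autoImplicit false
open Subgroup

namespace Cfsg.Agent.Helper60.NCINDEXR
open Cfsg.Agent.Helper60.NC
open Cfsg.Agent.Helper5.NCNILFIX (nilfix)
open Cfsg.Agent.Helper87.NCORD (ord_r)
open Cfsg.Agent.Helper39.NCNOFREE (no_free)

variable {G : Type*} [Group G] [Finite G] {r : ℕ} [Fact r.Prime] {N : Subgroup G} {m : ℕ}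

/-- members of a Sylow `r`-subgroup are `r`-elements -/
theorem syl_pow (R' : Sylow r G) {g : G} (hg : g ∈ (R' : Subgroup G)) :
    ∃ k : ℕ, g ^ r ^ k = 1 := by
  obtain ⟨k, hk⟩ := R'.isPGroup' ⟨g, hg⟩
  exact ⟨k, congrArg Subtype.val hk⟩

/-- if the conjugate `g⁻¹ w g` of `w` lies in `C(y)` then `g` normalizes `C(y)` -/
theorem norm_of_conj (hc : Ctx G r N m) {y w : G} (hM : Mix G r N y w) {g : G}
    (hg : g⁻¹ * w * g ∈ centralizer ({y} : Set G)) :
    g ∈ normalizer (centralizer ({y} : Set G) : Set G) := by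
  have hnN := hc.nN
  have hwN : w ∈ N := hc.hr w hM.wr
  have hvN : g⁻¹ * w * g ∈ N := by
    have h0 := hnN.conj_mem w hwN g⁻¹
    rwa [inv_inv] at h0
  have hvZ : g⁻¹ * w * g ∉ center G := by
    intro hz
    apply hM.wZ
    have h2 := (inferInstance : (center G).Normal).conj_mem _ hz g
    have e : g * (g⁻¹ * w * g) * g⁻¹ = w := by group
    rwa [e] at h2
  have h1 := hM.cen hc hvN hg hvZ
  have h2 := hM.cw hc
  rw [mem_normalizer_iff]
  intro h
  constructor
  · intro hh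
    rw [← h1, mem_centralizer_singleton_iff] at hh
    rw [← h2, mem_centralizer_singleton_iff]
    calc g * h * g⁻¹ * w = g * (h * (g⁻¹ * w * g)) * g⁻¹ := by group
      _ = g * (g⁻¹ * w * g * h) * g⁻¹ := by rw [hh]
      _ = w * (g * h * g⁻¹) := by group
  · intro hh
    rw [← h2, mem_centralizer_singleton_iff] at hh
    rw [← h1, mem_centralizer_singleton_iff]
    calc h * (g⁻¹ * w * g) = g⁻¹ * (g * h * g⁻¹ * w) * g := by group
      _ = g⁻¹ * (w * (g * h * g⁻¹)) * g := by rw [hh]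
      _ = g⁻¹ * w * g * h := by group

/-- if `C` is normalized by `g` and `t`, `g ^ r, t ^ r ∈ C`, `g ∉ C`, and `g ^ i * t ^ j ∈ C` with
not both `i, j` divisible by the prime `r`, then `t ∈ C g ^ e` for some `e < r` -/
theorem coset_of_rel (C : Subgroup G) (g t : G) (hgn : g ∈ normalizer (C : Set G))
    (htn : t ∈ normalizer (C : Set G)) (hgr : g ^ r ∈ C) (htr : t ^ r ∈ C) (hgC : g ∉ C)
    (i j : ℕ) (hij : g ^ i * t ^ j ∈ C) (hnd : ¬ (r ∣ i ∧ r ∣ j)) :
    ∃ e < r, ∃ c ∈ C, t = c * g ^ e := by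
  have hr : r.Prime := Fact.out
  have hK : (C.subgroupOf (normalizer (C : Set G))).Normal := Subgroup.normal_in_normalizer
  let g' : ↥(normalizer (C : Set G)) := ⟨g, hgn⟩
  let t' : ↥(normalizer (C : Set G)) := ⟨t, htn⟩
  let gb : ↥(normalizer (C : Set G)) ⧸ C.subgroupOf (normalizer (C : Set G)) :=
    QuotientGroup.mk g'
  let tb : ↥(normalizer (C : Set G)) ⧸ C.subgroupOf (normalizer (C : Set G)) :=
    QuotientGroup.mk t'
  have hgb : gb ^ r = 1 := by
    show (QuotientGroup.mk g' : ↥(normalizer (C : Set G)) ⧸ C.subgroupOf (normalizer (C : Set G))) ^ r = 1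
    rw [← QuotientGroup.mk_pow, QuotientGroup.eq_one_iff, mem_subgroupOf]
    exact hgr
  have htb : tb ^ r = 1 := by
    show (QuotientGroup.mk t' : ↥(normalizer (C : Set G)) ⧸ C.subgroupOf (normalizer (C : Set G))) ^ r = 1
    rw [← QuotientGroup.mk_pow, QuotientGroup.eq_one_iff, mem_subgroupOf]
    exact htr
  have hgb1 : gb ≠ 1 := by
    intro h1
    apply hgC
    have h2 : (QuotientGroup.mk g' : ↥(normalizer (C : Set G)) ⧸ C.subgroupOf (normalizer (C : Set G))) = 1 := h1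
    rw [QuotientGroup.eq_one_iff, mem_subgroupOf] at h2
    exact h2
  have hord : orderOf gb = r := by
    rcases (Nat.dvd_prime hr).1 (orderOf_dvd_of_pow_eq_one hgb) with h1 | h1
    · exact absurd (orderOf_eq_one_iff.1 h1) hgb1
    · exact h1
  have hrel : gb ^ i * tb ^ j = 1 := by
    show (QuotientGroup.mk g' : ↥(normalizer (C : Set G)) ⧸ C.subgroupOf (normalizer (C : Set G))) ^ i *
      (QuotientGroup.mk t' : ↥(normalizer (C : Set G)) ⧸ C.subgroupOf (normalizer (C : Set G))) ^ j = 1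
    rw [← QuotientGroup.mk_pow, ← QuotientGroup.mk_pow, ← QuotientGroup.mk_mul,
      QuotientGroup.eq_one_iff, mem_subgroupOf]
    exact hij
  have hmem : tb ∈ zpowers gb := by
    by_cases hj : r ∣ j
    · exfalso
      apply hnd
      refine ⟨?_, hj⟩
      obtain ⟨k, rfl⟩ := hj
      rw [pow_mul, htb, one_pow, mul_one] at hrel
      rw [← hord]
      exact orderOf_dvd_of_pow_eq_one hrel
    · have hcop : Nat.Coprime j r := (Nat.Coprime.symm ((Nat.Prime.coprime_iff_not_dvd hr).2 hj))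
      have hb := Nat.gcd_eq_gcd_ab j r
      rw [Nat.Coprime.gcd_eq_one hcop] at hb
      have h1 : tb = (tb ^ j) ^ (Nat.gcdA j r) * (tb ^ r) ^ (Nat.gcdB j r) := by
        rw [← zpow_natCast tb j, ← zpow_natCast tb r, ← zpow_mul, ← zpow_mul, ← zpow_add, ← hb]
        simp
      have h2 : tb ^ j = (gb ^ i)⁻¹ := eq_inv_of_mul_eq_one_right hrel
      rw [h1, htb, one_zpow, mul_one, h2]
      exact zpow_mem (inv_mem (pow_mem (mem_zpowers gb) i)) _
  obtain ⟨k, hk⟩ := mem_zpowers_iff.1 hmem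
  have hr0 : (r : ℤ) ≠ 0 := by exact_mod_cast hr.ne_zero
  have hk1 : 0 ≤ k % (r : ℤ) := Int.emod_nonneg k hr0
  have hk2 : k % (r : ℤ) < r := Int.emod_lt_of_pos k (by exact_mod_cast hr.pos)
  obtain ⟨e, he⟩ := Int.eq_ofNat_of_zero_le hk1
  have hlt : e < r := by
    rw [he] at hk2
    exact_mod_cast hk2
  have hge : gb ^ e = tb := by
    rw [← hk, ← zpow_natCast, ← he]
    have h3 := zpow_mod_orderOf gb k
    rw [hord] at h3
    exact h3
  have h4 : (QuotientGroup.mk (g' ^ e) : ↥(normalizer (C : Set G)) ⧸ C.subgroupOf (normalizer (C : Set G))) =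
      QuotientGroup.mk t' := by
    rw [QuotientGroup.mk_pow]
    exact hge
  rw [QuotientGroup.eq, mem_subgroupOf] at h4
  have h5 : (g ^ e)⁻¹ * t ∈ C := h4
  have h6 := (mem_normalizer_iff.1 (pow_mem hgn e) _).1 h5
  have e6 : g ^ e * ((g ^ e)⁻¹ * t) * (g ^ e)⁻¹ = t * (g ^ e)⁻¹ := by group
  rw [e6] at h6
  exact ⟨e, hlt, t * (g ^ e)⁻¹, h6, by group⟩

/-- INDEXR (level 2: uses NILFIX ORD NOFREE) -/
theorem index_r (hc : Ctx G r N m) {y w : G} (hM : Mix G r N y w) (R' : Sylow r G)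
    (hw : w ∈ (R' : Subgroup G)) (hnot : ¬ (R' : Subgroup G) ≤ centralizer ({y} : Set G)) :
    ∃ g ∈ (R' : Subgroup G), g ∈ normalizer (centralizer ({y} : Set G) : Set G) ∧
      g ∉ centralizer ({y} : Set G) ∧ g ^ r ∈ center G ∧
      ∀ t ∈ (R' : Subgroup G), t ∈ normalizer (centralizer ({y} : Set G) : Set G) →
        ∃ i < r, ∃ c ∈ centralizer ({y} : Set G), t = c * g ^ i := by
  have hwC : w ∈ centralizer ({y} : Set G) := mem_centralizer_singleton_iff.2 hM.comm.eq.symm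
  -- step 1: `g`
  obtain ⟨g, hgR, hgK, hg⟩ := nilfix (R' : Subgroup G) R'.isPGroup' (R' : Subgroup G)
    ((R' : Subgroup G) ⊓ centralizer ({y} : Set G)) le_rfl
    (fun t ht h hh => Subgroup.mul_mem _ (Subgroup.mul_mem _ (Subgroup.inv_mem _ ht) hh) ht)
    (fun hle => hnot (hle.trans inf_le_right))
  have hgC : g ∉ centralizer ({y} : Set G) := fun h => hgK ⟨hgR, h⟩
  have hgn : g ∈ normalizer (centralizer ({y} : Set G) : Set G) := by
    apply norm_of_conj hc hM
    have h1 : g⁻¹ * w⁻¹ * g * w ∈ centralizer ({y} : Set G) := (hg w hw).2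
    have h2 := mul_mem h1 (inv_mem hwC)
    have h3 := inv_mem h2
    have e : (g⁻¹ * w⁻¹ * g * w * w⁻¹)⁻¹ = g⁻¹ * w * g := by group
    rwa [e] at h3
  -- step 2: `w₁`
  have hP2 : IsPGroup r
      ↥((R' : Subgroup G) ⊓ normalizer (centralizer ({y} : Set G) : Set G)) :=
    R'.isPGroup'.to_le inf_le_left
  obtain ⟨w₁, hw₁K, hw₁Z, hw₁⟩ := nilfix
    ((R' : Subgroup G) ⊓ normalizer (centralizer ({y} : Set G) : Set G)) hP2
    ((R' : Subgroup G) ⊓ centralizer ({y} : Set G)) (center G)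
    (inf_le_inf_left _ le_normalizer)
    (fun t ht h hh => ⟨Subgroup.mul_mem _ (Subgroup.mul_mem _ (Subgroup.inv_mem _ ht.1) hh.1) ht.1,
      (mem_normalizer_iff''.1 ht.2 h).1 hh.2⟩)
    (fun hle => hM.wZ (hle ⟨hw, hwC⟩))
  -- step 3: orders
  have hord : ∀ t ∈ (R' : Subgroup G), t ∈ normalizer (centralizer ({y} : Set G) : Set G) →
      t ∉ centralizer ({y} : Set G) → t ^ r ∈ center G := by
    intro t ht htn htC
    exact ord_r hc hM t (syl_pow R' ht) htC w₁ hw₁K.2 (syl_pow R' hw₁K.1) hw₁Z (hw₁ t ⟨ht, htn⟩)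
  have hgr : g ^ r ∈ center G := hord g hgR hgn hgC
  refine ⟨g, hgR, hgn, hgC, hgr, ?_⟩
  intro t ht htn
  by_cases htC : t ∈ centralizer ({y} : Set G)
  · exact ⟨0, (Fact.out : r.Prime).pos, t, htC, by simp⟩
  · have htr := hord t ht htn htC
    have hZC : center G ≤ centralizer ({y} : Set G) := center_le_centralizer _
    have hex : ∃ i j : ℕ, g ^ i * t ^ j ∈ centralizer ({y} : Set G) ∧ ¬ (r ∣ i ∧ r ∣ j) := by
      by_contra hcon
      push Not at hcon
      exact no_free hc hM g t hgn htn (hZC hgr) (hZC htr) (hg t ht).2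
        (fun i j hij => hcon i j hij)
    obtain ⟨i, j, hij, hnd⟩ := hex
    exact coset_of_rel (centralizer ({y} : Set G)) g t hgn htn (hZC hgr) (hZC htr) hgC i j hij hnd

end Cfsg.Agent.Helper60.NCINDEXR
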