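import Mathlib
import Cfsg.Agent.Helper60.NCDefs
import Cfsg.Agent.S4134
import Cfsg.Agent.Helper47.NCSYLCONJ
import Cfsg.Agent.Helper5.NCNILFIX
import Cfsg.Agent.Helper47.NCCONJCARD
import Cfsg.Agent.Helper47.NCNORMZ
import Cfsg.Agent.Helper47.NCTCN
import Cfsg.Agent.Helper10.NCCASEA
import Cfsg.Agent.Helper52.NCITONIL
import Cfsg.Agent.Helper52.NCTRANSPORT
import Cfsg.Agent.Helper52.NCREX
import Cfsg.Agent.Helper31.NCGILB
import Cfsg.Agent.Helper31.NCRSYL
import Cfsg.Agent.Helper82.NCSMALLGOOD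
import Cfsg.Agent.Helper37.NCS1LOC
import Cfsg.Agent.Helper60.NCINDEXR
import Cfsg.Agent.Helper31.NCGILA
import Cfsg.Agent.Helper27.NCCASEI
import Cfsg.Agent.Helper31.NCS2CASEcore

/-!
# S4135 (helper60): assembly of the CALL pieces.

`N ⊴ G` finite, all `G`-class sizes of elements of `N` in `{1, m}`, `N` contains a non-central
Sylow `r`-subgroup of `G`; then `N` is nilpotent.
-/

set_option autoImplicit false
open Subgroup

namespace Cfsg.Agent.Helper60.NCAsm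
open Cfsg.Agent.Helper60.NC
open Cfsg.Agent.Helper47.NCSYLCONJ (syl_conj)
open Cfsg.Agent.Helper5.NCNILFIX (nilfix)
open Cfsg.Agent.Helper47.NCCONJCARD (conj_card)
open Cfsg.Agent.Helper47.NCNORMZ (norm_z)
open Cfsg.Agent.Helper47.NCTCN (tcn)
open Cfsg.Agent.Helper10.NCCASEA (case_a)
open Cfsg.Agent.Helper52.NCITONIL (ito_nil)
open Cfsg.Agent.Helper52.NCTRANSPORT (transport)
open Cfsg.Agent.Helper52.NCREX (rex)
open Cfsg.Agent.Helper31.NCGILB (gil_b)
open Cfsg.Agent.Helper31.NCRSYL (rsyl)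
open Cfsg.Agent.Helper82.NCSMALLGOOD (small_good)
open Cfsg.Agent.Helper37.NCS1LOC (s1_loc)
open Cfsg.Agent.Helper60.NCINDEXR (index_r)
open Cfsg.Agent.Helper31.NCGILA (gil_a)
open Cfsg.Agent.Helper27.NCCASEI (case_i)
open Cfsg.Agent.Helper31.NCS2CASE (s2_case_of_index)

variable {G : Type*} [Group G] [Finite G] {r : ℕ} [Fact r.Prime] {N : Subgroup G} {m : ℕ}

/-- S2CASE -/
theorem s2_case (hc : Ctx G r N m) {y w : G} (hM : Mix G r N y w) (R' : Sylow r G)
    (hw : w ∈ (R' : Subgroup G))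
    (hS2 : ¬ (R' : Subgroup G) ≤ normalizer (centralizer ({y} : Set G) : Set G)) :
    Nat.card ↥((R' : Subgroup G) ⊓ centralizer ({y} : Set G)) ≤
      r * Nat.card ↥((R' : Subgroup G) ⊓ center G) :=
  s2_case_of_index hc hM R' hw hS2
    (index_r hc hM R' hw (fun h => hS2 (h.trans le_normalizer)))

/-! ### assembly (helper60) -/

theorem reln (R : Sylow r G) (N : Subgroup G) [N.Normal] (hRN : (R : Subgroup G) ≤ N) (g : G)
    (hg : ∃ k : ℕ, g ^ r ^ k = 1) : g ∈ N := by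
  have hT : IsPGroup r (zpowers g) := by
    obtain ⟨k, hk⟩ := hg
    intro ⟨x, hx⟩
    refine ⟨k, ?_⟩
    obtain ⟨i, rfl⟩ := mem_zpowers_iff.1 hx
    apply Subtype.ext
    show (g ^ i) ^ r ^ k = 1
    rw [← zpow_natCast, ← zpow_mul, mul_comm, zpow_mul, zpow_natCast, hk, one_zpow]
  obtain ⟨a, ha⟩ := syl_conj R (zpowers g) hT
  have h1 : a⁻¹ * g * a ∈ N := hRN (ha g (mem_zpowers g))
  have h2 := (inferInstance : N.Normal).conj_mem _ h1 a
  have e : a * (a⁻¹ * g * a) * a⁻¹ = g := by group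
  rwa [e] at h2

/-- GOODR -/
theorem goodr (hc : Ctx G r N m) {y w : G} (hM : Mix G r N y w) (hrm : r ∣ m) :
    ∀ u : G, (∃ k : ℕ, u ^ r ^ k = 1) → u ∉ center G → Good N u := by
  obtain ⟨R', hw, hcard, hnot⟩ := rsyl hc hM hrm
  apply good_of_pairs hc
  by_cases hS : (R' : Subgroup G) ≤ normalizer (centralizer ({y} : Set G) : Set G)
  · obtain ⟨g, hgR, hgn, hgC, hgr, hcos⟩ := index_r hc hM R' hw hnot
    exact transport R' (s1_loc hc hM R' g hgn hgC hgr (fun t ht => hcos t ht (hS ht)))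
  · exact small_good hc hM R' hcard (s2_case hc hM R' hw hS)

/-- EQUAL -/
theorem equal_card (hc : Ctx G r N m) (R : Sylow r G) (hR : ¬ (R : Subgroup G) ≤ center G)
    (hgood : ∀ u : G, (∃ k : ℕ, u ^ r ^ k = 1) → u ∉ center G → Good N u) :
    ∃ t : ℕ, ∀ v ∈ N, v ∉ center G → Nat.card ↥(centralizer ({v} : Set G) ⊓ N) = t := by
  have hnN := hc.nN
  have hRr : ∀ g ∈ (R : Subgroup G), ∃ k : ℕ, g ^ r ^ k = 1 := by
    intro g hg
    obtain ⟨k, hk⟩ := R.isPGroup' ⟨g, hg⟩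
    exact ⟨k, congrArg Subtype.val hk⟩
  obtain ⟨x, hxR, hxZ, hx⟩ := nilfix (R : Subgroup G) R.isPGroup' (R : Subgroup G) (center G)
    le_rfl (fun t ht h hh => mul_mem (mul_mem (inv_mem ht) hh) ht) hR
  have hxr := hRr x hxR
  have hxN : x ∈ N := hc.hr x hxr
  refine ⟨Nat.card ↥(centralizer ({x} : Set G) ⊓ N), ?_⟩
  intro v hv hvZ
  obtain ⟨w, hwr, hwZ, hvw⟩ := rex hc hxr hxZ hv hvZ
  have hwN : w ∈ N := hc.hr w hwr
  have hwg := hgood w hwr hwZ
  have hvC : v ∈ centralizer ({w} : Set G) := mem_centralizer_singleton_iff.2 hvw.eq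
  have h1 : centralizer ({v} : Set G) = centralizer ({w} : Set G) := hwg.cen hc hwN hwZ hv hvC hvZ
  rw [h1]
  have hT : IsPGroup r (zpowers w) := by
    obtain ⟨k, hk⟩ := hwr
    intro ⟨z, hz⟩
    refine ⟨k, ?_⟩
    obtain ⟨i, rfl⟩ := mem_zpowers_iff.1 hz
    apply Subtype.ext
    show (w ^ i) ^ r ^ k = 1
    rw [← zpow_natCast, ← zpow_mul, mul_comm, zpow_mul, zpow_natCast, hk, one_zpow]
  obtain ⟨a, ha⟩ := syl_conj R (zpowers w) hT
  have hw3R : a⁻¹ * w * a ∈ (R : Subgroup G) := ha w (mem_zpowers w)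
  have hw3r := hRr _ hw3R
  have hw3N : a⁻¹ * w * a ∈ N := hc.hr _ hw3r
  have hw3Z : a⁻¹ * w * a ∉ center G := by
    intro hz
    apply hwZ
    have h2 := (inferInstance : (center G).Normal).conj_mem _ hz a
    have e : a * (a⁻¹ * w * a) * a⁻¹ = w := by group
    rwa [e] at h2
  rw [← conj_card N a w]
  have hcomm := hx _ hw3R
  obtain ⟨hn1, hn2⟩ := norm_z x (a⁻¹ * w * a) hcomm
  have hxg := hgood x hxr hxZ
  have hw3g := hgood _ hw3r hw3Z
  apply le_antisymm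
  · exact gil_b hc hxN hxZ hw3N hw3Z (gil_a hc hxN hxg hw3r hn1)
  · exact gil_b hc hw3N hw3Z hxN hxZ (gil_a hc hw3N hw3g hxr hn2)

/-- NILP -/
theorem nilp (hc : Ctx G r N m) (t : ℕ)
    (ht : ∀ v ∈ N, v ∉ center G → Nat.card ↥(centralizer ({v} : Set G) ⊓ N) = t) :
    Group.IsNilpotent N := by
  apply ito_nil N (Nat.card N / t)
  intro x
  by_cases hx : (x : G) ∈ center G
  · left
    rw [index_eq_one, centralizer_eq_top_iff_subset, Set.singleton_subset_iff]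
    show x ∈ center N
    rw [mem_center_iff]
    intro g
    apply Subtype.ext
    exact (mem_center_iff.1 hx (g : G))
  · right
    have h1 := (centralizer ({x} : Set N)).card_mul_index
    rw [tcn N x, ht x x.2 hx] at h1
    have ht0 : 0 < t := by
      rcases Nat.eq_zero_or_pos t with h0 | h0
      · rw [h0, zero_mul] at h1
        exact absurd h1.symm Nat.card_pos.ne'
      · exact h0
    rw [← h1, Nat.mul_div_cancel_left _ ht0]

/-- the statement of S4135 -/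
theorem main (R : Sylow r G) (hR : ¬ (R : Subgroup G) ≤ Subgroup.center G) (N : Subgroup G)
    [N.Normal] (hRN : (R : Subgroup G) ≤ N) (m : ℕ)
    (h : ∀ x ∈ N, (Subgroup.centralizer ({x} : Set G)).index = 1 ∨
      (Subgroup.centralizer ({x} : Set G)).index = m) : Group.IsNilpotent N := by
  have hc : Ctx G r N m := ⟨inferInstance, h, reln R N hRN⟩
  by_cases hrm : r ∣ m
  · by_cases hA : ∀ v ∈ N, ∀ q : ℕ, q.Prime → q ≠ r → (∃ k : ℕ, v ^ q ^ k = 1) → v ∈ center G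
    · exact case_a N hA
    · push Not at hA
      obtain ⟨y, hyN, q, hq, hqr, ⟨k, hyq⟩, hyZ⟩ := hA
      obtain ⟨x₀, hx₀R, hx₀Z⟩ := SetLike.not_le_iff_exists.1 hR
      have hx₀r : ∃ k : ℕ, x₀ ^ r ^ k = 1 := by
        obtain ⟨k, hk⟩ := R.isPGroup' ⟨x₀, hx₀R⟩
        exact ⟨k, congrArg Subtype.val hk⟩
      obtain ⟨w, hwr, hwZ, hyw⟩ := rex hc hx₀r hx₀Z hyN hyZ
      have hyr : (orderOf y).Coprime r := by
        have h1 : orderOf y ∣ q ^ k := orderOf_dvd_of_pow_eq_one hyq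
        have h2 : (q ^ k).Coprime r :=
          Nat.Coprime.pow_left k ((Nat.coprime_primes hq Fact.out).2 hqr)
        exact Nat.Coprime.coprime_dvd_left h1 h2
      have hM : Mix G r N y w := ⟨hyN, hyZ, hyr, hwr, hwZ, hyw⟩
      obtain ⟨t, ht⟩ := equal_card hc R hR (goodr hc hM hrm)
      exact nilp hc t ht
  · exact case_i hc R hRN hR hrm

end Cfsg.Agent.Helper60.NCAsm
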