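import Mathlib
import Cfsg.Agent.Helper5.SympPerfect

/-!
# Regular unipotent elements of `Sp_{2n}(F)`: basic objects (helper60)

Coordinates `rE k`, `rF k` (a symplectic basis, indexed by natural numbers; zero out of range),
the regular unipotent `ru0 = diag(J, J⁻ᵀ) · [1 E_NN; 0 1]`, the Weyl element `rtau` and the
opposite regular unipotent `ru3 = rtau * ru0 * rtau⁻¹`, with their action on the basis.
-/

set_option autoImplicit false
set_option linter.unusedSectionVars false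
set_option linter.unusedVariables false
set_option linter.unusedSimpArgs false

namespace Cfsg.Agent.Helper60.RU

open Matrix
open Cfsg.Agent.Helper5

section vec
variable {F : Type*} [Field F] {N : ℕ}

/-- unit vector with index `k` (zero if `k` is out of range) -/
def rv (N : ℕ) (F : Type*) [Field F] (k : ℕ) : Fin (N + 1) → F := fun i => if i.val = k then 1 else 0

theorem rv_apply (k : ℕ) (i : Fin (N + 1)) : rv N F k i = if i.val = k then 1 else 0 := rfl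

theorem rv_eq_zero {k : ℕ} (hk : N < k) : rv N F k = 0 := by
  funext i
  rw [rv_apply, if_neg (by have := i.isLt; omega)]
  rfl

theorem rv_eq_single {k : ℕ} (hk : k ≤ N) : rv N F k = Pi.single (⟨k, by omega⟩ : Fin (N + 1)) 1 := by
  funext i
  rw [rv_apply, Pi.single_apply]
  by_cases h : i.val = k
  · rw [if_pos h, if_pos (Fin.ext h)]
  · rw [if_neg h, if_neg (fun h' => h (congrArg Fin.val h'))]

theorem dot_rv (f : Fin (N + 1) → F) {k : ℕ} (hk : k ≤ N) :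
    f ⬝ᵥ rv N F k = f ⟨k, by omega⟩ := by
  rw [rv_eq_single hk, dotProduct_single, mul_one]

theorem rv_dot (f : Fin (N + 1) → F) {k : ℕ} (hk : k ≤ N) :
    rv N F k ⬝ᵥ f = f ⟨k, by omega⟩ := by
  rw [dotProduct_comm, dot_rv f hk]

theorem rv_ne_zero {k : ℕ} (hk : k ≤ N) : rv N F k ≠ 0 := by
  intro h
  have := congrFun h ⟨k, by omega⟩
  rw [rv_apply, if_pos rfl] at this
  exact one_ne_zero this

/-- the basis vectors `e_k` -/
def rE (N : ℕ) (F : Type*) [Field F] (k : ℕ) : Fin (N + 1) ⊕ Fin (N + 1) → F := Sum.elim (rv N F k) 0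

/-- the basis vectors `f_k` -/
def rF (N : ℕ) (F : Type*) [Field F] (k : ℕ) : Fin (N + 1) ⊕ Fin (N + 1) → F := Sum.elim 0 (rv N F k)

theorem rE_inl (k : ℕ) (i : Fin (N + 1)) : rE N F k (Sum.inl i) = if i.val = k then 1 else 0 := rfl
theorem rE_inr (k : ℕ) (i : Fin (N + 1)) : rE N F k (Sum.inr i) = 0 := rfl
theorem rF_inl (k : ℕ) (i : Fin (N + 1)) : rF N F k (Sum.inl i) = 0 := rfl
theorem rF_inr (k : ℕ) (i : Fin (N + 1)) : rF N F k (Sum.inr i) = if i.val = k then 1 else 0 := rfl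

theorem rE_eq_single {k : ℕ} (hk : k ≤ N) :
    rE N F k = Pi.single (Sum.inl (⟨k, by omega⟩ : Fin (N + 1))) 1 := by
  funext i
  rcases i with i | i
  · rw [rE_inl, Pi.single_apply]
    by_cases h : i.val = k
    · rw [if_pos h, if_pos (by rw [Sum.inl.injEq]; exact Fin.ext h)]
    · rw [if_neg h, if_neg (fun h' => h (by rw [Sum.inl.injEq] at h'; exact congrArg Fin.val h'))]
  · rw [rE_inr, Pi.single_apply, if_neg (by simp)]

theorem rF_eq_single {k : ℕ} (hk : k ≤ N) :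
    rF N F k = Pi.single (Sum.inr (⟨k, by omega⟩ : Fin (N + 1))) 1 := by
  funext i
  rcases i with i | i
  · rw [rF_inl, Pi.single_apply, if_neg (by simp)]
  · rw [rF_inr, Pi.single_apply]
    by_cases h : i.val = k
    · rw [if_pos h, if_pos (by rw [Sum.inr.injEq]; exact Fin.ext h)]
    · rw [if_neg h, if_neg (fun h' => h (by rw [Sum.inr.injEq] at h'; exact congrArg Fin.val h'))]

/-- explicit formula for the symplectic form -/
theorem sf_explicit (u v : Fin (N + 1) ⊕ Fin (N + 1) → F) :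
    Cfsg.sympForm (N + 1) F u v = ∑ i, (u (.inr i) * v (.inl i) - u (.inl i) * v (.inr i)) := by
  unfold Cfsg.sympForm Matrix.J
  rw [dotProduct, Fintype.sum_sum_type, Finset.sum_sub_distrib]
  simp [Matrix.mulVec, dotProduct, Fintype.sum_sum_type, Matrix.fromBlocks, Matrix.one_apply]
  ring

theorem sf_elim (x y x' y' : Fin (N + 1) → F) :
    Cfsg.sympForm (N + 1) F (Sum.elim x y) (Sum.elim x' y') = y ⬝ᵥ x' - x ⬝ᵥ y' := by
  rw [sf_explicit, Finset.sum_sub_distrib]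
  rfl

theorem sf_right_rE (u : Fin (N + 1) ⊕ Fin (N + 1) → F) {k : ℕ} (hk : k ≤ N) :
    Cfsg.sympForm (N + 1) F u (rE N F k) = u (Sum.inr ⟨k, by omega⟩) := by
  have hu : u = Sum.elim (fun i => u (Sum.inl i)) (fun i => u (Sum.inr i)) := by
    funext i; rcases i with i | i <;> rfl
  rw [hu, rE, sf_elim, dot_rv _ hk]
  simp

theorem sf_right_rF (u : Fin (N + 1) ⊕ Fin (N + 1) → F) {k : ℕ} (hk : k ≤ N) :
    Cfsg.sympForm (N + 1) F u (rF N F k) = - u (Sum.inl ⟨k, by omega⟩) := by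
  have hu : u = Sum.elim (fun i => u (Sum.inl i)) (fun i => u (Sum.inr i)) := by
    funext i; rcases i with i | i <;> rfl
  rw [hu, rF, sf_elim, dot_rv _ hk]
  simp

theorem sf_EE (j k : ℕ) : Cfsg.sympForm (N + 1) F (rE N F j) (rE N F k) = 0 := by
  rw [rE, rE, sf_elim]; simp

theorem sf_FF (j k : ℕ) : Cfsg.sympForm (N + 1) F (rF N F j) (rF N F k) = 0 := by
  rw [rF, rF, sf_elim]; simp

theorem sf_FE {j k : ℕ} (hk : k ≤ N) :
    Cfsg.sympForm (N + 1) F (rF N F j) (rE N F k) = if j = k then 1 else 0 := by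
  rw [sf_right_rE _ hk, rF_inr]
  simp [eq_comm]

theorem sf_EF {j k : ℕ} (hk : k ≤ N) :
    Cfsg.sympForm (N + 1) F (rE N F j) (rF N F k) = if j = k then -1 else 0 := by
  rw [sf_right_rF _ hk, rE_inl]
  by_cases h : j = k
  · subst h; simp
  · rw [if_neg h, if_neg (fun h' => h h'.symm), neg_zero]

theorem sf_FE_self {k : ℕ} (hk : k ≤ N) :
    Cfsg.sympForm (N + 1) F (rF N F k) (rE N F k) = 1 := by
  rw [sf_FE hk, if_pos rfl]

theorem sf_EF_self {k : ℕ} (hk : k ≤ N) :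
    Cfsg.sympForm (N + 1) F (rE N F k) (rF N F k) = -1 := by
  rw [sf_EF hk, if_pos rfl]

theorem sf_FE_ne {j k : ℕ} (h : j ≠ k) :
    Cfsg.sympForm (N + 1) F (rF N F j) (rE N F k) = 0 := by
  rw [rF, rE, sf_elim]
  simp only [dotProduct_zero, sub_zero]
  by_cases hk : k ≤ N
  · rw [dot_rv _ hk, rv_apply, if_neg (fun h' => h h'.symm)]
  · rw [rv_eq_zero (k := k) (by omega), dotProduct_zero]

theorem sf_EF_ne {j k : ℕ} (h : j ≠ k) :
    Cfsg.sympForm (N + 1) F (rE N F j) (rF N F k) = 0 := by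
  rw [Helper13.sympForm_swap, sf_FE_ne (fun h' => h h'.symm), neg_zero]

theorem rE_ne_zero {k : ℕ} (hk : k ≤ N) : rE N F k ≠ 0 := by
  intro h
  have := congrFun h (Sum.inl ⟨k, by omega⟩)
  rw [rE_inl, if_pos rfl] at this
  exact one_ne_zero this

theorem rF_ne_zero {k : ℕ} (hk : k ≤ N) : rF N F k ≠ 0 := by
  intro h
  have := congrFun h (Sum.inr ⟨k, by omega⟩)
  rw [rF_inr, if_pos rfl] at this
  exact one_ne_zero this

end vec

section mats
variable {F : Type*} [Field F] {N : ℕ}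

/-- the bidiagonal unipotent matrix `1 + ∑ E_{i,i+1}` -/
def rJ (N : ℕ) (F : Type*) [Field F] : Matrix (Fin (N + 1)) (Fin (N + 1)) F :=
  Matrix.of fun i j => if j.val = i.val ∨ j.val = i.val + 1 then 1 else 0

theorem rJ_apply (i j : Fin (N + 1)) :
    rJ N F i j = if j.val = i.val ∨ j.val = i.val + 1 then 1 else 0 := rfl

theorem rJ_det : (rJ N F).det = 1 := by
  rw [Matrix.det_of_isUpperTriangular]
  · apply Finset.prod_eq_one
    intro i _
    rw [rJ_apply, if_pos (Or.inl rfl)]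
  · intro i j hij
    rw [rJ_apply, if_neg]
    have : j.val < i.val := hij
    omega

/-- `rJ` as an element of `GL` -/
noncomputable def rJG (N : ℕ) (F : Type*) [Field F] : GL (Fin (N + 1)) F :=
  Matrix.GeneralLinearGroup.mkOfDetNeZero (rJ N F) (by rw [rJ_det]; exact one_ne_zero)

theorem rJG_coe : (rJG N F).1 = rJ N F := rfl

theorem rJ_mulVec_succ {k : ℕ} (hk : k + 1 ≤ N) :
    rJ N F *ᵥ rv N F (k + 1) = rv N F (k + 1) + rv N F k := by
  funext i
  rw [Matrix.mulVec, dot_rv _ hk, Pi.add_apply, rv_apply, rv_apply, rJ_apply]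
  show (if k + 1 = i.val ∨ k + 1 = i.val + 1 then (1 : F) else 0) = _
  by_cases h1 : i.val = k + 1
  · rw [if_pos (Or.inl h1.symm), if_pos h1, if_neg (by omega), add_zero]
  · by_cases h2 : i.val = k
    · rw [if_pos (Or.inr (by omega)), if_neg h1, if_pos h2, zero_add]
    · rw [if_neg (by omega), if_neg h1, if_neg h2, add_zero]

theorem rJ_mulVec_zero : rJ N F *ᵥ rv N F 0 = rv N F 0 := by
  funext i
  rw [Matrix.mulVec, dot_rv _ (Nat.zero_le N), rv_apply, rJ_apply]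
  show (if 0 = i.val ∨ 0 = i.val + 1 then (1 : F) else 0) = _
  by_cases h1 : i.val = 0
  · rw [if_pos (Or.inl h1.symm), if_pos h1]
  · rw [if_neg (by omega), if_neg h1]

theorem rJT_mulVec (k : ℕ) :
    (rJ N F)ᵀ *ᵥ rv N F k = rv N F k + rv N F (k + 1) := by
  by_cases hk : k ≤ N
  · funext i
    rw [Matrix.mulVec, dot_rv _ hk, Pi.add_apply, rv_apply, rv_apply, Matrix.transpose_apply,
      rJ_apply]
    show (if i.val = k ∨ i.val = k + 1 then (1 : F) else 0) = _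
    by_cases h1 : i.val = k
    · rw [if_pos (Or.inl h1), if_pos h1, if_neg (by omega), add_zero]
    · by_cases h2 : i.val = k + 1
      · rw [if_pos (Or.inr h2), if_neg h1, if_pos h2, zero_add]
      · rw [if_neg (by omega), if_neg h1, if_neg h2, add_zero]
  · rw [rv_eq_zero (by omega), rv_eq_zero (by omega), Matrix.mulVec_zero, add_zero]

/-- the Levi element `diag(P, P⁻ᵀ)` -/
def rD (P : GL (Fin (N + 1)) F) : Matrix.symplecticGroup (Fin (N + 1)) F :=
  ⟨fromBlocks P.1 0 0 ((P⁻¹).1)ᵀ, diag_mem _ _ (by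
    rw [← transpose_mul, ← Units.val_mul, inv_mul_cancel, Units.val_one, transpose_one])⟩

theorem rD_mulVec (P : GL (Fin (N + 1)) F) (x y : Fin (N + 1) → F) :
    ((rD P : Matrix.symplecticGroup (Fin (N + 1)) F) :
      Matrix (Fin (N + 1) ⊕ Fin (N + 1)) (Fin (N + 1) ⊕ Fin (N + 1)) F) *ᵥ Sum.elim x y
      = Sum.elim (P.1 *ᵥ x) (((P⁻¹).1)ᵀ *ᵥ y) := by
  show fromBlocks P.1 0 0 ((P⁻¹).1)ᵀ *ᵥ Sum.elim x y = _
  rw [fromBlocks_mulVec]
  simp

theorem rD_inv (P : GL (Fin (N + 1)) F) : (rD P)⁻¹ = rD P⁻¹ := by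
  rw [inv_eq_iff_mul_eq_one]
  apply Subtype.ext
  show fromBlocks P.1 0 0 ((P⁻¹).1)ᵀ * fromBlocks (P⁻¹).1 0 0 (((P⁻¹)⁻¹).1)ᵀ = 1
  rw [fromBlocks_multiply, inv_inv]
  have h1 : P.1 * (P⁻¹).1 = 1 := by rw [← Units.val_mul, mul_inv_cancel, Units.val_one]
  have h2 : ((P⁻¹).1)ᵀ * P.1ᵀ = 1 := by rw [← transpose_mul, h1, transpose_one]
  simp only [Matrix.mul_zero, Matrix.zero_mul, add_zero, zero_add, h1, h2, fromBlocks_one]

theorem spUp_mulVec (B : Matrix (Fin (N + 1)) (Fin (N + 1)) F) (hB : Bᵀ = B)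
    (x y : Fin (N + 1) → F) :
    ((spUp B hB : Matrix.symplecticGroup (Fin (N + 1)) F) :
      Matrix (Fin (N + 1) ⊕ Fin (N + 1)) (Fin (N + 1) ⊕ Fin (N + 1)) F) *ᵥ Sum.elim x y
      = Sum.elim (x + B *ᵥ y) y := by
  show fromBlocks 1 B 0 1 *ᵥ Sum.elim x y = _
  rw [fromBlocks_mulVec]
  simp

theorem spUp_inv (B : Matrix (Fin (N + 1)) (Fin (N + 1)) F) (hB : Bᵀ = B) :
    (spUp B hB)⁻¹ = spUp (-B) (by rw [transpose_neg, hB]) := by
  rw [inv_eq_iff_mul_eq_one, spUp_mul]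
  apply Subtype.ext
  show fromBlocks 1 (B + -B) 0 1 = (1 : Matrix (Fin (N + 1) ⊕ Fin (N + 1)) (Fin (N + 1) ⊕ Fin (N + 1)) F)
  rw [add_neg_cancel, fromBlocks_one]

/-- the matrix `E_{NN}` -/
def rB (N : ℕ) (F : Type*) [Field F] : Matrix (Fin (N + 1)) (Fin (N + 1)) F :=
  Matrix.single (Fin.last N) (Fin.last N) 1

theorem rB_transpose : (rB N F)ᵀ = rB N F := by
  rw [rB, Matrix.transpose_single]

theorem rB_mulVec (x : Fin (N + 1) → F) : rB N F *ᵥ x = x (Fin.last N) • rv N F N := by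
  funext i
  rw [Matrix.mulVec, dotProduct, Pi.smul_apply, rv_apply, smul_eq_mul]
  simp only [rB, Matrix.single_apply]
  by_cases h : i.val = N
  · have hi : i = Fin.last N := Fin.ext h
    subst hi
    simp
  · have hi : ¬ (Fin.last N = i) := fun h' => h (by rw [← h']; rfl)
    simp [hi, h]

/-- the regular unipotent element `u₀` -/
noncomputable def ru0 (N : ℕ) (F : Type*) [Field F] : Matrix.symplecticGroup (Fin (N + 1)) F :=
  rD (rJG N F) * spUp (rB N F) rB_transpose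

/-- the Weyl element `e_i ↦ f_i`, `f_i ↦ -e_i` -/
def rtau (N : ℕ) (F : Type*) [Field F] : Matrix.symplecticGroup (Fin (N + 1)) F :=
  ⟨J (Fin (N + 1)) F, SymplecticGroup.J_mem _ _⟩

/-- the opposite regular unipotent element -/
noncomputable def ru3 (N : ℕ) (F : Type*) [Field F] : Matrix.symplecticGroup (Fin (N + 1)) F :=
  rtau N F * ru0 N F * (rtau N F)⁻¹

theorem rtau_mulVec (x y : Fin (N + 1) → F) :
    ((rtau N F : Matrix.symplecticGroup (Fin (N + 1)) F) :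
      Matrix (Fin (N + 1) ⊕ Fin (N + 1)) (Fin (N + 1) ⊕ Fin (N + 1)) F) *ᵥ Sum.elim x y
      = Sum.elim (-y) x := by
  show fromBlocks 0 (-1) 1 0 *ᵥ Sum.elim x y = _
  rw [fromBlocks_mulVec]
  simp [Matrix.neg_mulVec]

theorem rtau_rE (k : ℕ) :
    ((rtau N F : Matrix.symplecticGroup (Fin (N + 1)) F) :
      Matrix (Fin (N + 1) ⊕ Fin (N + 1)) (Fin (N + 1) ⊕ Fin (N + 1)) F) *ᵥ rE N F k = rF N F k := by
  simp only [rE, rF]
  rw [rtau_mulVec, neg_zero]

theorem rtau_rF (k : ℕ) :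
    ((rtau N F : Matrix.symplecticGroup (Fin (N + 1)) F) :
      Matrix (Fin (N + 1) ⊕ Fin (N + 1)) (Fin (N + 1) ⊕ Fin (N + 1)) F) *ᵥ rF N F k = - rE N F k := by
  simp only [rE, rF]
  rw [rtau_mulVec]
  funext i
  rcases i with i | i <;> simp

theorem rtau_inv_rF (k : ℕ) :
    (((rtau N F)⁻¹ : Matrix.symplecticGroup (Fin (N + 1)) F) :
      Matrix (Fin (N + 1) ⊕ Fin (N + 1)) (Fin (N + 1) ⊕ Fin (N + 1)) F) *ᵥ rF N F k = rE N F k := by
  rw [← rtau_rE, sp_inv_mulVec]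

theorem rtau_inv_rE (k : ℕ) :
    (((rtau N F)⁻¹ : Matrix.symplecticGroup (Fin (N + 1)) F) :
      Matrix (Fin (N + 1) ⊕ Fin (N + 1)) (Fin (N + 1) ⊕ Fin (N + 1)) F) *ᵥ rE N F k = - rF N F k := by
  have h : rE N F k = ((rtau N F : Matrix.symplecticGroup (Fin (N + 1)) F) :
      Matrix (Fin (N + 1) ⊕ Fin (N + 1)) (Fin (N + 1) ⊕ Fin (N + 1)) F) *ᵥ (- rF N F k) := by
    rw [Matrix.mulVec_neg, rtau_rF, neg_neg]
  rw [h, sp_inv_mulVec]

theorem ru0_rE_succ {k : ℕ} (hk : k + 1 ≤ N) :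
    ((ru0 N F : Matrix.symplecticGroup (Fin (N + 1)) F) :
      Matrix (Fin (N + 1) ⊕ Fin (N + 1)) (Fin (N + 1) ⊕ Fin (N + 1)) F) *ᵥ rE N F (k + 1)
      = rE N F (k + 1) + rE N F k := by
  simp only [rE]
  rw [ru0, sp_mul_mulVec, spUp_mulVec, Matrix.mulVec_zero, add_zero, rD_mulVec, rJG_coe,
    rJ_mulVec_succ hk, Matrix.mulVec_zero]
  funext i
  rcases i with i | i <;> simp

theorem ru0_rE_zero :
    ((ru0 N F : Matrix.symplecticGroup (Fin (N + 1)) F) :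
      Matrix (Fin (N + 1) ⊕ Fin (N + 1)) (Fin (N + 1) ⊕ Fin (N + 1)) F) *ᵥ rE N F 0 = rE N F 0 := by
  simp only [rE]
  rw [ru0, sp_mul_mulVec, spUp_mulVec, Matrix.mulVec_zero, add_zero, rD_mulVec, rJG_coe,
    rJ_mulVec_zero, Matrix.mulVec_zero]

theorem ru0_inv_eq : (ru0 N F)⁻¹ = spUp (-rB N F) (by rw [transpose_neg, rB_transpose])
    * rD (rJG N F)⁻¹ := by
  rw [ru0, _root_.mul_inv_rev, spUp_inv, rD_inv]

/-- `u₀⁻¹ f_k = f_k + f_{k+1} - ([k = N] + [k + 1 = N]) e_N` -/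
theorem ru0_inv_rF (k : ℕ) :
    (((ru0 N F)⁻¹ : Matrix.symplecticGroup (Fin (N + 1)) F) :
      Matrix (Fin (N + 1) ⊕ Fin (N + 1)) (Fin (N + 1) ⊕ Fin (N + 1)) F) *ᵥ rF N F k
      = rF N F k + rF N F (k + 1)
        - ((if k = N then (1 : F) else 0) + (if k + 1 = N then 1 else 0)) • rE N F N := by
  simp only [rF, rE]
  rw [ru0_inv_eq, sp_mul_mulVec, rD_mulVec, inv_inv, rJG_coe, rJT_mulVec, Matrix.mulVec_zero,
    spUp_mulVec, zero_add, Matrix.neg_mulVec, rB_mulVec]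
  funext i
  rcases i with i | i
  · simp only [Sum.elim_inl, Pi.neg_apply, Pi.smul_apply, Pi.add_apply, rv_apply, smul_eq_mul,
      Pi.sub_apply, Pi.zero_apply, Fin.val_last]
    have h1 : (if N = k then (1 : F) else 0) = if k = N then 1 else 0 := by
      by_cases h : k = N
      · rw [if_pos h, if_pos h.symm]
      · rw [if_neg h, if_neg (fun h' => h h'.symm)]
    have h2 : (if N = k + 1 then (1 : F) else 0) = if k + 1 = N then 1 else 0 := by
      by_cases h : k + 1 = N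
      · rw [if_pos h, if_pos h.symm]
      · rw [if_neg h, if_neg (fun h' => h h'.symm)]
    rw [h1, h2]
    ring
  · simp

theorem ru3_inv_eq : (ru3 N F)⁻¹ = rtau N F * (ru0 N F)⁻¹ * (rtau N F)⁻¹ := by
  rw [ru3]; group

theorem ru3_rF_succ {k : ℕ} (hk : k + 1 ≤ N) :
    ((ru3 N F : Matrix.symplecticGroup (Fin (N + 1)) F) :
      Matrix (Fin (N + 1) ⊕ Fin (N + 1)) (Fin (N + 1) ⊕ Fin (N + 1)) F) *ᵥ rF N F (k + 1)
      = rF N F (k + 1) + rF N F k := by
  rw [ru3, sp_mul_mulVec, sp_mul_mulVec, rtau_inv_rF, ru0_rE_succ hk, Matrix.mulVec_add, rtau_rE,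
    rtau_rE]

theorem ru3_rF_zero :
    ((ru3 N F : Matrix.symplecticGroup (Fin (N + 1)) F) :
      Matrix (Fin (N + 1) ⊕ Fin (N + 1)) (Fin (N + 1) ⊕ Fin (N + 1)) F) *ᵥ rF N F 0 = rF N F 0 := by
  rw [ru3, sp_mul_mulVec, sp_mul_mulVec, rtau_inv_rF, ru0_rE_zero, rtau_rE]

/-- `u₃⁻¹ e_k = e_k + e_{k+1} + ([k = N] + [k + 1 = N]) f_N` -/
theorem ru3_inv_rE (k : ℕ) :
    (((ru3 N F)⁻¹ : Matrix.symplecticGroup (Fin (N + 1)) F) :
      Matrix (Fin (N + 1) ⊕ Fin (N + 1)) (Fin (N + 1) ⊕ Fin (N + 1)) F) *ᵥ rE N F k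
      = rE N F k + rE N F (k + 1)
        + ((if k = N then (1 : F) else 0) + (if k + 1 = N then 1 else 0)) • rF N F N := by
  rw [ru3_inv_eq, sp_mul_mulVec, sp_mul_mulVec, rtau_inv_rE, Matrix.mulVec_neg, ru0_inv_rF,
    Matrix.mulVec_neg, Matrix.mulVec_sub, Matrix.mulVec_add, Matrix.mulVec_smul, rtau_rF, rtau_rF,
    rtau_rE]
  module

theorem ru0_inv_rE_succ {k : ℕ} (hk : k + 1 ≤ N) :
    (((ru0 N F)⁻¹ : Matrix.symplecticGroup (Fin (N + 1)) F) :
      Matrix (Fin (N + 1) ⊕ Fin (N + 1)) (Fin (N + 1) ⊕ Fin (N + 1)) F) *ᵥ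
        (rE N F (k + 1) + rE N F k) = rE N F (k + 1) := by
  rw [← ru0_rE_succ hk, sp_inv_mulVec]

theorem ru0_inv_rE_zero :
    (((ru0 N F)⁻¹ : Matrix.symplecticGroup (Fin (N + 1)) F) :
      Matrix (Fin (N + 1) ⊕ Fin (N + 1)) (Fin (N + 1) ⊕ Fin (N + 1)) F) *ᵥ rE N F 0 = rE N F 0 := by
  have h := sp_inv_mulVec (ru0 N F) (rE N F 0)
  rw [ru0_rE_zero] at h
  exact h

end mats

end Cfsg.Agent.Helper60.RU
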