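import Mathlib
import Cfsg.Agent.Helper60.RUBase

/-!
# The configuration lemma (helper60)

A set of vectors of the symplectic space `F^{2n}` which is closed under non-zero scalars and under
`v, w ↦ v + w` for non-orthogonal `v, w`, and which contains the standard configuration
`e_i, f_i, e_i + e_{i+1}`, contains every non-zero vector.
-/

set_option autoImplicit false
set_option linter.unusedSectionVars false
set_option linter.unusedVariables false
set_option linter.unusedSimpArgs false

namespace Cfsg.Agent.Helper60.RU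

open Matrix
open Cfsg.Agent.Helper5
open Cfsg.Agent.Helper13 (sympForm_add_left sympForm_add_right sympForm_smul_left
  sympForm_smul_right sympForm_sub_left sympForm_sub_right sympForm_neg_left sympForm_neg_right
  sympForm_zero_left sympForm_zero_right sympForm_self sympForm_swap)

section config
variable {F : Type*} [Field F] {N : ℕ}

/-- closure properties of the set of centres of the transvections of a subgroup -/
structure PlaneClosed (V : Set (Fin (N + 1) ⊕ Fin (N + 1) → F)) : Prop where
  smul : ∀ (c : F), c ≠ 0 → ∀ v ∈ V, c • v ∈ V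
  add : ∀ v ∈ V, ∀ w ∈ V, Cfsg.sympForm (N + 1) F v w ≠ 0 → v + w ∈ V

/-- `v` is supported on the indices `< k` -/
def rSupp (N : ℕ) (k : ℕ) (v : Fin (N + 1) ⊕ Fin (N + 1) → F) : Prop :=
  ∀ i : Fin (N + 1), k ≤ i.val → v (Sum.inl i) = 0 ∧ v (Sum.inr i) = 0

theorem rSupp_sub {k : ℕ} {v w : Fin (N + 1) ⊕ Fin (N + 1) → F} (hv : rSupp N k v)
    (hw : rSupp N k w) : rSupp N k (v - w) := by
  intro i hi
  rw [Pi.sub_apply, Pi.sub_apply, (hv i hi).1, (hv i hi).2, (hw i hi).1, (hw i hi).2, sub_zero]
  exact ⟨rfl, rfl⟩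

theorem rSupp_add {k : ℕ} {v w : Fin (N + 1) ⊕ Fin (N + 1) → F} (hv : rSupp N k v)
    (hw : rSupp N k w) : rSupp N k (v + w) := by
  intro i hi
  rw [Pi.add_apply, Pi.add_apply, (hv i hi).1, (hv i hi).2, (hw i hi).1, (hw i hi).2, add_zero]
  exact ⟨rfl, rfl⟩

theorem rSupp_rE {j k : ℕ} (h : j < k) : rSupp N k (rE N F j) := by
  intro i hi
  rw [rE_inl, rE_inr, if_neg (by omega)]
  exact ⟨rfl, rfl⟩

theorem rSupp_rF {j k : ℕ} (h : j < k) : rSupp N k (rF N F j) := by
  intro i hi
  rw [rF_inl, rF_inr, if_neg (by omega)]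
  exact ⟨rfl, rfl⟩

/-- the form of a vector with the plane `P_k` -/
theorem sf_plane (x : Fin (N + 1) ⊕ Fin (N + 1) → F) {k : ℕ} (hk : k ≤ N) (a b : F) :
    Cfsg.sympForm (N + 1) F x (a • rE N F k + b • rF N F k)
      = a * x (Sum.inr ⟨k, by omega⟩) - b * x (Sum.inl ⟨k, by omega⟩) := by
  rw [sympForm_add_right, sympForm_smul_right, sympForm_smul_right, sf_right_rE _ hk,
    sf_right_rF _ hk]
  ring

theorem sf_plane_of_supp {x : Fin (N + 1) ⊕ Fin (N + 1) → F} {k : ℕ} (hk : k ≤ N)
    (hx : rSupp N k x) (a b : F) :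
    Cfsg.sympForm (N + 1) F x (a • rE N F k + b • rF N F k) = 0 := by
  rw [sf_plane x hk, (hx ⟨k, by omega⟩ le_rfl).1, (hx ⟨k, by omega⟩ le_rfl).2]
  ring

/-- all non-zero vectors of the plane `P_k` -/
theorem plane_mem {V : Set (Fin (N + 1) ⊕ Fin (N + 1) → F)} (hV : PlaneClosed V) {k : ℕ}
    (hk : k ≤ N) (hE : rE N F k ∈ V) (hF : rF N F k ∈ V) (a b : F) (hab : ¬ (a = 0 ∧ b = 0)) :
    a • rE N F k + b • rF N F k ∈ V := by
  by_cases ha : a = 0
  · have hb : b ≠ 0 := fun hb => hab ⟨ha, hb⟩
    rw [ha, zero_smul, zero_add]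
    exact hV.smul b hb _ hF
  · by_cases hb : b = 0
    · rw [hb, zero_smul, add_zero]
      exact hV.smul a ha _ hE
    · apply hV.add _ (hV.smul a ha _ hE) _ (hV.smul b hb _ hF)
      rw [sympForm_smul_left, sympForm_smul_right, sf_EF_self hk]
      simp [ha, hb]

/-- Step A: `e_j + y` for `y` in the plane `P_{j+1}` -/
theorem stepA {V : Set (Fin (N + 1) ⊕ Fin (N + 1) → F)} (hV : PlaneClosed V) {j : ℕ}
    (hj : j + 1 ≤ N) (hE : rE N F (j + 1) ∈ V) (hF : rF N F (j + 1) ∈ V)
    (hL : rE N F j + rE N F (j + 1) ∈ V) (a b : F) (hab : ¬ (a = 0 ∧ b = 0)) :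
    rE N F j + (a • rE N F (j + 1) + b • rF N F (j + 1)) ∈ V := by
  have key : ∀ a b : F, b ≠ 0 → rE N F j + (a • rE N F (j + 1) + b • rF N F (j + 1)) ∈ V := by
    intro a b hb
    have h1 : rE N F j + (a • rE N F (j + 1) + b • rF N F (j + 1))
        = (rE N F j + rE N F (j + 1)) + ((a - 1) • rE N F (j + 1) + b • rF N F (j + 1)) := by
      module
    rw [h1]
    apply hV.add _ hL _ (plane_mem hV hj hE hF _ _ (fun h => hb h.2))
    rw [sympForm_add_left, sympForm_add_right, sympForm_add_right, sympForm_smul_right,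
      sympForm_smul_right, sympForm_smul_right, sympForm_smul_right, sf_EE, sf_EE,
      sf_EF_ne (Nat.ne_of_lt (Nat.lt_succ_self j)), sf_EF_self hj]
    simp [hb]
  by_cases hb : b = 0
  · have ha : a ≠ 0 := fun ha => hab ⟨ha, hb⟩
    have h1 : rE N F j + (a • rE N F (j + 1) + b • rF N F (j + 1))
        = (rE N F j + (a • rE N F (j + 1) + (1 : F) • rF N F (j + 1)))
          + ((0 : F) • rE N F (j + 1) + (-1 : F) • rF N F (j + 1)) := by
      rw [hb]; module
    rw [h1]
    apply hV.add _ (key a 1 one_ne_zero) _ (plane_mem hV hj hE hF _ _ (fun h => by simpa using h.2))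
    rw [sympForm_add_left, sympForm_add_left, sf_plane _ hj, sf_plane _ hj, sf_plane _ hj]
    simp only [rE_inr, rE_inl, rF_inr, rF_inl, Pi.smul_apply, smul_eq_mul]
    simp [ha]
  · exact key a b hb

/-- **The configuration lemma.** -/
theorem config_all {V : Set (Fin (N + 1) ⊕ Fin (N + 1) → F)} (hV : PlaneClosed V)
    (hE : ∀ k, k ≤ N → rE N F k ∈ V) (hF : ∀ k, k ≤ N → rF N F k ∈ V)
    (hL : ∀ k, k + 1 ≤ N → rE N F k + rE N F (k + 1) ∈ V) :
    ∀ v : Fin (N + 1) ⊕ Fin (N + 1) → F, v ≠ 0 → v ∈ V := by
  have main : ∀ k, k ≤ N + 1 → ∀ v : Fin (N + 1) ⊕ Fin (N + 1) → F, rSupp N k v → v ≠ 0 →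
      v ∈ V := by
    intro k
    induction k with
    | zero =>
      intro _ v hv hv0
      exfalso
      apply hv0
      funext i
      rcases i with i | i
      · exact (hv i (Nat.zero_le _)).1
      · exact (hv i (Nat.zero_le _)).2
    | succ k ih =>
      intro hk v hv hv0
      have hkN : k ≤ N := by omega
      have ih' := ih (by omega)
      obtain ⟨a, ha⟩ : ∃ a : F, a = v (Sum.inl ⟨k, by omega⟩) := ⟨_, rfl⟩
      obtain ⟨b, hb⟩ : ∃ b : F, b = v (Sum.inr ⟨k, by omega⟩) := ⟨_, rfl⟩
      obtain ⟨x, hx⟩ : ∃ x : Fin (N + 1) ⊕ Fin (N + 1) → F,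
          x = v - (a • rE N F k + b • rF N F k) := ⟨_, rfl⟩
      have hvx : v = x + (a • rE N F k + b • rF N F k) := by rw [hx]; abel
      have hxs : rSupp N k x := by
        intro i hi
        by_cases hik : i.val = k
        · have hi' : i = ⟨k, by omega⟩ := Fin.ext hik
          rw [hi', hx]
          simp only [Pi.sub_apply, Pi.add_apply, Pi.smul_apply, rE_inl, rE_inr, rF_inl, rF_inr,
            smul_eq_mul, if_true, ← ha, ← hb]
          constructor <;> ring
        · have h1 := hv i (by omega)
          rw [hx]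
          simp only [Pi.sub_apply, Pi.add_apply, Pi.smul_apply, rE_inl, rE_inr, rF_inl, rF_inr,
            smul_eq_mul, if_neg hik, h1.1, h1.2]
          constructor <;> ring
      by_cases hy : a = 0 ∧ b = 0
      · have hvx' : v = x := by rw [hvx, hy.1, hy.2]; simp
        rw [hvx']
        exact ih' x hxs (by rw [← hvx']; exact hv0)
      by_cases hx0 : x = 0
      · rw [hvx, hx0, zero_add]
        exact plane_mem hV hkN (hE k hkN) (hF k hkN) a b hy
      -- now `k = j + 1`
      obtain ⟨j, rfl⟩ : ∃ j, k = j + 1 := by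
        rcases k with _ | j
        · exfalso
          apply hx0
          funext i
          rcases i with i | i
          · exact (hxs i (Nat.zero_le _)).1
          · exact (hxs i (Nat.zero_le _)).2
        · exact ⟨j, rfl⟩
      have hjN : j ≤ N := by omega
      -- Step B
      have stepB : ∀ x : Fin (N + 1) ⊕ Fin (N + 1) → F, rSupp N (j + 1) x →
          x (Sum.inr ⟨j, by omega⟩) ≠ 0 → ∀ a b : F, ¬ (a = 0 ∧ b = 0) →
          x + (a • rE N F (j + 1) + b • rF N F (j + 1)) ∈ V := by
        intro x hxs hxj a b hab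
        have h1 : x + (a • rE N F (j + 1) + b • rF N F (j + 1))
            = (x - rE N F j) + (rE N F j + (a • rE N F (j + 1) + b • rF N F (j + 1))) := by abel
        rw [h1]
        have h2 : x - rE N F j ∈ V := by
          apply ih' _ (rSupp_sub hxs (rSupp_rE (Nat.lt_succ_self j)))
          intro h
          apply hxj
          have := congrFun h (Sum.inr ⟨j, by omega⟩)
          rw [Pi.sub_apply, rE_inr, sub_zero] at this
          exact this
        apply hV.add _ h2 _ (stepA hV hkN (hE _ hkN) (hF _ hkN) (hL j hkN) a b hab)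
        rw [sympForm_sub_left, sympForm_add_right x (rE N F j),
          sympForm_add_right (rE N F j) (rE N F j),
          sf_plane_of_supp hkN hxs, sf_plane_of_supp hkN (rSupp_rE (Nat.lt_succ_self j)), sf_EE,
          sf_right_rE _ hjN]
        simpa using hxj
      -- Step C
      have stepC : ∀ x z : Fin (N + 1) ⊕ Fin (N + 1) → F, rSupp N (j + 1) x → rSupp N (j + 1) z →
          z (Sum.inr ⟨j, by omega⟩) ≠ 0 → Cfsg.sympForm (N + 1) F x z ≠ 0 → x - z ≠ 0 →
          ∀ a b : F, ¬ (a = 0 ∧ b = 0) →
          x + (a • rE N F (j + 1) + b • rF N F (j + 1)) ∈ V := by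
        intro x z hxs hzs hzj hxz hne a b hab
        have h1 : x + (a • rE N F (j + 1) + b • rF N F (j + 1))
            = (x - z) + (z + (a • rE N F (j + 1) + b • rF N F (j + 1))) := by abel
        rw [h1]
        apply hV.add _ (ih' _ (rSupp_sub hxs hzs) hne) _ (stepB z hzs hzj a b hab)
        rw [sympForm_sub_left, sympForm_add_right x z, sympForm_add_right z z,
          sf_plane_of_supp hkN hxs, sf_plane_of_supp hkN hzs, sympForm_self]
        simpa using hxz
      rw [hvx]
      by_cases c1 : x (Sum.inr ⟨j, by omega⟩) ≠ 0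
      · exact stepB x hxs c1 a b hy
      push Not at c1
      by_cases c2 : x (Sum.inl ⟨j, by omega⟩) ≠ 0
      · apply stepC x (rF N F j) hxs (rSupp_rF (Nat.lt_succ_self j)) _ _ _ a b hy
        · rw [rF_inr, if_pos rfl]; exact one_ne_zero
        · rw [sf_right_rF _ hjN]; exact neg_ne_zero.2 c2
        · intro h
          apply c2
          have := congrFun h (Sum.inl ⟨j, by omega⟩)
          rw [Pi.sub_apply, rF_inl, sub_zero] at this
          exact this
      push Not at c2
      -- another non-zero coordinate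
      have hex : ∃ i : Fin (N + 1), i.val < j ∧ (x (Sum.inl i) ≠ 0 ∨ x (Sum.inr i) ≠ 0) := by
        by_contra hcon
        push Not at hcon
        apply hx0
        funext i
        rcases i with i | i
        · by_cases h1 : i.val < j
          · exact (hcon i h1).1
          · by_cases h2 : i.val = j
            · have : i = ⟨j, by omega⟩ := Fin.ext h2
              rw [this]; exact c2
            · exact (hxs i (by omega)).1
        · by_cases h1 : i.val < j
          · exact (hcon i h1).2
          · by_cases h2 : i.val = j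
            · have : i = ⟨j, by omega⟩ := Fin.ext h2
              rw [this]; exact c1
            · exact (hxs i (by omega)).2
      obtain ⟨i₀, hi₀, hi₀x⟩ := hex
      have hi₀N : i₀.val ≤ N := by omega
      have hfin : (⟨i₀.val, by omega⟩ : Fin (N + 1)) = i₀ := Fin.ext rfl
      rcases hi₀x with hl | hr
      · apply stepC x (rF N F j + rF N F i₀.val) hxs
          (rSupp_add (rSupp_rF (Nat.lt_succ_self j)) (rSupp_rF (by omega))) _ _ _ a b hy
        · rw [Pi.add_apply, rF_inr, rF_inr, if_pos rfl, if_neg (by simp; omega), add_zero]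
          exact one_ne_zero
        · rw [sympForm_add_right, sf_right_rF _ hjN, sf_right_rF _ hi₀N, c2, neg_zero, zero_add,
            hfin]
          exact neg_ne_zero.2 hl
        · intro h
          have := congrFun h (Sum.inr ⟨j, by omega⟩)
          rw [Pi.sub_apply, Pi.add_apply, rF_inr, rF_inr, if_pos rfl, if_neg (by simp; omega),
            add_zero, c1, zero_sub] at this
          simp at this
      · apply stepC x (rF N F j + rE N F i₀.val) hxs
          (rSupp_add (rSupp_rF (Nat.lt_succ_self j)) (rSupp_rE (by omega))) _ _ _ a b hy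
        · rw [Pi.add_apply, rF_inr, rE_inr, if_pos rfl, add_zero]
          exact one_ne_zero
        · rw [sympForm_add_right, sf_right_rF _ hjN, sf_right_rE _ hi₀N, c2, neg_zero, zero_add,
            hfin]
          exact hr
        · intro h
          have := congrFun h (Sum.inr ⟨j, by omega⟩)
          rw [Pi.sub_apply, Pi.add_apply, rF_inr, rE_inr, if_pos rfl, add_zero, c1, zero_sub] at this
          simp at this
  intro v hv0
  apply main (N + 1) le_rfl v _ hv0
  intro i hi
  have := i.isLt
  omega

end config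

end Cfsg.Agent.Helper60.RU
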