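import Mathlib
import Cfsg.Agent.Helper60.RUConfig

/-!
# The closure derivation (helper60)

If a plane-closed set `V` of vectors contains `e_0`, is stable under `u₃^{±1}`, and is stable under
`u₀^{±1}` on the vectors orthogonal to `e_0`, then `V` contains every non-zero vector.
-/

set_option autoImplicit false
set_option linter.unusedSectionVars false
set_option linter.unusedVariables false
set_option linter.unusedSimpArgs false

namespace Cfsg.Agent.Helper60.RU

open Matrix
open Cfsg.Agent.Helper5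
open Cfsg.Agent.Helper13 (sympForm_add_left sympForm_add_right sympForm_smul_left
  sympForm_smul_right sympForm_sub_left sympForm_sub_right sympForm_neg_left sympForm_neg_right
  sympForm_zero_left sympForm_zero_right sympForm_self sympForm_swap)

section closure
variable {F : Type*} [Field F] {N : ℕ}

local notation "M(" g ")" => ((g : Matrix.symplecticGroup (Fin (N + 1)) F) :
  Matrix (Fin (N + 1) ⊕ Fin (N + 1)) (Fin (N + 1) ⊕ Fin (N + 1)) F)

theorem closure_config {V : Set (Fin (N + 1) ⊕ Fin (N + 1) → F)} (hN : 1 ≤ N)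
    (hV : PlaneClosed V) (h0 : rE N F 0 ∈ V)
    (h3 : ∀ v ∈ V, M(ru3 N F) *ᵥ v ∈ V) (h3' : ∀ v ∈ V, M((ru3 N F)⁻¹) *ᵥ v ∈ V)
    (hu : ∀ v ∈ V, Cfsg.sympForm (N + 1) F v (rE N F 0) = 0 → M(ru0 N F) *ᵥ v ∈ V)
    (hu' : ∀ v ∈ V, Cfsg.sympForm (N + 1) F v (rE N F 0) = 0 → M((ru0 N F)⁻¹) *ᵥ v ∈ V) :
    (∀ k, k ≤ N → rE N F k ∈ V) ∧ (∀ k, k ≤ N → rF N F k ∈ V) ∧
      (∀ k, k + 1 ≤ N → rE N F k + rE N F (k + 1) ∈ V) := by
  obtain ⟨m, rfl⟩ : ∃ m, N = m + 1 := ⟨N - 1, by omega⟩
  have hneg : ∀ v ∈ V, (-1 : F) • v ∈ V := fun v hv => hV.smul (-1) (neg_ne_zero.2 one_ne_zero) v hv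
  have h0N : 0 ≤ m + 1 := Nat.zero_le _
  have hNN : m + 1 ≤ m + 1 := le_rfl
  have hmN : m ≤ m + 1 := Nat.le_succ m
  -- (1) the chain of the `e_k`, `k ≤ m`
  have hEk : ∀ k, k ≤ m → rE (m + 1) F k ∈ V := by
    intro k
    induction k with
    | zero => intro _; exact h0
    | succ k ih =>
      intro hk
      have h1 := h3' _ (ih (by omega))
      rw [ru3_inv_rE, if_neg (by omega), if_neg (by omega), add_zero, zero_smul, add_zero] at h1
      have h2 := hu' _ h1 (by rw [sympForm_add_left, sf_EE, sf_EE, add_zero])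
      rw [add_comm (rE (m + 1) F k) (rE (m + 1) F (k + 1)), ru0_inv_rE_succ (by omega)] at h2
      exact h2
  have hLk : ∀ k, k + 1 ≤ m → rE (m + 1) F k + rE (m + 1) F (k + 1) ∈ V := by
    intro k hk
    have h1 := h3' _ (hEk k (by omega))
    rw [ru3_inv_rE, if_neg (by omega), if_neg (by omega), add_zero, zero_smul, add_zero] at h1
    exact h1
  -- (2) `f_N`
  have hw : rE (m + 1) F m + rE (m + 1) F (m + 1) + rF (m + 1) F (m + 1) ∈ V := by
    have h1 := h3' _ (hEk m le_rfl)
    rw [ru3_inv_rE, if_neg (by omega), if_pos rfl, zero_add, one_smul] at h1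
    exact h1
  have hFN : rF (m + 1) F (m + 1) ∈ V := by
    have h2 := hu' _ hw (by
      rw [sympForm_add_left, sympForm_add_left, sf_EE, sf_EE, sf_FE_ne (Nat.succ_ne_zero m)]
      simp)
    rw [Matrix.mulVec_add, add_comm (rE (m + 1) F m), ru0_inv_rE_succ hNN, ru0_inv_rF,
      if_pos rfl, if_neg (by omega), add_zero, one_smul] at h2
    have h3 : rF (m + 1) F (m + 1 + 1) = 0 := by
      rw [rF, rv_eq_zero (by omega)]
      funext i; rcases i with i | i <;> rfl
    rw [h3, add_zero] at h2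
    have h4 : rE (m + 1) F (m + 1) + (rF (m + 1) F (m + 1) - rE (m + 1) F (m + 1))
        = rF (m + 1) F (m + 1) := by abel
    rw [h4] at h2
    exact h2
  -- (3) the last link and `e_N`
  have hLm : rE (m + 1) F m + rE (m + 1) F (m + 1) ∈ V := by
    have h1 := hV.add _ hw _ (hneg _ hFN) (by
      rw [sympForm_smul_right, sympForm_add_left, sympForm_add_left,
        sf_EF_ne (Nat.ne_of_lt (Nat.lt_succ_self m)), sf_EF_self hNN, sympForm_self]
      simp)
    have h2 : rE (m + 1) F m + rE (m + 1) F (m + 1) + rF (m + 1) F (m + 1)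
        + (-1 : F) • rF (m + 1) F (m + 1) = rE (m + 1) F m + rE (m + 1) F (m + 1) := by module
    rw [h2] at h1
    exact h1
  have hEN : rE (m + 1) F (m + 1) ∈ V := by
    have h2 := hu' _ hLm (by rw [sympForm_add_left, sf_EE, sf_EE, add_zero])
    rw [add_comm (rE (m + 1) F m) (rE (m + 1) F (m + 1)), ru0_inv_rE_succ hNN] at h2
    exact h2
  have hE : ∀ k, k ≤ m + 1 → rE (m + 1) F k ∈ V := by
    intro k hk
    by_cases h : k ≤ m
    · exact hEk k h
    · have : k = m + 1 := by omega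
      rw [this]; exact hEN
  have hL : ∀ k, k + 1 ≤ m + 1 → rE (m + 1) F k + rE (m + 1) F (k + 1) ∈ V := by
    intro k hk
    by_cases h : k + 1 ≤ m
    · exact hLk k h
    · have : k = m := by omega
      rw [this]; exact hLm
  -- (4) the chain of the `f_k`, `1 ≤ k`
  have hFk : ∀ d k, k + d = m + 1 → 1 ≤ k → rF (m + 1) F k ∈ V := by
    intro d
    induction d with
    | zero =>
      intro k hk _
      have : k = m + 1 := by omega
      rw [this]; exact hFN
    | succ d ih =>
      intro k hk hk1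
      have h1 := h3 _ (ih (k + 1) (by omega) (by omega))
      rw [ru3_rF_succ (by omega)] at h1
      by_cases hkm : k = m
      · subst hkm
        -- `f_m = u₀ (f_m + f_N - e_N)`
        have h2 := hV.add _ h1 _ (hneg _ hEN) (by
          rw [sympForm_smul_right, sympForm_add_left, sf_FE_self hNN,
            sf_FE_ne (Nat.ne_of_lt (Nat.lt_succ_self k))]
          simp)
        have h3 := hu _ h2 (by
          rw [sympForm_add_left, sympForm_add_left, sympForm_smul_left, sf_EE,
            sf_FE_ne (Nat.succ_ne_zero k), sf_FE_ne (by omega : k ≠ 0)]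
          simp)
        have h4 : rF (k + 1) F (k + 1) + rF (k + 1) F k + (-1 : F) • rE (k + 1) F (k + 1)
            = ((ru0 (k + 1) F)⁻¹).1 *ᵥ rF (k + 1) F k := by
          rw [ru0_inv_rF, if_neg (by omega), if_pos rfl, zero_add]
          module
        rw [h4, sp_mulVec_inv] at h3
        exact h3
      · have h3 := hu _ h1 (by
          rw [sympForm_add_left, sf_FE_ne (Nat.succ_ne_zero k), sf_FE_ne (by omega : k ≠ 0),
            add_zero])
        have h4 : rF (m + 1) F (k + 1) + rF (m + 1) F k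
            = ((ru0 (m + 1) F)⁻¹).1 *ᵥ rF (m + 1) F k := by
          rw [ru0_inv_rF, if_neg (by omega), if_neg (by omega), add_zero, zero_smul, sub_zero]
          abel
        rw [h4, sp_mulVec_inv] at h3
        exact h3
  have hF1 : rF (m + 1) F 1 ∈ V := hFk m 1 (by omega) le_rfl
  -- (5) `f_0`
  have hF0 : rF (m + 1) F 0 ∈ V := by
    have h1N : 1 ≤ m + 1 := by omega
    have h1 : rF (m + 1) F 1 + rF (m + 1) F 0 ∈ V := by
      have := h3 _ hF1
      rw [ru3_rF_succ h1N] at this
      exact this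
    have hL0 : rE (m + 1) F 0 + rE (m + 1) F 1 ∈ V := hL 0 h1N
    have p1 := hV.add _ h1 _ h0 (by
      rw [sympForm_add_left, sf_FE_ne one_ne_zero, sf_FE_self h0N]
      simp)
    have q := hV.add _ (hE 1 h1N) _ (hneg _ hF1) (by
      rw [sympForm_smul_right, sf_EF_self h1N]
      simp)
    have p2 := hV.add _ p1 _ q (by
      rw [sympForm_add_left, sympForm_add_left, sympForm_add_right, sympForm_add_right,
        sympForm_add_right, sympForm_smul_right, sympForm_smul_right, sympForm_smul_right,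
        sf_FE_self h1N, sf_FF, sf_FE_ne zero_ne_one, sf_FF, sf_EE, sf_EF_ne zero_ne_one]
      simp)
    have p3 := hV.add _ p2 _ (hneg _ hL0) (by
      rw [sympForm_smul_right, sympForm_add_right]
      simp only [sympForm_add_left, sympForm_smul_left, sf_EE, sf_FF, sf_FE_self h0N,
        sf_FE_self h1N, sf_FE_ne one_ne_zero, sf_FE_ne zero_ne_one, sf_EF_self h1N,
        sf_EF_ne zero_ne_one, sf_EF_ne one_ne_zero]
      simp)
    have h5 : rF (m + 1) F 1 + rF (m + 1) F 0 + rE (m + 1) F 0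
        + (rE (m + 1) F 1 + (-1 : F) • rF (m + 1) F 1)
        + (-1 : F) • (rE (m + 1) F 0 + rE (m + 1) F 1) = rF (m + 1) F 0 := by
      module
    rw [h5] at p3
    exact p3
  refine ⟨hE, ?_, hL⟩
  intro k hk
  rcases k with _ | k
  · exact hF0
  · exact hFk (m - k) (k + 1) (by omega) (by omega)

/-- the closure derivation combined with the configuration lemma -/
theorem closure_all {V : Set (Fin (N + 1) ⊕ Fin (N + 1) → F)} (hN : 1 ≤ N)
    (hV : PlaneClosed V) (h0 : rE N F 0 ∈ V)
    (h3 : ∀ v ∈ V, M(ru3 N F) *ᵥ v ∈ V) (h3' : ∀ v ∈ V, M((ru3 N F)⁻¹) *ᵥ v ∈ V)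
    (hu : ∀ v ∈ V, Cfsg.sympForm (N + 1) F v (rE N F 0) = 0 → M(ru0 N F) *ᵥ v ∈ V)
    (hu' : ∀ v ∈ V, Cfsg.sympForm (N + 1) F v (rE N F 0) = 0 → M((ru0 N F)⁻¹) *ᵥ v ∈ V) :
    ∀ v : Fin (N + 1) ⊕ Fin (N + 1) → F, v ≠ 0 → v ∈ V := by
  obtain ⟨hE, hF, hL⟩ := closure_config hN hV h0 h3 h3' hu hu'
  exact config_all hV hE hF hL

end closure

end Cfsg.Agent.Helper60.RU
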