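import Mathlib
import Cfsg.Agent.Helper60.RUBase

/-!
# `ru0 * t(e₁, c)` is conjugate to `ru0` (helper60)

Conjugators of Siegel type: `spUp S * ru0 * (spUp S)⁻¹ = ru0 * spTv (rE 0) c` whenever
`J (S + c E₀₀) Jᵀ = S`; explicit solutions `S` in odd characteristic (`N ≥ 1`) and in
characteristic two (`N ≥ 2`).
-/

set_option autoImplicit false
set_option linter.unusedSectionVars false
set_option linter.unusedVariables false
set_option linter.unusedSimpArgs false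

namespace Cfsg.Agent.Helper60.RU

open Matrix
open Cfsg.Agent.Helper5

section conj
variable {F : Type*} [Field F] {N : ℕ}

/-- `E_{ij}` as a rank one matrix (zero if out of range) -/
def rVV (N : ℕ) (F : Type*) [Field F] (i j : ℕ) : Matrix (Fin (N + 1)) (Fin (N + 1)) F :=
  vecMulVec (rv N F i) (rv N F j)

theorem rVV_transpose (i j : ℕ) : (rVV N F i j)ᵀ = rVV N F j i := transpose_vecMulVec _ _

theorem rJ_vecMulVec (x y : Fin (N + 1) → F) :
    rJ N F * vecMulVec x y * (rJ N F)ᵀ = vecMulVec (rJ N F *ᵥ x) (rJ N F *ᵥ y) := by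
  rw [mul_vecMulVec, vecMulVec_mul, vecMul_transpose]

theorem single00_eq (c : F) :
    Matrix.single (⟨0, Nat.succ_pos N⟩ : Fin (N + 1)) ⟨0, Nat.succ_pos N⟩ c = c • rVV N F 0 0 := by
  ext a b
  rw [Matrix.single_apply, Matrix.smul_apply, rVV, vecMulVec_apply, rv_apply, rv_apply, smul_eq_mul]
  by_cases ha : a.val = 0
  · by_cases hb : b.val = 0
    · rw [if_pos ⟨Fin.ext ha.symm, Fin.ext hb.symm⟩, if_pos ha, if_pos hb]; ring
    · rw [if_neg (fun h => hb (by rw [← h.2])), if_neg hb]; ring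
  · rw [if_neg (fun h => ha (by rw [← h.1])), if_neg ha]; ring

/-- the general conjugation identity -/
theorem ru0_conj_spUp (S : Matrix (Fin (N + 1)) (Fin (N + 1)) F) (hS : Sᵀ = S) (c : F)
    (h : rJ N F * (S + c • rVV N F 0 0) * (rJ N F)ᵀ = S) :
    spUp S hS * ru0 N F * (spUp S hS)⁻¹ = ru0 N F * spTv (N + 1) (rE N F 0) c := by
  rw [mul_inv_eq_iff_eq_mul, rE_eq_single (Nat.zero_le N), spTv_single_eq]
  apply Subtype.ext
  show fromBlocks 1 S 0 1 * (fromBlocks (rJ N F) 0 0 (((rJG N F)⁻¹).1)ᵀ * fromBlocks 1 (rB N F) 0 1)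
    = (fromBlocks (rJ N F) 0 0 (((rJG N F)⁻¹).1)ᵀ * fromBlocks 1 (rB N F) 0 1)
      * fromBlocks 1 (Matrix.single (⟨0, Nat.succ_pos N⟩ : Fin (N + 1)) ⟨0, Nat.succ_pos N⟩ c) 0 1
      * fromBlocks 1 S 0 1
  have hQ : (rJ N F)ᵀ * (((rJG N F)⁻¹).1)ᵀ = 1 := by
    rw [← transpose_mul, ← rJG_coe, ← Units.val_mul, inv_mul_cancel, Units.val_one, transpose_one]
  have hSQ : S * (((rJG N F)⁻¹).1)ᵀ = rJ N F * (S + c • rVV N F 0 0) := by
    conv_lhs => rw [← h]
    rw [Matrix.mul_assoc, hQ, Matrix.mul_one]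
  rw [single00_eq]
  simp only [fromBlocks_multiply, Matrix.one_mul, Matrix.mul_one, Matrix.zero_mul, Matrix.mul_zero,
    add_zero, zero_add]
  rw [hSQ, Matrix.mul_add]
  congr 1
  abel

/-- odd characteristic: `S = a (E₀₁ + E₁₀)` with `2a + c = 0` -/
theorem ru0_conj_odd (hN : 1 ≤ N) (a c : F) (hac : 2 * a + c = 0) :
    ∃ C : Matrix.symplecticGroup (Fin (N + 1)) F,
      C * ru0 N F * C⁻¹ = ru0 N F * spTv (N + 1) (rE N F 0) c := by
  have hS : (a • (rVV N F 0 1 + rVV N F 1 0))ᵀ = a • (rVV N F 0 1 + rVV N F 1 0) := by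
    rw [transpose_smul, transpose_add, rVV_transpose, rVV_transpose, add_comm (rVV N F 1 0)]
  refine ⟨spUp _ hS, ru0_conj_spUp _ hS c ?_⟩
  have h1 : rJ N F *ᵥ rv N F 1 = rv N F 1 + rv N F 0 := rJ_mulVec_succ (k := 0) (by omega)
  have key : rJ N F * (a • (rVV N F 0 1 + rVV N F 1 0) + c • rVV N F 0 0) * (rJ N F)ᵀ
      = a • (rVV N F 0 1 + rVV N F 1 0) + (2 * a + c) • rVV N F 0 0 := by
    simp only [Matrix.mul_add, Matrix.add_mul, Matrix.mul_smul, Matrix.smul_mul, rVV, rJ_vecMulVec,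
      rJ_mulVec_zero, h1, vecMulVec_add, add_vecMulVec]
    module
  rw [key, hac, zero_smul, add_zero]

/-- characteristic two: `S = c (E₁₁ + E₀₂ + E₂₀)` -/
theorem ru0_conj_even (hN : 2 ≤ N) (h2 : (2 : F) = 0) (c : F) :
    ∃ C : Matrix.symplecticGroup (Fin (N + 1)) F,
      C * ru0 N F * C⁻¹ = ru0 N F * spTv (N + 1) (rE N F 0) c := by
  have hS : (c • (rVV N F 1 1 + rVV N F 0 2 + rVV N F 2 0))ᵀ
      = c • (rVV N F 1 1 + rVV N F 0 2 + rVV N F 2 0) := by
    rw [transpose_smul, transpose_add, transpose_add, rVV_transpose, rVV_transpose, rVV_transpose]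
    congr 1
    abel
  refine ⟨spUp _ hS, ru0_conj_spUp _ hS c ?_⟩
  have h1 : rJ N F *ᵥ rv N F 1 = rv N F 1 + rv N F 0 := rJ_mulVec_succ (k := 0) (by omega)
  have h3 : rJ N F *ᵥ rv N F 2 = rv N F 2 + rv N F 1 := rJ_mulVec_succ (k := 1) (by omega)
  have key : rJ N F * (c • (rVV N F 1 1 + rVV N F 0 2 + rVV N F 2 0) + c • rVV N F 0 0)
        * (rJ N F)ᵀ
      = c • (rVV N F 1 1 + rVV N F 0 2 + rVV N F 2 0)
        + (2 * c) • (rVV N F 1 0 + rVV N F 0 1 + rVV N F 0 0) := by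
    simp only [Matrix.mul_add, Matrix.add_mul, Matrix.mul_smul, Matrix.smul_mul, rVV, rJ_vecMulVec,
      rJ_mulVec_zero, h1, h3, vecMulVec_add, add_vecMulVec]
    module
  rw [key, h2, zero_mul, zero_smul, add_zero]

theorem ru0_conj_exists (hN : 1 ≤ N) (h2 : (2 : F) ≠ 0 ∨ 2 ≤ N) (c : F) :
    ∃ C : Matrix.symplecticGroup (Fin (N + 1)) F,
      C * ru0 N F * C⁻¹ = ru0 N F * spTv (N + 1) (rE N F 0) c := by
  by_cases h : (2 : F) = 0
  · rcases h2 with h2 | h2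
    · exact absurd h h2
    · exact ru0_conj_even h2 h c
  · refine ru0_conj_odd hN (-(c / 2)) c ?_
    field_simp
    ring

end conj

end Cfsg.Agent.Helper60.RU
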