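import Mathlib
import Cfsg.Agent.Helper60.RUBase

/-!
# Base change of symplectic matrices along a field homomorphism (helper60)
-/

set_option autoImplicit false
set_option linter.unusedSectionVars false
set_option linter.unusedVariables false
set_option linter.unusedSimpArgs false

namespace Cfsg.Agent.Helper60.RU

open Matrix
open Cfsg.Agent.Helper5

section map
variable {K F : Type*} [Field K] [Field F] (f : K →+* F) {N : ℕ}

/-- base change of a symplectic matrix -/
def rmapG (N : ℕ) :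
    Matrix.symplecticGroup (Fin (N + 1)) K →* Matrix.symplecticGroup (Fin (N + 1)) F where
  toFun g := ⟨g.1.map f, SymplecticGroup.map_mem g.2 f⟩
  map_one' := Subtype.ext (by
    show (1 : Matrix (Fin (N + 1) ⊕ Fin (N + 1)) (Fin (N + 1) ⊕ Fin (N + 1)) K).map f = 1
    simp)
  map_mul' g h := Subtype.ext (by
    show (g.1 * h.1).map f = g.1.map f * h.1.map f
    exact Matrix.map_mul)

theorem rmapG_coe (g : Matrix.symplecticGroup (Fin (N + 1)) K) :
    (rmapG f N g).1 = g.1.map f := rfl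

theorem rmapG_mulVec (g : Matrix.symplecticGroup (Fin (N + 1)) K)
    (v : Fin (N + 1) ⊕ Fin (N + 1) → K) :
    (rmapG f N g).1 *ᵥ (f ∘ v) = f ∘ (g.1 *ᵥ v) := by
  funext i
  rw [rmapG_coe, Function.comp_apply, RingHom.map_mulVec]

theorem map_sf (v w : Fin (N + 1) ⊕ Fin (N + 1) → K) :
    Cfsg.sympForm (N + 1) F (f ∘ v) (f ∘ w) = f (Cfsg.sympForm (N + 1) K v w) := by
  rw [sf_explicit, sf_explicit, map_sum]
  apply Finset.sum_congr rfl
  intro i _
  simp [map_sub, map_mul]

theorem map_rE (k : ℕ) : f ∘ rE N K k = rE N F k := by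
  funext i
  rcases i with i | i
  · rw [Function.comp_apply, rE_inl, rE_inl]
    split_ifs <;> simp
  · rw [Function.comp_apply, rE_inr, rE_inr, map_zero]

theorem map_rF (k : ℕ) : f ∘ rF N K k = rF N F k := by
  funext i
  rcases i with i | i
  · rw [Function.comp_apply, rF_inl, rF_inl, map_zero]
  · rw [Function.comp_apply, rF_inr, rF_inr]
    split_ifs <;> simp

theorem map_single (i : Fin (N + 1) ⊕ Fin (N + 1)) :
    f ∘ (Pi.single i (1 : K)) = Pi.single i (1 : F) := by
  funext j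
  rw [Function.comp_apply, Pi.single_apply, Pi.single_apply]
  split_ifs <;> simp

theorem map_add_vec (v w : Fin (N + 1) ⊕ Fin (N + 1) → K) : f ∘ (v + w) = f ∘ v + f ∘ w := by
  funext i
  simp

theorem map_smul_vec (c : K) (v : Fin (N + 1) ⊕ Fin (N + 1) → K) :
    f ∘ (c • v) = f c • (f ∘ v) := by
  funext i
  simp

theorem map_vec_eq_zero {v : Fin (N + 1) ⊕ Fin (N + 1) → K} (h : f ∘ v = 0) : v = 0 := by
  funext i
  have := congrFun h i
  rw [Function.comp_apply, Pi.zero_apply] at this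
  exact (map_eq_zero f).1 this

theorem rmapG_spTv (v : Fin (N + 1) ⊕ Fin (N + 1) → K) (c : K) :
    rmapG f N (spTv (N + 1) v c) = spTv (N + 1) (f ∘ v) (f c) := by
  apply Subtype.ext
  apply Matrix.ext_of_mulVec_single
  intro i
  rw [← map_single f i, rmapG_mulVec, spTv_mulVec, spTv_mulVec, map_sf, map_add_vec, map_smul_vec,
    map_mul]

theorem rmapG_rtau : rmapG f N (rtau N K) = rtau N F := by
  apply Subtype.ext
  show (J (Fin (N + 1)) K).map f = J (Fin (N + 1)) F
  exact Matrix.map_J _ f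

theorem map_rJ : (rJ N K).map f = rJ N F := by
  ext i j
  rw [Matrix.map_apply, rJ_apply, rJ_apply]
  split_ifs <;> simp

theorem map_rB : (rB N K).map f = rB N F := by
  ext i j
  rw [Matrix.map_apply, rB, rB, Matrix.single_apply, Matrix.single_apply]
  split_ifs <;> simp

theorem rmapG_rD : rmapG f N (rD (rJG N K)) = rD (rJG N F) := by
  apply Subtype.ext
  show (fromBlocks (rJG N K).1 0 0 (((rJG N K)⁻¹).1)ᵀ).map f
    = fromBlocks (rJG N F).1 0 0 (((rJG N F)⁻¹).1)ᵀ
  have h1 : ((rJG N K)⁻¹).1.map f = ((rJG N F)⁻¹).1 := by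
    apply Units.eq_inv_of_mul_eq_one_left
    rw [rJG_coe, ← map_rJ f, ← Matrix.map_mul, ← rJG_coe, ← Units.val_mul, mul_inv_cancel,
      Units.val_one]
    simp
  rw [fromBlocks_map, rJG_coe, rJG_coe, map_rJ, transpose_map, h1]
  simp

theorem rmapG_spUp_rB :
    rmapG f N (spUp (rB N K) rB_transpose) = spUp (rB N F) rB_transpose := by
  apply Subtype.ext
  show (fromBlocks 1 (rB N K) 0 1).map f = fromBlocks 1 (rB N F) 0 1
  rw [fromBlocks_map, map_rB]
  simp

theorem rmapG_ru0 : rmapG f N (ru0 N K) = ru0 N F := by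
  rw [ru0, map_mul, rmapG_rD, rmapG_spUp_rB, ru0]

theorem rmapG_ru3 : rmapG f N (ru3 N K) = ru3 N F := by
  rw [ru3, map_mul, map_mul, map_inv, rmapG_rtau, rmapG_ru0, ru3]

/-- a subgroup containing all rational transvections contains all rational matrices -/
theorem rmapG_mem (H : Subgroup (Matrix.symplecticGroup (Fin (N + 1)) F))
    (h : ∀ (v : Fin (N + 1) ⊕ Fin (N + 1) → K) (c : K), spTv (N + 1) (f ∘ v) (f c) ∈ H)
    (g : Matrix.symplecticGroup (Fin (N + 1)) K) : rmapG f N g ∈ H := by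
  have hg : g ∈ spT (N + 1) K := by rw [spT_eq_top]; exact Subgroup.mem_top g
  unfold spT at hg
  induction hg using Subgroup.closure_induction with
  | mem g hg =>
    obtain ⟨u, c, rfl⟩ := hg
    rw [rmapG_spTv]
    exact h u c
  | one => rw [map_one]; exact H.one_mem
  | mul x y hx hy ihx ihy => rw [map_mul]; exact H.mul_mem ihx ihy
  | inv x hx ih => rw [map_inv]; exact H.inv_mem ih

/-- rational transitivity -/
theorem rmapG_transitive (H : Subgroup (Matrix.symplecticGroup (Fin (N + 1)) F))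
    (h : ∀ (v : Fin (N + 1) ⊕ Fin (N + 1) → K) (c : K), spTv (N + 1) (f ∘ v) (f c) ∈ H)
    (v w : Fin (N + 1) ⊕ Fin (N + 1) → K) (hv : v ≠ 0) (hw : w ≠ 0) :
    ∃ g ∈ H, g.1 *ᵥ (f ∘ v) = f ∘ w := by
  obtain ⟨g, hg⟩ := symp_transitive v w hv hw
  exact ⟨rmapG f N g, rmapG_mem f H h g, by rw [rmapG_mulVec, hg]⟩

end map

end Cfsg.Agent.Helper60.RU
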