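import Mathlib
import Cfsg.Agent.Helper60.RUClosure
import Cfsg.Agent.Helper60.RUMap

/-!
# The parameter lemma and the final step (helper60)

* `param_step`: if `t(v, c)`, `t(v, d)`, `t(v, cd)` lie in `H` for the relevant vectors, so does
  `t(y, c²d)`.
* `rational_all_of_gen`: a subgroup containing the rational transvections and `t(e_0, a)` with `a`
  a generator of `Fˣ` contains `t(v, c)` for all rational `v` and all `c`.
* `top_of_rational`: such a subgroup is the whole symplectic group.
-/

set_option autoImplicit false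
set_option linter.unusedSectionVars false
set_option linter.unusedVariables false
set_option linter.unusedSimpArgs false

namespace Cfsg.Agent.Helper60.RU

open Matrix
open Cfsg.Agent.Helper5
open Cfsg.Agent.Helper13 (sympForm_add_left sympForm_add_right sympForm_smul_left
  sympForm_smul_right sympForm_sub_left sympForm_sub_right sympForm_neg_left sympForm_neg_right
  sympForm_zero_left sympForm_zero_right sympForm_self sympForm_swap)

section sieg
variable {F : Type*} [Field F] {m : ℕ}

/-- the Siegel (short root) element attached to an orthogonal pair -/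
def sSieg (m : ℕ) (x y : Fin m ⊕ Fin m → F) (c : F) : Matrix.symplecticGroup (Fin m) F :=
  spTv m (x + y) c * spTv m x (-c) * spTv m y (-c)

theorem sSieg_mulVec (x y : Fin m ⊕ Fin m → F) (hxy : Cfsg.sympForm m F x y = 0) (c : F)
    (v : Fin m ⊕ Fin m → F) :
    (sSieg m x y c).1 *ᵥ v
      = v + (c * Cfsg.sympForm m F v x) • y + (c * Cfsg.sympForm m F v y) • x := by
  have hyx : Cfsg.sympForm m F y x = 0 := by rw [sympForm_swap, hxy, neg_zero]
  unfold sSieg
  rw [sp_mul_mulVec, sp_mul_mulVec, spTv_mulVec, spTv_mulVec, spTv_mulVec]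
  simp only [sympForm_add_left, sympForm_add_right, sympForm_smul_left, sympForm_self, hxy, hyx]
  module

theorem spTv_zero_right (v : Fin m ⊕ Fin m → F) : spTv m v (0 : F) = 1 := by
  apply sp_ext
  intro x
  rw [spTv_mulVec, zero_mul, zero_smul, add_zero, sp_coe_one, Matrix.one_mulVec]

theorem spTv_inv (v : Fin m ⊕ Fin m → F) (c : F) : (spTv m v c)⁻¹ = spTv m v (-c) := by
  rw [inv_eq_iff_mul_eq_one, spTv_mul, add_neg_cancel, spTv_zero_right]

theorem spTv_natCast (v : Fin m ⊕ Fin m → F) (n : ℕ) : spTv m v (n : F) = spTv m v 1 ^ n := by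
  induction n with
  | zero => rw [Nat.cast_zero, spTv_zero_right, pow_zero]
  | succ n ih => rw [Nat.cast_succ, ← spTv_mul, ih, pow_succ]

/-- the key identity `t(w + c y, d) = t(w, d) s(w, y; cd) t(y, c² d)` for `w ⊥ y` -/
theorem spTv_add_smul (w y : Fin m ⊕ Fin m → F) (hwy : Cfsg.sympForm m F w y = 0) (c d : F) :
    spTv m (w + c • y) d = spTv m w d * sSieg m w y (c * d) * spTv m y (c * c * d) := by
  have hyw : Cfsg.sympForm m F y w = 0 := by rw [sympForm_swap, hwy, neg_zero]
  apply sp_ext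
  intro x
  rw [sp_mul_mulVec, sp_mul_mulVec, spTv_mulVec, spTv_mulVec, sSieg_mulVec _ _ hwy, spTv_mulVec]
  simp only [sympForm_add_left, sympForm_add_right, sympForm_smul_left, sympForm_smul_right,
    sympForm_self, hwy, hyw]
  module

/-- **the parameter step** -/
theorem param_step (H : Subgroup (Matrix.symplecticGroup (Fin m) F))
    (w y z : Fin m ⊕ Fin m → F) (hwy : Cfsg.sympForm m F w y = 0)
    (hzy : Cfsg.sympForm m F z y = 0) (hwz : Cfsg.sympForm m F w z = 1) (c d : F)
    (hc1 : spTv m (y + z) c ∈ H) (hc2 : spTv m y (-c) ∈ H) (hc3 : spTv m z (-c) ∈ H)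
    (hd : spTv m w d ∈ H)
    (hcd1 : spTv m (w + y) (c * d) ∈ H) (hcd2 : spTv m w (-(c * d)) ∈ H)
    (hcd3 : spTv m y (-(c * d)) ∈ H) :
    spTv m y (c * c * d) ∈ H := by
  have hyz : Cfsg.sympForm m F y z = 0 := by rw [sympForm_swap, hzy, neg_zero]
  have hg : sSieg m y z c ∈ H := H.mul_mem (H.mul_mem hc1 hc2) hc3
  have hs : sSieg m w y (c * d) ∈ H := H.mul_mem (H.mul_mem hcd1 hcd2) hcd3
  have h1 : (sSieg m y z c).1 *ᵥ w = w + c • y := by
    rw [sSieg_mulVec _ _ hyz, hwy, hwz]
    simp
  have h2 : spTv m (w + c • y) d ∈ H := by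
    rw [← h1, ← spTv_conj]
    exact H.mul_mem (H.mul_mem hg hd) (H.inv_mem hg)
  rw [spTv_add_smul w y hwy] at h2
  have h3 : spTv m y (c * c * d)
      = (sSieg m w y (c * d))⁻¹ * ((spTv m w d)⁻¹
        * (spTv m w d * sSieg m w y (c * d) * spTv m y (c * c * d))) := by group
  rw [h3]
  exact H.mul_mem (H.inv_mem hs) (H.mul_mem (H.inv_mem hd) h2)

end sieg

section final
variable {K F : Type*} [Field K] [Field F] (f : K →+* F) {N : ℕ}

/-- from the rational transvections and `t(e_0, a)`, `a` a generator of `Fˣ`, to all parameters -/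
theorem rational_all_of_gen (H : Subgroup (Matrix.symplecticGroup (Fin (N + 1)) F)) (hN : 1 ≤ N)
    (h1 : ∀ (v : Fin (N + 1) ⊕ Fin (N + 1) → K) (c : K), spTv (N + 1) (f ∘ v) (f c) ∈ H)
    (a : F) (ha : spTv (N + 1) (rE N F 0) a ∈ H) (hgen : ∀ x : F, x ≠ 0 → ∃ k : ℕ, x = a ^ k) :
    ∀ (v : Fin (N + 1) ⊕ Fin (N + 1) → K) (c : F), spTv (N + 1) (f ∘ v) c ∈ H := by
  -- transport from `e_0`
  have trans : ∀ c : F, spTv (N + 1) (rE N F 0) c ∈ H →
      ∀ v : Fin (N + 1) ⊕ Fin (N + 1) → K, spTv (N + 1) (f ∘ v) c ∈ H := by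
    intro c hc v
    by_cases hv : v = 0
    · rw [hv]
      have : f ∘ (0 : Fin (N + 1) ⊕ Fin (N + 1) → K) = 0 := by funext i; simp
      rw [this, spTv_zero_left]
      exact H.one_mem
    · obtain ⟨g, hg, hgv⟩ := rmapG_transitive f H h1 (rE N K 0) v (rE_ne_zero (Nat.zero_le N)) hv
      rw [map_rE] at hgv
      rw [← hgv, ← spTv_conj]
      exact H.mul_mem (H.mul_mem hg hc) (H.inv_mem hg)
  have hneg : ∀ c : F, spTv (N + 1) (rE N F 0) c ∈ H → spTv (N + 1) (rE N F 0) (-c) ∈ H := by
    intro c hc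
    rw [← spTv_inv]
    exact H.inv_mem hc
  -- the closure property
  have step : ∀ c d : F, spTv (N + 1) (rE N F 0) c ∈ H → spTv (N + 1) (rE N F 0) d ∈ H →
      spTv (N + 1) (rE N F 0) (c * d) ∈ H → spTv (N + 1) (rE N F 0) (c * c * d) ∈ H := by
    intro c d hc hd hcd
    have h1N : 1 ≤ N := hN
    have e1 : f ∘ (rE N K 0 + rE N K 1) = rE N F 0 + rE N F 1 := by
      rw [map_add_vec, map_rE, map_rE]
    have e2 : f ∘ (rF N K 1 + rE N K 0) = rF N F 1 + rE N F 0 := by
      rw [map_add_vec, map_rF, map_rE]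
    apply param_step H (rF N F 1) (rE N F 0) (rE N F 1)
      (sf_FE_ne one_ne_zero) (sf_EE 1 0) (sf_FE_self h1N) c d
    · rw [← e1]; exact trans c hc _
    · exact hneg c hc
    · rw [← map_rE f]; exact trans _ (hneg c hc) _
    · rw [← map_rF f]; exact trans d hd _
    · rw [← e2]; exact trans _ hcd _
    · rw [← map_rF f]; exact trans _ (hneg _ hcd) _
    · exact hneg _ hcd
  have h1' : spTv (N + 1) (rE N F 0) 1 ∈ H := by
    have := h1 (rE N K 0) 1
    rw [map_rE, map_one] at this
    exact this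
  have hpow : ∀ k : ℕ, spTv (N + 1) (rE N F 0) (a ^ k) ∈ H := by
    intro k
    induction k using Nat.strong_induction_on with
    | _ k ih =>
      rcases k with _ | _ | k
      · rw [pow_zero]; exact h1'
      · rw [pow_one]; exact ha
      · have h2 := step a (a ^ k) ha (ih k (by omega)) (by
          rw [← pow_succ']; exact ih (k + 1) (by omega))
        have h3 : a * a * a ^ k = a ^ (k + 1 + 1) := by ring
        rw [h3] at h2
        exact h2
  intro v c
  apply trans
  by_cases hc : c = 0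
  · rw [hc, spTv_zero_right]; exact H.one_mem
  · obtain ⟨k, rfl⟩ := hgen c hc
    exact hpow k

/-- a subgroup containing `t(v, c)` for all rational `v` and all `c` is everything -/
theorem top_of_rational (H : Subgroup (Matrix.symplecticGroup (Fin (N + 1)) F))
    (h : ∀ (v : Fin (N + 1) ⊕ Fin (N + 1) → K) (c : F), spTv (N + 1) (f ∘ v) c ∈ H) :
    H = ⊤ := by
  have hV : PlaneClosed {v : Fin (N + 1) ⊕ Fin (N + 1) → F | ∀ c : F, spTv (N + 1) v c ∈ H} := by
    constructor
    · intro c hc v hv d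
      rw [spTv_smul]
      exact hv _
    · intro v hv w hw hvw d
      have h1 : (spTv (N + 1) w (Cfsg.sympForm (N + 1) F v w)⁻¹).1 *ᵥ v = v + w := by
        rw [spTv_mulVec, inv_mul_cancel₀ hvw, one_smul]
      have h2 := hw (Cfsg.sympForm (N + 1) F v w)⁻¹
      show spTv (N + 1) (v + w) d ∈ H
      rw [← h1, ← spTv_conj]
      exact H.mul_mem (H.mul_mem h2 (hv d)) (H.inv_mem h2)
  have hall := config_all hV
    (fun k _ c => by have := h (rE N K k) c; rw [map_rE] at this; exact this)
    (fun k _ c => by have := h (rF N K k) c; rw [map_rF] at this; exact this)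
    (fun k _ c => by
      have := h (rE N K k + rE N K (k + 1)) c
      rw [map_add_vec, map_rE, map_rE] at this
      exact this)
  rw [eq_top_iff, ← spT_eq_top]
  unfold spT
  rw [Subgroup.closure_le]
  rintro _ ⟨u, c, rfl⟩
  by_cases hu : u = 0
  · rw [hu, spTv_zero_left]; exact H.one_mem
  · exact hall u hu c

end final

end Cfsg.Agent.Helper60.RU
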