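import Mathlib
import Cfsg.Agent.Helper60.RUBase

/-!
# Regularity of the unipotent element `ru0` (helper60)

`(ru0 - 1)^(2N+2) = 0` and `(ru0 - 1)^(2N+1) ≠ 0`; conjugation invariance of this property.
-/

set_option autoImplicit false
set_option linter.unusedSectionVars false
set_option linter.unusedVariables false
set_option linter.unusedSimpArgs false

namespace Cfsg.Agent.Helper60.RU

open Matrix
open Cfsg.Agent.Helper5

section reg
variable {F : Type*} [Field F] {N : ℕ}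

/-- `u₀ - 1` -/
noncomputable def rN0 (N : ℕ) (F : Type*) [Field F] :
    Matrix (Fin (N + 1) ⊕ Fin (N + 1)) (Fin (N + 1) ⊕ Fin (N + 1)) F := (ru0 N F).1 - 1

/-- `u₀⁻¹ - 1` -/
noncomputable def rM0 (N : ℕ) (F : Type*) [Field F] :
    Matrix (Fin (N + 1) ⊕ Fin (N + 1)) (Fin (N + 1) ⊕ Fin (N + 1)) F := ((ru0 N F)⁻¹).1 - 1

theorem rU_mul_inv : (ru0 N F).1 * ((ru0 N F)⁻¹).1 = 1 :=
  congrArg Subtype.val (mul_inv_cancel (ru0 N F))

theorem rU_inv_mul : ((ru0 N F)⁻¹).1 * (ru0 N F).1 = 1 :=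
  congrArg Subtype.val (inv_mul_cancel (ru0 N F))

theorem rF_eq_zero {k : ℕ} (hk : N < k) : rF N F k = 0 := by
  simp only [rF]
  rw [rv_eq_zero hk]
  funext i
  rcases i with i | i <;> rfl

theorem rN0_rE_succ {k : ℕ} (hk : k + 1 ≤ N) : rN0 N F *ᵥ rE N F (k + 1) = rE N F k := by
  rw [rN0, Matrix.sub_mulVec, Matrix.one_mulVec, ru0_rE_succ hk, add_sub_cancel_left]

theorem rN0_rE_zero : rN0 N F *ᵥ rE N F 0 = 0 := by
  rw [rN0, Matrix.sub_mulVec, Matrix.one_mulVec, ru0_rE_zero, sub_self]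

theorem rN0_pow_rE : ∀ (j k : ℕ), k ≤ N → j ≤ k → (rN0 N F) ^ j *ᵥ rE N F k = rE N F (k - j) := by
  intro j
  induction j with
  | zero => intro k _ _; rw [pow_zero, Matrix.one_mulVec, Nat.sub_zero]
  | succ j ih =>
    intro k hk hj
    obtain ⟨k', rfl⟩ : ∃ k', k = k' + 1 := ⟨k - 1, by omega⟩
    rw [pow_succ, ← Matrix.mulVec_mulVec, rN0_rE_succ hk, ih k' (by omega) (by omega)]
    congr 1
    omega

theorem rN0_pow_rE_zero {j k : ℕ} (hk : k ≤ N) (hj : k < j) : (rN0 N F) ^ j *ᵥ rE N F k = 0 := by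
  obtain ⟨a, rfl⟩ : ∃ a, j = a + (k + 1) := ⟨j - (k + 1), by omega⟩
  rw [pow_add, ← Matrix.mulVec_mulVec, pow_succ', ← Matrix.mulVec_mulVec,
    rN0_pow_rE k k hk le_rfl, Nat.sub_self, rN0_rE_zero, Matrix.mulVec_zero]

theorem rM0_eq : rM0 N F = (-((ru0 N F)⁻¹).1) * rN0 N F := by
  rw [rM0, rN0, Matrix.neg_mul, Matrix.mul_sub, rU_inv_mul, Matrix.mul_one, neg_sub]

theorem rN0_eq : rN0 N F = (-(ru0 N F).1) * rM0 N F := by
  rw [rM0, rN0, Matrix.neg_mul, Matrix.mul_sub, rU_mul_inv, Matrix.mul_one, neg_sub]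

theorem rM0_comm : Commute (-((ru0 N F)⁻¹).1) (rN0 N F) := by
  show (-((ru0 N F)⁻¹).1) * rN0 N F = rN0 N F * (-((ru0 N F)⁻¹).1)
  rw [rN0, Matrix.neg_mul, Matrix.mul_sub, rU_inv_mul, Matrix.mul_one, Matrix.mul_neg,
    Matrix.sub_mul, rU_mul_inv, Matrix.one_mul]

theorem rN0_comm : Commute (-(ru0 N F).1) (rM0 N F) := by
  show (-(ru0 N F).1) * rM0 N F = rM0 N F * (-(ru0 N F).1)
  rw [rM0, Matrix.neg_mul, Matrix.mul_sub, rU_mul_inv, Matrix.mul_one, Matrix.mul_neg,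
    Matrix.sub_mul, rU_inv_mul, Matrix.one_mul]

theorem rM0_pow (j : ℕ) : (rM0 N F) ^ j = (-((ru0 N F)⁻¹).1) ^ j * (rN0 N F) ^ j := by
  rw [rM0_eq, rM0_comm.mul_pow]

theorem rN0_pow (j : ℕ) : (rN0 N F) ^ j = (-(ru0 N F).1) ^ j * (rM0 N F) ^ j := by
  conv_lhs => rw [rN0_eq]
  rw [rN0_comm.mul_pow]

theorem rM0_pow_rE_zero {j k : ℕ} (hk : k ≤ N) (hj : k < j) : (rM0 N F) ^ j *ᵥ rE N F k = 0 := by
  rw [rM0_pow, ← Matrix.mulVec_mulVec, rN0_pow_rE_zero hk hj, Matrix.mulVec_zero]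

theorem rM0_rF (k : ℕ) : rM0 N F *ᵥ rF N F k = rF N F (k + 1)
    - ((if k = N then (1 : F) else 0) + (if k + 1 = N then 1 else 0)) • rE N F N := by
  rw [rM0, Matrix.sub_mulVec, Matrix.one_mulVec, ru0_inv_rF]
  abel

theorem rM0_pow_rF_zero : ∀ (d k : ℕ), k + d = N + 1 →
    (rM0 N F) ^ (d + (N + 1)) *ᵥ rF N F k = 0 := by
  intro d
  induction d with
  | zero =>
    intro k hk
    rw [rF_eq_zero (by omega), Matrix.mulVec_zero]
  | succ d ih =>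
    intro k hk
    have he : d + 1 + (N + 1) = (d + (N + 1)) + 1 := by omega
    rw [he, pow_succ, ← Matrix.mulVec_mulVec, rM0_rF, Matrix.mulVec_sub, Matrix.mulVec_smul,
      ih (k + 1) (by omega), rM0_pow_rE_zero le_rfl (by omega), smul_zero, sub_zero]

theorem rM0_pow_top : (rM0 N F) ^ (2 * N + 2) = 0 := by
  apply Matrix.ext_of_mulVec_single
  intro i
  rw [Matrix.zero_mulVec]
  rcases i with i | i
  · rw [← rE_eq_single (by have := i.2; omega : i.val ≤ N)]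
    exact rM0_pow_rE_zero (by have := i.2; omega) (by have := i.2; omega)
  · rw [← rF_eq_single (by have := i.2; omega : i.val ≤ N)]
    have hi := i.2
    have he : 2 * N + 2 = i.val + ((N + 1 - i.val) + (N + 1)) := by omega
    rw [he, pow_add, ← Matrix.mulVec_mulVec, rM0_pow_rF_zero (N + 1 - i.val) i.val (by omega),
      Matrix.mulVec_zero]

theorem rN0_pow_top : (rN0 N F) ^ (2 * N + 2) = 0 := by
  rw [rN0_pow, rM0_pow_top, Matrix.mul_zero]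

theorem rM0_pow_rF0 : ∀ j : ℕ, j + 1 ≤ N → (rM0 N F) ^ j *ᵥ rF N F 0 = rF N F j := by
  intro j
  induction j with
  | zero => intro _; rw [pow_zero, Matrix.one_mulVec]
  | succ j ih =>
    intro hj
    rw [pow_succ', ← Matrix.mulVec_mulVec, ih (by omega), rM0_rF, if_neg (by omega),
      if_neg (by omega), add_zero, zero_smul, sub_zero]

theorem rU_inv_pow_rE0 (j : ℕ) :
    (-((ru0 N F)⁻¹).1) ^ j *ᵥ rE N F 0 = ((-1 : F) ^ j) • rE N F 0 := by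
  induction j with
  | zero => rw [pow_zero, pow_zero, Matrix.one_mulVec, one_smul]
  | succ j ih =>
    rw [pow_succ, ← Matrix.mulVec_mulVec, Matrix.neg_mulVec, ru0_inv_rE_zero, Matrix.mulVec_neg, ih,
      pow_succ, mul_neg_one, neg_smul]

theorem rM0_pow_rF0_top (hN : 1 ≤ N) :
    (rM0 N F) ^ (2 * N + 1) *ᵥ rF N F 0 = -(((-1 : F) ^ N) • rE N F 0) := by
  obtain ⟨M, rfl⟩ : ∃ M, N = M + 1 := ⟨N - 1, by omega⟩
  have h1 : (rM0 (M + 1) F) ^ (M + 1) *ᵥ rF (M + 1) F 0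
      = rF (M + 1) F (M + 1) - rE (M + 1) F (M + 1) := by
    rw [pow_succ', ← Matrix.mulVec_mulVec, rM0_pow_rF0 M (by omega), rM0_rF, if_neg (by omega),
      if_pos rfl, zero_add, one_smul]
  have h2 : rM0 (M + 1) F *ᵥ rF (M + 1) F (M + 1) = - rE (M + 1) F (M + 1) := by
    rw [rM0_rF, if_pos rfl, if_neg (by omega), add_zero, one_smul, rF_eq_zero (by omega), zero_sub]
  have he : 2 * (M + 1) + 1 = (M + 1) + ((M + 1) + 1) := by omega
  have h3 : (rM0 (M + 1) F) ^ (M + 1 + 1) *ᵥ rF (M + 1) F 0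
      = - rE (M + 1) F (M + 1) - rM0 (M + 1) F *ᵥ rE (M + 1) F (M + 1) := by
    rw [pow_succ', ← Matrix.mulVec_mulVec, h1, Matrix.mulVec_sub, h2]
  rw [he, pow_add, ← Matrix.mulVec_mulVec, h3]
  rw [Matrix.mulVec_sub, Matrix.mulVec_neg, Matrix.mulVec_mulVec, ← pow_succ,
    rM0_pow_rE_zero (j := M + 1 + 1) (k := M + 1) le_rfl (by omega), sub_zero, rM0_pow,
    ← Matrix.mulVec_mulVec, rN0_pow_rE (M + 1) (M + 1) le_rfl le_rfl, Nat.sub_self,
    rU_inv_pow_rE0]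

theorem rN0_pow_ne (hN : 1 ≤ N) : (rN0 N F) ^ (2 * N + 1) ≠ 0 := by
  intro h
  have h1 : (rM0 N F) ^ (2 * N + 1) = 0 := by rw [rM0_pow, h, Matrix.mul_zero]
  have h2 := rM0_pow_rF0_top (F := F) hN
  rw [h1, Matrix.zero_mulVec] at h2
  have h3 : ((-1 : F) ^ N) • rE N F 0 = 0 := by
    rw [← neg_eq_zero]; exact h2.symm
  rcases smul_eq_zero.mp h3 with h4 | h4
  · exact pow_ne_zero N (neg_ne_zero.mpr one_ne_zero) h4
  · exact rE_ne_zero (Nat.zero_le N) h4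

/-- `ru0` is a regular unipotent element -/
theorem ru0_regular (hN : 1 ≤ N) :
    IsNilpotent ((ru0 N F).1 - 1) ∧ ((ru0 N F).1 - 1) ^ (2 * (N + 1) - 1) ≠ 0 := by
  refine ⟨⟨2 * N + 2, rN0_pow_top⟩, ?_⟩
  have he : 2 * (N + 1) - 1 = 2 * N + 1 := by omega
  rw [he]
  exact rN0_pow_ne hN

end reg

section conj
variable {F : Type*} [Field F] {n : ℕ}

theorem reg_conj_pow (g u : Matrix.symplecticGroup (Fin n) F) (k : ℕ) :
    ((g * u * g⁻¹).1 - 1) ^ k = g.1 * (u.1 - 1) ^ k * (g⁻¹).1 := by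
  have h1 : g.1 * (g⁻¹).1 = 1 := congrArg Subtype.val (mul_inv_cancel g)
  have h2 : (g⁻¹).1 * g.1 = 1 := congrArg Subtype.val (inv_mul_cancel g)
  have h3 : (g * u * g⁻¹).1 - 1 = g.1 * (u.1 - 1) * (g⁻¹).1 := by
    show g.1 * u.1 * (g⁻¹).1 - 1 = _
    rw [Matrix.mul_sub, Matrix.sub_mul, Matrix.mul_one, h1]
  induction k with
  | zero => rw [pow_zero, pow_zero, Matrix.mul_one, h1]
  | succ k ih =>
    rw [pow_succ, ih, h3, pow_succ]
    calc g.1 * (u.1 - 1) ^ k * (g⁻¹).1 * (g.1 * (u.1 - 1) * (g⁻¹).1)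
        = g.1 * (u.1 - 1) ^ k * ((g⁻¹).1 * g.1) * (u.1 - 1) * (g⁻¹).1 := by
          simp only [Matrix.mul_assoc]
      _ = g.1 * ((u.1 - 1) ^ k * (u.1 - 1)) * (g⁻¹).1 := by
          rw [h2, Matrix.mul_one]; simp only [Matrix.mul_assoc]

/-- regularity is invariant under conjugation -/
theorem reg_conj (g u : Matrix.symplecticGroup (Fin n) F) (m : ℕ)
    (h : IsNilpotent (u.1 - 1) ∧ (u.1 - 1) ^ m ≠ 0) :
    IsNilpotent ((g * u * g⁻¹).1 - 1) ∧ ((g * u * g⁻¹).1 - 1) ^ m ≠ 0 := by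
  have h1 : g.1 * (g⁻¹).1 = 1 := congrArg Subtype.val (mul_inv_cancel g)
  have h2 : (g⁻¹).1 * g.1 = 1 := congrArg Subtype.val (inv_mul_cancel g)
  obtain ⟨⟨k, hk⟩, hm⟩ := h
  refine ⟨⟨k, by rw [reg_conj_pow, hk, Matrix.mul_zero, Matrix.zero_mul]⟩, ?_⟩
  intro h0
  rw [reg_conj_pow] at h0
  apply hm
  have : (u.1 - 1) ^ m = (g⁻¹).1 * (g.1 * (u.1 - 1) ^ m * (g⁻¹).1) * g.1 := by
    calc (u.1 - 1) ^ m = ((g⁻¹).1 * g.1) * (u.1 - 1) ^ m * ((g⁻¹).1 * g.1) := by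
          rw [h2, Matrix.one_mul, Matrix.mul_one]
      _ = _ := by simp only [Matrix.mul_assoc]
  rw [this, h0, Matrix.mul_zero, Matrix.zero_mul]

end conj

end Cfsg.Agent.Helper60.RU
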