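import Mathlib
import Cfsg.Agent.Helper60.RUParam
import Cfsg.Agent.Helper60.RUReg
import Cfsg.Agent.Helper60.RUConj

/-!
# `Sp_{2n}(F)` is generated by three conjugate regular unipotents: the main line (helper60)

Valid when the characteristic is odd or `n ≥ 3`.
Generators: `u₁ = ru0 * t(e₁, a)`, `u₂ = u₁ * t(e₁, 1)`, `u₃ = ru3` (`a` a generator of `Fˣ`).
-/

set_option autoImplicit false
set_option linter.unusedSectionVars false
set_option linter.unusedVariables false
set_option linter.unusedSimpArgs false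

namespace Cfsg.Agent.Helper60.RU

open Matrix
open Cfsg.Agent.Helper5
open Cfsg.Agent.Helper13 (sympForm_add_left sympForm_add_right sympForm_smul_left
  sympForm_smul_right sympForm_sub_left sympForm_sub_right sympForm_neg_left sympForm_neg_right
  sympForm_zero_left sympForm_zero_right sympForm_self sympForm_swap)

section main
variable {K F : Type*} [Field K] [Field F] (f : K →+* F) {N : ℕ}

/-- the set of rational centres of a subgroup -/
def ratCentres (H : Subgroup (Matrix.symplecticGroup (Fin (N + 1)) F)) :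
    Set (Fin (N + 1) ⊕ Fin (N + 1) → K) :=
  {v | ∀ c : K, spTv (N + 1) (f ∘ v) (f c) ∈ H}

theorem ratCentres_planeClosed (H : Subgroup (Matrix.symplecticGroup (Fin (N + 1)) F)) :
    PlaneClosed (ratCentres f H) := by
  constructor
  · intro c hc v hv d
    rw [map_smul_vec, spTv_smul, ← map_mul, ← map_mul]
    exact hv _
  · intro v hv w hw hvw d
    have h1 : (spTv (N + 1) (f ∘ w) (f (Cfsg.sympForm (N + 1) K v w)⁻¹)).1 *ᵥ (f ∘ v)
        = f ∘ (v + w) := by
      rw [spTv_mulVec, map_sf, ← map_mul, inv_mul_cancel₀ hvw, map_one, one_smul, map_add_vec]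
    rw [← h1, ← spTv_conj]
    exact H.mul_mem (H.mul_mem (hw _) (hv _)) (H.inv_mem (hw _))

/-- a rational element of `H` preserves the rational centres -/
theorem ratCentres_stable (H : Subgroup (Matrix.symplecticGroup (Fin (N + 1)) F))
    (g : Matrix.symplecticGroup (Fin (N + 1)) K) (hg : rmapG f N g ∈ H)
    (v : Fin (N + 1) ⊕ Fin (N + 1) → K) (hv : v ∈ ratCentres f H) :
    g.1 *ᵥ v ∈ ratCentres f H := by
  intro c
  rw [← rmapG_mulVec, ← spTv_conj]
  exact H.mul_mem (H.mul_mem hg (hv _)) (H.inv_mem hg)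

/-- an element of `H` acting rationally on a rational centre -/
theorem ratCentres_of_act (H : Subgroup (Matrix.symplecticGroup (Fin (N + 1)) F))
    (x : Matrix.symplecticGroup (Fin (N + 1)) F) (hx : x ∈ H)
    (v w : Fin (N + 1) ⊕ Fin (N + 1) → K) (hv : v ∈ ratCentres f H)
    (hxv : x.1 *ᵥ (f ∘ v) = f ∘ w) : w ∈ ratCentres f H := by
  intro c
  rw [← hxv, ← spTv_conj]
  exact H.mul_mem (H.mul_mem hx (hv _)) (H.inv_mem hx)

/-- the generation theorem -/
theorem gen_top (f : K →+* F) (hN : 1 ≤ N) (hK : ∀ c : K, ∃ n : ℕ, c = (n : K))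
    (a : F) (hgen : ∀ x : F, x ≠ 0 → ∃ k : ℕ, x = a ^ k)
    (H : Subgroup (Matrix.symplecticGroup (Fin (N + 1)) F))
    (h1 : ru0 N F * spTv (N + 1) (rE N F 0) a ∈ H)
    (h2 : ru0 N F * spTv (N + 1) (rE N F 0) a * spTv (N + 1) (rE N F 0) 1 ∈ H)
    (h3 : ru3 N F ∈ H) : H = ⊤ := by
  have ht1 : spTv (N + 1) (rE N F 0) 1 ∈ H := by
    have := H.mul_mem (H.inv_mem h1) h2
    rwa [← mul_assoc, inv_mul_cancel, one_mul] at this
  have hV := ratCentres_planeClosed f H
  have h0 : rE N K 0 ∈ ratCentres f H := by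
    intro c
    obtain ⟨n, rfl⟩ := hK c
    rw [map_rE, map_natCast, spTv_natCast]
    exact H.pow_mem ht1 n
  have hs3 : ∀ v ∈ ratCentres f H, (ru3 N K).1 *ᵥ v ∈ ratCentres f H := by
    intro v hv
    exact ratCentres_stable f H (ru3 N K) (by rw [rmapG_ru3]; exact h3) v hv
  have hs3' : ∀ v ∈ ratCentres f H, ((ru3 N K)⁻¹).1 *ᵥ v ∈ ratCentres f H := by
    intro v hv
    exact ratCentres_stable f H ((ru3 N K)⁻¹) (by rw [map_inv, rmapG_ru3]; exact H.inv_mem h3) v hv
  have hu : ∀ v ∈ ratCentres f H, Cfsg.sympForm (N + 1) K v (rE N K 0) = 0 →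
      (ru0 N K).1 *ᵥ v ∈ ratCentres f H := by
    intro v hv hv0
    refine ratCentres_of_act f H _ h1 v _ hv ?_
    rw [sp_mul_mulVec, spTv_mulVec, ← map_rE f, map_sf, hv0, map_zero, mul_zero, zero_smul, add_zero,
      ← rmapG_ru0 f, rmapG_mulVec]
  have hu' : ∀ v ∈ ratCentres f H, Cfsg.sympForm (N + 1) K v (rE N K 0) = 0 →
      ((ru0 N K)⁻¹).1 *ᵥ v ∈ ratCentres f H := by
    intro v hv hv0
    refine ratCentres_of_act f H _ (H.inv_mem h1) v _ hv ?_
    have hv1 : Cfsg.sympForm (N + 1) K (((ru0 N K)⁻¹).1 *ᵥ v) (rE N K 0) = 0 := by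
      have := sp_sympForm ((ru0 N K)⁻¹) v (rE N K 0)
      rw [ru0_inv_rE_zero] at this
      rw [this, hv0]
    rw [_root_.mul_inv_rev, sp_mul_mulVec, ← rmapG_ru0 f, ← map_inv, rmapG_mulVec, spTv_inv,
      spTv_mulVec, ← map_rE f, map_sf, hv1, map_zero, mul_zero, zero_smul, add_zero]
  have hall := closure_all hN hV h0 hs3 hs3' hu hu'
  have hrat : ∀ (v : Fin (N + 1) ⊕ Fin (N + 1) → K) (c : K), spTv (N + 1) (f ∘ v) (f c) ∈ H := by
    intro v c
    by_cases hv : v = 0
    · have : f ∘ v = 0 := by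
        rw [hv]; funext i; simp
      rw [this, spTv_zero_left]
      exact H.one_mem
    · exact hall v hv c
  have hru0 : ru0 N F ∈ H := by
    rw [← rmapG_ru0 f]
    exact rmapG_mem f H hrat _
  have ha : spTv (N + 1) (rE N F 0) a ∈ H := by
    have := H.mul_mem (H.inv_mem hru0) h1
    rwa [← mul_assoc, inv_mul_cancel, one_mul] at this
  exact top_of_rational f H (rational_all_of_gen f H hN hrat a ha hgen)

end main

section final
variable {F : Type*} [Field F] [Fintype F]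

/-- a generator of the multiplicative group, with natural exponents -/
theorem exists_gen_nat (F : Type*) [Field F] [Fintype F] :
    ∃ a : F, ∀ x : F, x ≠ 0 → ∃ k : ℕ, x = a ^ k := by
  obtain ⟨g, hg⟩ := IsCyclic.exists_generator (α := Fˣ)
  refine ⟨(g : F), ?_⟩
  intro x hx
  have h1 : Units.mk0 x hx ∈ Subgroup.zpowers g := hg _
  rw [← mem_powers_iff_mem_zpowers] at h1
  obtain ⟨k, hk⟩ := h1
  refine ⟨k, ?_⟩
  have := congrArg Units.val hk
  rw [Units.val_pow_eq_pow_val, Units.val_mk0] at this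
  exact this.symm

/-- the main line of S2281 -/
theorem sp_regUnip3_main (N : ℕ) (hN : 1 ≤ N) (h2 : (2 : F) ≠ 0 ∨ 2 ≤ N) :
    ∃ u g h : Matrix.symplecticGroup (Fin (N + 1)) F,
      IsNilpotent ((u : Matrix (Fin (N + 1) ⊕ Fin (N + 1)) (Fin (N + 1) ⊕ Fin (N + 1)) F) - 1) ∧
      ((u : Matrix (Fin (N + 1) ⊕ Fin (N + 1)) (Fin (N + 1) ⊕ Fin (N + 1)) F) - 1)
        ^ (2 * (N + 1) - 1) ≠ 0 ∧
      Subgroup.closure ({u, g * u * g⁻¹, h * u * h⁻¹} :
        Set (Matrix.symplecticGroup (Fin (N + 1)) F)) = ⊤ := by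
  obtain ⟨p, hp⟩ := CharP.exists F
  have := hp
  have : Fact p.Prime := ⟨by
    rcases CharP.char_is_prime_or_zero F p with h | h
    · exact h
    · exfalso
      subst h
      have : CharZero F := CharP.charP_to_charZero F
      exact not_finite F⟩
  obtain ⟨a, hgen⟩ := exists_gen_nat F
  obtain ⟨Ca, hCa⟩ := ru0_conj_exists hN h2 a
  obtain ⟨Cb, hCb⟩ := ru0_conj_exists hN h2 (a + 1)
  have e2 : (Cb * Ca⁻¹) * (ru0 N F * spTv (N + 1) (rE N F 0) a) * (Cb * Ca⁻¹)⁻¹
      = ru0 N F * spTv (N + 1) (rE N F 0) a * spTv (N + 1) (rE N F 0) 1 := by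
    rw [mul_assoc (ru0 N F), spTv_mul, ← hCb, ← hCa]
    group
  have e3 : (rtau N F * Ca⁻¹) * (ru0 N F * spTv (N + 1) (rE N F 0) a) * (rtau N F * Ca⁻¹)⁻¹
      = ru3 N F := by
    rw [← hCa, ru3]
    group
  refine ⟨ru0 N F * spTv (N + 1) (rE N F 0) a, Cb * Ca⁻¹, rtau N F * Ca⁻¹, ?_, ?_, ?_⟩
  · rw [← hCa]
    exact (reg_conj Ca (ru0 N F) _ (ru0_regular hN)).1
  · rw [← hCa]
    exact (reg_conj Ca (ru0 N F) _ (ru0_regular hN)).2
  · rw [e2, e3]
    apply gen_top (ZMod.castHom (dvd_refl p) F) hN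
      (fun c => ⟨c.val, (ZMod.natCast_zmod_val c).symm⟩) a hgen
    · exact Subgroup.subset_closure (by simp)
    · exact Subgroup.subset_closure (by simp)
    · exact Subgroup.subset_closure (by simp)

end final

end Cfsg.Agent.Helper60.RU
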