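import Mathlib

/-!
# Abstract representation-theoretic tools for the Landazuri–Seitz bounds of `SU_n(q)` (helper60)

Joint eigenspaces of a family of operators on a complex vector space: independence for distinct
eigen-characters, common eigenvectors of commuting families, restriction of a representation to a
joint eigenspace, and the trace bound for Heisenberg-type families.
-/

set_option autoImplicit false
set_option linter.unusedSectionVars false
set_option linter.unusedVariables false
set_option linter.unusedSimpArgs false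

namespace Cfsg.Agent.Helper60.SURep

open Module

section Eig
variable {W : Type*} [AddCommGroup W] [Module ℂ W] {A : Type*}

/-- the joint eigenspace of the family `ζ` with eigenvalue function `χ` -/
def jointEig (ζ : A → (W →ₗ[ℂ] W)) (χ : A → ℂ) : Submodule ℂ W where
  carrier := {w | ∀ a, ζ a w = χ a • w}
  add_mem' := by
    intro x y hx hy a
    rw [map_add, hx a, hy a, smul_add]
  zero_mem' := by
    intro a
    simp
  smul_mem' := by
    intro c x hx a
    rw [map_smul, hx a, smul_comm]

theorem mem_jointEig {ζ : A → (W →ₗ[ℂ] W)} {χ : A → ℂ} {w : W} :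
    w ∈ jointEig ζ χ ↔ ∀ a, ζ a w = χ a • w := Iff.rfl

/-- a sum of joint eigenvectors for pairwise distinct eigen-characters vanishes only if all of
them vanish -/
theorem jointEig_sum_eq_zero (ζ : A → (W →ₗ[ℂ] W)) {ι : Type*} [DecidableEq ι] (χ : ι → A → ℂ)
    (hχ : Function.Injective χ) (s : Finset ι) :
    ∀ (u : ι → W), (∀ i ∈ s, u i ∈ jointEig ζ (χ i)) → ∑ i ∈ s, u i = 0 → ∀ i ∈ s, u i = 0 := by
  induction s using Finset.induction_on with
  | empty =>
    intro u _ _ i hi
    exact absurd hi (Finset.notMem_empty i)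
  | insert i₀ s hi₀ ih =>
    intro u hu hsum
    rw [Finset.sum_insert hi₀] at hsum
    have key : ∀ i ∈ s, u i = 0 := by
      intro i hi
      have hne : χ i ≠ χ i₀ := fun h => hi₀ (hχ h ▸ hi)
      obtain ⟨a, ha⟩ := Function.ne_iff.1 hne
      have hsum' : ∑ j ∈ s, (χ j a - χ i₀ a) • u j = 0 := by
        have h2 : ζ a (u i₀ + ∑ j ∈ s, u j) - χ i₀ a • (u i₀ + ∑ j ∈ s, u j) = 0 := by
          rw [hsum, map_zero, smul_zero, sub_zero]
        rw [map_add, map_sum, smul_add, Finset.smul_sum, hu i₀ (Finset.mem_insert_self _ _) a,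
          add_sub_add_left_eq_sub] at h2
        have h3 : ∑ j ∈ s, ζ a (u j) = ∑ j ∈ s, χ j a • u j :=
          Finset.sum_congr rfl (fun j hj => hu j (Finset.mem_insert_of_mem hj) a)
        rw [h3, ← Finset.sum_sub_distrib] at h2
        rw [← h2]
        exact Finset.sum_congr rfl (fun j _ => sub_smul _ _ _)
      have h1 := ih (fun j => (χ j a - χ i₀ a) • u j)
        (fun j hj => Submodule.smul_mem _ _ (hu j (Finset.mem_insert_of_mem hj))) hsum' i hi
      rcases smul_eq_zero.1 h1 with h | h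
      · exact absurd (sub_eq_zero.1 h) ha
      · exact h
    intro i hi
    rcases Finset.mem_insert.1 hi with rfl | hi
    · rw [Finset.sum_eq_zero key, add_zero] at hsum
      exact hsum
    · exact key i hi

/-- dimension count: joint eigenspaces for distinct eigen-characters inside a subspace -/
theorem sum_finrank_inf_jointEig_le [FiniteDimensional ℂ W] (ζ : A → (W →ₗ[ℂ] W))
    {ι : Type*} [Fintype ι] (χ : ι → A → ℂ) (hχ : Function.Injective χ) (C : Submodule ℂ W) :
    ∑ i, finrank ℂ ↥(C ⊓ jointEig ζ (χ i)) ≤ finrank ℂ ↥C := by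
  classical
  let Φ : ((i : ι) → ↥(C ⊓ jointEig ζ (χ i))) →ₗ[ℂ] ↥C :=
    { toFun := fun f => ⟨∑ i, (f i : W), Submodule.sum_mem _ (fun i _ => (f i).2.1)⟩
      map_add' := by
        intro f g
        apply Subtype.ext
        simp [Finset.sum_add_distrib]
      map_smul' := by
        intro c f
        apply Subtype.ext
        simp [Finset.smul_sum] }
  have hinj : Function.Injective Φ := by
    rw [← LinearMap.ker_eq_bot, LinearMap.ker_eq_bot']
    intro f hf
    have h0 : ∑ i, (f i : W) = 0 := congrArg Subtype.val hf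
    funext i
    have h1 := jointEig_sum_eq_zero ζ χ hχ Finset.univ (fun i => (f i : W))
      (fun i _ => (f i).2.2) h0 i (Finset.mem_univ i)
    exact Subtype.ext h1
  have hle := LinearMap.finrank_le_finrank_of_injective hinj
  rwa [Module.finrank_pi_fintype] at hle

/-- a commuting family of operators has a common eigenvector in every non-zero invariant
subspace -/
theorem exists_common_eigen_in [FiniteDimensional ℂ W] [Finite A] (ζ : A → (W →ₗ[ℂ] W))
    (hcomm : ∀ a b, ζ a * ζ b = ζ b * ζ a) (E : Submodule ℂ W) (hE : E ≠ ⊥)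
    (hinv : ∀ a, ∀ w ∈ E, ζ a w ∈ E) :
    ∃ (χ : A → ℂ) (w : W), w ∈ E ∧ w ≠ 0 ∧ ∀ a, ζ a w = χ a • w := by
  classical
  cases nonempty_fintype A
  have key : ∀ s : Finset A, ∃ χ : A → ℂ, ∃ w : W, w ∈ E ∧ w ≠ 0 ∧
      ∀ a ∈ s, ζ a w = χ a • w := by
    intro s
    induction s using Finset.induction_on with
    | empty =>
      obtain ⟨w, hw, hw0⟩ := Submodule.exists_mem_ne_zero_of_ne_bot hE
      exact ⟨fun _ => 0, w, hw, hw0, fun a ha => absurd ha (Finset.notMem_empty a)⟩
    | insert a₀ s ha₀ ih =>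
      obtain ⟨χ, w, hw, hw0, hs⟩ := ih
      let E' : Submodule ℂ W :=
        { carrier := {x | x ∈ E ∧ ∀ a ∈ s, ζ a x = χ a • x}
          add_mem' := by
            intro x y hx hy
            refine ⟨E.add_mem hx.1 hy.1, fun a ha => ?_⟩
            rw [map_add, hx.2 a ha, hy.2 a ha, smul_add]
          zero_mem' := ⟨E.zero_mem, fun a _ => by simp⟩
          smul_mem' := by
            intro c x hx
            refine ⟨E.smul_mem c hx.1, fun a ha => ?_⟩
            rw [map_smul, hx.2 a ha, smul_comm] }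
      have hE'inv : ∀ x ∈ E', ζ a₀ x ∈ E' := by
        intro x hx
        refine ⟨hinv a₀ x hx.1, fun a ha => ?_⟩
        have h1 : ζ a (ζ a₀ x) = ζ a₀ (ζ a x) := by
          rw [← Module.End.mul_apply, hcomm, Module.End.mul_apply]
        rw [h1, hx.2 a ha, map_smul]
      have : Nontrivial E' := ⟨⟨⟨w, hw, hs⟩, 0, fun h => hw0 (congrArg Subtype.val h)⟩⟩
      obtain ⟨c, hc⟩ := Module.End.exists_eigenvalue ((ζ a₀).restrict hE'inv)
      obtain ⟨x, hx⟩ := hc.exists_hasEigenvector
      refine ⟨Function.update χ a₀ c, (x : W), x.2.1, fun h => hx.2 (Subtype.ext h), ?_⟩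
      intro a ha
      rcases Finset.mem_insert.1 ha with rfl | ha
      · rw [Function.update_self]
        exact congrArg Subtype.val hx.apply_eq_smul
      · have hne : a ≠ a₀ := fun h => ha₀ (h ▸ ha)
        rw [Function.update_of_ne hne]
        exact x.2.2 a ha
  obtain ⟨χ, w, hw, hw0, h⟩ := key Finset.univ
  exact ⟨χ, w, hw, hw0, fun a => h a (Finset.mem_univ a)⟩

/-- if a member of a commuting family of operators has finite order and is not the identity, there
is a common eigenvector on which it has an eigenvalue different from `1` -/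
theorem exists_eigen_ne_one [FiniteDimensional ℂ W] [Finite A] (ζ : A → (W →ₗ[ℂ] W))
    (hcomm : ∀ a b, ζ a * ζ b = ζ b * ζ a) (a₀ : A) (N : ℕ) (hN : 0 < N)
    (hpow : ζ a₀ ^ N = 1) (hne : ζ a₀ ≠ 1) :
    ∃ (χ : A → ℂ) (w : W), w ≠ 0 ∧ (∀ a, ζ a w = χ a • w) ∧ χ a₀ ≠ 1 := by
  have hE₀ : LinearMap.range (ζ a₀ - 1) ≠ ⊥ := by
    intro h
    apply hne
    have h1 : ζ a₀ - 1 = 0 := LinearMap.range_eq_bot.1 h
    exact sub_eq_zero.1 h1
  have hinv : ∀ a, ∀ w ∈ LinearMap.range (ζ a₀ - 1), ζ a w ∈ LinearMap.range (ζ a₀ - 1) := by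
    rintro a _ ⟨x, rfl⟩
    refine ⟨ζ a x, ?_⟩
    have h1 : ζ a₀ (ζ a x) = ζ a (ζ a₀ x) := by
      rw [← Module.End.mul_apply, hcomm, Module.End.mul_apply]
    simp only [LinearMap.sub_apply, Module.End.one_apply, map_sub, h1]
  obtain ⟨χ, w, hw, hw0, hχ⟩ := exists_common_eigen_in ζ hcomm _ hE₀ hinv
  refine ⟨χ, w, hw0, hχ, ?_⟩
  intro h1
  have hTy : ζ a₀ w = w := by rw [hχ a₀, h1, one_smul]
  have hpowy : ∀ i : ℕ, (ζ a₀ ^ i) w = w := by
    intro i
    induction i with
    | zero => simp
    | succ i ih => rw [pow_succ, Module.End.mul_apply, hTy, ih]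
  have h2 : (∑ i ∈ Finset.range N, ζ a₀ ^ i) w = (N : ℂ) • w := by
    rw [LinearMap.sum_apply]
    simp [hpowy, Nat.cast_smul_eq_nsmul]
  obtain ⟨x, rfl⟩ := hw
  have h3 : (∑ i ∈ Finset.range N, ζ a₀ ^ i) * (ζ a₀ - 1) = ζ a₀ ^ N - 1 := geom_sum_mul (ζ a₀) N
  have h4 : (∑ i ∈ Finset.range N, ζ a₀ ^ i) ((ζ a₀ - 1) x) = 0 := by
    rw [← Module.End.mul_apply, h3, hpow, sub_self]
    rfl
  rw [h4] at h2
  have hN' : (N : ℂ) ≠ 0 := by exact_mod_cast hN.ne'
  exact hw0 ((smul_eq_zero.1 h2.symm).resolve_left hN')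

end Eig

section Res
variable {G : Type*} [Group G] {W : Type*} [AddCommGroup W] [Module ℂ W] {C : Type*}

/-- the restriction of a representation to a joint eigenspace of a family of group elements, as
a homomorphism defined on the centralizer of the family -/
noncomputable def eigRes (ρ : G →* (W →ₗ[ℂ] W)) (z : C → G) (ψ : C → ℂ) :
    ↥(Subgroup.centralizer (Set.range z)) →*
      (↥(jointEig (fun c => ρ (z c)) ψ) →ₗ[ℂ] ↥(jointEig (fun c => ρ (z c)) ψ)) where
  toFun g := (ρ g.1).restrict (by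
    intro w hw c
    show ρ (z c) (ρ g.1 w) = ψ c • ρ g.1 w
    have hcomm : z c * g.1 = g.1 * z c := g.2 (z c) ⟨c, rfl⟩
    rw [← Module.End.mul_apply, ← map_mul, hcomm, map_mul, Module.End.mul_apply, hw c, map_smul])
  map_one' := by
    apply LinearMap.ext
    intro w
    apply Subtype.ext
    show ρ (1 : G) (w : W) = w
    rw [map_one]
    rfl
  map_mul' := by
    intro g h
    apply LinearMap.ext
    intro w
    apply Subtype.ext
    show ρ (g.1 * h.1) (w : W) = ρ g.1 (ρ h.1 (w : W))
    rw [map_mul]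
    rfl

theorem eigRes_apply (ρ : G →* (W →ₗ[ℂ] W)) (z : C → G) (ψ : C → ℂ)
    (g : ↥(Subgroup.centralizer (Set.range z))) (w : ↥(jointEig (fun c => ρ (z c)) ψ)) :
    ((eigRes ρ z ψ g w : ↥(jointEig (fun c => ρ (z c)) ψ)) : W) = ρ g.1 (w : W) := rfl

end Res

section Trace

/-- **trace bound**: a family of group elements whose pairwise "quotients" are conjugate to
themselves times a central element acting by a scalar `≠ 1` gives linearly independent operators -/
theorem heis_trace_bound {K : Type*} [Group K] {E : Type*} [AddCommGroup E] [Module ℂ E]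
    [FiniteDimensional ℂ E] [Nontrivial E] {C U : Type*} [Fintype U]
    (R : K →* (E →ₗ[ℂ] E)) (z : C → K) (ψ : C → ℂ)
    (hz : ∀ c, R (z c) = ψ c • (1 : E →ₗ[ℂ] E)) (s : U → K)
    (h : ∀ u u', u ≠ u' → ∃ (g : K) (c : C), ψ c ≠ 1 ∧
      g * ((s u)⁻¹ * s u') * g⁻¹ = (s u)⁻¹ * s u' * z c) :
    Fintype.card U ≤ finrank ℂ E ^ 2 := by
  classical
  have hd : (finrank ℂ E : ℂ) ≠ 0 := by
    have hpos : 0 < finrank ℂ E := Module.finrank_pos
    exact_mod_cast hpos.ne'
  have htr : ∀ u u', u ≠ u' → LinearMap.trace ℂ E (R ((s u)⁻¹ * s u')) = 0 := by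
    intro u u' hne
    obtain ⟨g, c, hc, hg⟩ := h u u' hne
    have e1 : LinearMap.trace ℂ E (R (g * ((s u)⁻¹ * s u') * g⁻¹)) =
        LinearMap.trace ℂ E (R ((s u)⁻¹ * s u')) := by
      rw [map_mul R, map_mul R, LinearMap.trace_mul_comm, ← mul_assoc, ← map_mul R, inv_mul_cancel,
        map_one, one_mul]
    rw [hg, map_mul R, hz, mul_smul_comm, mul_one, map_smul] at e1
    have e2 : (ψ c - 1) * LinearMap.trace ℂ E (R ((s u)⁻¹ * s u')) = 0 := by
      rw [sub_mul, one_mul, ← smul_eq_mul, e1, sub_self]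
    exact (mul_eq_zero.1 e2).resolve_left (sub_ne_zero.2 hc)
  have hli : LinearIndependent ℂ (fun u : U => R (s u)) := by
    rw [Fintype.linearIndependent_iff]
    intro cf hcf u₀
    have h3 := congrArg (fun X => LinearMap.trace ℂ E (R (s u₀)⁻¹ * X)) hcf
    simp only [Finset.mul_sum, mul_smul_comm, map_sum, map_smul, mul_zero, map_zero] at h3
    rw [Finset.sum_eq_single u₀] at h3
    · rw [← map_mul R, inv_mul_cancel, map_one, LinearMap.trace_one] at h3
      rcases smul_eq_zero.1 h3 with h5 | h5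
      · exact h5
      · exact absurd h5 hd
    · intro u _ hne
      rw [← map_mul R, htr u₀ u (Ne.symm hne), smul_zero]
    · intro h
      exact absurd (Finset.mem_univ u₀) h
  have hcard := hli.fintype_card_le_finrank
  rw [Module.finrank_linearMap] at hcard
  rw [pow_two]
  exact hcard

end Trace

end Cfsg.Agent.Helper60.SURep
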