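import Mathlib
import Cfsg.Agent.Helper13.UnitTv2
import Cfsg.Agent.Helper43.UnitaryHeis

/-!
# Siegel elements of `SU_n(q)` (helper60)

For an isotropic vector `v` and a vector `u` orthogonal to it, the Siegel element
`x ↦ x + h(x,u) v - h(x,v) u + b h(x,v) v` (with `b + b^q + h(u,u) = 0`) as an element
`sg hF v u b` of `Cfsg.SU n F q`, its calculus, and the embedding `SU_n → SU_{n+1}` fixing the
first basis vector.
-/

set_option autoImplicit false
set_option linter.unusedSectionVars false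
set_option linter.unusedVariables false
set_option linter.unusedSimpArgs false

namespace Cfsg.Agent.Helper60.SUSieg

open Matrix
open Cfsg.Agent.Helper5 (frobQ frobQ_apply frobQ_frobQ)
open Cfsg.Agent.Helper13
open Cfsg.Agent.Helper43.UnitaryHeis (rk rk_mulVec det_one_add_of_isNilpotent)

section sieg
variable {F : Type*} [Field F] [Fintype F] {q n : ℕ}

/-- the Siegel matrix -/
def siegM (q : ℕ) (v u : Fin n → F) (b : F) : Matrix (Fin n) (Fin n) F :=
  1 + rk q v u - rk q u v + b • rk q v v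

theorem siegM_mulVec (v u : Fin n → F) (b : F) (x : Fin n → F) :
    siegM q v u b *ᵥ x = x + Cfsg.hermForm n F q x u • v - Cfsg.hermForm n F q x v • u
      + (b * Cfsg.hermForm n F q x v) • v := by
  unfold siegM
  rw [add_mulVec, sub_mulVec, add_mulVec, one_mulVec, smul_mulVec, rk_mulVec, rk_mulVec,
    rk_mulVec, smul_smul]

theorem uh_swap_zero (hF : Fintype.card F = q ^ 2) {x y : Fin n → F}
    (h : Cfsg.hermForm n F q x y = 0) : Cfsg.hermForm n F q y x = 0 := by
  rw [← uh_conj hF, h, map_zero]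

theorem siegM_pres (hF : Fintype.card F = q ^ 2) (v u : Fin n → F) (b : F)
    (hv : Cfsg.hermForm n F q v v = 0) (hvu : Cfsg.hermForm n F q v u = 0)
    (hb : b + frobQ hF b + Cfsg.hermForm n F q u u = 0) (x y : Fin n → F) :
    Cfsg.hermForm n F q (siegM q v u b *ᵥ x) (siegM q v u b *ᵥ y) = Cfsg.hermForm n F q x y := by
  have huv := uh_swap_zero hF hvu
  rw [siegM_mulVec, siegM_mulVec]
  simp only [uh_add_left, uh_sub_left, uh_add_right hF, uh_sub_right hF, uh_smul_left,
    uh_smul_right hF, hv, hvu, huv, map_mul, uh_conj hF]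
  linear_combination (Cfsg.hermForm n F q x v * Cfsg.hermForm n F q v y) * hb

theorem siegM_det (hF : Fintype.card F = q ^ 2) (v u : Fin n → F) (b : F)
    (hv : Cfsg.hermForm n F q v v = 0) (hvu : Cfsg.hermForm n F q v u = 0) :
    (siegM q v u b).det = 1 := by
  have huv := uh_swap_zero hF hvu
  obtain ⟨N, hN⟩ : ∃ N : Matrix (Fin n) (Fin n) F, N = rk q v u - rk q u v + b • rk q v v :=
    ⟨_, rfl⟩
  have hNx : ∀ x : Fin n → F, N *ᵥ x = Cfsg.hermForm n F q x u • v - Cfsg.hermForm n F q x v • u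
      + (b * Cfsg.hermForm n F q x v) • v := by
    intro x
    rw [hN, add_mulVec, sub_mulVec, smul_mulVec, rk_mulVec, rk_mulVec, rk_mulVec, smul_smul]
  have hN3 : N ^ 3 = 0 := by
    apply Matrix.mulVec_injective
    funext x
    rw [pow_succ, pow_succ, pow_one, ← mulVec_mulVec, ← mulVec_mulVec, hNx, hNx, hNx]
    simp only [uh_add_left, uh_sub_left, uh_smul_left, hv, hvu, huv, mul_zero,
      add_zero, sub_zero, zero_mulVec, zero_smul, zero_sub, mul_neg, neg_zero, sub_self, zero_add]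
  have h1 : siegM q v u b = 1 + N := by
    rw [hN]
    unfold siegM
    abel
  rw [h1]
  exact det_one_add_of_isNilpotent N ⟨3, hN3⟩

/-- the Siegel element `x ↦ x + h(x,u) v - h(x,v) u + b h(x,v) v` of `SU` (trivial unless `v` is
isotropic, `u ⊥ v` and `b + b^q + h(u,u) = 0`) -/
noncomputable def sg (hF : Fintype.card F = q ^ 2) (v u : Fin n → F) (b : F) :
    ↥(Cfsg.SU n F q) :=
  open Classical in
  if h : Cfsg.hermForm n F q v v = 0 ∧ Cfsg.hermForm n F q v u = 0 ∧
      b + frobQ hF b + Cfsg.hermForm n F q u u = 0 then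
    ⟨⟨siegM q v u b, siegM_det hF v u b h.1 h.2.1⟩,
      fun x y => siegM_pres hF v u b h.1 h.2.1 h.2.2 x y⟩
  else 1

theorem uact_sg (hF : Fintype.card F = q ^ 2) (v u : Fin n → F) (b : F)
    (hv : Cfsg.hermForm n F q v v = 0) (hvu : Cfsg.hermForm n F q v u = 0)
    (hb : b + frobQ hF b + Cfsg.hermForm n F q u u = 0) (x : Fin n → F) :
    uact (sg hF v u b) x = x + Cfsg.hermForm n F q x u • v - Cfsg.hermForm n F q x v • u
      + (b * Cfsg.hermForm n F q x v) • v := by
  unfold sg uact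
  rw [dif_pos ⟨hv, hvu, hb⟩]
  exact siegM_mulVec v u b x

theorem sg_mul (hF : Fintype.card F = q ^ 2) {v u u' : Fin n → F} {b b' : F}
    (hv : Cfsg.hermForm n F q v v = 0) (hvu : Cfsg.hermForm n F q v u = 0)
    (hvu' : Cfsg.hermForm n F q v u' = 0)
    (hb : b + frobQ hF b + Cfsg.hermForm n F q u u = 0)
    (hb' : b' + frobQ hF b' + Cfsg.hermForm n F q u' u' = 0) :
    sg hF v u b * sg hF v u' b' = sg hF v (u + u') (b + b' - Cfsg.hermForm n F q u' u) := by
  have huv := uh_swap_zero hF hvu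
  have hu'v := uh_swap_zero hF hvu'
  have hvuu : Cfsg.hermForm n F q v (u + u') = 0 := by rw [uh_add_right hF, hvu, hvu', add_zero]
  have hbb : (b + b' - Cfsg.hermForm n F q u' u) + frobQ hF (b + b' - Cfsg.hermForm n F q u' u)
      + Cfsg.hermForm n F q (u + u') (u + u') = 0 := by
    simp only [map_sub, map_add, uh_conj hF, uh_add_left, uh_add_right hF]
    linear_combination hb + hb'
  rw [uact_eq_iff]
  intro x
  rw [uact_mul, uact_sg hF v u' b' hv hvu' hb', uact_sg hF v u b hv hvu hb,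
    uact_sg hF v _ _ hv hvuu hbb]
  simp only [uh_add_left, uh_sub_left, uh_smul_left, uh_add_right hF, hv, hvu, hvu', huv, hu'v,
    mul_zero, add_zero, sub_zero, zero_mul]
  funext i
  simp only [Pi.add_apply, Pi.sub_apply, Pi.smul_apply, smul_eq_mul]
  ring

theorem sg_zero (hF : Fintype.card F = q ^ 2) {v : Fin n → F} {c : F}
    (hv : Cfsg.hermForm n F q v v = 0) (hc : frobQ hF c = -c) :
    sg hF v 0 c = utv hF v c := by
  have h0 : Cfsg.hermForm n F q v (0 : Fin n → F) = 0 := uh_zero_right hF v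
  have hb : c + frobQ hF c + Cfsg.hermForm n F q (0 : Fin n → F) 0 = 0 := by
    rw [hc, uh_zero_left]
    ring
  rw [uact_eq_iff]
  intro x
  rw [uact_sg hF v 0 c hv h0 hb, uact_utv hF v c hv hc, uh_zero_right hF]
  simp

theorem sg_zero_zero (hF : Fintype.card F = q ^ 2) {v : Fin n → F}
    (hv : Cfsg.hermForm n F q v v = 0) : sg hF v 0 0 = 1 := by
  rw [sg_zero hF hv (by simp), utv_zero_right]

theorem sg_inv (hF : Fintype.card F = q ^ 2) {v u : Fin n → F} {b : F}
    (hv : Cfsg.hermForm n F q v v = 0) (hvu : Cfsg.hermForm n F q v u = 0)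
    (hb : b + frobQ hF b + Cfsg.hermForm n F q u u = 0) :
    (sg hF v u b)⁻¹ = sg hF v (-u) (frobQ hF b) := by
  have hvu' : Cfsg.hermForm n F q v (-u) = 0 := by rw [uh_neg_right hF, hvu, neg_zero]
  have hb' : frobQ hF b + frobQ hF (frobQ hF b) + Cfsg.hermForm n F q (-u) (-u) = 0 := by
    rw [frobQ_frobQ, uh_neg_left, uh_neg_right hF]
    linear_combination hb
  apply inv_eq_of_mul_eq_one_right
  rw [sg_mul hF hv hvu hvu' hb hb']
  have e1 : u + -u = 0 := by abel
  have e2 : b + frobQ hF b - Cfsg.hermForm n F q (-u) u = 0 := by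
    rw [uh_neg_left]
    linear_combination hb
  rw [e1, e2]
  exact sg_zero_zero hF hv

/-- two Siegel elements with the same centre commute up to a transvection -/
theorem sg_swap (hF : Fintype.card F = q ^ 2) {v u u' : Fin n → F} {b b' : F}
    (hv : Cfsg.hermForm n F q v v = 0) (hvu : Cfsg.hermForm n F q v u = 0)
    (hvu' : Cfsg.hermForm n F q v u' = 0)
    (hb : b + frobQ hF b + Cfsg.hermForm n F q u u = 0)
    (hb' : b' + frobQ hF b' + Cfsg.hermForm n F q u' u' = 0) :
    sg hF v u' b' * sg hF v u b = sg hF v u b * sg hF v u' b' *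
      utv hF v (Cfsg.hermForm n F q u' u - Cfsg.hermForm n F q u u') := by
  have huv := uh_swap_zero hF hvu
  have hu'v := uh_swap_zero hF hvu'
  have hc : frobQ hF (Cfsg.hermForm n F q u' u - Cfsg.hermForm n F q u u') =
      -(Cfsg.hermForm n F q u' u - Cfsg.hermForm n F q u u') := by
    rw [map_sub, uh_conj hF, uh_conj hF]
    ring
  rw [uact_eq_iff]
  intro x
  rw [uact_mul, uact_mul, uact_mul, uact_utv hF v _ hv hc, uact_sg hF v u b hv hvu hb,
    uact_sg hF v u' b' hv hvu' hb', uact_sg hF v u' b' hv hvu' hb', uact_sg hF v u b hv hvu hb]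
  simp only [uh_add_left, uh_sub_left, uh_smul_left, uh_add_right hF, hv, hvu, hvu', huv, hu'v,
    mul_zero, add_zero, sub_zero, zero_mul]
  funext i
  simp only [Pi.add_apply, Pi.sub_apply, Pi.smul_apply, smul_eq_mul]
  ring

theorem sg_comm_utv (hF : Fintype.card F = q ^ 2) (v u : Fin n → F) (b c : F) :
    sg hF v u b * utv hF v c = utv hF v c * sg hF v u b := by
  classical
  by_cases h : Cfsg.hermForm n F q v v = 0 ∧ Cfsg.hermForm n F q v u = 0 ∧
      b + frobQ hF b + Cfsg.hermForm n F q u u = 0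
  · obtain ⟨hv, hvu, hb⟩ := h
    have huv := uh_swap_zero hF hvu
    by_cases hc : frobQ hF c = -c
    · rw [uact_eq_iff]
      intro x
      rw [uact_mul, uact_mul, uact_utv hF v c hv hc, uact_sg hF v u b hv hvu hb,
        uact_sg hF v u b hv hvu hb, uact_utv hF v c hv hc]
      simp only [uh_add_left, uh_sub_left, uh_smul_left, uh_add_right hF, hv, hvu, huv,
        mul_zero, add_zero, sub_zero, zero_mul]
      funext i
      simp only [Pi.add_apply, Pi.sub_apply, Pi.smul_apply, smul_eq_mul]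
      ring
    · have h1 : utv hF v c = 1 := by
        unfold utv
        rw [dif_neg (fun h' => hc h'.2)]
      rw [h1, mul_one, one_mul]
  · have h1 : sg hF v u b = 1 := by
      unfold sg
      rw [dif_neg h]
    rw [h1, mul_one, one_mul]

/-- a Siegel element moves vectors orthogonal to its centre along the centre -/
theorem uact_sg_orth (hF : Fintype.card F = q ^ 2) (v u : Fin n → F) (b : F)
    (hv : Cfsg.hermForm n F q v v = 0) (hvu : Cfsg.hermForm n F q v u = 0)
    (hb : b + frobQ hF b + Cfsg.hermForm n F q u u = 0) (x : Fin n → F)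
    (hx : Cfsg.hermForm n F q x v = 0) :
    uact (sg hF v u b) x = x + Cfsg.hermForm n F q x u • v := by
  rw [uact_sg hF v u b hv hvu hb, hx]
  simp

/-- transvections with orthogonal centres commute -/
theorem utv_comm_orth (hF : Fintype.card F = q ^ 2) {v₀ v₁ : Fin n → F}
    (h01 : Cfsg.hermForm n F q v₀ v₁ = 0) (c c' : F) :
    utv hF v₀ c * utv hF v₁ c' = utv hF v₁ c' * utv hF v₀ c := by
  classical
  have h10 := uh_swap_zero hF h01
  by_cases hA : Cfsg.hermForm n F q v₀ v₀ = 0 ∧ frobQ hF c = -c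
  · by_cases hB : Cfsg.hermForm n F q v₁ v₁ = 0 ∧ frobQ hF c' = -c'
    · rw [uact_eq_iff]
      intro x
      rw [uact_mul, uact_mul, uact_utv hF v₁ c' hB.1 hB.2, uact_utv hF v₀ c hA.1 hA.2,
        uact_utv hF v₀ c hA.1 hA.2, uact_utv hF v₁ c' hB.1 hB.2]
      simp only [uh_add_left, uh_smul_left, h01, h10, mul_zero, add_zero, zero_smul]
      abel
    · have h1 : utv hF v₁ c' = 1 := by
        unfold utv
        rw [dif_neg hB]
      rw [h1, mul_one, one_mul]
  · have h1 : utv hF v₀ c = 1 := by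
      unfold utv
      rw [dif_neg hA]
    rw [h1, mul_one, one_mul]

section pair
variable (hF : Fintype.card F = q ^ 2) {v₀ v₁ : Fin n → F}
  (h0 : Cfsg.hermForm n F q v₀ v₀ = 0) (h1 : Cfsg.hermForm n F q v₁ v₁ = 0)
  (h01 : Cfsg.hermForm n F q v₀ v₁ = 0)

/-- the mixed elements `x ↦ x + d h(x,v₀) v₁ - d^q h(x,v₁) v₀` for two orthogonal isotropic
vectors -/
noncomputable def mx (hF : Fintype.card F = q ^ 2) (v₀ v₁ : Fin n → F) (d : F) :
    ↥(Cfsg.SU n F q) :=
  sg hF v₁ (frobQ hF d • v₀) 0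

include h0 h1 h01 in
theorem mx_cond (d : F) : Cfsg.hermForm n F q v₁ (frobQ hF d • v₀) = 0 ∧
    (0 : F) + frobQ hF 0 + Cfsg.hermForm n F q (frobQ hF d • v₀) (frobQ hF d • v₀) = 0 := by
  have h10 := uh_swap_zero hF h01
  refine ⟨?_, ?_⟩
  · rw [uh_smul_right hF, h10, mul_zero]
  · rw [uh_smul_left, uh_smul_right hF, h0]
    simp

include h0 h1 h01 in
theorem uact_mx (d : F) (x : Fin n → F) :
    uact (mx hF v₀ v₁ d) x = x + (d * Cfsg.hermForm n F q x v₀) • v₁
      - (frobQ hF d * Cfsg.hermForm n F q x v₁) • v₀ := by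
  obtain ⟨hc1, hc2⟩ := mx_cond hF h0 h1 h01 d
  unfold mx
  rw [uact_sg hF v₁ _ 0 h1 hc1 hc2, uh_smul_right hF, frobQ_frobQ]
  simp [smul_smul, mul_comm]

include h0 h1 h01 in
theorem mx_add (d d' : F) : mx hF v₀ v₁ d * mx hF v₀ v₁ d' = mx hF v₀ v₁ (d + d') := by
  rw [uact_eq_iff]
  intro x
  have h10 := uh_swap_zero hF h01
  rw [uact_mul, uact_mx hF h0 h1 h01, uact_mx hF h0 h1 h01, uact_mx hF h0 h1 h01]
  simp only [uh_add_left, uh_sub_left, uh_smul_left, h0, h1, h01, h10, mul_zero, add_zero,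
    sub_zero, map_add]
  funext i
  simp only [Pi.add_apply, Pi.sub_apply, Pi.smul_apply, smul_eq_mul]
  ring

include h0 h1 h01 in
theorem mx_zero : mx hF v₀ v₁ 0 = 1 := by
  rw [uact_eq_iff]
  intro x
  rw [uact_mx hF h0 h1 h01, uact_one]
  simp

include h0 h1 h01 in
theorem mx_comm (d d' : F) : mx hF v₀ v₁ d * mx hF v₀ v₁ d' = mx hF v₀ v₁ d' * mx hF v₀ v₁ d := by
  rw [mx_add hF h0 h1 h01, mx_add hF h0 h1 h01, add_comm]

include h0 h1 h01 in
theorem mx_comm_utv0 (d c : F) :
    mx hF v₀ v₁ d * utv hF v₀ c = utv hF v₀ c * mx hF v₀ v₁ d := by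
  classical
  have h10 := uh_swap_zero hF h01
  by_cases hc : frobQ hF c = -c
  · rw [uact_eq_iff]
    intro x
    rw [uact_mul, uact_mul, uact_utv hF v₀ c h0 hc, uact_mx hF h0 h1 h01, uact_mx hF h0 h1 h01,
      uact_utv hF v₀ c h0 hc]
    simp only [uh_add_left, uh_sub_left, uh_smul_left, h0, h1, h01, h10, mul_zero, add_zero,
      sub_zero]
    funext i
    simp only [Pi.add_apply, Pi.sub_apply, Pi.smul_apply, smul_eq_mul]
    ring
  · have hu : utv hF v₀ c = 1 := by
      unfold utv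
      rw [dif_neg (fun h' => hc h'.2)]
    rw [hu, mul_one, one_mul]

include h0 h1 h01 in
theorem mx_comm_utv1 (d c : F) :
    mx hF v₀ v₁ d * utv hF v₁ c = utv hF v₁ c * mx hF v₀ v₁ d := by
  unfold mx
  exact sg_comm_utv hF v₁ _ 0 c

include h0 h1 h01 in
/-- a transvection whose centre lies in the span of two orthogonal isotropic vectors -/
theorem utv_split (κ c : F) (hc : frobQ hF c = -c) :
    utv hF (κ • v₁ + v₀) c =
      utv hF v₁ (c * (κ * frobQ hF κ)) * utv hF v₀ c * mx hF v₀ v₁ (c * κ) := by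
  have h10 := uh_swap_zero hF h01
  have hiso : Cfsg.hermForm n F q (κ • v₁ + v₀) (κ • v₁ + v₀) = 0 := by
    simp only [uh_add_left, uh_add_right hF, uh_smul_left, uh_smul_right hF, h0, h1, h01, h10]
    ring
  have hc' : frobQ hF (c * (κ * frobQ hF κ)) = -(c * (κ * frobQ hF κ)) := by
    rw [map_mul, map_mul, frobQ_frobQ, hc]
    ring
  rw [uact_eq_iff]
  intro x
  rw [uact_utv hF _ c hiso hc, uact_mul, uact_mul, uact_mx hF h0 h1 h01, uact_utv hF v₀ c h0 hc,
    uact_utv hF v₁ _ h1 hc']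
  simp only [uh_add_left, uh_sub_left, uh_smul_left, uh_add_right hF, uh_smul_right hF, h0, h1,
    h01, h10, mul_zero, add_zero, sub_zero, map_mul, hc]
  funext i
  simp only [Pi.add_apply, Pi.sub_apply, Pi.smul_apply, smul_eq_mul]
  ring

end pair

end sieg

section cons
variable {F : Type*} [Field F] [Fintype F] {q n : ℕ}

theorem herm_cons (a b : F) (x y : Fin n → F) :
    Cfsg.hermForm (n + 1) F q (vecCons a x) (vecCons b y) =
      a * b ^ q + Cfsg.hermForm n F q x y := by
  unfold Cfsg.hermForm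
  rw [Fin.sum_univ_succ]
  simp

theorem q_ne_zero (hF : Fintype.card F = q ^ 2) : q ≠ 0 := by
  rintro rfl
  have := Fintype.card_pos (α := F)
  rw [hF] at this
  simp at this

/-- bordering a matrix by a first row and column of the identity -/
def bordM (M : Matrix (Fin n) (Fin n) F) : Matrix (Fin (n + 1)) (Fin (n + 1)) F :=
  Matrix.of (vecCons (vecCons 1 0) (fun i => vecCons 0 (M i)))

theorem bordM_mulVec (M : Matrix (Fin n) (Fin n) F) (a : F) (x : Fin n → F) :
    bordM M *ᵥ vecCons a x = vecCons a (M *ᵥ x) := by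
  funext i
  refine Fin.cases ?_ (fun j => ?_) i
  · simp [bordM, Matrix.mulVec, dotProduct, Fin.sum_univ_succ]
  · simp [bordM, Matrix.mulVec, dotProduct, Fin.sum_univ_succ]

theorem bordM_det (M : Matrix (Fin n) (Fin n) F) : (bordM M).det = M.det := by
  rw [Matrix.det_succ_row_zero, Fin.sum_univ_succ]
  have h0 : (bordM M).submatrix Fin.succ (Fin.succAbove 0) = M := by
    ext i j
    simp [bordM]
  rw [h0]
  simp [bordM]

theorem bordM_mul (M N : Matrix (Fin n) (Fin n) F) : bordM (M * N) = bordM M * bordM N := by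
  apply umat_ext
  intro y
  rw [← Matrix.cons_head_tail y, ← Matrix.mulVec_mulVec, bordM_mulVec, bordM_mulVec, bordM_mulVec,
    Matrix.mulVec_mulVec]

theorem bordM_one : bordM (1 : Matrix (Fin n) (Fin n) F) = 1 := by
  apply umat_ext
  intro y
  rw [← Matrix.cons_head_tail y, bordM_mulVec, Matrix.one_mulVec, Matrix.one_mulVec]

/-- the embedding `SU_n → SU_{n+1}` fixing the first basis vector -/
noncomputable def bordSU (n q : ℕ) (F : Type*) [Field F] [Fintype F] :
    ↥(Cfsg.SU n F q) →* ↥(Cfsg.SU (n + 1) F q) where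
  toFun g := ⟨⟨bordM (g.1.1), by rw [bordM_det]; exact g.1.2⟩, by
    intro x y
    show Cfsg.hermForm (n + 1) F q (bordM g.1.1 *ᵥ x) (bordM g.1.1 *ᵥ y) =
      Cfsg.hermForm (n + 1) F q x y
    rw [← Matrix.cons_head_tail x, ← Matrix.cons_head_tail y, bordM_mulVec, bordM_mulVec,
      herm_cons, herm_cons]
    congr 1
    exact g.2 (vecTail x) (vecTail y)⟩
  map_one' := by
    apply Subtype.ext
    apply Subtype.ext
    show bordM (1 : Matrix (Fin n) (Fin n) F) = 1
    exact bordM_one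
  map_mul' := by
    intro g h
    apply Subtype.ext
    apply Subtype.ext
    show bordM (g.1.1 * h.1.1) = bordM g.1.1 * bordM h.1.1
    exact bordM_mul _ _

theorem uact_bordSU (g : ↥(Cfsg.SU n F q)) (a : F) (x : Fin n → F) :
    uact (bordSU n q F g) (vecCons a x) = vecCons a (uact g x) :=
  bordM_mulVec _ a x

theorem bordSU_utv (hF : Fintype.card F = q ^ 2) (v : Fin n → F) (c : F) :
    bordSU n q F (utv hF v c) = utv hF (vecCons 0 v) c := by
  classical
  have hq := q_ne_zero hF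
  have hcons : Cfsg.hermForm (n + 1) F q (vecCons 0 v) (vecCons 0 v) = Cfsg.hermForm n F q v v := by
    rw [herm_cons]
    simp
  by_cases hcond : Cfsg.hermForm n F q v v = 0 ∧ frobQ hF c = -c
  · rw [uact_eq_iff]
    intro y
    rw [← Matrix.cons_head_tail y, uact_bordSU, uact_utv hF v c hcond.1 hcond.2,
      uact_utv hF _ c (hcons.trans hcond.1) hcond.2, herm_cons, zero_pow hq]
    funext i
    refine Fin.cases ?_ (fun j => ?_) i
    · simp [Matrix.vecHead, Matrix.vecTail]
    · simp [Matrix.vecHead, Matrix.vecTail]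
  · have h1 : utv hF v c = 1 := by
      unfold utv
      rw [dif_neg hcond]
    have h2 : utv hF (vecCons 0 v) c = 1 := by
      unfold utv
      rw [dif_neg (fun h' => hcond ⟨hcons ▸ h'.1, h'.2⟩)]
    rw [h1, h2, map_one]

end cons

section trans
variable {F : Type*} [Field F] [Fintype F] {q n : ℕ}

theorem exists_mu (hF : Fintype.card F = q ^ 2) : ∃ μ : F, μ * frobQ hF μ = -1 := by
  obtain ⟨l, _, hl⟩ := ufld_exists_norm hF (c := (-1 : F)) (by simp) (by simp)
  exact ⟨l, hl⟩

/-- `SU_n(q)` is transitive on non-zero isotropic vectors -/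
theorem exists_su_map (hF : Fintype.card F = q ^ 2) (hn : 3 ≤ n) (h32 : ¬ (n = 3 ∧ q = 2))
    (v v' : Fin n → F) (hv0 : v ≠ 0) (hv : Cfsg.hermForm n F q v v = 0) (hv0' : v' ≠ 0)
    (hv' : Cfsg.hermForm n F q v' v' = 0) : ∃ g : ↥(Cfsg.SU n F q), uact g v = v' := by
  obtain ⟨μ, hμ⟩ := exists_mu hF
  obtain ⟨g₁, _, hg₁⟩ := su_trans_iso hF hn h32 μ hμ v hv0 hv
  obtain ⟨g₂, _, hg₂⟩ := su_trans_iso hF hn h32 μ hμ v' hv0' hv'
  refine ⟨g₂⁻¹ * g₁, ?_⟩
  rw [uact_mul, hg₁, ← hg₂, uact_inv_uact]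

/-- the "torus": every non-zero multiple of an isotropic vector is an image of it -/
theorem exists_su_smul (hF : Fintype.card F = q ^ 2) (hn : 3 ≤ n) (h32 : ¬ (n = 3 ∧ q = 2))
    (v : Fin n → F) (hv0 : v ≠ 0) (hv : Cfsg.hermForm n F q v v = 0) (l : F) (hl : l ≠ 0) :
    ∃ g : ↥(Cfsg.SU n F q), uact g v = l • v := by
  apply exists_su_map hF hn h32 v (l • v) hv0 hv (smul_ne_zero hl hv0)
  rw [uh_smul_left, uh_smul_right hF, hv]
  simp

end trans

end Cfsg.Agent.Helper60.SUSieg
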