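import Mathlib
import Cfsg.Agent.Helper60.SURepTools
import Cfsg.Agent.Helper60.SUSieg

/-!
# The Landazuri–Seitz bound for `SU_n(q)` (helper60)

A complex representation of `SU_n(q)`, `n ≥ 3`, in which a unitary transvection acts non-trivially
has degree at least `(q^n - q)/(q + 1)` (`n` odd) resp. `(q^n - 1)/(q + 1)` (`n` even).
-/

set_option autoImplicit false
set_option linter.unusedSectionVars false
set_option linter.unusedVariables false
set_option linter.unusedSimpArgs false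

namespace Cfsg.Agent.Helper60.SUMin

open Matrix Module
open Cfsg.Agent.Helper5 (frobQ frobQ_apply frobQ_frobQ)
open Cfsg.Agent.Helper13
open Cfsg.Agent.Helper60.SURep Cfsg.Agent.Helper60.SUSieg

section general
variable {F : Type*} [Field F] [Fintype F] {q n : ℕ}
  {W : Type*} [AddCommGroup W] [Module ℂ W]

instance su_finite : Finite ↥(Cfsg.SU n F q) := inferInstance

theorem rho_injective (ρ : ↥(Cfsg.SU n F q) →* (W →ₗ[ℂ] W)) (g : ↥(Cfsg.SU n F q)) :
    Function.Injective (ρ g) := by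
  intro x y h
  have h3 := congrArg (ρ g⁻¹) h
  rwa [← Module.End.mul_apply, ← Module.End.mul_apply, ← map_mul, inv_mul_cancel, map_one] at h3

theorem utv_of_not (hF : Fintype.card F = q ^ 2) (v : Fin n → F) (c : F)
    (h : ¬ (Cfsg.hermForm n F q v v = 0 ∧ frobQ hF c = -c)) : utv hF v c = 1 := by
  classical
  unfold utv
  rw [dif_neg h]

theorem zeta_comm (hF : Fintype.card F = q ^ 2) (ρ : ↥(Cfsg.SU n F q) →* (W →ₗ[ℂ] W))
    (v : Fin n → F) (c c' : F) :
    ρ (utv hF v c) * ρ (utv hF v c') = ρ (utv hF v c') * ρ (utv hF v c) := by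
  classical
  rw [← map_mul, ← map_mul]
  congr 1
  by_cases hv : Cfsg.hermForm n F q v v = 0
  · exact utv_comm_orth hF hv c c'
  · rw [utv_of_not hF v c (fun h => hv h.1), utv_of_not hF v c' (fun h => hv h.1)]

section eig
variable (hF : Fintype.card F = q ^ 2) (ρ : ↥(Cfsg.SU n F q) →* (W →ₗ[ℂ] W))
  {v : Fin n → F} (hv : Cfsg.hermForm n F q v v = 0) {ψ : F → ℂ}
  (hE : jointEig (fun c => ρ (utv hF v c)) ψ ≠ ⊥)

include hE in
theorem eig_ne_zero (c : F) : ψ c ≠ 0 := by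
  obtain ⟨w, hw, hw0⟩ := Submodule.exists_mem_ne_zero_of_ne_bot hE
  intro h0
  have h1 : ρ (utv hF v c) w = 0 := by
    have := hw c
    simp only at this
    rw [this, h0, zero_smul]
  exact hw0 (rho_injective ρ _ (by rw [h1, map_zero]))

include hE in
theorem eig_nonskew (c : F) (hc : ¬ frobQ hF c = -c) : ψ c = 1 := by
  obtain ⟨w, hw, hw0⟩ := Submodule.exists_mem_ne_zero_of_ne_bot hE
  have h1 := hw c
  simp only at h1
  rw [utv_of_not hF v c (fun h => hc h.2), map_one, Module.End.one_apply] at h1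
  have h2 : (1 : ℂ) • w = ψ c • w := by rw [one_smul]; exact h1
  exact (smul_left_injective ℂ hw0 h2).symm

include hE hv in
theorem eig_mul (c c' : F) (hc : frobQ hF c = -c) (hc' : frobQ hF c' = -c') :
    ψ (c + c') = ψ c * ψ c' := by
  obtain ⟨w, hw, hw0⟩ := Submodule.exists_mem_ne_zero_of_ne_bot hE
  have h1 := hw (c + c')
  simp only at h1
  rw [← utv_mul hF v c c' hv hc hc', map_mul, Module.End.mul_apply] at h1
  have h2 := hw c'
  have h3 := hw c
  simp only at h2 h3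
  rw [h2, map_smul, h3, smul_smul] at h1
  have h4 := smul_left_injective ℂ hw0 h1
  rw [← h4, mul_comm]

include hE in
theorem eig_zero : ψ 0 = 1 := by
  obtain ⟨w, hw, hw0⟩ := Submodule.exists_mem_ne_zero_of_ne_bot hE
  have h1 := hw 0
  simp only at h1
  rw [utv_zero_right, map_one, Module.End.one_apply] at h1
  have h2 : (1 : ℂ) • w = ψ 0 • w := by rw [one_smul]; exact h1
  exact (smul_left_injective ℂ hw0 h2).symm

end eig

/-- a transvection group acting non-trivially has a non-trivial eigen-character -/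
theorem exists_nontriv_eig [FiniteDimensional ℂ W] (hF : Fintype.card F = q ^ 2)
    (ρ : ↥(Cfsg.SU n F q) →* (W →ₗ[ℂ] W)) (v : Fin n → F)
    (hne : ∃ c, ρ (utv hF v c) ≠ 1) :
    ∃ ψ : F → ℂ, jointEig (fun c => ρ (utv hF v c)) ψ ≠ ⊥ ∧
      ∃ c₁, frobQ hF c₁ = -c₁ ∧ ψ c₁ ≠ 1 := by
  obtain ⟨c, hc⟩ := hne
  have hN : 0 < Nat.card ↥(Cfsg.SU n F q) := Nat.card_pos
  have hpow : ρ (utv hF v c) ^ Nat.card ↥(Cfsg.SU n F q) = 1 := by
    rw [← map_pow, pow_card_eq_one', map_one]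
  obtain ⟨χ, w, hw0, hw, hχ⟩ := exists_eigen_ne_one (fun c => ρ (utv hF v c))
    (fun a b => zeta_comm hF ρ v a b) c _ hN hpow hc
  refine ⟨χ, ?_, c, ?_, hχ⟩
  · intro h
    have hmem : w ∈ jointEig (fun c => ρ (utv hF v c)) χ := hw
    rw [h] at hmem
    exact hw0 ((Submodule.mem_bot ℂ).1 hmem)
  · by_contra hcs
    exact hc (by rw [utv_of_not hF v c (fun h => hcs h.2), map_one])

/-- the torus moves eigen-characters -/
theorem finrank_eig_torus [FiniteDimensional ℂ W] (hF : Fintype.card F = q ^ 2)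
    (ρ : ↥(Cfsg.SU n F q) →* (W →ₗ[ℂ] W)) (v : Fin n → F) (ψ : F → ℂ)
    (g : ↥(Cfsg.SU n F q)) (l : F) (hl : l ≠ 0) (hg : uact g v = l • v) :
    finrank ℂ ↥(jointEig (fun c => ρ (utv hF v c)) ψ) ≤
      finrank ℂ ↥(jointEig (fun c => ρ (utv hF v c)) (fun c => ψ (c * (l * frobQ hF l)⁻¹))) := by
  have hginv : uact g⁻¹ v = l⁻¹ • v := by
    have h1 : uact g⁻¹ (uact g v) = v := uact_inv_uact g v
    rw [hg, uact_smul] at h1
    calc uact g⁻¹ v = l⁻¹ • (l • uact g⁻¹ v) := by rw [smul_smul, inv_mul_cancel₀ hl, one_smul]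
      _ = l⁻¹ • v := by rw [h1]
  have hmaps : ∀ w ∈ jointEig (fun c => ρ (utv hF v c)) ψ,
      ρ g w ∈ jointEig (fun c => ρ (utv hF v c)) (fun c => ψ (c * (l * frobQ hF l)⁻¹)) := by
    intro w hw c
    show ρ (utv hF v c) (ρ g w) = ψ (c * (l * frobQ hF l)⁻¹) • ρ g w
    have e1 : utv hF v c * g = g * utv hF v (c * (l * frobQ hF l)⁻¹) := by
      have h2 := utv_conj hF g⁻¹ v c
      rw [inv_inv, hginv, utv_smul hF l⁻¹ (inv_ne_zero hl), map_inv₀, ← mul_inv] at h2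
      rw [← h2]
      group
    rw [← Module.End.mul_apply, ← map_mul, e1, map_mul, Module.End.mul_apply]
    have h3 := hw (c * (l * frobQ hF l)⁻¹)
    simp only at h3
    rw [h3, map_smul]
  have hinj : Function.Injective ((ρ g).restrict hmaps) := by
    intro x y h
    apply Subtype.ext
    exact rho_injective ρ g (congrArg Subtype.val h)
  exact LinearMap.finrank_le_finrank_of_injective hinj

end general

section heis
variable {F : Type*} [Field F] [Fintype F] {q k : ℕ}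

/-- the standard isotropic vector `(1, μ, 0, …, 0)` -/
def v0 (μ : F) (k : ℕ) : Fin (k + 1 + 1) → F := vecCons 1 (vecCons μ 0)

/-- the embedding of `F^k` as the orthogonal complement of the first two coordinates -/
def emb (a : Fin k → F) : Fin (k + 1 + 1) → F := vecCons 0 (vecCons 0 a)

theorem herm_v0 (hF : Fintype.card F = q ^ 2) (μ : F) (hμ : μ * frobQ hF μ = -1) :
    Cfsg.hermForm (k + 1 + 1) F q (v0 μ k) (v0 μ k) = 0 := by
  unfold v0
  rw [herm_cons, herm_cons, uh_zero_left, one_pow, ← frobQ_apply hF μ, hμ]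
  ring

theorem v0_ne_zero (μ : F) : v0 μ k ≠ 0 := by
  intro h
  have := congrFun h 0
  simp [v0] at this

theorem herm_v0_emb (hF : Fintype.card F = q ^ 2) (μ : F) (a : Fin k → F) :
    Cfsg.hermForm (k + 1 + 1) F q (v0 μ k) (emb a) = 0 := by
  unfold v0 emb
  rw [herm_cons, herm_cons, uh_zero_left, zero_pow (q_ne_zero hF)]
  ring

theorem herm_emb_v0 (hF : Fintype.card F = q ^ 2) (μ : F) (a : Fin k → F) :
    Cfsg.hermForm (k + 1 + 1) F q (emb a) (v0 μ k) = 0 :=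
  uh_swap_zero hF (herm_v0_emb hF μ a)

theorem herm_emb_emb (a a' : Fin k → F) :
    Cfsg.hermForm (k + 1 + 1) F q (emb a) (emb a') = Cfsg.hermForm k F q a a' := by
  unfold emb
  rw [herm_cons, herm_cons]
  ring

theorem emb_add (a a' : Fin k → F) : emb (a + a') = emb a + emb a' := by
  funext i
  refine Fin.cases ?_ (fun i => Fin.cases ?_ (fun j => ?_) i) i <;> simp [emb]

theorem emb_neg (a : Fin k → F) : emb (-a) = -emb a := by
  funext i
  refine Fin.cases ?_ (fun i => Fin.cases ?_ (fun j => ?_) i) i <;> simp [emb]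

theorem emb_smul (c : F) (a : Fin k → F) : emb (c • a) = c • emb a := by
  funext i
  refine Fin.cases ?_ (fun i => Fin.cases ?_ (fun j => ?_) i) i <;> simp [emb]

theorem emb_zero : emb (0 : Fin k → F) = 0 := by
  funext i
  refine Fin.cases ?_ (fun i => Fin.cases ?_ (fun j => ?_) i) i <;> simp [emb]

theorem sg_mul_cond (hF : Fintype.card F = q ^ 2) {n : ℕ} {u u' : Fin n → F} {b b' : F}
    (hb : b + frobQ hF b + Cfsg.hermForm n F q u u = 0)
    (hb' : b' + frobQ hF b' + Cfsg.hermForm n F q u' u' = 0) :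
    (b + b' - Cfsg.hermForm n F q u' u) + frobQ hF (b + b' - Cfsg.hermForm n F q u' u)
      + Cfsg.hermForm n F q (u + u') (u + u') = 0 := by
  simp only [map_sub, map_add, uh_conj hF, uh_add_left, uh_add_right hF]
  linear_combination hb + hb'

theorem sg_inv_cond (hF : Fintype.card F = q ^ 2) {n : ℕ} {u : Fin n → F} {b : F}
    (hb : b + frobQ hF b + Cfsg.hermForm n F q u u = 0) :
    frobQ hF b + frobQ hF (frobQ hF b) + Cfsg.hermForm n F q (-u) (-u) = 0 := by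
  rw [frobQ_frobQ, uh_neg_left, uh_neg_right hF]
  linear_combination hb

/-- conjugating a Siegel element by another one with the same centre -/
theorem sg_conj (hF : Fintype.card F = q ^ 2) {n : ℕ} {v u u₁ : Fin n → F} {b b₁ : F}
    (hv : Cfsg.hermForm n F q v v = 0) (hvu : Cfsg.hermForm n F q v u = 0)
    (hvu₁ : Cfsg.hermForm n F q v u₁ = 0)
    (hb : b + frobQ hF b + Cfsg.hermForm n F q u u = 0)
    (hb₁ : b₁ + frobQ hF b₁ + Cfsg.hermForm n F q u₁ u₁ = 0) :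
    sg hF v u₁ b₁ * sg hF v u b * (sg hF v u₁ b₁)⁻¹ = sg hF v u b *
      utv hF v (Cfsg.hermForm n F q u₁ u - Cfsg.hermForm n F q u u₁) := by
  rw [sg_swap hF hv hvu hvu₁ hb hb₁, mul_assoc (sg hF v u b), sg_comm_utv, ← mul_assoc,
    mul_assoc, mul_inv_cancel, mul_one]

/-- the Heisenberg elements attached to the isotropic vector `v0` -/
noncomputable def hs (hF : Fintype.card F = q ^ 2) (μ b₀ : F) (a : Fin k → F) :
    ↥(Cfsg.SU (k + 1 + 1) F q) :=
  sg hF (v0 μ k) (emb a) (-(Cfsg.hermForm k F q a a) * b₀)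

theorem hs_cond (hF : Fintype.card F = q ^ 2) (b₀ : F) (hb₀ : b₀ + frobQ hF b₀ = 1)
    (a : Fin k → F) :
    (-(Cfsg.hermForm k F q a a) * b₀) + frobQ hF (-(Cfsg.hermForm k F q a a) * b₀) +
      Cfsg.hermForm (k + 1 + 1) F q (emb a) (emb a) = 0 := by
  rw [herm_emb_emb, map_mul, map_neg, uh_self_conj hF]
  linear_combination (-(Cfsg.hermForm k F q a a)) * hb₀

/-- **Heisenberg bound**: a joint eigenspace of the transvection group of `v0` for a non-trivial
character has dimension at least `q^k` -/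
theorem heis_bound {W : Type*} [AddCommGroup W] [Module ℂ W] [FiniteDimensional ℂ W]
    (hF : Fintype.card F = q ^ 2) (ρ : ↥(Cfsg.SU (k + 1 + 1) F q) →* (W →ₗ[ℂ] W))
    (μ : F) (hμ : μ * frobQ hF μ = -1) (ψ : F → ℂ)
    (hE : jointEig (fun c => ρ (utv hF (v0 μ k) c)) ψ ≠ ⊥)
    (c₁ : F) (hc₁ : frobQ hF c₁ = -c₁) (hψ : ψ c₁ ≠ 1) :
    q ^ k ≤ finrank ℂ ↥(jointEig (fun c => ρ (utv hF (v0 μ k) c)) ψ) := by
  classical
  have hq := q_ne_zero hF
  have hv := herm_v0 (k := k) hF μ hμ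
  obtain ⟨b₀, hb₀⟩ := ufld_exists_trace_one hF
  have hnt : Nontrivial ↥(jointEig (fun c => ρ (utv hF (v0 μ k) c)) ψ) :=
    Submodule.nontrivial_iff_ne_bot.2 hE
  have hmemK : ∀ (u : Fin (k + 1 + 1) → F) (b : F),
      sg hF (v0 μ k) u b ∈ Subgroup.centralizer (Set.range (utv hF (v0 μ k))) := by
    intro u b
    rw [Subgroup.mem_centralizer_iff]
    rintro _ ⟨c, rfl⟩
    exact (sg_comm_utv hF _ u b c).symm
  have hzK : ∀ c : F, utv hF (v0 μ k) c ∈ Subgroup.centralizer (Set.range (utv hF (v0 μ k))) := by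
    intro c
    rw [Subgroup.mem_centralizer_iff]
    rintro _ ⟨c', rfl⟩
    exact utv_comm_orth hF hv c' c
  have key := heis_trace_bound (eigRes ρ (utv hF (v0 μ k)) ψ)
    (fun c : F => (⟨utv hF (v0 μ k) c, hzK c⟩ :
      ↥(Subgroup.centralizer (Set.range (utv hF (v0 μ k)))))) ψ ?_
    (fun a : Fin k → F => (⟨hs hF μ b₀ a, hmemK _ _⟩ :
      ↥(Subgroup.centralizer (Set.range (utv hF (v0 μ k)))))) ?_
  · rw [Fintype.card_pi_const, hF] at key
    have h2 : (q ^ k) ^ 2 ≤ finrank ℂ ↥(jointEig (fun c => ρ (utv hF (v0 μ k) c)) ψ) ^ 2 := by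
      rw [← pow_mul, mul_comm, pow_mul]
      exact key
    exact (Nat.pow_le_pow_iff_left two_ne_zero).1 h2
  · intro c
    apply LinearMap.ext
    intro w
    apply Subtype.ext
    rw [eigRes_apply]
    simp only [LinearMap.smul_apply, Module.End.one_apply, Submodule.coe_smul]
    exact w.2 c
  · intro a a' hne
    have hd : a' - a ≠ 0 := sub_ne_zero.2 (Ne.symm hne)
    obtain ⟨j, hj⟩ := Function.ne_iff.1 hd
    have hj' : frobQ hF ((a' - a) j) ≠ 0 := fun h => hj ((ufrob_eq_zero hF).1 h)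
    obtain ⟨y, hy⟩ : ∃ y : F, y = c₁ * b₀ / frobQ hF ((a' - a) j) := ⟨_, rfl⟩
    refine ⟨⟨hs hF μ b₀ (y • Pi.single j 1), hmemK _ _⟩, c₁, hψ, ?_⟩
    apply Subtype.ext
    show hs hF μ b₀ (y • Pi.single j 1) * ((hs hF μ b₀ a)⁻¹ * hs hF μ b₀ a') *
      (hs hF μ b₀ (y • Pi.single j 1))⁻¹ = (hs hF μ b₀ a)⁻¹ * hs hF μ b₀ a' * utv hF (v0 μ k) c₁
    have hca := hs_cond hF b₀ hb₀ a
    have hca' := hs_cond hF b₀ hb₀ a'
    have hc1 := hs_cond hF b₀ hb₀ (y • Pi.single j 1)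
    have e1 : (hs hF μ b₀ a)⁻¹ * hs hF μ b₀ a' = sg hF (v0 μ k) (-emb a + emb a')
        (frobQ hF (-(Cfsg.hermForm k F q a a) * b₀) + -(Cfsg.hermForm k F q a' a') * b₀ -
          Cfsg.hermForm (k + 1 + 1) F q (emb a') (-emb a)) := by
      unfold hs
      rw [sg_inv hF hv (herm_v0_emb hF μ a) hca]
      exact sg_mul hF hv (by rw [uh_neg_right hF, herm_v0_emb hF μ a, neg_zero])
        (herm_v0_emb hF μ a') (sg_inv_cond hF hca) hca'
    rw [e1]
    unfold hs
    rw [sg_conj hF hv (by rw [uh_add_right hF, uh_neg_right hF, herm_v0_emb hF μ a,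
      herm_v0_emb hF μ a', neg_zero, add_zero]) (herm_v0_emb hF μ _)
      (sg_mul_cond hF (sg_inv_cond hF hca) hca') hc1]
    congr 2
    have e2 : -emb a + emb a' = emb (a' - a) := by
      rw [sub_eq_add_neg, emb_add, emb_neg]
      exact add_comm _ _
    rw [e2, herm_emb_emb, herm_emb_emb, ← uh_conj hF (y • Pi.single j 1) (a' - a), uh_smul_left,
      uh_single_left hF, hy, div_mul_cancel₀ _ hj', map_mul, hc₁]
    linear_combination c₁ * hb₀

end heis

section lemA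
variable {F : Type*} [Field F] [Fintype F] {q n : ℕ}
  {W : Type*} [AddCommGroup W] [Module ℂ W] [FiniteDimensional ℂ W]

/-- the family of characters `1`, `c ↦ ψ (c t)` (`t` a non-zero element of the fixed field) -/
def chiFam (q : ℕ) (ψ : F → ℂ) : Option {t : F // t ≠ 0 ∧ t ^ q = t} → F → ℂ :=
  fun o => o.elim (fun _ => 1) (fun t c => ψ (c * t.1))

theorem chiFam_injective (hF : Fintype.card F = q ^ 2) (ρ : ↥(Cfsg.SU n F q) →* (W →ₗ[ℂ] W))
    {v : Fin n → F} (hv : Cfsg.hermForm n F q v v = 0) {ψ : F → ℂ}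
    (hE : jointEig (fun c => ρ (utv hF v c)) ψ ≠ ⊥) (c₁ : F) (hc₁ : frobQ hF c₁ = -c₁)
    (hψ : ψ c₁ ≠ 1) : Function.Injective (chiFam q ψ) := by
  have hskew : ∀ (c : F) (t : {t : F // t ≠ 0 ∧ t ^ q = t}), frobQ hF c = -c →
      frobQ hF (c * t.1) = -(c * t.1) := by
    intro c t hc
    rw [map_mul, hc, frobQ_apply hF t.1, t.2.2]
    ring
  have hnone : ∀ t : {t : F // t ≠ 0 ∧ t ^ q = t}, chiFam q ψ (some t) ≠ chiFam q ψ none := by
    intro t h
    have h1 := congrFun h (c₁ * t.1⁻¹)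
    simp only [chiFam, Option.elim] at h1
    rw [inv_mul_cancel_right₀ t.2.1] at h1
    exact hψ h1
  rintro (_ | t) (_ | t') h
  · rfl
  · exact absurd h.symm (hnone t')
  · exact absurd h (hnone t)
  · congr 1
    by_contra hne
    have hne' : t.1 - t'.1 ≠ 0 := sub_ne_zero.2 (fun h => hne (Subtype.ext h))
    have hfix : frobQ hF (t.1 - t'.1) = t.1 - t'.1 := by
      rw [map_sub, frobQ_apply, frobQ_apply, t.2.2, t'.2.2]
    obtain ⟨c, hc⟩ : ∃ c, c = c₁ / (t.1 - t'.1) := ⟨_, rfl⟩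
    have hcs : frobQ hF c = -c := by
      rw [hc, map_div₀, hfix, hc₁]
      ring
    have h1 := congrFun h c
    simp only [chiFam, Option.elim] at h1
    have h2 : ψ (c * t.1 + -(c * t'.1)) = ψ (c * t.1) * ψ (-(c * t'.1)) :=
      eig_mul hF ρ hv hE _ _ (hskew c t hcs) (by rw [map_neg, hskew c t' hcs])
    have h3 : ψ (c * t'.1 + -(c * t'.1)) = ψ (c * t'.1) * ψ (-(c * t'.1)) :=
      eig_mul hF ρ hv hE _ _ (hskew c t' hcs) (by rw [map_neg, hskew c t' hcs])
    rw [add_neg_cancel, eig_zero hF ρ hE] at h3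
    rw [h1, ← h3] at h2
    have h4 : c * t.1 + -(c * t'.1) = c₁ := by
      rw [hc]
      field_simp
      ring
    rw [h4] at h2
    exact hψ h2

/-- the torus moves a non-zero joint eigenspace to a non-zero joint eigenspace -/
theorem torus_ne_bot (hF : Fintype.card F = q ^ 2) (hn : 3 ≤ n)
    (ρ : ↥(Cfsg.SU n F q) →* (W →ₗ[ℂ] W)) (v : Fin n → F) (hv0 : v ≠ 0)
    (hv : Cfsg.hermForm n F q v v = 0) (ψ : F → ℂ)
    (hE : jointEig (fun c => ρ (utv hF v c)) ψ ≠ ⊥) (x : F) (hx0 : x ≠ 0) (hxq : x ^ q = x) :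
    jointEig (fun c => ρ (utv hF v c)) (fun c => ψ (c * x)) ≠ ⊥ := by
  have key : ∃ (g : ↥(Cfsg.SU n F q)) (l : F), l ≠ 0 ∧ uact g v = l • v ∧
      (l * frobQ hF l)⁻¹ = x := by
    by_cases h32 : n = 3 ∧ q = 2
    · refine ⟨1, 1, one_ne_zero, by rw [uact_one, one_smul], ?_⟩
      rw [h32.2] at hxq
      have hx1 : x = 1 := by
        have h1 : x * (x - 1) = 0 := by linear_combination hxq
        rcases mul_eq_zero.1 h1 with h | h
        · exact absurd h hx0
        · exact sub_eq_zero.1 h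
      rw [hx1, map_one, mul_one, inv_one]
    · obtain ⟨l, hl0, hl⟩ := Cfsg.Agent.Helper5.exists_norm_eq hF (inv_ne_zero hx0)
        (by rw [inv_pow, hxq])
      obtain ⟨g, hg⟩ := exists_su_smul hF hn h32 v hv0 hv l hl0
      exact ⟨g, l, hl0, hg, by rw [frobQ_apply, hl, inv_inv]⟩
  obtain ⟨g, l, hl0, hg, hlt⟩ := key
  have h1 := finrank_eig_torus hF ρ v ψ g l hl0 hg
  rw [hlt] at h1
  intro hbot
  rw [hbot, finrank_bot] at h1
  have h2 : 0 < finrank ℂ ↥(jointEig (fun c => ρ (utv hF v c)) ψ) := by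
    have hnt : Nontrivial ↥(jointEig (fun c => ρ (utv hF v c)) ψ) :=
      Submodule.nontrivial_iff_ne_bot.2 hE
    exact Module.finrank_pos
  omega

/-- **Lemma A**: the `q - 1` torus-conjugates of a non-trivial eigen-character -/
theorem lemA (hF : Fintype.card F = q ^ 2) (hn : 3 ≤ n)
    (ρ : ↥(Cfsg.SU n F q) →* (W →ₗ[ℂ] W)) (v : Fin n → F) (hv0 : v ≠ 0)
    (hv : Cfsg.hermForm n F q v v = 0) (ψ : F → ℂ)
    (hE : jointEig (fun c => ρ (utv hF v c)) ψ ≠ ⊥) (c₁ : F) (hc₁ : frobQ hF c₁ = -c₁)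
    (hψ : ψ c₁ ≠ 1) (N : ℕ)
    (hbound : ∀ ψ' : F → ℂ, jointEig (fun c => ρ (utv hF v c)) ψ' ≠ ⊥ →
      (∃ c, frobQ hF c = -c ∧ ψ' c ≠ 1) →
      N ≤ finrank ℂ ↥(jointEig (fun c => ρ (utv hF v c)) ψ')) :
    finrank ℂ ↥(jointEig (fun c => ρ (utv hF v c)) (fun _ => 1)) + (q - 1) * N ≤ finrank ℂ W := by
  classical
  have hinj := chiFam_injective hF ρ hv hE c₁ hc₁ hψ
  have hsum := sum_finrank_inf_jointEig_le (fun c => ρ (utv hF v c)) (chiFam q ψ) hinj ⊤
  rw [Fintype.sum_option] at hsum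
  have etop : ∀ X : Submodule ℂ W, finrank ℂ ↥(⊤ ⊓ X) = finrank ℂ ↥X := fun X => by
    rw [top_inf_eq]
  simp only [etop, finrank_top] at hsum
  have h1 : ∀ t : {t : F // t ≠ 0 ∧ t ^ q = t},
      N ≤ finrank ℂ ↥(jointEig (fun c => ρ (utv hF v c)) (chiFam q ψ (some t))) := by
    intro t
    apply hbound
    · exact torus_ne_bot hF hn ρ v hv0 hv ψ hE t.1 t.2.1 t.2.2
    · refine ⟨c₁ * t.1⁻¹, ?_, ?_⟩
      · rw [map_mul, map_inv₀, hc₁, frobQ_apply hF t.1, t.2.2]
        ring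
      · show ψ (c₁ * t.1⁻¹ * t.1) ≠ 1
        rw [inv_mul_cancel_right₀ t.2.1]
        exact hψ
  have h2 : (q - 1) * N ≤ ∑ t : {t : F // t ≠ 0 ∧ t ^ q = t},
      finrank ℂ ↥(jointEig (fun c => ρ (utv hF v c)) (chiFam q ψ (some t))) := by
    calc (q - 1) * N = ∑ t : {t : F // t ≠ 0 ∧ t ^ q = t}, N := by
          rw [Finset.sum_const, Finset.card_univ, smul_eq_mul, ← Nat.card_eq_fintype_card,
            Cfsg.Agent.Helper5.card_fixed_ne_zero hF]
      _ ≤ _ := Finset.sum_le_sum (fun t _ => h1 t)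
  exact le_trans (Nat.add_le_add_left h2 _) hsum

/-- Lemma A for the standard isotropic vector -/
theorem lemA_v0 {k : ℕ} (hF : Fintype.card F = q ^ 2) (hk : 1 ≤ k)
    (ρ : ↥(Cfsg.SU (k + 1 + 1) F q) →* (W →ₗ[ℂ] W)) (μ : F) (hμ : μ * frobQ hF μ = -1)
    (hne : ∃ c, ρ (utv hF (v0 μ k) c) ≠ 1) :
    finrank ℂ ↥(jointEig (fun c => ρ (utv hF (v0 μ k) c)) (fun _ => 1)) + (q - 1) * q ^ k
      ≤ finrank ℂ W := by
  obtain ⟨ψ, hE, c₁, hc₁, hψ⟩ := exists_nontriv_eig hF ρ (v0 μ k) hne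
  exact lemA hF (by omega) ρ (v0 μ k) (v0_ne_zero μ) (herm_v0 hF μ hμ) ψ hE c₁ hc₁ hψ (q ^ k)
    (fun ψ' hE' ⟨c, hc, hψ'⟩ => heis_bound hF ρ μ hμ ψ' hE' c hc hψ')

end lemA

end Cfsg.Agent.Helper60.SUMin
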