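import Mathlib
import Cfsg.Agent.Helper60.SUMin

/-!
# The Landazuri–Seitz bound for `SU_n(q)`: the inductive lemma (helper60)

If `v₀ ⊥ v₁` are isotropic and the transvection group of `v₁` has a non-trivial eigen-character
`ψ'`, then some non-zero `ψ'`-eigenvector is fixed by the transvection group of `v₀`.
-/

set_option autoImplicit false
set_option linter.unusedSectionVars false
set_option linter.unusedVariables false
set_option linter.unusedSimpArgs false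

namespace Cfsg.Agent.Helper60.SUMin

open Matrix Module
open Cfsg.Agent.Helper5 (frobQ frobQ_apply frobQ_frobQ)
open Cfsg.Agent.Helper13
open Cfsg.Agent.Helper60.SURep Cfsg.Agent.Helper60.SUSieg

section addchar

/-- every additive character of a finite field is a multiplicative shift of a given non-trivial
one -/
theorem addChar_exists_shift {F : Type*} [Field F] [Fintype F] (Ψ : AddChar F ℂ) (hΨ : Ψ ≠ 1)
    (φ : AddChar F ℂ) : ∃ γ : F, ∀ d, φ d = Ψ (γ * d) := by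
  classical
  have hinj : Function.Injective Ψ.mulShift :=
    AddChar.to_mulShift_inj_of_isPrimitive (AddChar.IsPrimitive.of_ne_one hΨ)
  have hbij : Function.Bijective Ψ.mulShift := by
    rw [Fintype.bijective_iff_injective_and_card]
    exact ⟨hinj, le_antisymm (Fintype.card_le_of_injective _ hinj) (AddChar.card_addChar_le _ _)⟩
  obtain ⟨γ, hγ⟩ := hbij.2 φ
  exact ⟨γ, fun d => by rw [← hγ, AddChar.mulShift_apply]⟩

end addchar

section lemB
variable {F : Type*} [Field F] [Fintype F] {q n : ℕ}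
  {W : Type*} [AddCommGroup W] [Module ℂ W] [FiniteDimensional ℂ W]

theorem skew_decomp (hF : Fintype.card F = q ^ 2) (b₀ : F) (hb₀ : b₀ + frobQ hF b₀ = 1) (c : F)
    (hc : frobQ hF c = -c) : c * b₀ - frobQ hF (c * b₀) = c := by
  rw [map_mul, hc]
  linear_combination c * hb₀

/-- **Lemma B** -/
theorem lemB (hF : Fintype.card F = q ^ 2) (ρ : ↥(Cfsg.SU n F q) →* (W →ₗ[ℂ] W))
    (v₀ v₁ e₀ : Fin n → F) (h0 : Cfsg.hermForm n F q v₀ v₀ = 0)
    (h1 : Cfsg.hermForm n F q v₁ v₁ = 0) (h01 : Cfsg.hermForm n F q v₀ v₁ = 0)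
    (h1e : Cfsg.hermForm n F q v₁ e₀ = 0) (h0e : Cfsg.hermForm n F q v₀ e₀ = 1)
    (hee : Cfsg.hermForm n F q e₀ e₀ = 1)
    (ψ' : F → ℂ) (hE' : jointEig (fun c => ρ (utv hF v₁ c)) ψ' ≠ ⊥) (c₁ : F)
    (hc₁ : frobQ hF c₁ = -c₁) (hψ' : ψ' c₁ ≠ 1) :
    jointEig (fun c => ρ (utv hF v₀ c)) (fun _ => 1) ⊓ jointEig (fun c => ρ (utv hF v₁ c)) ψ'
      ≠ ⊥ := by
  classical
  obtain ⟨b₀, hb₀⟩ := ufld_exists_trace_one hF
  have h10 := uh_swap_zero hF h01
  -- a common eigenvector of the abelian group generated by `Z₀` and the mixed elements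
  obtain ⟨ζ, hζ⟩ : ∃ ζ : F ⊕ F → (W →ₗ[ℂ] W), ζ =
      fun a => Sum.elim (fun c => ρ (utv hF v₀ c)) (fun d => ρ (mx hF v₀ v₁ d)) a := ⟨_, rfl⟩
  have hζl : ∀ c, ζ (Sum.inl c) = ρ (utv hF v₀ c) := fun c => by rw [hζ]; rfl
  have hζr : ∀ d, ζ (Sum.inr d) = ρ (mx hF v₀ v₁ d) := fun d => by rw [hζ]; rfl
  have hcomm : ∀ a b, ζ a * ζ b = ζ b * ζ a := by
    rintro (c | d) (c' | d')
    · rw [hζl, hζl]
      exact zeta_comm hF ρ v₀ c c'
    · rw [hζl, hζr, ← map_mul, ← map_mul, mx_comm_utv0 hF h0 h1 h01]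
    · rw [hζl, hζr, ← map_mul, ← map_mul, mx_comm_utv0 hF h0 h1 h01]
    · rw [hζr, hζr, ← map_mul, ← map_mul, mx_comm hF h0 h1 h01]
  have hinv : ∀ a, ∀ w ∈ jointEig (fun c => ρ (utv hF v₁ c)) ψ',
      ζ a w ∈ jointEig (fun c => ρ (utv hF v₁ c)) ψ' := by
    rintro (c | d) w hw c'
    · show ρ (utv hF v₁ c') (ζ (Sum.inl c) w) = ψ' c' • ζ (Sum.inl c) w
      have hw' : ρ (utv hF v₁ c') w = ψ' c' • w := hw c'
      rw [hζl, ← Module.End.mul_apply, ← map_mul, ← utv_comm_orth hF h01 c c', map_mul,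
        Module.End.mul_apply, hw', map_smul]
    · show ρ (utv hF v₁ c') (ζ (Sum.inr d) w) = ψ' c' • ζ (Sum.inr d) w
      have hw' : ρ (utv hF v₁ c') w = ψ' c' • w := hw c'
      rw [hζr, ← Module.End.mul_apply, ← map_mul, ← mx_comm_utv1 hF h0 h1 h01, map_mul,
        Module.End.mul_apply, hw', map_smul]
  obtain ⟨χ, w, hwE, hw0, hχ⟩ := exists_common_eigen_in ζ hcomm _ hE' hinv
  have hwE' : ∀ c, ρ (utv hF v₁ c) w = ψ' c • w := fun c => hwE c
  have hα : ∀ c, ρ (utv hF v₀ c) w = χ (Sum.inl c) • w := fun c => by rw [← hζl]; exact hχ _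
  have hμ : ∀ d, ρ (mx hF v₀ v₁ d) w = χ (Sum.inr d) • w := fun d => by rw [← hζr]; exact hχ _
  have hEα : jointEig (fun c => ρ (utv hF v₀ c)) (fun c => χ (Sum.inl c)) ≠ ⊥ := by
    intro hbot
    have hmem : w ∈ jointEig (fun c => ρ (utv hF v₀ c)) (fun c => χ (Sum.inl c)) := hα
    rw [hbot] at hmem
    exact hw0 ((Submodule.mem_bot ℂ).1 hmem)
  -- additive characters
  have hskew : ∀ d : F, frobQ hF (d - frobQ hF d) = -(d - frobQ hF d) := by
    intro d
    rw [map_sub, frobQ_frobQ]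
    ring
  obtain ⟨Ψ, hΨ⟩ : ∃ Ψ : AddChar F ℂ, ∀ d, Ψ d = ψ' (d - frobQ hF d) := by
    refine ⟨⟨fun d => ψ' (d - frobQ hF d), ?_, ?_⟩, fun d => rfl⟩
    · rw [map_zero, sub_zero]
      exact eig_zero hF ρ hE'
    · intro a b
      have := eig_mul hF ρ h1 hE' _ _ (hskew a) (hskew b)
      rw [← this]
      congr 1
      rw [map_add]
      ring
  obtain ⟨Aα, hAα⟩ : ∃ A : AddChar F ℂ, ∀ d, A d = χ (Sum.inl (d - frobQ hF d)) := by
    refine ⟨⟨fun d => χ (Sum.inl (d - frobQ hF d)), ?_, ?_⟩, fun d => rfl⟩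
    · rw [map_zero, sub_zero]
      exact eig_zero hF ρ hEα
    · intro a b
      have := eig_mul hF ρ h0 hEα _ _ (hskew a) (hskew b)
      rw [← this]
      congr 2
      rw [map_add]
      ring
  obtain ⟨Mμ, hMμ⟩ : ∃ M : AddChar F ℂ, ∀ d, M d = χ (Sum.inr d) := by
    refine ⟨⟨fun d => χ (Sum.inr d), ?_, ?_⟩, fun d => rfl⟩
    · have h2 := hμ 0
      rw [mx_zero hF h0 h1 h01, map_one, Module.End.one_apply] at h2
      have h3 : (1 : ℂ) • w = χ (Sum.inr 0) • w := by rw [one_smul]; exact h2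
      exact (smul_left_injective ℂ hw0 h3).symm
    · intro a b
      have h2 := hμ (a + b)
      rw [← mx_add hF h0 h1 h01, map_mul, Module.End.mul_apply, hμ, map_smul, hμ, smul_smul] at h2
      have h4 := smul_left_injective ℂ hw0 h2
      rw [← h4, mul_comm]
  have hΨ1 : Ψ ≠ 1 := by
    intro h
    have h2 := hΨ (c₁ * b₀)
    rw [h, AddChar.one_apply, skew_decomp hF b₀ hb₀ c₁ hc₁] at h2
    exact hψ' h2.symm
  obtain ⟨γα, hγα⟩ := addChar_exists_shift Ψ hΨ1 Aα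
  obtain ⟨γμ, hγμ⟩ := addChar_exists_shift Ψ hΨ1 Mμ
  obtain ⟨t₁, ht₁⟩ : ∃ t₁, t₁ = γα * b₀ + frobQ hF (γα * b₀) := ⟨_, rfl⟩
  have hα' : ∀ c, frobQ hF c = -c → χ (Sum.inl c) = ψ' (c * t₁) := by
    intro c hc
    have h2 := hγα (c * b₀)
    rw [hAα, hΨ, skew_decomp hF b₀ hb₀ c hc] at h2
    rw [h2, ht₁]
    congr 1
    simp only [map_mul, hc]
    ring
  have hμ' : ∀ d, χ (Sum.inr d) = ψ' (γμ * d - frobQ hF (γμ * d)) := by
    intro d
    have h2 := hγμ d
    rw [hMμ, hΨ] at h2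
    exact h2
  -- the choice of `κ`
  obtain ⟨κ₀, hκ₀⟩ : ∃ κ₀ : F, κ₀ * frobQ hF κ₀ = γμ * frobQ hF γμ - t₁ := by
    by_cases hr : γμ * frobQ hF γμ - t₁ = 0
    · exact ⟨0, by rw [hr]; simp⟩
    · have hfix : frobQ hF (γμ * frobQ hF γμ - t₁) = γμ * frobQ hF γμ - t₁ := by
        rw [ht₁]
        simp only [map_sub, map_mul, map_add, frobQ_frobQ]
        ring
      obtain ⟨l, _, hl⟩ := ufld_exists_norm hF hr hfix
      exact ⟨l, hl⟩
  obtain ⟨κ, hκ⟩ : ∃ κ, κ = κ₀ - frobQ hF γμ := ⟨_, rfl⟩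
  have hκeq : κ * frobQ hF κ + t₁ + (γμ * κ + frobQ hF γμ * frobQ hF κ) = 0 := by
    rw [hκ]
    simp only [map_sub, map_mul, frobQ_frobQ]
    linear_combination hκ₀
  -- the transvections with centre `κ • v₁ + v₀` fix `w`
  have hfixw : ∀ c, ρ (utv hF (κ • v₁ + v₀) c) w = w := by
    intro c
    by_cases hc : frobQ hF c = -c
    · have hs1 : frobQ hF (c * (κ * frobQ hF κ)) = -(c * (κ * frobQ hF κ)) := by
        rw [map_mul, map_mul, frobQ_frobQ, hc]
        ring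
      have hs2 : frobQ hF (c * t₁) = -(c * t₁) := by
        rw [ht₁]
        simp only [map_mul, map_add, frobQ_frobQ, hc]
        ring
      have hs3 := hskew (γμ * (c * κ))
      have hs12 : frobQ hF (c * (κ * frobQ hF κ) + c * t₁) = -(c * (κ * frobQ hF κ) + c * t₁) := by
        rw [map_add, hs1, hs2]
        ring
      have e1 := eig_mul hF ρ h1 hE' _ _ hs1 hs2
      have e2 := eig_mul hF ρ h1 hE' _ _ hs12 hs3
      have e3 : c * (κ * frobQ hF κ) + c * t₁ + (γμ * (c * κ) - frobQ hF (γμ * (c * κ))) = 0 := by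
        simp only [map_mul, hc]
        linear_combination c * hκeq
      rw [e3, eig_zero hF ρ hE', e1] at e2
      rw [utv_split hF h0 h1 h01 κ c hc, map_mul, map_mul, Module.End.mul_apply,
        Module.End.mul_apply, hμ, map_smul, hα, map_smul, map_smul, hwE', smul_smul, smul_smul,
        hα' c hc, hμ']
      have e4 : ψ' (γμ * (c * κ) - frobQ hF (γμ * (c * κ))) * ψ' (c * t₁) *
          ψ' (c * (κ * frobQ hF κ)) = 1 := by
        rw [e2]
        ring
      rw [e4, one_smul]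
    · rw [utv_of_not hF _ c (fun h => hc h.2), map_one, Module.End.one_apply]
  -- move `κ • v₁ + v₀` to `v₀`
  obtain ⟨u, hu⟩ : ∃ u : Fin n → F, u = (-frobQ hF κ) • e₀ := ⟨_, rfl⟩
  obtain ⟨b, hb⟩ : ∃ b : F, b = -(κ * frobQ hF κ) * b₀ := ⟨_, rfl⟩
  have hv1u : Cfsg.hermForm n F q v₁ u = 0 := by rw [hu, uh_smul_right hF, h1e, mul_zero]
  have hbu : b + frobQ hF b + Cfsg.hermForm n F q u u = 0 := by
    rw [hu, hb, uh_smul_left, uh_smul_right hF, hee]
    simp only [map_mul, map_neg, frobQ_frobQ]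
    linear_combination (-(κ * frobQ hF κ)) * hb₀
  have hxv1 : Cfsg.hermForm n F q (κ • v₁ + v₀) v₁ = 0 := by
    rw [uh_add_left, uh_smul_left, h1, h01]
    ring
  have hgx : uact (sg hF v₁ u b) (κ • v₁ + v₀) = v₀ := by
    rw [uact_sg_orth hF v₁ u b h1 hv1u hbu _ hxv1, hu, uh_smul_right hF, uh_add_left, uh_smul_left,
      h1e, h0e, map_neg, frobQ_frobQ]
    funext i
    simp only [Pi.add_apply, Pi.smul_apply, smul_eq_mul]
    ring
  intro hbot
  have hw' : ρ (sg hF v₁ u b) w ∈ jointEig (fun c => ρ (utv hF v₀ c)) (fun _ => 1) ⊓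
      jointEig (fun c => ρ (utv hF v₁ c)) ψ' := by
    refine ⟨fun c => ?_, fun c => ?_⟩
    · show ρ (utv hF v₀ c) (ρ (sg hF v₁ u b) w) = (1 : ℂ) • ρ (sg hF v₁ u b) w
      have e : utv hF v₀ c * sg hF v₁ u b = sg hF v₁ u b * utv hF (κ • v₁ + v₀) c := by
        have h5 := utv_conj hF (sg hF v₁ u b) (κ • v₁ + v₀) c
        rw [hgx] at h5
        rw [← h5]
        group
      rw [← Module.End.mul_apply, ← map_mul, e, map_mul, Module.End.mul_apply, hfixw, one_smul]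
    · show ρ (utv hF v₁ c) (ρ (sg hF v₁ u b) w) = ψ' c • ρ (sg hF v₁ u b) w
      rw [← Module.End.mul_apply, ← map_mul, ← sg_comm_utv, map_mul, Module.End.mul_apply, hwE',
        map_smul]
  rw [hbot] at hw'
  have h6 := (Submodule.mem_bot ℂ).1 hw'
  exact hw0 (rho_injective ρ _ (by rw [h6, map_zero]))

end lemB

end Cfsg.Agent.Helper60.SUMin
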