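import Mathlib
import Cfsg.Agent.Helper60.SUMin2
import Cfsg.Agent.Helper13.UnitGen

/-!
# The Landazuri–Seitz bound for `SU_n(q)`: the induction (helper60)
-/

set_option autoImplicit false
set_option linter.unusedSectionVars false
set_option linter.unusedVariables false
set_option linter.unusedSimpArgs false

universe u

namespace Cfsg.Agent.Helper60.SUMin

open Matrix Module
open Cfsg.Agent.Helper5 (frobQ frobQ_apply frobQ_frobQ)
open Cfsg.Agent.Helper13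
open Cfsg.Agent.Helper60.SURep Cfsg.Agent.Helper60.SUSieg

/-- the Landazuri–Seitz bound for `SU_{k+2}(q)` -/
def bnd (q : ℕ) : ℕ → ℕ
  | 0 => q - 1
  | 1 => (q - 1) * q
  | (k + 2) => (q - 1) * q ^ (k + 2) + bnd q k

theorem bnd_zero (q : ℕ) : bnd q 0 = q - 1 := rfl

theorem bnd_one (q : ℕ) : bnd q 1 = (q - 1) * q := rfl

theorem bnd_add_two (q k : ℕ) : bnd q (k + 1 + 1) = (q - 1) * q ^ (k + 1 + 1) + bnd q k := rfl

/-- closed form of the bound -/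
theorem bnd_closed (q : ℕ) (hq : 1 ≤ q) : ∀ k : ℕ,
    (q + 1) * bnd q k + (if Even k then 1 else q) = q ^ (k + 2) := by
  obtain ⟨m, rfl⟩ : ∃ m, q = m + 1 := ⟨q - 1, by omega⟩
  have hm : m + 1 - 1 = m := by omega
  intro k
  induction k using Nat.twoStepInduction with
  | zero =>
    rw [bnd_zero, hm]
    simp
    ring
  | one =>
    rw [bnd_one, hm]
    simp
    ring
  | more k ih _ =>
    rw [bnd_add_two, hm]
    have hpar : (if Even (k + 1 + 1) then 1 else m + 1) = (if Even k then 1 else m + 1) := by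
      have : Even (k + 1 + 1) ↔ Even k := by
        rw [add_assoc, Nat.even_add]
        simp
      rw [if_congr this rfl rfl]
    rw [hpar, mul_add, add_assoc, ih]
    ring

section step
variable {F : Type*} [Field F] [Fintype F] {q : ℕ}
  {W : Type u} [AddCommGroup W] [Module ℂ W] [FiniteDimensional ℂ W]

/-- the first basis vector -/
def e0 (F : Type*) [Field F] (j : ℕ) : Fin (j + 1 + 1 + 1 + 1) → F := vecCons 1 0

theorem herm_v1 (hF : Fintype.card F = q ^ 2) (μ : F) (hμ : μ * frobQ hF μ = -1) (j : ℕ) :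
    Cfsg.hermForm (j + 1 + 1 + 1 + 1) F q (emb (v0 μ j)) (emb (v0 μ j)) = 0 := by
  rw [herm_emb_emb, herm_v0 hF μ hμ]

theorem v1_ne_zero (μ : F) (j : ℕ) : emb (v0 μ j) ≠ 0 := by
  intro h
  have := congrFun h (Fin.succ (Fin.succ 0))
  simp [emb, v0] at this

theorem herm_v1_e0 (hF : Fintype.card F = q ^ 2) (μ : F) (j : ℕ) :
    Cfsg.hermForm (j + 1 + 1 + 1 + 1) F q (emb (v0 μ j)) (e0 F j) = 0 := by
  unfold emb e0
  rw [herm_cons, uh_zero_right hF]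
  ring

theorem herm_v0_e0 (hF : Fintype.card F = q ^ 2) (μ : F) (j : ℕ) :
    Cfsg.hermForm (j + 1 + 1 + 1 + 1) F q (v0 μ (j + 1 + 1)) (e0 F j) = 1 := by
  unfold v0 e0
  rw [herm_cons, uh_zero_right hF]
  simp

theorem herm_e0_e0 (hF : Fintype.card F = q ^ 2) (j : ℕ) :
    Cfsg.hermForm (j + 1 + 1 + 1 + 1) F q (e0 F j) (e0 F j) = 1 := by
  unfold e0
  rw [herm_cons, uh_zero_right hF]
  simp

/-- the transvection group of `v₁` also acts non-trivially -/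
theorem exists_eig_v1 (hF : Fintype.card F = q ^ 2) (μ : F) (hμ : μ * frobQ hF μ = -1) (j : ℕ)
    (ρ : ↥(Cfsg.SU (j + 1 + 1 + 1 + 1) F q) →* (W →ₗ[ℂ] W))
    (hne : ∃ c, ρ (utv hF (v0 μ (j + 1 + 1)) c) ≠ 1) :
    ∃ (ψ' : F → ℂ) (c₁ : F), jointEig (fun c => ρ (utv hF (emb (v0 μ j)) c)) ψ' ≠ ⊥ ∧
      frobQ hF c₁ = -c₁ ∧ ψ' c₁ ≠ 1 := by
  obtain ⟨c, hc⟩ := hne
  obtain ⟨g, hg⟩ := exists_su_map hF (by omega) (by omega) (v0 μ (j + 1 + 1)) (emb (v0 μ j))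
    (v0_ne_zero μ) (herm_v0 hF μ hμ) (v1_ne_zero μ j) (herm_v1 hF μ hμ j)
  have h1 : ρ (utv hF (emb (v0 μ j)) c) ≠ 1 := by
    intro h
    apply hc
    have h2 := utv_conj hF g (v0 μ (j + 1 + 1)) c
    rw [hg] at h2
    have h3 : utv hF (v0 μ (j + 1 + 1)) c = g⁻¹ * utv hF (emb (v0 μ j)) c * g := by
      rw [← h2]
      group
    rw [h3, map_mul, map_mul, h, mul_one, ← map_mul, inv_mul_cancel, map_one]
  obtain ⟨ψ, hE, c₁, hc₁, hψ⟩ := exists_nontriv_eig hF ρ (emb (v0 μ j)) ⟨c, h1⟩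
  exact ⟨ψ, c₁, hE, hc₁, hψ⟩

/-- Lemma B in standard position -/
theorem lemB_std (hF : Fintype.card F = q ^ 2) (μ : F) (hμ : μ * frobQ hF μ = -1) (j : ℕ)
    (ρ : ↥(Cfsg.SU (j + 1 + 1 + 1 + 1) F q) →* (W →ₗ[ℂ] W))
    (ψ' : F → ℂ) (hE' : jointEig (fun c => ρ (utv hF (emb (v0 μ j)) c)) ψ' ≠ ⊥) (c₁ : F)
    (hc₁ : frobQ hF c₁ = -c₁) (hψ' : ψ' c₁ ≠ 1) :
    jointEig (fun c => ρ (utv hF (v0 μ (j + 1 + 1)) c)) (fun _ => 1) ⊓
      jointEig (fun c => ρ (utv hF (emb (v0 μ j)) c)) ψ' ≠ ⊥ :=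
  lemB hF ρ (v0 μ (j + 1 + 1)) (emb (v0 μ j)) (e0 F j) (herm_v0 hF μ hμ) (herm_v1 hF μ hμ j)
    (herm_v0_emb hF μ _) (herm_v1_e0 hF μ j) (herm_v0_e0 hF μ j) (herm_e0_e0 hF j) ψ' hE' c₁ hc₁ hψ'

/-- the fixed space of the transvection group of `v₀` has dimension at least `q - 1` -/
theorem su_C_ge_pred (hF : Fintype.card F = q ^ 2) (μ : F) (hμ : μ * frobQ hF μ = -1) (j : ℕ)
    (ρ : ↥(Cfsg.SU (j + 1 + 1 + 1 + 1) F q) →* (W →ₗ[ℂ] W))
    (hne : ∃ c, ρ (utv hF (v0 μ (j + 1 + 1)) c) ≠ 1) :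
    q - 1 ≤ finrank ℂ ↥(jointEig (fun c => ρ (utv hF (v0 μ (j + 1 + 1)) c)) (fun _ => 1)) := by
  classical
  obtain ⟨ψ', c₁, hE', hc₁, hψ'⟩ := exists_eig_v1 hF μ hμ j ρ hne
  have hv1 := herm_v1 hF μ hμ j
  have hinj := chiFam_injective hF ρ hv1 hE' c₁ hc₁ hψ'
  have hsum := sum_finrank_inf_jointEig_le (fun c => ρ (utv hF (emb (v0 μ j)) c)) (chiFam q ψ') hinj
    (jointEig (fun c => ρ (utv hF (v0 μ (j + 1 + 1)) c)) (fun _ => 1))
  rw [Fintype.sum_option] at hsum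
  have h1 : ∀ t : {t : F // t ≠ 0 ∧ t ^ q = t},
      1 ≤ finrank ℂ ↥(jointEig (fun c => ρ (utv hF (v0 μ (j + 1 + 1)) c)) (fun _ => 1) ⊓
        jointEig (fun c => ρ (utv hF (emb (v0 μ j)) c)) (chiFam q ψ' (some t))) := by
    intro t
    have hne' : jointEig (fun c => ρ (utv hF (v0 μ (j + 1 + 1)) c)) (fun _ => 1) ⊓
        jointEig (fun c => ρ (utv hF (emb (v0 μ j)) c)) (fun c => ψ' (c * t.1)) ≠ ⊥ := by
      apply lemB_std hF μ hμ j ρ _
        (torus_ne_bot hF (by omega) ρ _ (v1_ne_zero μ j) hv1 ψ' hE' t.1 t.2.1 t.2.2) (c₁ * t.1⁻¹)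
      · rw [map_mul, map_inv₀, hc₁, frobQ_apply hF t.1, t.2.2]
        ring
      · show ψ' (c₁ * t.1⁻¹ * t.1) ≠ 1
        rw [inv_mul_cancel_right₀ t.2.1]
        exact hψ'
    have hnt : Nontrivial ↥(jointEig (fun c => ρ (utv hF (v0 μ (j + 1 + 1)) c)) (fun _ => 1) ⊓
        jointEig (fun c => ρ (utv hF (emb (v0 μ j)) c)) (chiFam q ψ' (some t))) :=
      Submodule.nontrivial_iff_ne_bot.2 hne'
    exact Module.finrank_pos
  have h2 : q - 1 ≤ ∑ t : {t : F // t ≠ 0 ∧ t ^ q = t},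
      finrank ℂ ↥(jointEig (fun c => ρ (utv hF (v0 μ (j + 1 + 1)) c)) (fun _ => 1) ⊓
        jointEig (fun c => ρ (utv hF (emb (v0 μ j)) c)) (chiFam q ψ' (some t))) := by
    calc q - 1 = ∑ t : {t : F // t ≠ 0 ∧ t ^ q = t}, 1 := by
          rw [Finset.sum_const, Finset.card_univ, smul_eq_mul, mul_one,
            ← Nat.card_eq_fintype_card, Cfsg.Agent.Helper5.card_fixed_ne_zero hF]
      _ ≤ _ := Finset.sum_le_sum (fun t _ => h1 t)
  exact le_trans (le_trans h2 (Nat.le_add_left _ _)) hsum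

/-- the embedding of `SU_{j+2}` into `SU_{j+4}` fixing the first two basis vectors -/
noncomputable def bord2 (j q : ℕ) (F : Type*) [Field F] [Fintype F] :
    ↥(Cfsg.SU (j + 1 + 1) F q) →* ↥(Cfsg.SU (j + 1 + 1 + 1 + 1) F q) :=
  (bordSU (j + 1 + 1 + 1) q F).comp (bordSU (j + 1 + 1) q F)

theorem bord2_utv (hF : Fintype.card F = q ^ 2) (j : ℕ) (x : Fin (j + 1 + 1) → F) (c : F) :
    bord2 j q F (utv hF x c) = utv hF (emb x) c := by
  show bordSU (j + 1 + 1 + 1) q F (bordSU (j + 1 + 1) q F (utv hF x c)) = utv hF (emb x) c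
  rw [bordSU_utv, bordSU_utv]
  rfl

theorem uact_bord2_v0 (μ : F) (j : ℕ) (g : ↥(Cfsg.SU (j + 1 + 1) F q)) :
    uact (bord2 j q F g) (v0 μ (j + 1 + 1)) = v0 μ (j + 1 + 1) := by
  show uact (bordSU (j + 1 + 1 + 1) q F (bordSU (j + 1 + 1) q F g)) (vecCons 1 (vecCons μ 0)) =
    vecCons 1 (vecCons μ 0)
  rw [uact_bordSU, uact_bordSU, uact_zero]

theorem bord2_mem (hF : Fintype.card F = q ^ 2) (μ : F) (j : ℕ) (g : ↥(Cfsg.SU (j + 1 + 1) F q)) :
    bord2 j q F g ∈ Subgroup.centralizer (Set.range (utv hF (v0 μ (j + 1 + 1)))) := by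
  rw [Subgroup.mem_centralizer_iff]
  rintro _ ⟨c, rfl⟩
  have h := utv_conj hF (bord2 j q F g) (v0 μ (j + 1 + 1)) c
  rw [uact_bord2_v0] at h
  exact (mul_inv_eq_iff_eq_mul.1 h).symm

/-- the fixed space of the transvection group of `v₀` carries a representation of `SU_{j+2}(q)` in
which a transvection acts non-trivially -/
theorem su_C_rep (hF : Fintype.card F = q ^ 2) (μ : F) (hμ : μ * frobQ hF μ = -1) (j : ℕ)
    (ρ : ↥(Cfsg.SU (j + 1 + 1 + 1 + 1) F q) →* (W →ₗ[ℂ] W))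
    (hne : ∃ c, ρ (utv hF (v0 μ (j + 1 + 1)) c) ≠ 1) :
    ∃ ρ₁ : ↥(Cfsg.SU (j + 1 + 1) F q) →*
        (↥(jointEig (fun c => ρ (utv hF (v0 μ (j + 1 + 1)) c)) (fun _ => 1)) →ₗ[ℂ]
          ↥(jointEig (fun c => ρ (utv hF (v0 μ (j + 1 + 1)) c)) (fun _ => 1))),
      ∃ c, ρ₁ (utv hF (v0 μ j) c) ≠ 1 := by
  obtain ⟨ψ', c₁, hE', hc₁, hψ'⟩ := exists_eig_v1 hF μ hμ j ρ hne
  have hB := lemB_std hF μ hμ j ρ ψ' hE' c₁ hc₁ hψ'
  obtain ⟨w, hw, hw0⟩ := Submodule.exists_mem_ne_zero_of_ne_bot hB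
  refine ⟨(eigRes ρ (utv hF (v0 μ (j + 1 + 1))) (fun _ => 1)).comp
    ((bord2 j q F).codRestrict _ (bord2_mem hF μ j)), c₁, ?_⟩
  intro h
  have h2 := congrArg (fun T => ((T ⟨w, hw.1⟩ :
    ↥(jointEig (fun c => ρ (utv hF (v0 μ (j + 1 + 1)) c)) (fun _ => 1))) : W)) h
  simp only [MonoidHom.comp_apply, eigRes_apply, Module.End.one_apply] at h2
  have h3 : ρ (bord2 j q F (utv hF (v0 μ j) c₁)) w = w := h2
  rw [bord2_utv] at h3
  have h4 : ρ (utv hF (emb (v0 μ j)) c₁) w = ψ' c₁ • w := hw.2 c₁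
  rw [h4] at h3
  have h5 : ψ' c₁ • w = (1 : ℂ) • w := by rw [one_smul]; exact h3
  exact hψ' (smul_left_injective ℂ hw0 h5)

end step

section main
variable {F : Type*} [Field F] [Fintype F] {q : ℕ}

/-- **Landazuri–Seitz bound**, inductive form -/
theorem su_bound_aux (hF : Fintype.card F = q ^ 2) (μ : F) (hμ : μ * frobQ hF μ = -1) (k : ℕ) :
    1 ≤ k → ∀ (W : Type u) [AddCommGroup W] [Module ℂ W] [FiniteDimensional ℂ W]
      (ρ : ↥(Cfsg.SU (k + 1 + 1) F q) →* (W →ₗ[ℂ] W)),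
      (∃ c, ρ (utv hF (v0 μ k) c) ≠ 1) → bnd q k ≤ finrank ℂ W := by
  induction k using Nat.strong_induction_on with
  | _ k ih =>
    intro hk W _ _ _ ρ hne
    have hA := lemA_v0 hF hk ρ μ hμ hne
    rcases (by omega : k = 1 ∨ 2 ≤ k) with rfl | hk2
    · rw [bnd_one]
      rw [pow_one] at hA
      exact le_trans (Nat.le_add_left _ _) hA
    · obtain ⟨j, rfl⟩ : ∃ j, k = j + 1 + 1 := ⟨k - 2, by omega⟩
      rw [bnd_add_two]
      have hC : bnd q j ≤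
          finrank ℂ ↥(jointEig (fun c => ρ (utv hF (v0 μ (j + 1 + 1)) c)) (fun _ => 1)) := by
        rcases Nat.eq_zero_or_pos j with rfl | hj
        · rw [bnd_zero]
          exact su_C_ge_pred hF μ hμ 0 ρ hne
        · obtain ⟨ρ₁, hne₁⟩ := su_C_rep hF μ hμ j ρ hne
          exact ih j (by omega) hj _ ρ₁ hne₁
      calc (q - 1) * q ^ (j + 1 + 1) + bnd q j
          ≤ (q - 1) * q ^ (j + 1 + 1) +
            finrank ℂ ↥(jointEig (fun c => ρ (utv hF (v0 μ (j + 1 + 1)) c)) (fun _ => 1)) :=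
            Nat.add_le_add_left hC _
        _ ≤ finrank ℂ W := by
            rw [add_comm]
            exact hA

/-- **Landazuri–Seitz bound** for `SU_n(q)`, `n ≥ 3`, `(n, q) ≠ (3, 2)`: a non-trivial complex
representation has degree at least `bnd q (n - 2)` -/
theorem su_min_degree (hF : Fintype.card F = q ^ 2) (k : ℕ) (hk : 1 ≤ k)
    (h32 : ¬ (k + 1 + 1 = 3 ∧ q = 2))
    (W : Type u) [AddCommGroup W] [Module ℂ W] [FiniteDimensional ℂ W]
    (ρ : ↥(Cfsg.SU (k + 1 + 1) F q) →* (W →ₗ[ℂ] W)) (hnt : ∃ g, ρ g ≠ 1) :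
    bnd q k ≤ finrank ℂ W := by
  obtain ⟨μ, hμ⟩ := exists_mu hF
  apply su_bound_aux hF μ hμ k hk W ρ
  -- some transvection acts non-trivially
  have hgen : ∃ A ∈ utGen (k + 1 + 1) F q, ρ A ≠ 1 := by
    by_contra hcon
    push Not at hcon
    obtain ⟨g, hg⟩ := hnt
    apply hg
    have hle : utT (k + 1 + 1) F q ≤ ρ.ker := by
      unfold utT
      rw [Subgroup.closure_le]
      intro A hA
      exact hcon A hA
    rw [su_eq_utT hF (k + 1 + 1) (by omega) h32] at hle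
    exact hle (Subgroup.mem_top g)
  obtain ⟨A, hA, hρA⟩ := hgen
  rcases utGen_cases A hA with h1 | hr
  · rw [h1, map_one] at hρA
    exact absurd rfl hρA
  · obtain ⟨v, c, hv0, hc0, hv, hc, rfl⟩ := su_rank_one hF A hr
    obtain ⟨g, hg⟩ := exists_su_map hF (by omega) h32 v (v0 μ k) hv0 hv (v0_ne_zero μ)
      (herm_v0 hF μ hμ)
    refine ⟨c, fun h => hρA ?_⟩
    have h2 := utv_conj hF g v c
    rw [hg] at h2
    have h3 : utv hF v c = g⁻¹ * utv hF (v0 μ k) c * g := by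
      rw [← h2]
      group
    rw [h3, map_mul, map_mul, h, mul_one, ← map_mul, inv_mul_cancel, map_one]

end main

end Cfsg.Agent.Helper60.SUMin
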