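import Mathlib
import Cfsg.Agent.Helper60.SURepTools
import Cfsg.Agent.Helper5.SympPerfect

/-!
# The minimal degree of `Sp_{2n}(q)`, `q` odd: the lower bound (helper60)

A non-trivial complex representation of `Sp_{2n}(q)`, `q` odd, has degree at least `(q^n - 1)/2`:
the Siegel unipotent radical (symmetric matrices) acts through characters, which the Levi factor
`GL_n(q)` permutes, and every non-zero orbit of quadratic forms has at least `(q^n - 1)/2` elements.
-/

set_option autoImplicit false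
set_option linter.unusedSectionVars false
set_option linter.unusedVariables false
set_option linter.unusedSimpArgs false

namespace Cfsg.Agent.Helper60.SpMin

open Matrix Module
open Cfsg.Agent.Helper5
open Cfsg.Agent.Helper60.SURep

section gl
variable {F : Type*} [Field F] {n : ℕ}

theorem rkone_mulVec (u φ x : Fin n → F) : (1 + vecMulVec u φ) *ᵥ x = x + (φ ⬝ᵥ x) • u := by
  rw [add_mulVec, one_mulVec, vecMulVec_mulVec]
  simp

theorem rkone_det (u φ : Fin n → F) : (1 + vecMulVec u φ).det = 1 + φ ⬝ᵥ u := by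
  rw [vecMulVec_eq Unit, det_one_add_replicateCol_mul_replicateRow]

/-- `GL_n` moves a basis vector to any non-zero vector -/
theorem gl_trans_single (i₀ : Fin n) (y : Fin n → F) (hy : y ≠ 0) :
    ∃ P : GL (Fin n) F, P.1 *ᵥ Pi.single i₀ 1 = y := by
  classical
  by_cases h0 : y i₀ = 0
  · obtain ⟨j, hj⟩ : ∃ j, y j ≠ 0 := by
      by_contra hcon
      push Not at hcon
      exact hy (funext hcon)
    have hji : j ≠ i₀ := fun h => hj (h ▸ h0)
    have hd1 : (1 + vecMulVec y (Pi.single i₀ 1)).det ≠ 0 := by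
      rw [rkone_det, single_dotProduct, h0]
      simp
    have hd2 : (1 + vecMulVec (-(Pi.single i₀ (1 : F))) ((y j)⁻¹ • Pi.single j 1)).det ≠ 0 := by
      rw [rkone_det, smul_dotProduct, dotProduct_neg, single_dotProduct, Pi.single_eq_of_ne hji]
      simp
    refine ⟨GeneralLinearGroup.mkOfDetNeZero _ hd2 * GeneralLinearGroup.mkOfDetNeZero _ hd1, ?_⟩
    show ((1 + vecMulVec (-(Pi.single i₀ (1 : F))) ((y j)⁻¹ • Pi.single j 1)) *
      (1 + vecMulVec y (Pi.single i₀ 1))) *ᵥ Pi.single i₀ 1 = y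
    rw [← mulVec_mulVec, rkone_mulVec, rkone_mulVec, single_dotProduct, Pi.single_eq_same,
      smul_dotProduct, dotProduct_add, single_dotProduct, single_dotProduct,
      Pi.single_eq_of_ne hji]
    simp [hj]
  · have hd : (1 + vecMulVec (y - Pi.single i₀ 1) (Pi.single i₀ 1)).det ≠ 0 := by
      rw [rkone_det, single_dotProduct, Pi.sub_apply, Pi.single_eq_same]
      simpa using h0
    refine ⟨GeneralLinearGroup.mkOfDetNeZero _ hd, ?_⟩
    show (1 + vecMulVec (y - Pi.single i₀ 1) (Pi.single i₀ 1)) *ᵥ Pi.single i₀ 1 = y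
    rw [rkone_mulVec, single_dotProduct, Pi.single_eq_same]
    simp

/-- `GL_n` is transitive on non-zero vectors -/
theorem gl_trans (v w : Fin n → F) (hv : v ≠ 0) (hw : w ≠ 0) :
    ∃ P : GL (Fin n) F, P.1 *ᵥ v = w := by
  obtain ⟨i₀⟩ : Nonempty (Fin n) := by
    by_contra h
    rw [not_nonempty_iff] at h
    exact hv (funext (fun i => (h.false i).elim))
  obtain ⟨P₁, h1⟩ := gl_trans_single i₀ v hv
  obtain ⟨P₂, h2⟩ := gl_trans_single i₀ w hw
  refine ⟨P₂ * P₁⁻¹, ?_⟩
  rw [← h1]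
  show (P₂.1 * (P₁⁻¹).1) *ᵥ (P₁.1 *ᵥ Pi.single i₀ 1) = w
  rw [mulVec_mulVec, mul_assoc, ← Units.val_mul, inv_mul_cancel, Units.val_one, mul_one, h2]

end gl

section qform
variable {F : Type*} [Field F] {n : ℕ}

/-- the quadratic form `y ↦ yᵀ C y` -/
def qf (C : Matrix (Fin n) (Fin n) F) (y : Fin n → F) : F := y ⬝ᵥ C *ᵥ y

/-- its polar form -/
def bf (C : Matrix (Fin n) (Fin n) F) (y z : Fin n → F) : F := y ⬝ᵥ C *ᵥ z + z ⬝ᵥ C *ᵥ y

theorem qf_add (C : Matrix (Fin n) (Fin n) F) (y z : Fin n → F) :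
    qf C (y + z) = qf C y + qf C z + bf C y z := by
  unfold qf bf
  rw [mulVec_add, add_dotProduct, dotProduct_add, dotProduct_add]
  ring

theorem qf_smul (C : Matrix (Fin n) (Fin n) F) (l : F) (y : Fin n → F) :
    qf C (l • y) = l * l * qf C y := by
  unfold qf
  rw [mulVec_smul, smul_dotProduct, dotProduct_smul, smul_eq_mul, smul_eq_mul]
  ring

theorem qf_zero (C : Matrix (Fin n) (Fin n) F) : qf C 0 = 0 := by
  unfold qf
  simp

theorem bf_comm (C : Matrix (Fin n) (Fin n) F) (y z : Fin n → F) : bf C y z = bf C z y := by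
  unfold bf
  ring

theorem bf_self (C : Matrix (Fin n) (Fin n) F) (y : Fin n → F) : bf C y y = 2 * qf C y := by
  unfold bf qf
  ring

theorem bf_add_right (C : Matrix (Fin n) (Fin n) F) (y z z' : Fin n → F) :
    bf C y (z + z') = bf C y z + bf C y z' := by
  unfold bf
  rw [mulVec_add, dotProduct_add, add_dotProduct]
  ring

theorem bf_smul_right (C : Matrix (Fin n) (Fin n) F) (l : F) (y z : Fin n → F) :
    bf C y (l • z) = l * bf C y z := by
  unfold bf
  rw [mulVec_smul, dotProduct_smul, smul_dotProduct, smul_eq_mul, smul_eq_mul]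
  ring

end qform

section orbit
variable {F : Type*} [Field F] [Fintype F] {m : ℕ}

theorem two_ne_zero_of_odd (hq : Fintype.card F % 2 = 1) : (2 : F) ≠ 0 := by
  apply Ring.two_ne_zero
  intro h
  have := FiniteField.even_card_of_char_two h
  omega

theorem sq_dot_eq (h2 : (2 : F) ≠ 0) {n : ℕ} (x x' : Fin n → F) (hx : x ≠ 0)
    (h : ∀ y, (x ⬝ᵥ y) ^ 2 = (x' ⬝ᵥ y) ^ 2) : x' = x ∨ x' = -x := by
  classical
  obtain ⟨i, hi⟩ : ∃ i, x i ≠ 0 := by
    by_contra hcon
    push Not at hcon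
    exact hx (funext hcon)
  have hs : ∀ j, x j ^ 2 = x' j ^ 2 := by
    intro j
    have := h (Pi.single j 1)
    rwa [dotProduct_single, dotProduct_single, mul_one, mul_one] at this
  have hp : ∀ j, x i * x j = x' i * x' j := by
    intro j
    have h3 := h (Pi.single i 1 + Pi.single j 1)
    rw [dotProduct_add, dotProduct_add, dotProduct_single, dotProduct_single, dotProduct_single,
      dotProduct_single, mul_one, mul_one, mul_one, mul_one] at h3
    have h4 := hs i
    have h5 := hs j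
    have h6 : 2 * (x i * x j - x' i * x' j) = 0 := by linear_combination h3 - h4 - h5
    rcases mul_eq_zero.1 h6 with h7 | h7
    · exact absurd h7 h2
    · exact sub_eq_zero.1 h7
  rcases sq_eq_sq_iff_eq_or_eq_neg.1 (hs i) with h7 | h7
  · left
    funext j
    have h8 := hp j
    rw [← h7] at h8
    exact (mul_left_cancel₀ hi h8).symm
  · right
    funext j
    have h8 := hp j
    have h9 : x i * (x j + x' j) = 0 := by
      rw [h7] at h8 ⊢
      linear_combination h8
    rcases mul_eq_zero.1 h9 with h10 | h10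
    · exact absurd h10 hi
    · simp only [Pi.neg_apply]
      linear_combination h10

/-- **orbit count**: the forms `Q ∘ P`, `P ∈ GL_n(q)`, of a non-zero quadratic form `Q` over a
finite field of odd order `q` are at least `(q^n - 1)/2` in number -/
theorem orbit_card {α : Type*} [DecidableEq α] (hq : Fintype.card F % 2 = 1)
    (C : Matrix (Fin (m + 1)) (Fin (m + 1)) F) (y₁ : Fin (m + 1) → F) (hy₁ : qf C y₁ ≠ 0)
    (Φ : GL (Fin (m + 1)) F → α)
    (hΦ : ∀ P P', Φ P = Φ P' → ∀ y, qf C (P.1 *ᵥ y) = qf C (P'.1 *ᵥ y)) :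
    ∃ s : Finset α, (∀ a ∈ s, ∃ P, Φ P = a) ∧ Fintype.card F ^ (m + 1) - 1 ≤ 2 * s.card := by
  classical
  have h2 := two_ne_zero_of_odd hq
  obtain ⟨c₁, hc₁⟩ : ∃ c₁, c₁ = qf C y₁ := ⟨_, rfl⟩
  have hc₁0 : c₁ ≠ 0 := by rw [hc₁]; exact hy₁
  by_cases hA : ∃ y₂, bf C y₁ y₂ = 0 ∧ qf C y₂ ≠ 0
  · -- the form is universal
    obtain ⟨y₂, h12, hy₂⟩ := hA
    have huniv : ∀ r : F, ∃ y, qf C y = r := by
      intro r
      have hd1 : (Polynomial.C (qf C y₁) * Polynomial.X ^ 2).degree = 2 := by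
        rw [Polynomial.degree_C_mul_X_pow 2 hy₁]
        rfl
      have hd2 : (Polynomial.C (qf C y₂) * Polynomial.X ^ 2 - Polynomial.C r).degree = 2 := by
        rw [Polynomial.degree_sub_C (by rw [Polynomial.degree_C_mul_X_pow 2 hy₂]; decide),
          Polynomial.degree_C_mul_X_pow 2 hy₂]
        rfl
      obtain ⟨s, t, hst⟩ := FiniteField.exists_root_sum_quadratic hd1 hd2 hq
      refine ⟨s • y₁ + t • y₂, ?_⟩
      simp only [Polynomial.eval_mul, Polynomial.eval_C, Polynomial.eval_pow, Polynomial.eval_X,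
        Polynomial.eval_sub] at hst
      rw [qf_add, qf_smul, qf_smul, bf_smul_right, bf_comm, bf_smul_right, bf_comm, h12]
      linear_combination hst
    choose yr hyr using huniv
    have hyr0 : ∀ r : F, r ≠ 0 → yr r ≠ 0 := by
      intro r hr h
      apply hr
      rw [← hyr r, h, qf_zero]
    have hM : ∀ r : {r : F // r ≠ 0}, ∃ M : GL (Fin (m + 1)) F,
        M.1 *ᵥ Pi.single 0 1 = yr r.1 := fun r => gl_trans_single 0 (yr r.1) (hyr0 r.1 r.2)
    choose M hM using hM
    have hN : ∀ a : Fin m → F,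
        (1 + vecMulVec (Pi.single (0 : Fin (m + 1)) (1 : F)) (vecCons 0 a)).det ≠ 0 := by
      intro a
      rw [rkone_det, dotProduct_single]
      simp
    obtain ⟨P, hPdef⟩ : ∃ P : {r : F // r ≠ 0} × (Fin m → F) → GL (Fin (m + 1)) F,
        P = fun p => M p.1 * GeneralLinearGroup.mkOfDetNeZero _ (hN p.2) := ⟨_, rfl⟩
    have hP : ∀ (p : {r : F // r ≠ 0} × (Fin m → F)) (x : Fin (m + 1) → F),
        (P p).1 *ᵥ x = (M p.1).1 *ᵥ (x + (vecCons 0 p.2 ⬝ᵥ x) • Pi.single 0 1) := by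
      intro p x
      rw [hPdef]
      show ((M p.1).1 * (1 + vecMulVec (Pi.single (0 : Fin (m + 1)) (1 : F)) (vecCons 0 p.2))) *ᵥ x
        = _
      rw [← mulVec_mulVec, rkone_mulVec]
    have hP0 : ∀ p, (P p).1 *ᵥ Pi.single 0 1 = yr p.1.1 := by
      intro p
      rw [hP, dotProduct_single]
      simp [hM]
    have hPj : ∀ p (j : Fin m), (P p).1 *ᵥ Pi.single j.succ 1 =
        (M p.1).1 *ᵥ Pi.single j.succ 1 + p.2 j • yr p.1.1 := by
      intro p j
      rw [hP, dotProduct_single, mulVec_add, mulVec_smul, hM]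
      simp
    have hinj : Function.Injective (fun p => Φ (P p)) := by
      rintro ⟨r, a⟩ ⟨r', a'⟩ hpp
      have hQ := hΦ _ _ hpp
      have hr : r = r' := by
        apply Subtype.ext
        have := hQ (Pi.single 0 1)
        rwa [hP0, hP0, hyr, hyr] at this
      subst hr
      have ha : a = a' := by
        funext j
        have e1 := hQ (Pi.single 0 1 + Pi.single j.succ 1)
        have e2 := hQ (Pi.single j.succ 1)
        rw [mulVec_add, mulVec_add, qf_add, qf_add, hP0, hP0, hyr, e2, hPj, hPj, bf_add_right,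
          bf_add_right, bf_smul_right, bf_smul_right, bf_self, hyr] at e1
        have h3 : (2 * r.1) * (a j - a' j) = 0 := by linear_combination e1
        rcases mul_eq_zero.1 h3 with h4 | h4
        · exact absurd h4 (mul_ne_zero h2 r.2)
        · exact sub_eq_zero.1 h4
      rw [ha]
    refine ⟨Finset.univ.image (fun p => Φ (P p)), ?_, ?_⟩
    · intro a ha
      obtain ⟨p, -, rfl⟩ := Finset.mem_image.1 ha
      exact ⟨P p, rfl⟩
    · rw [Finset.card_image_of_injective _ hinj, Finset.card_univ, Fintype.card_prod,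
        Fintype.card_pi_const, Fintype.card_subtype_compl, Fintype.card_subtype_eq]
      obtain ⟨k, hk⟩ : ∃ k, Fintype.card F = k + 1 := ⟨Fintype.card F - 1, by
        have := Fintype.card_pos (α := F)
        omega⟩
      rw [hk, pow_succ]
      have h5 : k + 1 - 1 = k := by omega
      rw [h5]
      rcases Nat.eq_zero_or_pos k with rfl | hk0
      · simp
      · have h6 : 0 < (k + 1) ^ m := by positivity
        have h7 : (k + 1) ^ m * (k + 1) ≤ 2 * (k * (k + 1) ^ m) := by nlinarith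
        omega
  · -- the form is the square of a linear form, up to a scalar
    push Not at hA
    obtain ⟨f, hf⟩ : ∃ f : Fin (m + 1) → F, f = (2 * c₁)⁻¹ • (C *ᵥ y₁ + Cᵀ *ᵥ y₁) := ⟨_, rfl⟩
    have hfy : ∀ y, f ⬝ᵥ y = (2 * c₁)⁻¹ * bf C y y₁ := by
      intro y
      rw [hf, smul_dotProduct, add_dotProduct, smul_eq_mul]
      unfold bf
      rw [mulVec_transpose, ← dotProduct_mulVec, dotProduct_comm (C *ᵥ y₁) y]
    have hkey : ∀ y, qf C y = c₁ * (f ⬝ᵥ y) ^ 2 := by
      intro y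
      have h3 : bf C y₁ (y + (-(f ⬝ᵥ y)) • y₁) = 0 := by
        rw [bf_add_right, bf_smul_right, bf_self, hfy, ← hc₁, bf_comm C y₁ y]
        field_simp
        ring
      have h4 := hA _ h3
      have h5 : qf C y = qf C ((y + (-(f ⬝ᵥ y)) • y₁) + (f ⬝ᵥ y) • y₁) := by
        congr 1
        rw [add_assoc, ← add_smul, neg_add_cancel, zero_smul, add_zero]
      rw [h5, qf_add, h4, qf_smul, bf_smul_right, bf_comm, h3, ← hc₁]
      ring
    have hf0 : f ≠ 0 := by
      intro h
      have h3 := hfy y₁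
      rw [h, zero_dotProduct, bf_self, ← hc₁] at h3
      have h4 : (2 * c₁)⁻¹ * (2 * c₁) = 1 := inv_mul_cancel₀ (mul_ne_zero h2 hc₁0)
      rw [h4] at h3
      exact zero_ne_one h3
    have hM : ∀ x : {x : Fin (m + 1) → F // x ≠ 0}, ∃ M : GL (Fin (m + 1)) F,
        M.1 *ᵥ f = x.1 := fun x => gl_trans f x.1 hf0 x.2
    choose M hM using hM
    have hdet : ∀ x, ((M x).1)ᵀ.det ≠ 0 := by
      intro x
      rw [det_transpose]
      exact ((Matrix.isUnit_iff_isUnit_det _).1 (M x).isUnit).ne_zero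
    obtain ⟨P, hPdef⟩ : ∃ P : {x : Fin (m + 1) → F // x ≠ 0} → GL (Fin (m + 1)) F,
        P = fun x => GeneralLinearGroup.mkOfDetNeZero _ (hdet x) := ⟨_, rfl⟩
    have hP : ∀ x y, qf C ((P x).1 *ᵥ y) = c₁ * (x.1 ⬝ᵥ y) ^ 2 := by
      intro x y
      rw [hPdef]
      show qf C (((M x).1)ᵀ *ᵥ y) = _
      rw [hkey, mulVec_transpose, dotProduct_comm, ← dotProduct_mulVec, hM, dotProduct_comm]
    have hfib : ∀ x x' : {x : Fin (m + 1) → F // x ≠ 0}, Φ (P x) = Φ (P x') →
        x' = x ∨ x'.1 = -x.1 := by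
      intro x x' h
      have hQ := hΦ _ _ h
      have h6 : ∀ y, (x.1 ⬝ᵥ y) ^ 2 = (x'.1 ⬝ᵥ y) ^ 2 := by
        intro y
        have h7 := hQ y
        rw [hP, hP] at h7
        exact mul_left_cancel₀ hc₁0 h7
      rcases sq_dot_eq h2 x.1 x'.1 x.2 h6 with h7 | h7
      · left
        exact Subtype.ext h7
      · right
        exact h7
    refine ⟨Finset.univ.image (fun x => Φ (P x)), ?_, ?_⟩
    · intro a ha
      obtain ⟨p, -, rfl⟩ := Finset.mem_image.1 ha
      exact ⟨P p, rfl⟩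
    · have hcard := Finset.card_le_mul_card_image (f := fun x => Φ (P x))
        (Finset.univ : Finset {x : Fin (m + 1) → F // x ≠ 0}) 2 (by
          intro a ha
          obtain ⟨x₀, -, rfl⟩ := Finset.mem_image.1 ha
          have hsub : (Finset.univ.filter (fun x => Φ (P x) = Φ (P x₀))) ⊆
              {x₀, ⟨-x₀.1, neg_ne_zero.2 x₀.2⟩} := by
            intro x hx
            rw [Finset.mem_filter] at hx
            rcases hfib x₀ x hx.2.symm with h | h
            · rw [h]
              simp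
            · have h8 : x = ⟨-x₀.1, neg_ne_zero.2 x₀.2⟩ := Subtype.ext h
              rw [h8]
              simp
          exact le_trans (Finset.card_le_card hsub) Finset.card_le_two)
      rw [Finset.card_univ, Fintype.card_subtype_compl, Fintype.card_subtype_eq,
        Fintype.card_pi_const] at hcard
      exact hcard

end orbit

section addchar

/-- every additive character of a finite field is a multiplicative shift of a given non-trivial
one -/
theorem addChar_shift {F : Type*} [Field F] [Fintype F] (Ψ : AddChar F ℂ) (hΨ : Ψ ≠ 1)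
    (φ : AddChar F ℂ) : ∃ γ : F, ∀ d, φ d = Ψ (γ * d) := by
  classical
  have hinj : Function.Injective Ψ.mulShift :=
    AddChar.to_mulShift_inj_of_isPrimitive (AddChar.IsPrimitive.of_ne_one hΨ)
  have hbij : Function.Bijective Ψ.mulShift := by
    rw [Fintype.bijective_iff_injective_and_card]
    exact ⟨hinj, le_antisymm (Fintype.card_le_of_injective _ hinj) (AddChar.card_addChar_le _ _)⟩
  obtain ⟨γ, hγ⟩ := hbij.2 φ
  exact ⟨γ, fun d => by rw [← hγ, AddChar.mulShift_apply]⟩

theorem addChar_sum {A : Type*} [AddCommMonoid A] {ι : Type*} (ψ : AddChar A ℂ) (s : Finset ι)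
    (f : ι → A) : ψ (∑ i ∈ s, f i) = ∏ i ∈ s, ψ (f i) := by
  classical
  induction s using Finset.induction_on with
  | empty => simp
  | insert a s ha ih => rw [Finset.sum_insert ha, Finset.prod_insert ha, AddChar.map_add_eq_mul, ih]

end addchar

section rep
variable {F : Type*} [Field F] [Fintype F] {m : ℕ}

/-- the Siegel unipotent element attached to an arbitrary matrix `M` (through `M + Mᵀ`) -/
def spU (M : Matrix (Fin m) (Fin m) F) : Matrix.symplecticGroup (Fin m) F :=
  spUp (M + Mᵀ) (by rw [transpose_add, transpose_transpose, add_comm])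

theorem spU_add (M M' : Matrix (Fin m) (Fin m) F) : spU (M + M') = spU M * spU M' := by
  unfold spU
  rw [spUp_mul]
  apply spUp_congr
  rw [transpose_add]
  abel

theorem spU_zero : spU (0 : Matrix (Fin m) (Fin m) F) = 1 := by
  apply Subtype.ext
  show fromBlocks 1 (0 + 0ᵀ) 0 1 = (1 : Matrix (Fin m ⊕ Fin m) (Fin m ⊕ Fin m) F)
  rw [transpose_zero, add_zero, fromBlocks_one]

/-- the Levi element `diag(P, P⁻ᵀ)` -/
def spD (P : GL (Fin m) F) : Matrix.symplecticGroup (Fin m) F :=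
  ⟨fromBlocks P.1 0 0 ((P⁻¹).1)ᵀ, diag_mem _ _ (by
    rw [← transpose_mul, ← Units.val_mul, inv_mul_cancel, Units.val_one, transpose_one])⟩

theorem spD_spU (P : GL (Fin m) F) (M : Matrix (Fin m) (Fin m) F) :
    spD P * spU M = spU (P.1 * M * P.1ᵀ) * spD P := by
  apply Subtype.ext
  show fromBlocks P.1 0 0 ((P⁻¹).1)ᵀ * fromBlocks 1 (M + Mᵀ) 0 1 =
    fromBlocks 1 (P.1 * M * P.1ᵀ + (P.1 * M * P.1ᵀ)ᵀ) 0 1 * fromBlocks P.1 0 0 ((P⁻¹).1)ᵀ
  rw [fromBlocks_multiply, fromBlocks_multiply]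
  have h1 : P.1ᵀ * ((P⁻¹).1)ᵀ = 1 := by
    rw [← transpose_mul, ← Units.val_mul, inv_mul_cancel, Units.val_one, transpose_one]
  have h2 : (P.1 * M * P.1ᵀ + (P.1 * M * P.1ᵀ)ᵀ) * ((P⁻¹).1)ᵀ = P.1 * (M + Mᵀ) := by
    rw [transpose_mul, transpose_mul, transpose_transpose, add_mul]
    simp only [Matrix.mul_assoc, h1, Matrix.mul_one, Matrix.mul_add]
  simp only [Matrix.mul_one, Matrix.one_mul, Matrix.mul_zero, Matrix.zero_mul, add_zero, zero_add,
    h2]

/-- **lower bound** for the degree of a non-trivial complex representation of `Sp_{2n}(q)`,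
`q` odd -/
theorem sp_min_degree (hq : Fintype.card F % 2 = 1) {W : Type*} [AddCommGroup W] [Module ℂ W]
    [FiniteDimensional ℂ W] (ρ : Matrix.symplecticGroup (Fin (m + 1)) F →* (W →ₗ[ℂ] W))
    (hnt : ∃ g, ρ g ≠ 1) : Fintype.card F ^ (m + 1) - 1 ≤ 2 * finrank ℂ W := by
  classical
  have h2 := two_ne_zero_of_odd hq
  -- a transvection acts non-trivially
  have h1 : ∃ (u : Fin (m + 1) ⊕ Fin (m + 1) → F) (c : F), ρ (spTv (m + 1) u c) ≠ 1 := by
    by_contra hcon
    push Not at hcon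
    obtain ⟨g, hg⟩ := hnt
    apply hg
    have hle : spT (m + 1) F ≤ ρ.ker := by
      unfold spT
      rw [Subgroup.closure_le]
      rintro _ ⟨u, c, rfl⟩
      exact hcon u c
    rw [spT_eq_top] at hle
    exact hle (Subgroup.mem_top g)
  obtain ⟨u, c, huc⟩ := h1
  have hu0 : u ≠ 0 := by
    rintro rfl
    rw [spTv_zero_left] at huc
    exact huc (map_one ρ)
  obtain ⟨g, hg⟩ := symp_transitive u (Pi.single (Sum.inl 0) 1) hu0 (single_inl_ne_zero 0)
  have h3 : ρ (spTv (m + 1) (Pi.single (Sum.inl 0) 1) c) ≠ 1 := by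
    intro h
    apply huc
    have h4 := spTv_conj g u c
    rw [hg] at h4
    have h5 : spTv (m + 1) u c = g⁻¹ * spTv (m + 1) (Pi.single (Sum.inl 0) 1) c * g := by
      rw [← h4]
      group
    rw [h5, map_mul, map_mul, h, mul_one, ← map_mul, inv_mul_cancel, map_one]
  rw [spTv_single_eq] at h3
  obtain ⟨M₀, hM₀⟩ : ∃ M₀ : Matrix (Fin (m + 1)) (Fin (m + 1)) F,
      M₀ = Matrix.single 0 0 (2⁻¹ * c) := ⟨_, rfl⟩
  have hM₀' : ρ (spU M₀) ≠ 1 := by
    have h4 : spU M₀ = spUp (Matrix.single 0 0 c) (by rw [Matrix.transpose_single]) := by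
      unfold spU
      apply spUp_congr
      rw [hM₀, Matrix.transpose_single, ← Matrix.single_add]
      congr 1
      field_simp
      ring
    rw [h4]
    exact h3
  -- an eigen-character
  have hcomm : ∀ M M' : Matrix (Fin (m + 1)) (Fin (m + 1)) F,
      ρ (spU M) * ρ (spU M') = ρ (spU M') * ρ (spU M) := by
    intro M M'
    rw [← map_mul, ← map_mul, ← spU_add, ← spU_add, add_comm M M']
  have hN : 0 < Nat.card (Matrix.symplecticGroup (Fin (m + 1)) F) := Nat.card_pos
  have hpow : ρ (spU M₀) ^ Nat.card (Matrix.symplecticGroup (Fin (m + 1)) F) = 1 := by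
    rw [← map_pow, pow_card_eq_one', map_one]
  obtain ⟨χ, w, hw0, hw, hχ⟩ := exists_eigen_ne_one (fun M => ρ (spU M)) hcomm M₀ _ hN hpow hM₀'
  have hw' : ∀ M, ρ (spU M) w = χ M • w := hw
  have hχ0 : χ 0 = 1 := by
    have h5 := hw' 0
    rw [spU_zero, map_one, Module.End.one_apply] at h5
    have h6 : (1 : ℂ) • w = χ 0 • w := by rw [one_smul]; exact h5
    exact (smul_left_injective ℂ hw0 h6).symm
  have hχadd : ∀ M M', χ (M + M') = χ M * χ M' := by
    intro M M'
    have h5 := hw' (M + M')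
    rw [spU_add, map_mul, Module.End.mul_apply, hw' M', map_smul, hw' M, smul_smul] at h5
    have h8 := smul_left_injective ℂ hw0 h5
    rw [← h8, mul_comm]
  obtain ⟨X, hX⟩ : ∃ X : AddChar (Matrix (Fin (m + 1)) (Fin (m + 1)) F) ℂ, ∀ M, X M = χ M :=
    ⟨⟨χ, hχ0, hχadd⟩, fun M => rfl⟩
  obtain ⟨ψ, hψ⟩ : ∃ ψ : AddChar F ℂ, ∀ c, ψ c = χ (c • M₀) := by
    refine ⟨⟨fun c => χ (c • M₀), ?_, ?_⟩, fun c => rfl⟩
    · rw [zero_smul]
      exact hχ0
    · intro a b
      rw [add_smul]
      exact hχadd _ _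
  have hψ1 : ψ ≠ 1 := by
    intro h
    have h5 := hψ 1
    rw [h, AddChar.one_apply, one_smul] at h5
    exact hχ h5.symm
  have hC : ∀ i j : Fin (m + 1), ∃ γ : F, ∀ c, χ (Matrix.single i j c) = ψ (γ * c) := by
    intro i j
    obtain ⟨φ, hφ⟩ : ∃ φ : AddChar F ℂ, ∀ c, φ c = χ (Matrix.single i j c) := by
      refine ⟨⟨fun c => χ (Matrix.single i j c), ?_, ?_⟩, fun c => rfl⟩
      · rw [Matrix.single_zero]
        exact hχ0
      · intro a b
        rw [Matrix.single_add]
        exact hχadd _ _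
    obtain ⟨γ, hγ⟩ := addChar_shift ψ hψ1 φ
    exact ⟨γ, fun c => by rw [← hφ, hγ]⟩
  choose C hC using hC
  have hχC : ∀ M, χ M = ψ (∑ i, ∑ j, C i j * M i j) := by
    intro M
    conv_lhs => rw [Matrix.matrix_eq_sum_single M]
    rw [← hX, addChar_sum, addChar_sum ψ]
    apply Finset.prod_congr rfl
    intro i _
    rw [addChar_sum, addChar_sum ψ]
    apply Finset.prod_congr rfl
    intro j _
    rw [hX, hC]
  have hqf : ∀ (c : F) (y : Fin (m + 1) → F), χ (c • vecMulVec y y) = ψ (c * qf C y) := by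
    intro c y
    rw [hχC]
    congr 1
    have h5 : qf C y = ∑ i, y i * ∑ j, C i j * y j := rfl
    rw [h5, Finset.mul_sum]
    apply Finset.sum_congr rfl
    intro i _
    rw [Finset.mul_sum, Finset.mul_sum]
    apply Finset.sum_congr rfl
    intro j _
    simp only [Matrix.smul_apply, vecMulVec_apply, smul_eq_mul]
    ring
  have hPy : ∀ (P : GL (Fin (m + 1)) F) (c : F) (y : Fin (m + 1) → F),
      χ (P.1 * (c • vecMulVec y y) * P.1ᵀ) = ψ (c * qf C (P.1 *ᵥ y)) := by
    intro P c y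
    rw [← hqf]
    congr 1
    rw [Matrix.mul_smul, Matrix.smul_mul, mul_vecMulVec, vecMulVec_mul, vecMul_transpose]
  have hΦ : ∀ P P' : GL (Fin (m + 1)) F,
      (fun M => χ (P.1 * M * P.1ᵀ)) = (fun M => χ (P'.1 * M * P'.1ᵀ)) →
      ∀ y, qf C (P.1 *ᵥ y) = qf C (P'.1 *ᵥ y) := by
    intro P P' h y
    by_contra hne
    apply hψ1
    ext d
    rw [AddChar.one_apply]
    have h5 : χ (P.1 * ((d / (qf C (P.1 *ᵥ y) - qf C (P'.1 *ᵥ y))) • vecMulVec y y) * P.1ᵀ) =
        χ (P'.1 * ((d / (qf C (P.1 *ᵥ y) - qf C (P'.1 *ᵥ y))) • vecMulVec y y) * P'.1ᵀ) :=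
      congrFun h ((d / (qf C (P.1 *ᵥ y) - qf C (P'.1 *ᵥ y))) • vecMulVec y y)
    rw [hPy, hPy] at h5
    have h6 : d = d / (qf C (P.1 *ᵥ y) - qf C (P'.1 *ᵥ y)) * qf C (P.1 *ᵥ y) -
        d / (qf C (P.1 *ᵥ y) - qf C (P'.1 *ᵥ y)) * qf C (P'.1 *ᵥ y) := by
      have h7 := sub_ne_zero.2 hne
      field_simp
    rw [h6, AddChar.map_sub_eq_div, h5, div_self (ψ.val_isUnit _).ne_zero]
  have hqe : qf C (Pi.single 0 1) ≠ 0 := by
    intro h0
    apply hχ
    have h5 : M₀ = (2⁻¹ * c) • vecMulVec (Pi.single 0 1) (Pi.single 0 1) := by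
      rw [hM₀, ← Matrix.single_eq_single_vecMulVec_single, Matrix.smul_single, smul_eq_mul, mul_one]
    rw [h5, hqf, h0, mul_zero, AddChar.map_zero_eq_one]
  have hconj : ∀ P : GL (Fin (m + 1)) F,
      jointEig (fun M => ρ (spU M)) (fun M => χ (P.1 * M * P.1ᵀ)) ≠ ⊥ := by
    intro P hbot
    have hmem : ρ (spD P)⁻¹ w ∈
        jointEig (fun M => ρ (spU M)) (fun M => χ (P.1 * M * P.1ᵀ)) := by
      intro M
      show ρ (spU M) (ρ (spD P)⁻¹ w) = χ (P.1 * M * P.1ᵀ) • ρ (spD P)⁻¹ w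
      have e : spU M * (spD P)⁻¹ = (spD P)⁻¹ * spU (P.1 * M * P.1ᵀ) := by
        rw [eq_inv_mul_iff_mul_eq, ← mul_assoc, spD_spU, mul_assoc, mul_inv_cancel, mul_one]
      rw [← Module.End.mul_apply, ← map_mul, e, map_mul, Module.End.mul_apply, hw', map_smul]
    rw [hbot] at hmem
    have h6 := (Submodule.mem_bot ℂ).1 hmem
    have h7 := congrArg (ρ (spD P)) h6
    rw [← Module.End.mul_apply, ← map_mul, mul_inv_cancel, map_one, map_zero] at h7
    exact hw0 h7
  obtain ⟨s, hs, hcard⟩ := orbit_card hq C (Pi.single 0 1) hqe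
    (fun P : GL (Fin (m + 1)) F => (fun M => χ (P.1 * M * P.1ᵀ))) hΦ
  have hsum := sum_finrank_inf_jointEig_le (fun M => ρ (spU M)) (fun i : ↥s => i.1)
    Subtype.val_injective ⊤
  have etop : ∀ X : Submodule ℂ W, finrank ℂ ↥(⊤ ⊓ X) = finrank ℂ ↥X := fun X => by
    rw [top_inf_eq]
  simp only [etop, finrank_top] at hsum
  have h9 : s.card ≤ ∑ i : ↥s, finrank ℂ ↥(jointEig (fun M => ρ (spU M)) i.1) := by
    calc s.card = ∑ i : ↥s, 1 := by simp
      _ ≤ _ := Finset.sum_le_sum (fun i _ => by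
        obtain ⟨P, hP⟩ := hs i.1 i.2
        have hne : jointEig (fun M => ρ (spU M)) i.1 ≠ ⊥ := by
          rw [← hP]
          exact hconj P
        have hnt : Nontrivial ↥(jointEig (fun M => ρ (spU M)) i.1) :=
          Submodule.nontrivial_iff_ne_bot.2 hne
        exact Module.finrank_pos)
  omega

end rep

end Cfsg.Agent.Helper60.SpMin
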