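import Mathlib
import Cfsg.Agent.Helper60.SpMin

/-!
# Counting lemmas for quadratic forms in characteristic `2` (helper60)

For a quadratic form `qf C` on `F^(m+2)` over a finite field of characteristic `2` whose polar form
does not vanish on the first two basis vectors, the number of pairs `(x, y)` with prescribed values
`qf C x`, `qf C y`, `bf C x y ≠ 0` is bounded by `2 (q + 1) q^(2m)` (in two situations that together
cover all forms with non-zero polar form up to a change of basis).
-/

set_option autoImplicit false
set_option linter.unusedSectionVars false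
set_option linter.unusedVariables false
set_option linter.unusedSimpArgs false

namespace Cfsg.Agent.Helper60.Sp2

open Matrix
open Cfsg.Agent.Helper60.SpMin

section field2
variable {F : Type*} [Field F]

theorem add_self2 (h2 : (2 : F) = 0) (a : F) : a + a = 0 := by
  linear_combination a * h2

theorem neg_eq2 (h2 : (2 : F) = 0) (a : F) : -a = a := by
  linear_combination (-a) * h2

theorem sub_eq2 (h2 : (2 : F) = 0) (a b : F) : a - b = a + b := by
  linear_combination (-b) * h2

theorem sq_inj2 (h2 : (2 : F) = 0) {a b : F} (h : a * a = b * b) : a = b := by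
  have h3 : (a - b) * (a - b) = 0 := by linear_combination h + (b * b - a * b) * h2
  have h4 := mul_self_eq_zero.1 h3
  exact sub_eq_zero.1 h4

variable [Fintype F] [DecidableEq F]

/-- a quadratic equation with non-zero linear coefficient has at most two roots -/
theorem card_roots_le_two (c u v : F) (hu : u ≠ 0) :
    (Finset.univ.filter (fun t : F => c * (t * t) + u * t + v = 0)).card ≤ 2 := by
  by_cases hne : (Finset.univ.filter (fun t : F => c * (t * t) + u * t + v = 0)).Nonempty
  · obtain ⟨t₁, ht₁⟩ := hne
    rw [Finset.mem_filter] at ht₁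
    have hsub : Finset.univ.filter (fun t : F => c * (t * t) + u * t + v = 0) ⊆
        {t₁, -u / c - t₁} := by
      intro t ht
      rw [Finset.mem_filter] at ht
      rw [Finset.mem_insert, Finset.mem_singleton]
      have h3 : (t - t₁) * (c * (t + t₁) + u) = 0 := by linear_combination ht.2 - ht₁.2
      rcases mul_eq_zero.1 h3 with h4 | h4
      · left
        exact sub_eq_zero.1 h4
      · right
        have hc : c ≠ 0 := by
          rintro rfl
          rw [zero_mul, zero_add] at h4
          exact hu h4
        field_simp
        linear_combination h4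
    exact (Finset.card_le_card hsub).trans Finset.card_le_two
  · rw [Finset.not_nonempty_iff_eq_empty] at hne
    rw [hne]
    simp

/-- a linear equation has at most one root -/
theorem card_roots_le_one (u v : F) (hu : u ≠ 0) :
    (Finset.univ.filter (fun t : F => u * t + v = 0)).card ≤ 1 := by
  rw [Finset.card_le_one]
  intro t ht t' ht'
  rw [Finset.mem_filter] at ht ht'
  have h3 : u * (t - t') = 0 := by linear_combination ht.2 - ht'.2
  rcases mul_eq_zero.1 h3 with h4 | h4
  · exact absurd h4 hu
  · exact sub_eq_zero.1 h4

/-- in characteristic `2`, `c t² + v = 0` has at most one root -/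
theorem card_roots_sq (h2 : (2 : F) = 0) (c v : F) (hc : c ≠ 0) :
    (Finset.univ.filter (fun t : F => c * (t * t) + v = 0)).card ≤ 1 := by
  rw [Finset.card_le_one]
  intro t ht t' ht'
  rw [Finset.mem_filter] at ht ht'
  have h3 : c * (t * t - t' * t') = 0 := by linear_combination ht.2 - ht'.2
  rcases mul_eq_zero.1 h3 with h4 | h4
  · exact absurd h4 hc
  · exact sq_inj2 h2 (sub_eq_zero.1 h4)

/-- an affine conic with non-degenerate polar form has at most `2q - 1` points -/
theorem card_conic_le (h2 : (2 : F) = 0) (a β c d e f : F) (hβ : β ≠ 0) :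
    (Finset.univ.filter (fun p : F × F => a * (p.1 * p.1) + β * (p.1 * p.2) + c * (p.2 * p.2) +
      d * p.1 + e * p.2 + f = 0)).card + 1 ≤ 2 * Fintype.card F := by
  have hq : 0 < Fintype.card F := Fintype.card_pos
  have hfib : ∀ s : F, ((Finset.univ.filter (fun p : F × F => a * (p.1 * p.1) + β * (p.1 * p.2) +
      c * (p.2 * p.2) + d * p.1 + e * p.2 + f = 0)).filter (fun p => p.1 = s)).card ≤
      (Finset.univ.filter (fun t : F => c * (t * t) + (β * s + e) * t +
        (a * (s * s) + d * s + f) = 0)).card := by
    intro s
    apply Finset.card_le_card_of_injOn (fun p => p.2)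
    · intro p hp
      rw [Finset.mem_coe, Finset.mem_filter, Finset.mem_filter] at hp
      rw [Finset.mem_coe, Finset.mem_filter]
      refine ⟨Finset.mem_univ _, ?_⟩
      rw [← hp.2]
      linear_combination hp.1.2
    · intro p hp p' hp' h
      rw [Finset.mem_coe, Finset.mem_filter] at hp hp'
      exact Prod.ext (hp.2.trans hp'.2.symm) h
  have hcard := Finset.card_eq_sum_card_fiberwise (f := fun p : F × F => p.1)
    (s := Finset.univ.filter (fun p : F × F => a * (p.1 * p.1) + β * (p.1 * p.2) +
      c * (p.2 * p.2) + d * p.1 + e * p.2 + f = 0)) (t := Finset.univ)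
    (fun p _ => Finset.mem_coe.2 (Finset.mem_univ _))
  rw [hcard]
  have hs : β * (e / β) + e = 0 := by
    rw [mul_div_cancel₀ _ hβ]
    exact add_self2 h2 e
  have hne : ∀ s : F, s ≠ e / β → β * s + e ≠ 0 := by
    intro s hs' h
    apply hs'
    have h3 : β * (s - e / β) = 0 := by linear_combination h - hs
    rcases mul_eq_zero.1 h3 with h4 | h4
    · exact absurd h4 hβ
    · exact sub_eq_zero.1 h4
  rw [← Finset.add_sum_erase Finset.univ _ (Finset.mem_univ (e / β))]
  have hcard_erase : (Finset.univ.erase (e / β)).card + 1 = Fintype.card F := by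
    rw [Finset.card_erase_of_mem (Finset.mem_univ _), Finset.card_univ]
    omega
  by_cases hc : c = 0
  · -- linear in `t`
    have h1 : ((Finset.univ.filter (fun p : F × F => a * (p.1 * p.1) + β * (p.1 * p.2) +
        c * (p.2 * p.2) + d * p.1 + e * p.2 + f = 0)).filter (fun p => p.1 = e / β)).card ≤
        Fintype.card F := by
      refine (hfib _).trans ?_
      rw [← Finset.card_univ]
      exact Finset.card_le_card (Finset.filter_subset _ _)
    have h3 : ∑ s ∈ Finset.univ.erase (e / β),
        ((Finset.univ.filter (fun p : F × F => a * (p.1 * p.1) + β * (p.1 * p.2) +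
        c * (p.2 * p.2) + d * p.1 + e * p.2 + f = 0)).filter (fun p => p.1 = s)).card ≤
        ∑ s ∈ Finset.univ.erase (e / β), 1 := by
      apply Finset.sum_le_sum
      intro s hs'
      refine (hfib s).trans ?_
      have h5 := card_roots_le_one (β * s + e) (a * (s * s) + d * s + f)
        (hne s (Finset.ne_of_mem_erase hs'))
      have h6 : Finset.univ.filter (fun t : F => c * (t * t) + (β * s + e) * t +
          (a * (s * s) + d * s + f) = 0) =
          Finset.univ.filter (fun t : F => (β * s + e) * t + (a * (s * s) + d * s + f) = 0) := by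
        apply Finset.filter_congr
        intro t _
        rw [hc, zero_mul, zero_add]
      rw [h6]
      exact h5
    rw [Finset.sum_const, smul_eq_mul, mul_one] at h3
    omega
  · have h1 : ((Finset.univ.filter (fun p : F × F => a * (p.1 * p.1) + β * (p.1 * p.2) +
        c * (p.2 * p.2) + d * p.1 + e * p.2 + f = 0)).filter (fun p => p.1 = e / β)).card ≤ 1 := by
      refine (hfib _).trans ?_
      have h5 := card_roots_sq h2 c (a * (e / β * (e / β)) + d * (e / β) + f) hc
      have h6 : Finset.univ.filter (fun t : F => c * (t * t) + (β * (e / β) + e) * t +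
          (a * (e / β * (e / β)) + d * (e / β) + f) = 0) =
          Finset.univ.filter (fun t : F => c * (t * t) +
            (a * (e / β * (e / β)) + d * (e / β) + f) = 0) := by
        apply Finset.filter_congr
        intro t _
        rw [hs, zero_mul, add_zero]
      rw [h6]
      exact h5
    have h3 : ∑ s ∈ Finset.univ.erase (e / β),
        ((Finset.univ.filter (fun p : F × F => a * (p.1 * p.1) + β * (p.1 * p.2) +
        c * (p.2 * p.2) + d * p.1 + e * p.2 + f = 0)).filter (fun p => p.1 = s)).card ≤
        ∑ s ∈ Finset.univ.erase (e / β), 2 := by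
      apply Finset.sum_le_sum
      intro s hs'
      exact (hfib s).trans (card_roots_le_two c (β * s + e) (a * (s * s) + d * s + f)
        (hne s (Finset.ne_of_mem_erase hs')))
    rw [Finset.sum_const, smul_eq_mul] at h3
    omega

/-- an affine conic with anisotropic quadratic part has at most `q + 1` points -/
theorem card_conic_aniso_le (h2 : (2 : F) = 0) (a β c d e f : F) (hβ : β ≠ 0)
    (han : ∀ s t : F, a * (s * s) + β * (s * t) + c * (t * t) = 0 → s = 0 ∧ t = 0) :
    (Finset.univ.filter (fun p : F × F => a * (p.1 * p.1) + β * (p.1 * p.2) + c * (p.2 * p.2) +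
      d * p.1 + e * p.2 + f = 0)).card ≤ Fintype.card F + 1 := by
  have ha : a ≠ 0 := by
    intro ha
    have := (han 1 0 (by rw [ha]; ring)).1
    exact one_ne_zero this
  have hκ : ∀ p : F × F, a * (p.1 * p.1) + β * (p.1 * p.2) + c * (p.2 * p.2) +
      d * p.1 + e * p.2 + f = 0 →
      a * ((p.1 + e / β) * (p.1 + e / β)) + β * ((p.1 + e / β) * (p.2 + d / β)) +
        c * ((p.2 + d / β) * (p.2 + d / β)) =
      a * (e / β * (e / β)) + β * (e / β * (d / β)) + c * (d / β * (d / β)) + f := by
    intro p hp
    have e1 : β * (e / β) = e := mul_div_cancel₀ _ hβ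
    have e2 : β * (d / β) = d := mul_div_cancel₀ _ hβ
    linear_combination hp + (a * p.1 * (e / β) + c * p.2 * (d / β) - f) * h2 +
      p.1 * e2 + p.2 * e1
  rw [← Fintype.card_option, ← Finset.card_univ]
  apply Finset.card_le_card_of_injOn (fun p : F × F =>
    if p.2 + d / β = 0 then none else some ((p.1 + e / β) / (p.2 + d / β)))
  · intro p _
    exact Finset.mem_coe.2 (Finset.mem_univ _)
  · intro p hp p' hp' h
    rw [Finset.mem_coe, Finset.mem_filter] at hp hp'
    have k1 := hκ p hp.2
    have k2 := hκ p' hp'.2
    simp only at h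
    by_cases ht : p.2 + d / β = 0
    · rw [if_pos ht] at h
      by_cases ht' : p'.2 + d / β = 0
      · rw [ht] at k1
        rw [ht'] at k2
        have h5 : a * ((p.1 + e / β) * (p.1 + e / β) - (p'.1 + e / β) * (p'.1 + e / β)) = 0 := by
          linear_combination k1 - k2
        rcases mul_eq_zero.1 h5 with h6 | h6
        · exact absurd h6 ha
        · have h7 := sq_inj2 h2 (sub_eq_zero.1 h6)
          apply Prod.ext
          · linear_combination h7
          · linear_combination ht - ht'
      · rw [if_neg ht'] at h
        exact absurd h (by simp)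
    · rw [if_neg ht] at h
      by_cases ht' : p'.2 + d / β = 0
      · rw [if_pos ht'] at h
        exact absurd h (by simp)
      · rw [if_neg ht'] at h
        have hl := Option.some.inj h
        obtain ⟨l, hl1⟩ : ∃ l : F, l = (p.1 + e / β) / (p.2 + d / β) := ⟨_, rfl⟩
        have hs1 : p.1 + e / β = l * (p.2 + d / β) := by
          rw [hl1, div_mul_cancel₀ _ ht]
        have hs2 : p'.1 + e / β = l * (p'.2 + d / β) := by
          rw [hl1, hl, div_mul_cancel₀ _ ht']
        rw [hs1] at k1
        rw [hs2] at k2
        have hq0 : a * (l * l) + β * (l * 1) + c * (1 * 1) ≠ 0 := by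
          intro h0
          exact one_ne_zero (han l 1 h0).2
        have h5 : (a * (l * l) + β * (l * 1) + c * (1 * 1)) *
            ((p.2 + d / β) * (p.2 + d / β) - (p'.2 + d / β) * (p'.2 + d / β)) = 0 := by
          linear_combination k1 - k2
        rcases mul_eq_zero.1 h5 with h6 | h6
        · exact absurd h6 hq0
        · have h7 := sq_inj2 h2 (sub_eq_zero.1 h6)
          apply Prod.ext
          · have h8 : p.1 + e / β = p'.1 + e / β := by rw [hs1, hs2, h7]
            linear_combination h8
          · linear_combination h7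

end field2

section count
variable {F : Type*} [Field F] {n : ℕ}

theorem vec_add_self2 (h2 : (2 : F) = 0) (w : Fin n → F) : w + w = 0 := by
  ext i
  exact add_self2 h2 (w i)

theorem bf_smul_left (C : Matrix (Fin n) (Fin n) F) (l : F) (y z : Fin n → F) :
    bf C (l • y) z = l * bf C y z := by
  rw [bf_comm, bf_smul_right, bf_comm]

theorem bf_add_left (C : Matrix (Fin n) (Fin n) F) (y y' z : Fin n → F) :
    bf C (y + y') z = bf C y z + bf C y' z := by
  rw [bf_comm, bf_add_right, bf_comm C z y, bf_comm C z y']

theorem bf_self2 (h2 : (2 : F) = 0) (C : Matrix (Fin n) (Fin n) F) (y : Fin n → F) :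
    bf C y y = 0 := by
  rw [bf_self, h2, zero_mul]

theorem bf_eq_qf (C : Matrix (Fin n) (Fin n) F) (y z : Fin n → F) :
    bf C y z = qf C (y + z) - qf C y - qf C z := by
  rw [qf_add]
  ring

theorem qf_expand (C : Matrix (Fin n) (Fin n) F) (z u v : Fin n → F) (a b : F) :
    qf C (z + (a • u + b • v)) = qf C u * (a * a) + bf C u v * (a * b) + qf C v * (b * b) +
      bf C z u * a + bf C z v * b + qf C z := by
  rw [qf_add, qf_add, qf_smul, qf_smul, bf_add_right, bf_smul_right, bf_smul_right, bf_smul_right,
    bf_smul_left]
  ring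

theorem qf_expand1 (C : Matrix (Fin n) (Fin n) F) (z x : Fin n → F) (t : F) :
    qf C (z + t • x) = qf C x * (t * t) + bf C z x * t + qf C z := by
  rw [qf_add, qf_smul, bf_smul_right]
  ring

variable [Fintype F] [DecidableEq F]

/-- the number of vectors with a prescribed value of the quadratic form, in terms of a bound for
the number of points of the conics with quadratic part `Q|_{⟨u, v⟩}` -/
theorem card_qf_le (h2 : (2 : F) = 0) (C : Matrix (Fin n) (Fin n) F) (u v : Fin n → F) (M : ℕ)
    (hM : ∀ d e f : F, (Finset.univ.filter (fun p : F × F => qf C u * (p.1 * p.1) +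
      bf C u v * (p.1 * p.2) + qf C v * (p.2 * p.2) + d * p.1 + e * p.2 + f = 0)).card ≤ M)
    (α : F) :
    (Finset.univ.filter (fun x : Fin n → F => qf C x = α)).card *
      (Fintype.card F * Fintype.card F) ≤ M * Fintype.card F ^ n := by
  classical
  have hcard : ((Finset.univ.filter (fun x : Fin n → F => qf C x = α)) ×ˢ
      (Finset.univ : Finset (F × F))).card =
      (Finset.univ.filter (fun x : Fin n → F => qf C x = α)).card *
        (Fintype.card F * Fintype.card F) := by
    rw [Finset.card_product, Finset.card_univ, Fintype.card_prod]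
  rw [← hcard]
  have huniv : (Finset.univ : Finset (Fin n → F)).card = Fintype.card F ^ n := by
    rw [Finset.card_univ, Fintype.card_fun, Fintype.card_fin]
  rw [← huniv]
  apply Finset.card_le_mul_card_image_of_maps_to
    (f := fun d : (Fin n → F) × (F × F) => d.1 + (d.2.1 • u + d.2.2 • v))
  · intro d _
    exact Finset.mem_univ _
  · intro z _
    refine le_trans ?_ (hM (bf C z u) (bf C z v) (qf C z + α))
    have key : ∀ d : (Fin n → F) × (F × F), d.1 + (d.2.1 • u + d.2.2 • v) = z →
        d.1 = z + (d.2.1 • u + d.2.2 • v) := by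
      intro d hd
      rw [← hd, add_assoc, vec_add_self2 h2, add_zero]
    apply Finset.card_le_card_of_injOn (fun d => d.2)
    · intro d hd
      rw [Finset.mem_coe, Finset.mem_filter, Finset.mem_product, Finset.mem_filter] at hd
      rw [Finset.mem_coe, Finset.mem_filter]
      refine ⟨Finset.mem_univ _, ?_⟩
      have hq := hd.1.1.2
      rw [key d hd.2, qf_expand] at hq
      linear_combination hq + α * h2
    · intro d hd d' hd' h
      rw [Finset.mem_coe, Finset.mem_filter] at hd hd'
      have h3 : d.2 = d'.2 := h
      apply Prod.ext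
      · rw [key d hd.2, key d' hd'.2, h3]
      · exact h3

/-- the number of vectors `y` with prescribed `Q(y)` and `B(x, y) = β ≠ 0` -/
theorem card_fibre_le (h2 : (2 : F) = 0) (C : Matrix (Fin n) (Fin n) F) (x : Fin n → F)
    (β γ : F) (hβ : β ≠ 0) (r : ℕ)
    (hr : ∀ w : F, (Finset.univ.filter (fun t : F => qf C x * (t * t) + β * t + w = 0)).card ≤ r) :
    (Finset.univ.filter (fun y : Fin n → F => qf C y = γ ∧ bf C x y = β)).card *
      (Fintype.card F * Fintype.card F) ≤ r * Fintype.card F ^ n := by
  classical
  by_cases hne : (Finset.univ.filter (fun y : Fin n → F => qf C y = γ ∧ bf C x y = β)).Nonempty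
  · obtain ⟨y₁, hy₁⟩ := hne
    rw [Finset.mem_filter] at hy₁
    have hcard : ((Finset.univ.filter (fun y : Fin n → F => qf C y = γ ∧ bf C x y = β)) ×ˢ
        (Finset.univ : Finset (F × F))).card =
        (Finset.univ.filter (fun y : Fin n → F => qf C y = γ ∧ bf C x y = β)).card *
          (Fintype.card F * Fintype.card F) := by
      rw [Finset.card_product, Finset.card_univ, Fintype.card_prod]
    rw [← hcard]
    have huniv : (Finset.univ : Finset (Fin n → F)).card = Fintype.card F ^ n := by
      rw [Finset.card_univ, Fintype.card_fun, Fintype.card_fin]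
    rw [← huniv]
    apply Finset.card_le_mul_card_image_of_maps_to
      (f := fun d : (Fin n → F) × (F × F) => d.1 + (d.2.1 • x + d.2.2 • y₁))
    · intro d _
      exact Finset.mem_univ _
    · intro z _
      -- the coefficient of `y₁` is determined by `z`
      have hs : ∀ d : (Fin n → F) × (F × F), qf C d.1 = γ ∧ bf C x d.1 = β →
          d.1 + (d.2.1 • x + d.2.2 • y₁) = z → d.2.2 = (bf C x z + β) / β := by
        intro d hd hz
        have h3 : bf C x z = β + d.2.2 * β := by
          rw [← hz, bf_add_right, bf_add_right, bf_smul_right, bf_smul_right, bf_self2 h2, hd.2,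
            hy₁.2.2]
          ring
        rw [h3, eq_div_iff hβ]
        linear_combination (-β) * h2
      have key : ∀ d : (Fin n → F) × (F × F), qf C d.1 = γ ∧ bf C x d.1 = β →
          d.1 + (d.2.1 • x + d.2.2 • y₁) = z →
          d.1 = (z + ((bf C x z + β) / β) • y₁) + d.2.1 • x := by
        intro d hd hz
        rw [← hs d hd hz, ← hz]
        have h4 : d.1 + (d.2.1 • x + d.2.2 • y₁) + d.2.2 • y₁ + d.2.1 • x =
            d.1 + ((d.2.1 • x + d.2.2 • y₁) + (d.2.1 • x + d.2.2 • y₁)) := by abel
        rw [h4, vec_add_self2 h2, add_zero]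
      refine le_trans ?_ (hr (qf C (z + ((bf C x z + β) / β) • y₁) + γ))
      apply Finset.card_le_card_of_injOn (fun d => d.2.1)
      · intro d hd
        rw [Finset.mem_coe, Finset.mem_filter, Finset.mem_product, Finset.mem_filter] at hd
        rw [Finset.mem_coe, Finset.mem_filter]
        refine ⟨Finset.mem_univ _, ?_⟩
        have hk := key d hd.1.1.2 hd.2
        have hq := hd.1.1.2.1
        have hb := hd.1.1.2.2
        rw [hk, qf_expand1] at hq
        rw [hk, bf_add_right, bf_smul_right, bf_self2 h2, mul_zero, add_zero] at hb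
        rw [bf_comm, hb] at hq
        linear_combination hq + γ * h2
      · intro d hd d' hd' h
        rw [Finset.mem_coe, Finset.mem_filter, Finset.mem_product, Finset.mem_filter] at hd hd'
        have h3 : d.2.1 = d'.2.1 := h
        have h4 : d.2.2 = d'.2.2 := by
          rw [hs d hd.1.1.2 hd.2, hs d' hd'.1.1.2 hd'.2]
        apply Prod.ext
        · rw [key d hd.1.1.2 hd.2, key d' hd'.1.1.2 hd'.2, h3]
        · exact Prod.ext h3 h4
  · rw [Finset.not_nonempty_iff_eq_empty] at hne
    rw [hne]
    simp

/-- the number of pairs `(x, y)` with `Q(x) = α`, `B(x, y) = β ≠ 0`, `Q(y) = γ` -/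
theorem card_emb_le (h2 : (2 : F) = 0) (C : Matrix (Fin n) (Fin n) F) (u v : Fin n → F)
    (α β γ : F) (hβ : β ≠ 0) (M r : ℕ)
    (hM : ∀ d e f : F, (Finset.univ.filter (fun p : F × F => qf C u * (p.1 * p.1) +
      bf C u v * (p.1 * p.2) + qf C v * (p.2 * p.2) + d * p.1 + e * p.2 + f = 0)).card ≤ M)
    (hr : ∀ w : F, (Finset.univ.filter (fun t : F => α * (t * t) + β * t + w = 0)).card ≤ r) :
    (Finset.univ.filter (fun p : (Fin n → F) × (Fin n → F) =>
      qf C p.1 = α ∧ bf C p.1 p.2 = β ∧ qf C p.2 = γ)).card *
      (Fintype.card F * Fintype.card F) * (Fintype.card F * Fintype.card F) ≤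
      r * M * Fintype.card F ^ n * Fintype.card F ^ n := by
  classical
  have hfib : ∀ x ∈ Finset.univ.filter (fun x : Fin n → F => qf C x = α),
      ((Finset.univ.filter (fun p : (Fin n → F) × (Fin n → F) =>
        qf C p.1 = α ∧ bf C p.1 p.2 = β ∧ qf C p.2 = γ)).filter (fun p => p.1 = x)).card *
        (Fintype.card F * Fintype.card F) ≤ r * Fintype.card F ^ n := by
    intro x hx
    rw [Finset.mem_filter] at hx
    have hr' : ∀ w : F, (Finset.univ.filter
        (fun t : F => qf C x * (t * t) + β * t + w = 0)).card ≤ r := by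
      rw [hx.2]
      exact hr
    refine le_trans (Nat.mul_le_mul_right _ ?_) (card_fibre_le h2 C x β γ hβ r hr')
    apply Finset.card_le_card_of_injOn (fun p => p.2)
    · intro p hp
      rw [Finset.mem_coe, Finset.mem_filter, Finset.mem_filter] at hp
      rw [Finset.mem_coe, Finset.mem_filter]
      refine ⟨Finset.mem_univ _, hp.1.2.2.2, ?_⟩
      rw [← hp.2]
      exact hp.1.2.2.1
    · intro p hp p' hp' h
      rw [Finset.mem_coe, Finset.mem_filter] at hp hp'
      exact Prod.ext (hp.2.trans hp'.2.symm) h
  have hcard := Finset.card_eq_sum_card_fiberwise (f := fun p : (Fin n → F) × (Fin n → F) => p.1)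
    (s := Finset.univ.filter (fun p : (Fin n → F) × (Fin n → F) =>
      qf C p.1 = α ∧ bf C p.1 p.2 = β ∧ qf C p.2 = γ))
    (t := Finset.univ.filter (fun x : Fin n → F => qf C x = α))
    (by
      intro p hp
      rw [Finset.mem_coe, Finset.mem_filter] at hp
      rw [Finset.mem_coe, Finset.mem_filter]
      exact ⟨Finset.mem_univ _, hp.2.1⟩)
  rw [hcard, Finset.sum_mul]
  have h5 := Finset.sum_le_sum hfib
  rw [Finset.sum_const, smul_eq_mul] at h5
  have h6 := card_qf_le h2 C u v M hM α
  calc _ ≤ ((Finset.univ.filter (fun x : Fin n → F => qf C x = α)).card *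
        (r * Fintype.card F ^ n)) * (Fintype.card F * Fintype.card F) :=
        Nat.mul_le_mul_right _ h5
    _ = ((Finset.univ.filter (fun x : Fin n → F => qf C x = α)).card *
        (Fintype.card F * Fintype.card F)) * (r * Fintype.card F ^ n) := by ring
    _ ≤ (M * Fintype.card F ^ n) * (r * Fintype.card F ^ n) := Nat.mul_le_mul_right _ h6
    _ = _ := by ring

end count

end Cfsg.Agent.Helper60.Sp2
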