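import Mathlib
import Cfsg.Agent.Helper60.SpMin
import Cfsg.Agent.Helper60.Sp2Comb
import Cfsg.Agent.Helper5.SympSimple

/-!
# The minimal degree of `Sp_{2n}(q)`, `q` even: the lower bound (helper60)

A non-trivial complex representation of `Sp_{2n}(q)`, `q` even, `n ≥ 2`, `Sp_{2n}(q)` perfect, has
degree at least `(q^n - 1)(q^n - q)/(2(q + 1))`: the Siegel unipotent radical (symmetric matrices)
acts through characters, which correspond to quadratic forms; the Levi factor `GL_n(q)` permutes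
them, and every orbit of a quadratic form with non-zero polar form has at least that many elements.
-/

set_option autoImplicit false
set_option linter.unusedSectionVars false
set_option linter.unusedVariables false
set_option linter.unusedSimpArgs false

namespace Cfsg.Agent.Helper60.Sp2

open Matrix Module
open Cfsg.Agent.Helper5
open Cfsg.Agent.Helper60.SURep
open Cfsg.Agent.Helper60.SpMin

section sym
variable {F : Type*} [Field F] {m : ℕ}

/-- symmetrisation of the upper triangle -/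
def sy (M : Matrix (Fin m) (Fin m) F) : Matrix (Fin m) (Fin m) F :=
  Matrix.of (fun i j => if i ≤ j then M i j else M j i)

theorem sy_apply (M : Matrix (Fin m) (Fin m) F) (i j : Fin m) :
    sy M i j = if i ≤ j then M i j else M j i := rfl

theorem sy_transpose (M : Matrix (Fin m) (Fin m) F) : (sy M)ᵀ = sy M := by
  ext i j
  rw [transpose_apply, sy_apply, sy_apply]
  rcases lt_trichotomy i j with h | h | h
  · rw [if_neg (not_le.2 h), if_pos h.le]
  · subst h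
    rfl
  · rw [if_pos h.le, if_neg (not_le.2 h)]

theorem sy_add (M M' : Matrix (Fin m) (Fin m) F) : sy (M + M') = sy M + sy M' := by
  ext i j
  rw [Matrix.add_apply, sy_apply, sy_apply, sy_apply]
  split_ifs <;> rfl

theorem sy_zero : sy (0 : Matrix (Fin m) (Fin m) F) = 0 := by
  ext i j
  rw [sy_apply]
  simp

theorem sy_of_symm (M : Matrix (Fin m) (Fin m) F) (hM : Mᵀ = M) : sy M = M := by
  ext i j
  rw [sy_apply]
  split_ifs with h
  · rfl
  · exact congrFun (congrFun hM i) j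

/-- the Siegel unipotent element attached to an arbitrary matrix `M` (through `sy M`) -/
def spS (M : Matrix (Fin m) (Fin m) F) : Matrix.symplecticGroup (Fin m) F :=
  spUp (sy M) (sy_transpose M)

theorem spS_add (M M' : Matrix (Fin m) (Fin m) F) : spS (M + M') = spS M * spS M' := by
  unfold spS
  rw [spUp_mul]
  apply spUp_congr
  rw [sy_add]

theorem spS_zero : spS (0 : Matrix (Fin m) (Fin m) F) = 1 := by
  apply Subtype.ext
  show fromBlocks 1 (sy 0) 0 1 = (1 : Matrix (Fin m ⊕ Fin m) (Fin m ⊕ Fin m) F)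
  rw [sy_zero, fromBlocks_one]

theorem spD_spS (P : GL (Fin m) F) (M : Matrix (Fin m) (Fin m) F) :
    spD P * spS M = spS (P.1 * sy M * P.1ᵀ) * spD P := by
  have hsym : (P.1 * sy M * P.1ᵀ)ᵀ = P.1 * sy M * P.1ᵀ := by
    rw [transpose_mul, transpose_mul, transpose_transpose, sy_transpose, Matrix.mul_assoc]
  apply Subtype.ext
  show fromBlocks P.1 0 0 ((P⁻¹).1)ᵀ * fromBlocks 1 (sy M) 0 1 =
    fromBlocks 1 (sy (P.1 * sy M * P.1ᵀ)) 0 1 * fromBlocks P.1 0 0 ((P⁻¹).1)ᵀ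
  rw [sy_of_symm _ hsym, fromBlocks_multiply, fromBlocks_multiply]
  have h1 : P.1ᵀ * ((P⁻¹).1)ᵀ = 1 := by
    rw [← transpose_mul, ← Units.val_mul, inv_mul_cancel, Units.val_one, transpose_one]
  have h2 : P.1 * sy M * P.1ᵀ * ((P⁻¹).1)ᵀ = P.1 * sy M := by
    rw [Matrix.mul_assoc, h1, Matrix.mul_one]
  simp only [Matrix.mul_one, Matrix.one_mul, Matrix.mul_zero, Matrix.zero_mul, add_zero, zero_add,
    h2]

theorem bf_zero_left (C : Matrix (Fin m) (Fin m) F) (y : Fin m → F) : bf C 0 y = 0 := by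
  unfold bf
  simp

end sym

section glpair
variable {F : Type*} [Field F] {n : ℕ}

theorem gl_pair_aux (y : Fin (n + 2) → F) (hy : ∃ j, j ≠ 0 ∧ y j ≠ 0) :
    ∃ P : GL (Fin (n + 2)) F, P.1 *ᵥ Pi.single 0 1 = Pi.single 0 1 ∧
      P.1 *ᵥ Pi.single 1 1 = y := by
  classical
  have h10 : (1 : Fin (n + 2)) ≠ 0 := by
    intro h
    have := congrArg Fin.val h
    simp at this
  by_cases h1 : y 1 = 0
  · obtain ⟨j, hj0, hj⟩ := hy
    have hj1 : j ≠ 1 := fun h => hj (h ▸ h1)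
    have hd1 : (1 + vecMulVec y (Pi.single (1 : Fin (n + 2)) (1 : F))).det ≠ 0 := by
      rw [rkone_det, single_dotProduct, h1]
      simp
    have hd2 : (1 + vecMulVec (-(Pi.single 1 (1 : F))) ((y j)⁻¹ • Pi.single j 1)).det ≠ 0 := by
      rw [rkone_det, smul_dotProduct, dotProduct_neg, single_dotProduct, Pi.single_eq_of_ne hj1]
      simp
    refine ⟨GeneralLinearGroup.mkOfDetNeZero _ hd2 * GeneralLinearGroup.mkOfDetNeZero _ hd1,
      ?_, ?_⟩
    · show ((1 + vecMulVec (-(Pi.single 1 (1 : F))) ((y j)⁻¹ • Pi.single j 1)) *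
        (1 + vecMulVec y (Pi.single (1 : Fin (n + 2)) (1 : F)))) *ᵥ Pi.single 0 1 = Pi.single 0 1
      rw [← mulVec_mulVec, rkone_mulVec, rkone_mulVec, single_dotProduct,
        Pi.single_eq_of_ne h10, mul_zero, zero_smul, add_zero, smul_dotProduct, single_dotProduct,
        Pi.single_eq_of_ne hj0]
      simp
    · show ((1 + vecMulVec (-(Pi.single 1 (1 : F))) ((y j)⁻¹ • Pi.single j 1)) *
        (1 + vecMulVec y (Pi.single (1 : Fin (n + 2)) (1 : F)))) *ᵥ Pi.single 1 1 = y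
      rw [← mulVec_mulVec, rkone_mulVec, rkone_mulVec, single_dotProduct, Pi.single_eq_same,
        smul_dotProduct, dotProduct_add, single_dotProduct, single_dotProduct,
        Pi.single_eq_of_ne hj1]
      simp [hj]
  · have hd : (1 + vecMulVec (y - Pi.single 1 1) (Pi.single (1 : Fin (n + 2)) (1 : F))).det ≠ 0 := by
      rw [rkone_det, single_dotProduct, Pi.sub_apply, Pi.single_eq_same]
      simpa using h1
    refine ⟨GeneralLinearGroup.mkOfDetNeZero _ hd, ?_, ?_⟩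
    · show (1 + vecMulVec (y - Pi.single 1 1) (Pi.single (1 : Fin (n + 2)) (1 : F))) *ᵥ
        Pi.single 0 1 = Pi.single 0 1
      rw [rkone_mulVec, single_dotProduct, Pi.single_eq_of_ne h10]
      simp
    · show (1 + vecMulVec (y - Pi.single 1 1) (Pi.single (1 : Fin (n + 2)) (1 : F))) *ᵥ
        Pi.single 1 1 = y
      rw [rkone_mulVec, single_dotProduct, Pi.single_eq_same]
      simp

/-- `GL_n` moves the first two basis vectors to any linearly independent pair -/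
theorem gl_pair (x y : Fin (n + 2) → F) (hx : x ≠ 0) (hy : ∀ c : F, y ≠ c • x) :
    ∃ P : GL (Fin (n + 2)) F, P.1 *ᵥ Pi.single 0 1 = x ∧ P.1 *ᵥ Pi.single 1 1 = y := by
  classical
  obtain ⟨P₁, hP₁⟩ := gl_trans_single 0 x hx
  have h2 : P₁.1 *ᵥ ((P₁⁻¹).1 *ᵥ y) = y := by
    rw [mulVec_mulVec, ← Units.val_mul, mul_inv_cancel, Units.val_one, one_mulVec]
  have hex : ∃ j, j ≠ 0 ∧ ((P₁⁻¹).1 *ᵥ y) j ≠ 0 := by
    by_contra hcon
    push Not at hcon
    apply hy (((P₁⁻¹).1 *ᵥ y) 0)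
    have h1 : (P₁⁻¹).1 *ᵥ y = (((P₁⁻¹).1 *ᵥ y) 0) • Pi.single 0 1 := by
      ext j
      by_cases hj : j = 0
      · subst hj
        simp
      · rw [hcon j hj]
        simp [hj]
    calc y = P₁.1 *ᵥ ((P₁⁻¹).1 *ᵥ y) := h2.symm
      _ = P₁.1 *ᵥ ((((P₁⁻¹).1 *ᵥ y) 0) • Pi.single 0 1) := by rw [← h1]
      _ = _ := by rw [mulVec_smul, hP₁]
  obtain ⟨P₂, hP₂0, hP₂1⟩ := gl_pair_aux _ hex
  refine ⟨P₁ * P₂, ?_, ?_⟩
  · show (P₁.1 * P₂.1) *ᵥ _ = x
    rw [← mulVec_mulVec, hP₂0, hP₁]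
  · show (P₁.1 * P₂.1) *ᵥ _ = y
    rw [← mulVec_mulVec, hP₂1, h2]

/-- zero the first two coordinates -/
def msk (δ : Fin (n + 2) → F) : Fin (n + 2) → F := fun j => if j = 0 ∨ j = 1 then 0 else δ j

theorem msk_zero (δ : Fin (n + 2) → F) : msk δ 0 = 0 := by
  unfold msk
  simp

theorem msk_one (δ : Fin (n + 2) → F) : msk δ 1 = 0 := by
  unfold msk
  simp

theorem msk_of_ne (δ : Fin (n + 2) → F) (j : Fin (n + 2)) (h0 : j ≠ 0) (h1 : j ≠ 1) :
    msk δ j = δ j := by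
  unfold msk
  simp [h0, h1]

theorem eq_of_msk_eq (δ ε : Fin (n + 2) → F) (h : msk δ = msk ε) (h0 : δ 0 = ε 0)
    (h1 : δ 1 = ε 1) : δ = ε := by
  ext j
  by_cases hj0 : j = 0
  · rw [hj0, h0]
  · by_cases hj1 : j = 1
    · rw [hj1, h1]
    · rw [← msk_of_ne δ j hj0 hj1, ← msk_of_ne ε j hj0 hj1, h]

/-- the shears fixing the first two basis vectors -/
theorem shear_exists (δ δ' : Fin (n + 2) → F) : ∃ τ : GL (Fin (n + 2)) F, ∀ u : Fin (n + 2) → F,
    τ.1 *ᵥ u = u + (msk δ ⬝ᵥ u) • Pi.single 0 1 + (msk δ' ⬝ᵥ u) • Pi.single 1 1 := by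
  classical
  have hd1 : (1 + vecMulVec (Pi.single 0 (1 : F)) (msk δ)).det ≠ 0 := by
    rw [rkone_det, dotProduct_single, msk_zero]
    simp
  have hd2 : (1 + vecMulVec (Pi.single 1 (1 : F)) (msk δ')).det ≠ 0 := by
    rw [rkone_det, dotProduct_single, msk_one]
    simp
  refine ⟨GeneralLinearGroup.mkOfDetNeZero _ hd1 * GeneralLinearGroup.mkOfDetNeZero _ hd2, ?_⟩
  intro u
  show ((1 + vecMulVec (Pi.single 0 (1 : F)) (msk δ)) *
    (1 + vecMulVec (Pi.single 1 (1 : F)) (msk δ'))) *ᵥ u = _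
  rw [← mulVec_mulVec, rkone_mulVec, rkone_mulVec, dotProduct_add, dotProduct_smul,
    dotProduct_single, msk_one]
  simp only [zero_mul, smul_zero, add_zero]
  abel

end glpair

section rep
variable {F : Type*} [Field F] [Fintype F] [DecidableEq F] {m : ℕ}

theorem arith_pairs (N q a T Tc : ℕ) (hqN : q ≤ N) (h1 : 1 ≤ N) (hsplit : T + Tc = N * N)
    (hTc : Tc ≤ N + a * q) (ha : a + 1 ≤ N) : (N - 1) * (N - q) ≤ T := by
  obtain ⟨b, rfl⟩ : ∃ b, N = b + q := ⟨N - q, by omega⟩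
  obtain ⟨e, he⟩ : ∃ e, b + q = e + 1 := ⟨b + q - 1, by omega⟩
  have h3 : b + q - 1 = e := by omega
  have h4 : b + q - q = b := by omega
  rw [h3, h4]
  have h5 : a * q ≤ e * q := Nat.mul_le_mul_right _ (by omega)
  have key : e * b + ((b + q) + e * q) = (b + q) * (b + q) := by
    have h6 : (b + q) * (b + q) = (e + 1) * (b + q) := by rw [he]
    rw [h6]
    ring
  nlinarith [key, hsplit, hTc, h5]

/-- the number of linearly independent pairs -/
theorem card_indep_pairs (n : ℕ) (hn : 1 ≤ n)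
    [DecidablePred (fun p : (Fin n → F) × (Fin n → F) => p.1 ≠ 0 ∧ ∀ c : F, p.2 ≠ c • p.1)] :
    (Fintype.card F ^ n - 1) * (Fintype.card F ^ n - Fintype.card F) ≤
      (Finset.univ.filter (fun p : (Fin n → F) × (Fin n → F) =>
        p.1 ≠ 0 ∧ ∀ c : F, p.2 ≠ c • p.1)).card := by
  classical
  have hq : 1 ≤ Fintype.card F := Fintype.card_pos
  have hV : Fintype.card (Fin n → F) = Fintype.card F ^ n := by
    rw [Fintype.card_fun, Fintype.card_fin]
  have hsplit := Finset.card_filter_add_card_filter_not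
    (s := (Finset.univ : Finset ((Fin n → F) × (Fin n → F))))
    (fun p : (Fin n → F) × (Fin n → F) => p.1 ≠ 0 ∧ ∀ c : F, p.2 ≠ c • p.1)
  rw [Finset.card_univ, Fintype.card_prod, hV] at hsplit
  have hsub : Finset.univ.filter (fun p : (Fin n → F) × (Fin n → F) =>
      ¬ (p.1 ≠ 0 ∧ ∀ c : F, p.2 ≠ c • p.1)) ⊆
      (Finset.univ : Finset (Fin n → F)).image (fun y => ((0 : Fin n → F), y)) ∪
      ((Finset.univ.filter (fun x : Fin n → F => x ≠ 0)) ×ˢ (Finset.univ : Finset F)).image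
        (fun d => (d.1, d.2 • d.1)) := by
    intro p hp
    rw [Finset.mem_filter] at hp
    rw [Finset.mem_union, Finset.mem_image, Finset.mem_image]
    by_cases h0 : p.1 = 0
    · left
      exact ⟨p.2, Finset.mem_univ _, Prod.ext h0.symm rfl⟩
    · right
      have h3 := hp.2
      rw [not_and] at h3
      have h4 := h3 h0
      push Not at h4
      obtain ⟨c, hc⟩ := h4
      refine ⟨(p.1, c), ?_, Prod.ext rfl hc.symm⟩
      rw [Finset.mem_product, Finset.mem_filter]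
      exact ⟨⟨Finset.mem_univ _, h0⟩, Finset.mem_univ _⟩
  have hne : (Finset.univ.filter (fun x : Fin n → F => x ≠ 0)).card + 1 ≤ Fintype.card F ^ n := by
    have h5 := Finset.card_filter_add_card_filter_not
      (s := (Finset.univ : Finset (Fin n → F))) (fun x : Fin n → F => x ≠ 0)
    rw [Finset.card_univ, hV] at h5
    have h6 : 0 < (Finset.univ.filter (fun x : Fin n → F => ¬ x ≠ 0)).card := by
      rw [Finset.card_pos]
      exact ⟨0, by simp⟩
    omega
  have hc := (Finset.card_le_card hsub).trans (Finset.card_union_le _ _)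
  have hc1 : ((Finset.univ : Finset (Fin n → F)).image (fun y => ((0 : Fin n → F), y))).card ≤
      Fintype.card F ^ n := by
    refine Finset.card_image_le.trans ?_
    rw [Finset.card_univ, hV]
  have hc2 : (((Finset.univ.filter (fun x : Fin n → F => x ≠ 0)) ×ˢ
      (Finset.univ : Finset F)).image (fun d => (d.1, d.2 • d.1))).card ≤
      (Finset.univ.filter (fun x : Fin n → F => x ≠ 0)).card * Fintype.card F := by
    refine Finset.card_image_le.trans ?_
    rw [Finset.card_product, Finset.card_univ]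
  have hpow : Fintype.card F ≤ Fintype.card F ^ n := by
    calc Fintype.card F = Fintype.card F ^ 1 := (pow_one _).symm
      _ ≤ _ := Nat.pow_le_pow_right hq hn
  exact arith_pairs _ _ _ _ _ hpow (Nat.one_le_pow _ _ hq) hsplit (by omega) hne

/-- **lower bound** for the degree of a non-trivial complex representation of `Sp_{2n}(q)`,
`q` even, `n ≥ 2` -/
theorem sp_even_min_degree (h2 : (2 : F) = 0)
    (hperf : commutator (Matrix.symplecticGroup (Fin (m + 2)) F) = ⊤)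
    {W : Type*} [AddCommGroup W] [Module ℂ W] [FiniteDimensional ℂ W]
    (ρ : Matrix.symplecticGroup (Fin (m + 2)) F →* (W →ₗ[ℂ] W)) (hnt : ∃ g, ρ g ≠ 1) :
    (Fintype.card F ^ (m + 2) - 1) * (Fintype.card F ^ (m + 2) - Fintype.card F) ≤
      2 * (Fintype.card F + 1) * finrank ℂ W := by
  classical
  have h01 : (0 : Fin (m + 2)) ≠ 1 := by
    intro h
    have := congrArg Fin.val h
    simp at this
  obtain ⟨e₀, he₀⟩ : ∃ e₀ : Fin (m + 2) → F, e₀ = Pi.single 0 1 := ⟨_, rfl⟩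
  obtain ⟨e₁, he₁⟩ : ∃ e₁ : Fin (m + 2) → F, e₁ = Pi.single 1 1 := ⟨_, rfl⟩
  obtain ⟨M₀, hM₀⟩ : ∃ M₀ : Matrix (Fin (m + 2)) (Fin (m + 2)) F,
      M₀ = vecMulVec e₀ e₁ + vecMulVec e₁ e₀ := ⟨_, rfl⟩
  have hM₀s : M₀ᵀ = M₀ := by
    rw [hM₀, transpose_add, transpose_vecMulVec, transpose_vecMulVec]
    exact add_comm _ _
  -- the element `spS M₀` acts non-trivially
  have hM₀' : ρ (spS M₀) ≠ 1 := by
    intro h
    obtain ⟨g, hg⟩ := hnt
    apply hg
    have hker : spS M₀ ∈ ρ.ker := MonoidHom.mem_ker.2 h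
    rcases sp_normal_le_center_or_commutator_le ρ.ker with hc | hc
    · exfalso
      have h3 := hc hker
      rw [sp_center_eq_bot h2, Subgroup.mem_bot] at h3
      have h4 : (spS M₀).1 (Sum.inl 0) (Sum.inr 1) =
          (1 : Matrix.symplecticGroup (Fin (m + 2)) F).1 (Sum.inl 0) (Sum.inr 1) := by
        rw [h3]
      have h5 : (spS M₀).1 (Sum.inl 0) (Sum.inr 1) = 1 := by
        show fromBlocks 1 (sy M₀) 0 1 (Sum.inl 0) (Sum.inr 1) = 1
        rw [fromBlocks_apply₁₂, sy_of_symm _ hM₀s, hM₀, he₀, he₁]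
        simp [vecMulVec_apply, h01]
      have h6 : (1 : Matrix.symplecticGroup (Fin (m + 2)) F).1 (Sum.inl 0) (Sum.inr 1) = 0 := by
        show (1 : Matrix (Fin (m + 2) ⊕ Fin (m + 2)) (Fin (m + 2) ⊕ Fin (m + 2)) F) _ _ = 0
        exact Matrix.one_apply_ne (by simp)
      rw [h5, h6] at h4
      exact one_ne_zero h4
    · rw [hperf] at hc
      exact MonoidHom.mem_ker.1 (hc (Subgroup.mem_top g))
  -- an eigen-character
  have hcomm : ∀ M M' : Matrix (Fin (m + 2)) (Fin (m + 2)) F,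
      ρ (spS M) * ρ (spS M') = ρ (spS M') * ρ (spS M) := by
    intro M M'
    rw [← map_mul, ← map_mul, ← spS_add, ← spS_add, add_comm M M']
  have hN : 0 < Nat.card (Matrix.symplecticGroup (Fin (m + 2)) F) := Nat.card_pos
  have hpow : ρ (spS M₀) ^ Nat.card (Matrix.symplecticGroup (Fin (m + 2)) F) = 1 := by
    rw [← map_pow, pow_card_eq_one', map_one]
  obtain ⟨χ, w, hw0, hw, hχ⟩ := exists_eigen_ne_one (fun M => ρ (spS M)) hcomm M₀ _ hN hpow hM₀'
  have hw' : ∀ M, ρ (spS M) w = χ M • w := hw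
  have hχ0 : χ 0 = 1 := by
    have h5 := hw' 0
    rw [spS_zero, map_one, Module.End.one_apply] at h5
    have h6 : (1 : ℂ) • w = χ 0 • w := by rw [one_smul]; exact h5
    exact (smul_left_injective ℂ hw0 h6).symm
  have hχadd : ∀ M M', χ (M + M') = χ M * χ M' := by
    intro M M'
    have h5 := hw' (M + M')
    rw [spS_add, map_mul, Module.End.mul_apply, hw' M', map_smul, hw' M, smul_smul] at h5
    have h8 := smul_left_injective ℂ hw0 h5
    rw [← h8, mul_comm]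
  obtain ⟨X, hX⟩ : ∃ X : AddChar (Matrix (Fin (m + 2)) (Fin (m + 2)) F) ℂ, ∀ M, X M = χ M :=
    ⟨⟨χ, hχ0, hχadd⟩, fun M => rfl⟩
  obtain ⟨ψ, hψ⟩ : ∃ ψ : AddChar F ℂ, ∀ c, ψ c = χ (c • M₀) := by
    refine ⟨⟨fun c => χ (c • M₀), ?_, ?_⟩, fun c => rfl⟩
    · rw [zero_smul]
      exact hχ0
    · intro a b
      rw [add_smul]
      exact hχadd _ _
  have hψ1 : ψ ≠ 1 := by
    intro h
    have h5 := hψ 1
    rw [h, AddChar.one_apply, one_smul] at h5
    exact hχ h5.symm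
  have hC : ∀ i j : Fin (m + 2), ∃ γ : F, ∀ c, χ (Matrix.single i j c) = ψ (γ * c) := by
    intro i j
    obtain ⟨φ, hφ⟩ : ∃ φ : AddChar F ℂ, ∀ c, φ c = χ (Matrix.single i j c) := by
      refine ⟨⟨fun c => χ (Matrix.single i j c), ?_, ?_⟩, fun c => rfl⟩
      · rw [Matrix.single_zero]
        exact hχ0
      · intro a b
        rw [Matrix.single_add]
        exact hχadd _ _
    obtain ⟨γ, hγ⟩ := addChar_shift ψ hψ1 φ
    exact ⟨γ, fun c => by rw [← hφ, hγ]⟩
  choose C' hC' using hC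
  obtain ⟨C, hC⟩ : ∃ C : Matrix (Fin (m + 2)) (Fin (m + 2)) F,
      ∀ (i j : Fin (m + 2)) (c : F), χ (Matrix.single i j c) = ψ (C i j * c) :=
    ⟨Matrix.of C', hC'⟩
  have hχC : ∀ M, χ M = ψ (∑ i, ∑ j, C i j * M i j) := by
    intro M
    conv_lhs => rw [Matrix.matrix_eq_sum_single M]
    rw [← hX, addChar_sum, addChar_sum ψ]
    apply Finset.prod_congr rfl
    intro i _
    rw [addChar_sum, addChar_sum ψ]
    apply Finset.prod_congr rfl
    intro j _
    rw [hX, hC]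
  have hqf : ∀ (c : F) (y : Fin (m + 2) → F), χ (c • vecMulVec y y) = ψ (c * qf C y) := by
    intro c y
    rw [hχC]
    congr 1
    have h5 : qf C y = ∑ i, y i * ∑ j, C i j * y j := rfl
    rw [h5, Finset.mul_sum]
    apply Finset.sum_congr rfl
    intro i _
    rw [Finset.mul_sum, Finset.mul_sum]
    apply Finset.sum_congr rfl
    intro j _
    simp only [Matrix.smul_apply, vecMulVec_apply, smul_eq_mul]
    ring
  have hbf : ∀ (c : F) (x y : Fin (m + 2) → F),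
      χ (c • (vecMulVec x y + vecMulVec y x)) = ψ (c * bf C x y) := by
    intro c x y
    rw [hχC]
    congr 1
    have h5 : bf C x y = ∑ i, x i * ∑ j, C i j * y j + ∑ i, y i * ∑ j, C i j * x j := rfl
    rw [h5, mul_add, Finset.mul_sum, Finset.mul_sum, ← Finset.sum_add_distrib]
    apply Finset.sum_congr rfl
    intro i _
    rw [Finset.mul_sum, Finset.mul_sum, Finset.mul_sum, Finset.mul_sum, ← Finset.sum_add_distrib]
    apply Finset.sum_congr rfl
    intro j _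
    simp only [Matrix.smul_apply, Matrix.add_apply, vecMulVec_apply, smul_eq_mul]
    ring
  have hb01 : bf C e₀ e₁ ≠ 0 := by
    intro h0
    apply hψ1
    ext c
    rw [AddChar.one_apply, hψ c, hM₀, hbf, h0, mul_zero, AddChar.map_zero_eq_one]
  have hPy : ∀ (P : GL (Fin (m + 2)) F) (c : F) (y : Fin (m + 2) → F),
      χ (P.1 * sy (c • vecMulVec y y) * P.1ᵀ) = ψ (c * qf C (P.1 *ᵥ y)) := by
    intro P c y
    rw [← hqf]
    congr 1
    have hs : (c • vecMulVec y y)ᵀ = c • vecMulVec y y := by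
      rw [transpose_smul, transpose_vecMulVec]
    rw [sy_of_symm _ hs, Matrix.mul_smul, Matrix.smul_mul, mul_vecMulVec, vecMulVec_mul,
      vecMul_transpose]
  have hΦ : ∀ P P' : GL (Fin (m + 2)) F,
      (fun M => χ (P.1 * sy M * P.1ᵀ)) = (fun M => χ (P'.1 * sy M * P'.1ᵀ)) →
      ∀ y, qf C (P.1 *ᵥ y) = qf C (P'.1 *ᵥ y) := by
    intro P P' h y
    by_contra hne
    apply hψ1
    ext d
    rw [AddChar.one_apply]
    have h5 : χ (P.1 * sy ((d / (qf C (P.1 *ᵥ y) - qf C (P'.1 *ᵥ y))) • vecMulVec y y) * P.1ᵀ) =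
        χ (P'.1 * sy ((d / (qf C (P.1 *ᵥ y) - qf C (P'.1 *ᵥ y))) • vecMulVec y y) * P'.1ᵀ) :=
      congrFun h ((d / (qf C (P.1 *ᵥ y) - qf C (P'.1 *ᵥ y))) • vecMulVec y y)
    rw [hPy, hPy] at h5
    have h6 : d = d / (qf C (P.1 *ᵥ y) - qf C (P'.1 *ᵥ y)) * qf C (P.1 *ᵥ y) -
        d / (qf C (P.1 *ᵥ y) - qf C (P'.1 *ᵥ y)) * qf C (P'.1 *ᵥ y) := by
      have h7 := sub_ne_zero.2 hne
      field_simp
    rw [h6, AddChar.map_sub_eq_div, h5, div_self (ψ.val_isUnit _).ne_zero]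
  have hconj : ∀ P : GL (Fin (m + 2)) F,
      jointEig (fun M => ρ (spS M)) (fun M => χ (P.1 * sy M * P.1ᵀ)) ≠ ⊥ := by
    intro P hbot
    have hmem : ρ (spD P)⁻¹ w ∈
        jointEig (fun M => ρ (spS M)) (fun M => χ (P.1 * sy M * P.1ᵀ)) := by
      intro M
      show ρ (spS M) (ρ (spD P)⁻¹ w) = χ (P.1 * sy M * P.1ᵀ) • ρ (spD P)⁻¹ w
      have e : spS M * (spD P)⁻¹ = (spD P)⁻¹ * spS (P.1 * sy M * P.1ᵀ) := by
        rw [eq_inv_mul_iff_mul_eq, ← mul_assoc, spD_spS, mul_assoc, mul_inv_cancel, mul_one]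
      rw [← Module.End.mul_apply, ← map_mul, e, map_mul, Module.End.mul_apply, hw', map_smul]
    rw [hbot] at hmem
    have h6 := (Submodule.mem_bot ℂ).1 hmem
    have h7 := congrArg (ρ (spD P)) h6
    rw [← Module.End.mul_apply, ← map_mul, mul_inv_cancel, map_one, map_zero] at h7
    exact hw0 h7
  -- the base pair
  have hbase : ∃ (G₀ : GL (Fin (m + 2)) F) (r Mb : ℕ),
      bf C (G₀.1 *ᵥ e₀) (G₀.1 *ᵥ e₁) ≠ 0 ∧ r * Mb ≤ 2 * (Fintype.card F + 1) ∧
      (∀ d e f : F, (Finset.univ.filter (fun p : F × F => qf C e₀ * (p.1 * p.1) +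
        bf C e₀ e₁ * (p.1 * p.2) + qf C e₁ * (p.2 * p.2) + d * p.1 + e * p.2 + f = 0)).card ≤
          Mb) ∧
      (∀ w : F, (Finset.univ.filter (fun t : F => qf C (G₀.1 *ᵥ e₀) * (t * t) +
        bf C (G₀.1 *ᵥ e₀) (G₀.1 *ᵥ e₁) * t + w = 0)).card ≤ r) := by
    by_cases hcase : ∀ x : Fin (m + 2) → F, qf C x = 0 → ∀ y, bf C x y = 0
    · refine ⟨1, 2, Fintype.card F + 1, ?_, le_refl _, ?_, ?_⟩
      · rw [Units.val_one, one_mulVec, one_mulVec]
        exact hb01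
      · intro d e f
        apply card_conic_aniso_le h2 _ _ _ d e f hb01
        intro s t hst
        have h3 : qf C (0 + (s • e₀ + t • e₁)) = 0 := by
          rw [qf_expand, bf_zero_left, bf_zero_left, qf_zero]
          linear_combination hst
        rw [zero_add] at h3
        have h4 := hcase _ h3
        constructor
        · have h5 := h4 e₁
          rw [bf_add_left, bf_smul_left, bf_smul_left, bf_self2 h2, mul_zero, add_zero] at h5
          exact (mul_eq_zero.1 h5).resolve_right hb01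
        · have h5 := h4 e₀
          rw [bf_add_left, bf_smul_left, bf_smul_left, bf_self2 h2, mul_zero, zero_add,
            bf_comm] at h5
          exact (mul_eq_zero.1 h5).resolve_right hb01
      · intro w
        rw [Units.val_one, one_mulVec, one_mulVec]
        exact card_roots_le_two _ _ _ hb01
    · push Not at hcase
      obtain ⟨x₀, hx₀, y₀, hy₀⟩ := hcase
      have hx0 : x₀ ≠ 0 := by
        rintro rfl
        exact hy₀ (bf_zero_left C y₀)
      have hyc : ∀ c : F, y₀ ≠ c • x₀ := by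
        intro c hc
        apply hy₀
        rw [hc, bf_smul_right, bf_self2 h2, mul_zero]
      obtain ⟨G₀, hG0, hG1⟩ := gl_pair x₀ y₀ hx0 hyc
      rw [← he₀] at hG0
      rw [← he₁] at hG1
      refine ⟨G₀, 1, 2 * Fintype.card F, ?_, by omega, ?_, ?_⟩
      · rw [hG0, hG1]
        exact hy₀
      · intro d e f
        have := card_conic_le h2 (qf C e₀) (bf C e₀ e₁) (qf C e₁) d e f hb01
        omega
      · intro w
        rw [hG0, hG1, hx₀]
        have h6 : Finset.univ.filter (fun t : F => 0 * (t * t) + bf C x₀ y₀ * t + w = 0) =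
            Finset.univ.filter (fun t : F => bf C x₀ y₀ * t + w = 0) := by
          apply Finset.filter_congr
          intro t _
          rw [zero_mul, zero_add]
        rw [h6]
        exact card_roots_le_one _ _ hy₀
  obtain ⟨G₀, r, Mb, hβ₀, hrM, hMb, hr⟩ := hbase
  obtain ⟨x₀, hx₀⟩ : ∃ x₀ : Fin (m + 2) → F, x₀ = G₀.1 *ᵥ e₀ := ⟨_, rfl⟩
  obtain ⟨y₀, hy₀⟩ : ∃ y₀ : Fin (m + 2) → F, y₀ = G₀.1 *ᵥ e₁ := ⟨_, rfl⟩
  rw [← hx₀, ← hy₀] at hβ₀ hr
  have hEmb := card_emb_le h2 C e₀ e₁ (qf C x₀) (bf C x₀ y₀) (qf C y₀) hβ₀ Mb r hMb hr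
  -- the matrices `G_p`
  have hG : ∀ p : (Fin (m + 2) → F) × (Fin (m + 2) → F), ∃ G : GL (Fin (m + 2)) F,
      (p.1 ≠ 0 ∧ ∀ c : F, p.2 ≠ c • p.1) → (G.1 *ᵥ e₀ = p.1 ∧ G.1 *ᵥ e₁ = p.2) := by
    intro p
    by_cases h : p.1 ≠ 0 ∧ ∀ c : F, p.2 ≠ c • p.1
    · obtain ⟨G, hG⟩ := gl_pair p.1 p.2 h.1 h.2
      rw [← he₀, ← he₁] at hG
      exact ⟨G, fun _ => hG⟩
    · exact ⟨1, fun h' => absurd h' h⟩
  choose Gp hGp using hG
  -- the shears
  have hsh : ∀ δ δ' : Fin (m + 2) → F, ∃ τ : GL (Fin (m + 2)) F, ∀ u : Fin (m + 2) → F,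
      τ.1 *ᵥ u = u + (msk δ ⬝ᵥ u) • e₀ + (msk δ' ⬝ᵥ u) • e₁ := by
    intro δ δ'
    rw [he₀, he₁]
    exact shear_exists δ δ'
  choose τ hτ using hsh
  have hτj : ∀ (δ δ' : Fin (m + 2) → F) (j : Fin (m + 2)),
      (τ δ δ').1 *ᵥ Pi.single j 1 = Pi.single j 1 + msk δ j • e₀ + msk δ' j • e₁ := by
    intro δ δ' j
    rw [hτ, dotProduct_single, dotProduct_single, mul_one, mul_one]
  have hτ0 : ∀ δ δ' : Fin (m + 2) → F, (τ δ δ').1 *ᵥ e₀ = e₀ := by
    intro δ δ'
    conv_lhs => rw [he₀]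
    rw [hτj, msk_zero, msk_zero, zero_smul, zero_smul, add_zero, add_zero, he₀]
  have hτ1 : ∀ δ δ' : Fin (m + 2) → F, (τ δ δ').1 *ᵥ e₁ = e₁ := by
    intro δ δ'
    conv_lhs => rw [he₁]
    rw [hτj, msk_one, msk_one, zero_smul, zero_smul, add_zero, add_zero, he₁]
  have hτG : ∀ (δ δ' : Fin (m + 2) → F) (j : Fin (m + 2)),
      G₀.1 *ᵥ ((τ δ δ').1 *ᵥ Pi.single j 1) =
        G₀.1 *ᵥ Pi.single j 1 + msk δ j • x₀ + msk δ' j • y₀ := by
    intro δ δ' j
    rw [hτj, mulVec_add, mulVec_add, mulVec_smul, mulVec_smul, ← hx₀, ← hy₀]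
  have hτG0 : ∀ δ δ' : Fin (m + 2) → F, G₀.1 *ᵥ ((τ δ δ').1 *ᵥ e₀) = x₀ := by
    intro δ δ'
    rw [hτ0, ← hx₀]
  have hτG1 : ∀ δ δ' : Fin (m + 2) → F, G₀.1 *ᵥ ((τ δ δ').1 *ᵥ e₁) = y₀ := by
    intro δ δ'
    rw [hτ1, ← hy₀]
  have hcancel : ∀ (A B G : GL (Fin (m + 2)) F) (u : Fin (m + 2) → F),
      (A * B * G⁻¹).1 *ᵥ (G.1 *ᵥ u) = A.1 *ᵥ (B.1 *ᵥ u) := by
    intro A B G u
    rw [mulVec_mulVec, mulVec_mulVec, ← Units.val_mul, ← Units.val_mul, inv_mul_cancel_right]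
  obtain ⟨Pd, hPd⟩ : ∃ Pd : ((Fin (m + 2) → F) × (Fin (m + 2) → F)) ×
      ((Fin (m + 2) → F) × (Fin (m + 2) → F)) → GL (Fin (m + 2)) F,
      ∀ d, Pd d = G₀ * τ d.2.1 d.2.2 * (Gp d.1)⁻¹ := ⟨_, fun d => rfl⟩
  have hPx : ∀ d : ((Fin (m + 2) → F) × (Fin (m + 2) → F)) ×
      ((Fin (m + 2) → F) × (Fin (m + 2) → F)), (d.1.1 ≠ 0 ∧ ∀ c : F, d.1.2 ≠ c • d.1.1) →
      (Pd d).1 *ᵥ d.1.1 = x₀ ∧ (Pd d).1 *ᵥ d.1.2 = y₀ := by
    intro d hd
    obtain ⟨h3, h4⟩ := hGp d.1 hd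
    constructor
    · conv_lhs => rw [← h3]
      rw [hPd, hcancel, hτG0]
    · conv_lhs => rw [← h4]
      rw [hPd, hcancel, hτG1]
  obtain ⟨Ψ, hΨ⟩ : ∃ Ψ : ((Fin (m + 2) → F) × (Fin (m + 2) → F)) ×
      ((Fin (m + 2) → F) × (Fin (m + 2) → F)) → (Matrix (Fin (m + 2)) (Fin (m + 2)) F → ℂ),
      ∀ d, Ψ d = fun M => χ ((Pd d).1 * sy M * (Pd d).1ᵀ) := ⟨_, fun d => rfl⟩
  obtain ⟨T, hT⟩ : ∃ T : Finset ((Fin (m + 2) → F) × (Fin (m + 2) → F)),
      T = Finset.univ.filter (fun p => p.1 ≠ 0 ∧ ∀ c : F, p.2 ≠ c • p.1) := ⟨_, rfl⟩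
  obtain ⟨Emb, hEmbdef⟩ : ∃ Emb : Finset ((Fin (m + 2) → F) × (Fin (m + 2) → F)),
      Emb = Finset.univ.filter (fun p => qf C p.1 = qf C x₀ ∧ bf C p.1 p.2 = bf C x₀ y₀ ∧
        qf C p.2 = qf C y₀) := ⟨_, rfl⟩
  rw [← hEmbdef] at hEmb
  have hfib : ∀ Ξ ∈ (T ×ˢ (Finset.univ : Finset ((Fin (m + 2) → F) × (Fin (m + 2) → F)))).image Ψ,
      ((T ×ˢ (Finset.univ : Finset ((Fin (m + 2) → F) × (Fin (m + 2) → F)))).filter
        (fun d => Ψ d = Ξ)).card ≤
      Emb.card * ((Fintype.card F * Fintype.card F) * (Fintype.card F * Fintype.card F)) := by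
    intro Ξ hΞ
    obtain ⟨d₁, hd₁, hd₁Ξ⟩ := Finset.mem_image.1 hΞ
    have hcardE : (Emb ×ˢ (Finset.univ : Finset ((F × F) × (F × F)))).card =
        Emb.card * ((Fintype.card F * Fintype.card F) * (Fintype.card F * Fintype.card F)) := by
      rw [Finset.card_product, Finset.card_univ, Fintype.card_prod, Fintype.card_prod]
    rw [← hcardE]
    apply Finset.card_le_card_of_injOn (fun d => (((Pd d₁).1 *ᵥ d.1.1, (Pd d₁).1 *ᵥ d.1.2),
      ((d.2.1 0, d.2.1 1), (d.2.2 0, d.2.2 1))))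
    · intro d hd
      rw [Finset.mem_coe, Finset.mem_filter, Finset.mem_product, hT, Finset.mem_filter] at hd
      have hdT := hd.1.1.2
      have hq := hΦ (Pd d₁) (Pd d) (by rw [← hΨ, ← hΨ, hd₁Ξ, hd.2])
      obtain ⟨hx, hy⟩ := hPx d hdT
      rw [Finset.mem_coe, Finset.mem_product, hEmbdef, Finset.mem_filter]
      refine ⟨⟨Finset.mem_univ _, ?_, ?_, ?_⟩, Finset.mem_univ _⟩
      · show qf C ((Pd d₁).1 *ᵥ d.1.1) = qf C x₀
        rw [hq, hx]
      · show bf C ((Pd d₁).1 *ᵥ d.1.1) ((Pd d₁).1 *ᵥ d.1.2) = bf C x₀ y₀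
        rw [bf_eq_qf, ← mulVec_add, hq, hq, hq, mulVec_add, hx, hy, ← bf_eq_qf]
      · show qf C ((Pd d₁).1 *ᵥ d.1.2) = qf C y₀
        rw [hq, hy]
    · intro d hd d' hd' h
      rw [Finset.mem_coe, Finset.mem_filter, Finset.mem_product, hT, Finset.mem_filter] at hd hd'
      simp only [Prod.mk.injEq] at h
      obtain ⟨⟨hx, hy⟩, ⟨h00, h01'⟩, ⟨h10, h11⟩⟩ := h
      have hinj : ∀ u u' : Fin (m + 2) → F, (Pd d₁).1 *ᵥ u = (Pd d₁).1 *ᵥ u' → u = u' := by
        intro u u' huu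
        have h3 := congrArg (fun z => ((Pd d₁)⁻¹).1 *ᵥ z) huu
        simp only [mulVec_mulVec, ← Units.val_mul, inv_mul_cancel, Units.val_one, one_mulVec] at h3
        exact h3
      have hp : d.1 = d'.1 := Prod.ext (hinj _ _ hx) (hinj _ _ hy)
      have hq : ∀ z, qf C ((Pd d).1 *ᵥ z) = qf C ((Pd d').1 *ᵥ z) :=
        hΦ (Pd d) (Pd d') (by rw [← hΨ, ← hΨ, hd.2, hd'.2])
      have hq2 : ∀ u, qf C (G₀.1 *ᵥ ((τ d.2.1 d.2.2).1 *ᵥ u)) =
          qf C (G₀.1 *ᵥ ((τ d'.2.1 d'.2.2).1 *ᵥ u)) := by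
        intro u
        have h3 := hq ((Gp d.1).1 *ᵥ u)
        rw [hPd, hPd, ← hp, hcancel, hcancel] at h3
        exact h3
      have hb2 : ∀ a b, bf C (G₀.1 *ᵥ ((τ d.2.1 d.2.2).1 *ᵥ a))
          (G₀.1 *ᵥ ((τ d.2.1 d.2.2).1 *ᵥ b)) =
          bf C (G₀.1 *ᵥ ((τ d'.2.1 d'.2.2).1 *ᵥ a)) (G₀.1 *ᵥ ((τ d'.2.1 d'.2.2).1 *ᵥ b)) := by
        intro a b
        rw [bf_eq_qf, bf_eq_qf]
        simp only [← mulVec_add]
        rw [hq2 (a + b), hq2 a, hq2 b]
      have hm2 : msk d.2.2 = msk d'.2.2 := by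
        funext j
        have h3 := hb2 e₀ (Pi.single j 1)
        rw [hτG0, hτG0, hτG, hτG, bf_add_right, bf_add_right, bf_add_right, bf_add_right,
          bf_smul_right, bf_smul_right, bf_smul_right, bf_smul_right, bf_self2 h2] at h3
        have h4 : (msk d.2.2 j - msk d'.2.2 j) * bf C x₀ y₀ = 0 := by linear_combination h3
        exact sub_eq_zero.1 ((mul_eq_zero.1 h4).resolve_right hβ₀)
      have hm1 : msk d.2.1 = msk d'.2.1 := by
        funext j
        have h3 := hb2 e₁ (Pi.single j 1)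
        rw [hτG1, hτG1, hτG, hτG, bf_add_right, bf_add_right, bf_add_right, bf_add_right,
          bf_smul_right, bf_smul_right, bf_smul_right, bf_smul_right, bf_self2 h2,
          bf_comm C y₀ x₀] at h3
        have h4 : (msk d.2.1 j - msk d'.2.1 j) * bf C x₀ y₀ = 0 := by linear_combination h3
        exact sub_eq_zero.1 ((mul_eq_zero.1 h4).resolve_right hβ₀)
      have e1 := eq_of_msk_eq _ _ hm1 h00 h01'
      have e2 := eq_of_msk_eq _ _ hm2 h10 h11
      exact Prod.ext hp (Prod.ext e1 e2)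
  have hDom := Finset.card_le_mul_card_image (f := Ψ)
    (T ×ˢ (Finset.univ : Finset ((Fin (m + 2) → F) × (Fin (m + 2) → F)))) _ hfib
  rw [Finset.card_product, Finset.card_univ, Fintype.card_prod, Fintype.card_fun,
    Fintype.card_fin] at hDom
  obtain ⟨s, hs⟩ : ∃ s : Finset (Matrix (Fin (m + 2)) (Fin (m + 2)) F → ℂ),
      s = (T ×ˢ (Finset.univ : Finset ((Fin (m + 2) → F) × (Fin (m + 2) → F)))).image Ψ :=
    ⟨_, rfl⟩
  rw [← hs] at hDom
  have hsum := sum_finrank_inf_jointEig_le (fun M => ρ (spS M)) (fun i : ↥s => i.1)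
    Subtype.val_injective ⊤
  have etop : ∀ X : Submodule ℂ W, finrank ℂ ↥(⊤ ⊓ X) = finrank ℂ ↥X := fun X => by
    rw [top_inf_eq]
  simp only [etop, finrank_top] at hsum
  have h9 : s.card ≤ ∑ i : ↥s, finrank ℂ ↥(jointEig (fun M => ρ (spS M)) i.1) := by
    calc s.card = ∑ i : ↥s, 1 := by simp
      _ ≤ _ := Finset.sum_le_sum (fun i _ => by
        have hi : i.1 ∈ (T ×ˢ (Finset.univ :
            Finset ((Fin (m + 2) → F) × (Fin (m + 2) → F)))).image Ψ := by
          rw [← hs]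
          exact i.2
        obtain ⟨d, _, hd⟩ := Finset.mem_image.1 hi
        have hne : jointEig (fun M => ρ (spS M)) i.1 ≠ ⊥ := by
          rw [← hd, hΨ]
          exact hconj (Pd d)
        have hnt : Nontrivial ↥(jointEig (fun M => ρ (spS M)) i.1) :=
          Submodule.nontrivial_iff_ne_bot.2 hne
        exact Module.finrank_pos)
  have hsW : s.card ≤ finrank ℂ W := h9.trans hsum
  have hTcard := card_indep_pairs (F := F) (m + 2) (by omega)
  rw [← hT] at hTcard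
  refine hTcard.trans ?_
  have hNpos : 0 < Fintype.card F ^ (m + 2) * Fintype.card F ^ (m + 2) := by
    have hq : 0 < Fintype.card F := Fintype.card_pos
    positivity
  apply Nat.le_of_mul_le_mul_right _ hNpos
  calc T.card * (Fintype.card F ^ (m + 2) * Fintype.card F ^ (m + 2))
      ≤ Emb.card * ((Fintype.card F * Fintype.card F) * (Fintype.card F * Fintype.card F)) *
        s.card := hDom
    _ = (Emb.card * (Fintype.card F * Fintype.card F) * (Fintype.card F * Fintype.card F)) *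
        s.card := by ring
    _ ≤ (r * Mb * Fintype.card F ^ (m + 2) * Fintype.card F ^ (m + 2)) * s.card :=
        Nat.mul_le_mul_right _ hEmb
    _ = (r * Mb) * s.card * (Fintype.card F ^ (m + 2) * Fintype.card F ^ (m + 2)) := by ring
    _ ≤ (2 * (Fintype.card F + 1)) * finrank ℂ W *
        (Fintype.card F ^ (m + 2) * Fintype.card F ^ (m + 2)) :=
        Nat.mul_le_mul_right _ (Nat.mul_le_mul hrM hsW)

end rep

end Cfsg.Agent.Helper60.Sp2
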