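import Mathlib
import Cfsg.Agent.Helper5.SympPerfect

/-!
# The Weil representation of `Sp_{2n}(q)`, `q` odd, I: Heisenberg operators (helper60)

The operators `hS ψ v` (`v ∈ F^{2n}`) on the space of complex functions on `F^n`, their
multiplication rule, traces, and the fact that they form a basis of the endomorphism algebra.
-/

set_option autoImplicit false
set_option linter.unusedSectionVars false
set_option linter.unusedVariables false
set_option linter.unusedSimpArgs false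

namespace Cfsg.Agent.Helper60.SpWeil

open Matrix Module
open Cfsg.Agent.Helper5

section heis
variable {F : Type*} [Field F] [Fintype F] {n : ℕ}

/-- the position part of a vector of `F^{2n}` -/
def va (v : Fin n ⊕ Fin n → F) : Fin n → F := fun i => v (Sum.inl i)

/-- the momentum part of a vector of `F^{2n}` -/
def vb (v : Fin n ⊕ Fin n → F) : Fin n → F := fun i => v (Sum.inr i)

theorem va_add (v v' : Fin n ⊕ Fin n → F) : va (v + v') = va v + va v' := rfl

theorem vb_add (v v' : Fin n ⊕ Fin n → F) : vb (v + v') = vb v + vb v' := rfl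

theorem va_neg (v : Fin n ⊕ Fin n → F) : va (-v) = -va v := rfl

theorem vb_neg (v : Fin n ⊕ Fin n → F) : vb (-v) = -vb v := rfl

theorem va_zero : va (0 : Fin n ⊕ Fin n → F) = 0 := rfl

theorem vb_zero : vb (0 : Fin n ⊕ Fin n → F) = 0 := rfl

theorem va_vb_ext {v v' : Fin n ⊕ Fin n → F} (ha : va v = va v') (hb : vb v = vb v') : v = v' := by
  funext i
  rcases i with i | i
  · exact congrFun ha i
  · exact congrFun hb i

theorem sympForm_eq (v v' : Fin n ⊕ Fin n → F) :
    Cfsg.sympForm n F v v' = vb v ⬝ᵥ va v' - va v ⬝ᵥ vb v' := by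
  rw [Helper13.sympForm_apply]
  unfold va vb dotProduct
  rw [Finset.sum_sub_distrib]

/-- the Heisenberg operator attached to `v` -/
noncomputable def hS (ψ : AddChar F ℂ) (v : Fin n ⊕ Fin n → F) :
    ((Fin n → F) → ℂ) →ₗ[ℂ] ((Fin n → F) → ℂ) where
  toFun f := fun x => ψ (vb v ⬝ᵥ x + 2⁻¹ * (va v ⬝ᵥ vb v)) * f (x + va v)
  map_add' f g := by
    funext x
    simp [mul_add]
  map_smul' c f := by
    funext x
    simp
    ring

theorem hS_apply (ψ : AddChar F ℂ) (v : Fin n ⊕ Fin n → F) (f : (Fin n → F) → ℂ) (x : Fin n → F) :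
    hS ψ v f x = ψ (vb v ⬝ᵥ x + 2⁻¹ * (va v ⬝ᵥ vb v)) * f (x + va v) := rfl

theorem hS_mul (h2 : (2 : F) ≠ 0) (ψ : AddChar F ℂ) (v v' : Fin n ⊕ Fin n → F) :
    hS ψ v * hS ψ v' = ψ (-(2⁻¹ * Cfsg.sympForm n F v v')) • hS ψ (v + v') := by
  apply LinearMap.ext
  intro f
  funext x
  rw [Module.End.mul_apply, hS_apply, hS_apply, LinearMap.smul_apply, Pi.smul_apply, hS_apply,
    smul_eq_mul, ← mul_assoc, ← mul_assoc, ← AddChar.map_add_eq_mul, ← AddChar.map_add_eq_mul]
  have e1 : x + va v + va v' = x + va (v + v') := by rw [va_add, add_assoc]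
  rw [e1]
  congr 2
  rw [sympForm_eq, va_add, vb_add]
  simp only [dotProduct_add, add_dotProduct]
  have hc1 : vb v' ⬝ᵥ va v = va v ⬝ᵥ vb v' := dotProduct_comm _ _
  have hc2 : vb v ⬝ᵥ va v' = va v' ⬝ᵥ vb v := dotProduct_comm _ _
  have h3 : (2 : F)⁻¹ * 2 = 1 := inv_mul_cancel₀ h2
  rw [hc1, hc2]
  linear_combination (-(va v ⬝ᵥ vb v')) * h3

theorem hS_zero (ψ : AddChar F ℂ) : hS ψ (0 : Fin n ⊕ Fin n → F) = 1 := by
  apply LinearMap.ext
  intro f
  funext x
  rw [hS_apply, va_zero, vb_zero]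
  simp

theorem hS_mul_neg (h2 : (2 : F) ≠ 0) (ψ : AddChar F ℂ) (v : Fin n ⊕ Fin n → F) :
    hS ψ v * hS ψ (-v) = 1 := by
  rw [hS_mul h2, add_neg_cancel, hS_zero, Helper13.sympForm_neg_right, Helper13.sympForm_self]
  simp

theorem hS_neg_mul (h2 : (2 : F) ≠ 0) (ψ : AddChar F ℂ) (v : Fin n ⊕ Fin n → F) :
    hS ψ (-v) * hS ψ v = 1 := by
  have := hS_mul_neg h2 ψ (-v)
  rwa [neg_neg] at this

/-- character sums over `F^n` -/
theorem sum_char_dot_ne (ψ : AddChar F ℂ) (hψ : ψ ≠ 1) (b : Fin n → F) (hb : b ≠ 0) :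
    ∑ x : Fin n → F, ψ (b ⬝ᵥ x) = 0 := by
  classical
  obtain ⟨i, hi⟩ : ∃ i, b i ≠ 0 := by
    by_contra hcon
    push Not at hcon
    exact hb (funext hcon)
  obtain ⟨d, hd⟩ : ∃ d, ψ d ≠ 1 := by
    by_contra hcon
    push Not at hcon
    exact hψ (DFunLike.ext _ _ (fun d => by rw [hcon d, AddChar.one_apply]))
  obtain ⟨Ψ, hΨ⟩ : ∃ Ψ : AddChar (Fin n → F) ℂ, ∀ x, Ψ x = ψ (b ⬝ᵥ x) := by
    refine ⟨⟨fun x => ψ (b ⬝ᵥ x), ?_, ?_⟩, fun x => rfl⟩
    · rw [dotProduct_zero, AddChar.map_zero_eq_one]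
    · intro x y
      rw [dotProduct_add, AddChar.map_add_eq_mul]
  have hΨ1 : Ψ ≠ 1 := by
    intro h
    have h3 := hΨ ((d / b i) • Pi.single i 1)
    rw [h, AddChar.one_apply, dotProduct_smul, dotProduct_single, mul_one, smul_eq_mul,
      div_mul_cancel₀ _ hi] at h3
    exact hd h3.symm
  have h4 := AddChar.sum_eq_zero_of_ne_one hΨ1
  rw [← h4]
  exact Finset.sum_congr rfl (fun x _ => (hΨ x).symm)

theorem card_pow_eq : (Fintype.card (Fin n → F) : ℂ) = (Fintype.card F : ℂ) ^ n := by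
  rw [Fintype.card_pi_const, Nat.cast_pow]

/-- the trace of the Heisenberg operator of a non-zero vector vanishes -/
theorem hS_trace_ne (ψ : AddChar F ℂ) (hψ : ψ ≠ 1) (v : Fin n ⊕ Fin n → F) (hv : v ≠ 0) :
    LinearMap.trace ℂ ((Fin n → F) → ℂ) (hS ψ v) = 0 := by
  classical
  rw [LinearMap.trace_eq_matrix_trace ℂ (Pi.basisFun ℂ (Fin n → F))]
  unfold Matrix.trace
  have h1 : ∀ x : Fin n → F, (LinearMap.toMatrix (Pi.basisFun ℂ (Fin n → F))
      (Pi.basisFun ℂ (Fin n → F)) (hS ψ v)).diag x =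
      if va v = 0 then ψ (vb v ⬝ᵥ x) else 0 := by
    intro x
    rw [Matrix.diag_apply, LinearMap.toMatrix_apply, Pi.basisFun_apply, Pi.basisFun_repr, hS_apply]
    split_ifs with ha
    · rw [ha]
      simp
    · have : x + va v ≠ x := fun h => ha (by simpa using h)
      rw [Pi.single_eq_of_ne this, mul_zero]
  rw [Finset.sum_congr rfl (fun x _ => h1 x)]
  by_cases ha : va v = 0
  · simp only [ha, if_true]
    apply sum_char_dot_ne ψ hψ
    intro hb
    exact hv (va_vb_ext ha hb)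
  · simp only [ha, if_false, Finset.sum_const_zero]

theorem hS_trace_zero (ψ : AddChar F ℂ) :
    LinearMap.trace ℂ ((Fin n → F) → ℂ) (hS ψ 0) = (Fintype.card F : ℂ) ^ n := by
  rw [hS_zero, LinearMap.trace_one, Module.finrank_fintype_fun_eq_card, card_pow_eq]

end heis

section basis
variable {F : Type*} [Field F] [Fintype F] {n : ℕ}

/-- the reflection `f ↦ f ∘ neg` -/
noncomputable def hJ (F : Type*) [Field F] (n : ℕ) :
    ((Fin n → F) → ℂ) →ₗ[ℂ] ((Fin n → F) → ℂ) where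
  toFun f := fun x => f (-x)
  map_add' f g := rfl
  map_smul' c f := rfl

theorem hJ_apply (f : (Fin n → F) → ℂ) (x : Fin n → F) : hJ F n f x = f (-x) := rfl

theorem hJ_mul_self : hJ F n * hJ F n = 1 := by
  apply LinearMap.ext
  intro f
  funext x
  rw [Module.End.mul_apply, hJ_apply, hJ_apply, neg_neg]
  rfl

/-- the reflection is the average of the Heisenberg operators -/
theorem sum_hS (h2 : (2 : F) ≠ 0) (ψ : AddChar F ℂ) (hψ : ψ ≠ 1) :
    ∑ v : Fin n ⊕ Fin n → F, hS ψ v = ((Fintype.card F : ℂ) ^ n) • hJ F n := by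
  classical
  apply LinearMap.ext
  intro f
  funext x
  rw [LinearMap.sum_apply, Finset.sum_apply, LinearMap.smul_apply, Pi.smul_apply, hJ_apply,
    smul_eq_mul]
  simp only [hS_apply]
  rw [← Equiv.sum_comp (Equiv.sumArrowEquivProdArrow (Fin n) (Fin n) F).symm, Fintype.sum_prod_type]
  have h1 : ∀ a b : Fin n → F,
      va ((Equiv.sumArrowEquivProdArrow (Fin n) (Fin n) F).symm (a, b)) = a := fun a b => rfl
  have h1' : ∀ a b : Fin n → F,
      vb ((Equiv.sumArrowEquivProdArrow (Fin n) (Fin n) F).symm (a, b)) = b := fun a b => rfl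
  simp only [h1, h1']
  have h3 : ∀ a : Fin n → F, ∑ b : Fin n → F, ψ (b ⬝ᵥ x + 2⁻¹ * (a ⬝ᵥ b)) * f (x + a) =
      if a = (-2 : F) • x then (Fintype.card F : ℂ) ^ n * f (-x) else 0 := by
    intro a
    rw [← Finset.sum_mul]
    have h4 : ∀ b : Fin n → F, b ⬝ᵥ x + 2⁻¹ * (a ⬝ᵥ b) = (x + (2 : F)⁻¹ • a) ⬝ᵥ b := by
      intro b
      rw [add_dotProduct, smul_dotProduct, dotProduct_comm b x, smul_eq_mul]
    simp only [h4]
    split_ifs with ha
    · have h5 : x + (2 : F)⁻¹ • a = 0 := by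
        rw [ha, smul_smul]
        have h6 : (2 : F)⁻¹ * -2 = -1 := by
          field_simp
        rw [h6, neg_one_smul, add_neg_cancel]
      have h7 : x + a = -x := by
        rw [ha]
        funext i
        simp only [Pi.add_apply, Pi.smul_apply, Pi.neg_apply, smul_eq_mul]
        ring
      rw [h5, h7]
      simp [card_pow_eq]
    · have h5 : x + (2 : F)⁻¹ • a ≠ 0 := by
        intro h
        apply ha
        have h6 : a = (2 : F) • ((2 : F)⁻¹ • a) := by
          rw [smul_smul, mul_inv_cancel₀ h2, one_smul]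
        rw [h6, eq_neg_of_add_eq_zero_right h, smul_neg, neg_smul]
      rw [sum_char_dot_ne ψ hψ _ h5, zero_mul]
  simp only [h3]
  rw [Finset.sum_ite_eq' Finset.univ ((-2 : F) • x), if_pos (Finset.mem_univ _)]

theorem hJ_trace (h2 : (2 : F) ≠ 0) (ψ : AddChar F ℂ) (hψ : ψ ≠ 1) :
    LinearMap.trace ℂ ((Fin n → F) → ℂ) (hJ F n) = 1 := by
  classical
  have h1 := congrArg (LinearMap.trace ℂ ((Fin n → F) → ℂ)) (sum_hS (n := n) h2 ψ hψ)
  rw [map_sum, map_smul, Finset.sum_eq_single 0 (fun v _ hv => hS_trace_ne ψ hψ v hv)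
    (fun h => absurd (Finset.mem_univ _) h), hS_trace_zero, smul_eq_mul] at h1
  have hN : ((Fintype.card F : ℂ) ^ n) ≠ 0 := by
    have := Fintype.card_pos (α := F)
    exact pow_ne_zero _ (by exact_mod_cast this.ne')
  have h3 : (Fintype.card F : ℂ) ^ n * LinearMap.trace ℂ ((Fin n → F) → ℂ) (hJ F n) =
      (Fintype.card F : ℂ) ^ n * 1 := by rw [mul_one]; exact h1.symm
  exact mul_left_cancel₀ hN h3

/-- the Heisenberg operators are linearly independent -/
theorem hS_linearIndependent (h2 : (2 : F) ≠ 0) (ψ : AddChar F ℂ) (hψ : ψ ≠ 1) :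
    LinearIndependent ℂ (fun v : Fin n ⊕ Fin n → F => hS ψ v) := by
  classical
  rw [Fintype.linearIndependent_iff]
  intro c hc u
  have h3 := congrArg (fun T => LinearMap.trace ℂ ((Fin n → F) → ℂ) (hS ψ (-u) * T)) hc
  simp only [Finset.mul_sum, mul_smul_comm, map_sum, map_smul, mul_zero, map_zero] at h3
  rw [Finset.sum_eq_single u] at h3
  · rw [hS_neg_mul h2, LinearMap.trace_one, Module.finrank_fintype_fun_eq_card] at h3
    have hN : (Fintype.card (Fin n → F) : ℂ) ≠ 0 := by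
      have := Fintype.card_pos (α := (Fin n → F))
      exact_mod_cast this.ne'
    rcases smul_eq_zero.1 h3 with h5 | h5
    · exact h5
    · exact absurd h5 hN
  · intro v _ hvu
    have hne : -u + v ≠ 0 := by
      intro h
      apply hvu
      rw [neg_add_eq_zero] at h
      exact h.symm
    rw [hS_mul h2, map_smul, hS_trace_ne ψ hψ _ hne, smul_zero, smul_zero]
  · intro h
    exact absurd (Finset.mem_univ u) h

theorem card_V_eq : Fintype.card (Fin n ⊕ Fin n → F) =
    finrank ℂ (((Fin n → F) → ℂ) →ₗ[ℂ] ((Fin n → F) → ℂ)) := by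
  rw [Module.finrank_linearMap, Module.finrank_fintype_fun_eq_card, Fintype.card_pi_const,
    Fintype.card_fun, Fintype.card_sum, Fintype.card_fin, pow_add]

/-- the Heisenberg operators as a basis of the endomorphism algebra -/
noncomputable def hB (h2 : (2 : F) ≠ 0) (ψ : AddChar F ℂ) (hψ : ψ ≠ 1) :
    Basis (Fin n ⊕ Fin n → F) ℂ (((Fin n → F) → ℂ) →ₗ[ℂ] ((Fin n → F) → ℂ)) :=
  basisOfLinearIndependentOfCardEqFinrank (hS_linearIndependent h2 ψ hψ) card_V_eq

theorem hB_apply (h2 : (2 : F) ≠ 0) (ψ : AddChar F ℂ) (hψ : ψ ≠ 1) (v : Fin n ⊕ Fin n → F) :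
    hB h2 ψ hψ v = hS ψ v := by
  rw [hB, coe_basisOfLinearIndependentOfCardEqFinrank]

end basis

end Cfsg.Agent.Helper60.SpWeil
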