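import Mathlib
import Cfsg.Agent.Helper60.SpWeil1

/-!
# The Weil representation of `Sp_{2n}(q)`, `q` odd, II: the representation (helper60)

A projective representation commuting with an involution of trace `1` lifts to a linear
representation (normalising by the determinants on the two eigenspaces); the symplectic group acts
on the Heisenberg operators by algebra automorphisms, which are inner (Skolem–Noether).
-/

set_option autoImplicit false
set_option linter.unusedSectionVars false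
set_option linter.unusedVariables false
set_option linter.unusedSimpArgs false

namespace Cfsg.Agent.Helper60.SpWeil

open Matrix Module
open Cfsg.Agent.Helper5

section lift
variable {E : Type*} [AddCommGroup E] [Module ℂ E] [FiniteDimensional ℂ E]

/-- the `1`-eigenspace -/
def eigP (J : E →ₗ[ℂ] E) : Submodule ℂ E := LinearMap.ker (J - 1)

/-- the `-1`-eigenspace -/
def eigM (J : E →ₗ[ℂ] E) : Submodule ℂ E := LinearMap.ker (J + 1)

theorem mem_eigP {J : E →ₗ[ℂ] E} {x : E} : x ∈ eigP J ↔ J x = x := by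
  unfold eigP
  rw [LinearMap.mem_ker, LinearMap.sub_apply, Module.End.one_apply, sub_eq_zero]

theorem mem_eigM {J : E →ₗ[ℂ] E} {x : E} : x ∈ eigM J ↔ J x = -x := by
  unfold eigM
  rw [LinearMap.mem_ker, LinearMap.add_apply, Module.End.one_apply, add_eq_zero_iff_eq_neg]

theorem finrank_eigP (J : E →ₗ[ℂ] E) (hJ2 : J * J = 1) (htr : LinearMap.trace ℂ E J = 1) :
    2 * finrank ℂ ↥(eigP J) = finrank ℂ E + 1 := by
  have hJJ : ∀ x, J (J x) = x := fun x => by
    rw [← Module.End.mul_apply, hJ2, Module.End.one_apply]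
  have hproj : LinearMap.IsProj (eigP J) ((2 : ℂ)⁻¹ • (1 + J)) := by
    refine ⟨fun x => ?_, fun x hx => ?_⟩
    · rw [mem_eigP, LinearMap.smul_apply, LinearMap.add_apply, Module.End.one_apply, map_smul,
        map_add, hJJ, add_comm]
    · rw [mem_eigP] at hx
      rw [LinearMap.smul_apply, LinearMap.add_apply, Module.End.one_apply, hx, ← two_smul ℂ x,
        smul_smul]
      norm_num
  have h1 := hproj.trace
  rw [map_smul, map_add, LinearMap.trace_one, htr, smul_eq_mul] at h1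
  have h2 : ((2 * finrank ℂ ↥(eigP J) : ℕ) : ℂ) = ((finrank ℂ E + 1 : ℕ) : ℂ) := by
    push_cast
    rw [← h1]
    ring
  exact_mod_cast h2

theorem finrank_eigM (J : E →ₗ[ℂ] E) (hJ2 : J * J = 1) (htr : LinearMap.trace ℂ E J = 1) :
    2 * finrank ℂ ↥(eigM J) + 1 = finrank ℂ E := by
  have hJJ : ∀ x, J (J x) = x := fun x => by
    rw [← Module.End.mul_apply, hJ2, Module.End.one_apply]
  have hproj : LinearMap.IsProj (eigM J) ((2 : ℂ)⁻¹ • (1 - J)) := by
    refine ⟨fun x => ?_, fun x hx => ?_⟩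
    · rw [mem_eigM, LinearMap.smul_apply, LinearMap.sub_apply, Module.End.one_apply, map_smul,
        map_sub, hJJ, ← smul_neg, neg_sub]
    · rw [mem_eigM] at hx
      rw [LinearMap.smul_apply, LinearMap.sub_apply, Module.End.one_apply, hx, sub_neg_eq_add,
        ← two_smul ℂ x, smul_smul]
      norm_num
  have h1 := hproj.trace
  rw [map_smul, map_sub, LinearMap.trace_one, htr, smul_eq_mul] at h1
  have h2 : ((2 * finrank ℂ ↥(eigM J) + 1 : ℕ) : ℂ) = ((finrank ℂ E : ℕ) : ℂ) := by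
    push_cast
    rw [← h1]
    ring
  exact_mod_cast h2

theorem maps_eigP {J T : E →ₗ[ℂ] E} (h : T * J = J * T) : ∀ x ∈ eigP J, T x ∈ eigP J := by
  intro x hx
  rw [mem_eigP] at hx ⊢
  rw [← Module.End.mul_apply, ← h, Module.End.mul_apply, hx]

theorem maps_eigM {J T : E →ₗ[ℂ] E} (h : T * J = J * T) : ∀ x ∈ eigM J, T x ∈ eigM J := by
  intro x hx
  rw [mem_eigM] at hx ⊢
  rw [← Module.End.mul_apply, ← h, Module.End.mul_apply, hx, map_neg]

open Classical in
/-- the determinant on the `1`-eigenspace -/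
noncomputable def dP (J T : E →ₗ[ℂ] E) : ℂ :=
  if h : ∀ x ∈ eigP J, T x ∈ eigP J then LinearMap.det (T.restrict h) else 0

open Classical in
/-- the determinant on the `-1`-eigenspace -/
noncomputable def dM (J T : E →ₗ[ℂ] E) : ℂ :=
  if h : ∀ x ∈ eigM J, T x ∈ eigM J then LinearMap.det (T.restrict h) else 0

theorem dP_mul {J T T' : E →ₗ[ℂ] E} (h : T * J = J * T) (h' : T' * J = J * T') :
    dP J (T * T') = dP J T * dP J T' := by
  have hTT : (T * T') * J = J * (T * T') := by rw [mul_assoc, h', ← mul_assoc, h, mul_assoc]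
  unfold dP
  rw [dif_pos (maps_eigP hTT), dif_pos (maps_eigP h), dif_pos (maps_eigP h'), ← LinearMap.det_comp]
  congr 1

theorem dM_mul {J T T' : E →ₗ[ℂ] E} (h : T * J = J * T) (h' : T' * J = J * T') :
    dM J (T * T') = dM J T * dM J T' := by
  have hTT : (T * T') * J = J * (T * T') := by rw [mul_assoc, h', ← mul_assoc, h, mul_assoc]
  unfold dM
  rw [dif_pos (maps_eigM hTT), dif_pos (maps_eigM h), dif_pos (maps_eigM h'), ← LinearMap.det_comp]
  congr 1

theorem dP_smul {J T : E →ₗ[ℂ] E} (h : T * J = J * T) (c : ℂ) :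
    dP J (c • T) = c ^ finrank ℂ ↥(eigP J) * dP J T := by
  have hc : (c • T) * J = J * (c • T) := by rw [smul_mul_assoc, h, mul_smul_comm]
  unfold dP
  rw [dif_pos (maps_eigP hc), dif_pos (maps_eigP h), ← LinearMap.det_smul]
  congr 1

theorem dM_smul {J T : E →ₗ[ℂ] E} (h : T * J = J * T) (c : ℂ) :
    dM J (c • T) = c ^ finrank ℂ ↥(eigM J) * dM J T := by
  have hc : (c • T) * J = J * (c • T) := by rw [smul_mul_assoc, h, mul_smul_comm]
  unfold dM
  rw [dif_pos (maps_eigM hc), dif_pos (maps_eigM h), ← LinearMap.det_smul]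
  congr 1

theorem dP_one (J : E →ₗ[ℂ] E) : dP J 1 = 1 := by
  have h1 : (1 : E →ₗ[ℂ] E) * J = J * 1 := by rw [one_mul, mul_one]
  unfold dP
  rw [dif_pos (maps_eigP h1), ← LinearMap.det_id (M := ↥(eigP J))]
  congr 1

theorem dM_one (J : E →ₗ[ℂ] E) : dM J 1 = 1 := by
  have h1 : (1 : E →ₗ[ℂ] E) * J = J * 1 := by rw [one_mul, mul_one]
  unfold dM
  rw [dif_pos (maps_eigM h1), ← LinearMap.det_id (M := ↥(eigM J))]
  congr 1

/-- **lifting a projective representation** which commutes with an involution of trace `1` -/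
theorem exists_lift {G : Type*} [Group G] (J : E →ₗ[ℂ] E) (hJ2 : J * J = 1)
    (htr : LinearMap.trace ℂ E J = 1) (t : G → (E →ₗ[ℂ] E))
    (hinv : ∀ g, ∃ s, t g * s = 1 ∧ s * t g = 1) (hcomm : ∀ g, t g * J = J * t g)
    (hmul : ∀ g g', ∃ α : ℂ, t (g * g') = α • (t g * t g')) :
    ∃ W : G →* (E →ₗ[ℂ] E), ∀ g, ∃ c : ℂ, c ≠ 0 ∧ W g = c • t g := by
  have hdim : finrank ℂ ↥(eigP J) = finrank ℂ ↥(eigM J) + 1 := by
    have h1 := finrank_eigP J hJ2 htr
    have h2 := finrank_eigM J hJ2 htr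
    omega
  have hnt : Nontrivial (E →ₗ[ℂ] E) := by
    refine ⟨⟨J, 0, ?_⟩⟩
    intro h
    rw [h, map_zero] at htr
    exact zero_ne_one htr
  have hne : ∀ g, dP J (t g) ≠ 0 ∧ dM J (t g) ≠ 0 := by
    intro g
    obtain ⟨s, hs1, hs2⟩ := hinv g
    have hsJ : s * J = J * s := by
      calc s * J = s * J * (t g * s) := by rw [hs1, mul_one]
        _ = s * (J * t g) * s := by simp only [mul_assoc]
        _ = s * (t g * J) * s := by rw [hcomm g]
        _ = (s * t g) * J * s := by simp only [mul_assoc]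
        _ = J * s := by rw [hs2, one_mul]
    constructor
    · intro h0
      have h3 := dP_mul (hcomm g) hsJ
      rw [hs1, dP_one, h0, zero_mul] at h3
      exact one_ne_zero h3
    · intro h0
      have h3 := dM_mul (hcomm g) hsJ
      rw [hs1, dM_one, h0, zero_mul] at h3
      exact one_ne_zero h3
  have hω : ∀ g g', (dM J (t (g * g')) / dP J (t (g * g'))) • t (g * g') =
      ((dM J (t g) / dP J (t g)) • t g) * ((dM J (t g') / dP J (t g')) • t g') := by
    intro g g'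
    obtain ⟨α, hα⟩ := hmul g g'
    have hα0 : α ≠ 0 := by
      rintro rfl
      rw [zero_smul] at hα
      obtain ⟨s, hs1, -⟩ := hinv (g * g')
      rw [hα, zero_mul] at hs1
      exact zero_ne_one hs1
    have hc : (t g * t g') * J = J * (t g * t g') := by
      rw [mul_assoc, hcomm g', ← mul_assoc, hcomm g, mul_assoc]
    rw [hα, dM_smul hc, dP_smul hc, dM_mul (hcomm g) (hcomm g'), dP_mul (hcomm g) (hcomm g'), hdim,
      smul_mul_smul_comm, smul_smul]
    congr 1
    have h1 := (hne g).1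
    have h2 := (hne g').1
    field_simp
    ring
  have hunit : ∀ g, ∃ s, ((dM J (t g) / dP J (t g)) • t g) * s = 1 := by
    intro g
    obtain ⟨s, hs1, hs2⟩ := hinv g
    refine ⟨(dM J (t g) / dP J (t g))⁻¹ • s, ?_⟩
    rw [smul_mul_smul_comm, hs1, mul_inv_cancel₀ (div_ne_zero (hne g).2 (hne g).1), one_smul]
  have hone : (dM J (t (1 : G)) / dP J (t 1)) • t 1 = 1 := by
    have h1 := hω 1 1
    rw [mul_one] at h1
    obtain ⟨s, hs⟩ := hunit (1 : G)
    calc (dM J (t (1 : G)) / dP J (t 1)) • t 1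
        = (dM J (t (1 : G)) / dP J (t 1)) • t 1 * ((dM J (t (1 : G)) / dP J (t 1)) • t 1 * s) := by
          rw [hs, mul_one]
      _ = ((dM J (t (1 : G)) / dP J (t 1)) • t 1 * ((dM J (t (1 : G)) / dP J (t 1)) • t 1)) * s := by
          rw [mul_assoc]
      _ = 1 := by rw [← h1, hs]
  refine ⟨⟨⟨fun g => (dM J (t g) / dP J (t g)) • t g, hone⟩, hω⟩, fun g => ?_⟩
  exact ⟨dM J (t g) / dP J (t g), div_ne_zero (hne g).2 (hne g).1, rfl⟩

/-- an endomorphism commuting with all endomorphisms is a scalar -/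
theorem central_scalar (Z : E →ₗ[ℂ] E) (h : ∀ x : E →ₗ[ℂ] E, Z * x = x * Z) :
    ∃ α : ℂ, Z = α • (1 : E →ₗ[ℂ] E) := by
  have h1 : Z ∈ Subalgebra.center ℂ (E →ₗ[ℂ] E) :=
    Subalgebra.mem_center_iff.2 (fun x => (h x).symm)
  rw [Algebra.IsCentral.center_eq_bot, Algebra.mem_bot] at h1
  obtain ⟨α, hα⟩ := h1
  exact ⟨α, by rw [← hα, Algebra.algebraMap_eq_smul_one]⟩

end lift

section theta
variable {F : Type*} [Field F] [Fintype F] {n : ℕ}

/-- the action of the symplectic group on the endomorphism algebra -/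
noncomputable def theta (h2 : (2 : F) ≠ 0) (ψ : AddChar F ℂ) (hψ : ψ ≠ 1)
    (g : Matrix.symplecticGroup (Fin n) F) :
    (((Fin n → F) → ℂ) →ₗ[ℂ] ((Fin n → F) → ℂ)) →ₗ[ℂ]
      (((Fin n → F) → ℂ) →ₗ[ℂ] ((Fin n → F) → ℂ)) :=
  (hB h2 ψ hψ).constr ℂ (fun v => hS ψ ((g : Matrix (Fin n ⊕ Fin n) (Fin n ⊕ Fin n) F) *ᵥ v))

theorem theta_hS (h2 : (2 : F) ≠ 0) (ψ : AddChar F ℂ) (hψ : ψ ≠ 1)
    (g : Matrix.symplecticGroup (Fin n) F) (v : Fin n ⊕ Fin n → F) :
    theta h2 ψ hψ g (hS ψ v) = hS ψ ((g : Matrix (Fin n ⊕ Fin n) (Fin n ⊕ Fin n) F) *ᵥ v) := by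
  have h := (hB h2 ψ hψ).constr_basis ℂ
    (fun v => hS ψ ((g : Matrix (Fin n ⊕ Fin n) (Fin n ⊕ Fin n) F) *ᵥ v)) v
  rw [hB_apply] at h
  exact h

theorem theta_mul_hS (h2 : (2 : F) ≠ 0) (ψ : AddChar F ℂ) (hψ : ψ ≠ 1)
    (g : Matrix.symplecticGroup (Fin n) F) (x : ((Fin n → F) → ℂ) →ₗ[ℂ] ((Fin n → F) → ℂ))
    (v' : Fin n ⊕ Fin n → F) :
    theta h2 ψ hψ g (x * hS ψ v') = theta h2 ψ hψ g x * theta h2 ψ hψ g (hS ψ v') := by
  have h : theta h2 ψ hψ g ∘ₗ LinearMap.mulRight ℂ (hS ψ v') =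
      LinearMap.mulRight ℂ (theta h2 ψ hψ g (hS ψ v')) ∘ₗ theta h2 ψ hψ g := by
    apply (hB h2 ψ hψ).ext
    intro v
    rw [hB_apply, LinearMap.comp_apply, LinearMap.comp_apply, LinearMap.mulRight_apply,
      LinearMap.mulRight_apply, hS_mul h2, map_smul, theta_hS, theta_hS, theta_hS, hS_mul h2,
      sp_sympForm, Matrix.mulVec_add]
  have h3 := LinearMap.congr_fun h x
  rw [LinearMap.comp_apply, LinearMap.comp_apply, LinearMap.mulRight_apply,
    LinearMap.mulRight_apply] at h3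
  exact h3

theorem theta_mul (h2 : (2 : F) ≠ 0) (ψ : AddChar F ℂ) (hψ : ψ ≠ 1)
    (g : Matrix.symplecticGroup (Fin n) F) (x y : ((Fin n → F) → ℂ) →ₗ[ℂ] ((Fin n → F) → ℂ)) :
    theta h2 ψ hψ g (x * y) = theta h2 ψ hψ g x * theta h2 ψ hψ g y := by
  have h : theta h2 ψ hψ g ∘ₗ LinearMap.mulLeft ℂ x =
      LinearMap.mulLeft ℂ (theta h2 ψ hψ g x) ∘ₗ theta h2 ψ hψ g := by
    apply (hB h2 ψ hψ).ext
    intro v
    rw [hB_apply, LinearMap.comp_apply, LinearMap.comp_apply, LinearMap.mulLeft_apply,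
      LinearMap.mulLeft_apply, theta_mul_hS]
  have h3 := LinearMap.congr_fun h y
  rw [LinearMap.comp_apply, LinearMap.comp_apply, LinearMap.mulLeft_apply,
    LinearMap.mulLeft_apply] at h3
  exact h3

theorem theta_one (h2 : (2 : F) ≠ 0) (ψ : AddChar F ℂ) (hψ : ψ ≠ 1)
    (g : Matrix.symplecticGroup (Fin n) F) : theta h2 ψ hψ g 1 = 1 := by
  rw [← hS_zero ψ, theta_hS, Matrix.mulVec_zero]

theorem theta_theta (h2 : (2 : F) ≠ 0) (ψ : AddChar F ℂ) (hψ : ψ ≠ 1)
    (g g' : Matrix.symplecticGroup (Fin n) F) (x : ((Fin n → F) → ℂ) →ₗ[ℂ] ((Fin n → F) → ℂ)) :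
    theta h2 ψ hψ g (theta h2 ψ hψ g' x) = theta h2 ψ hψ (g * g') x := by
  have h : theta h2 ψ hψ g ∘ₗ theta h2 ψ hψ g' = theta h2 ψ hψ (g * g') := by
    apply (hB h2 ψ hψ).ext
    intro v
    rw [hB_apply, LinearMap.comp_apply, theta_hS, theta_hS, theta_hS, sp_mul_mulVec]
  exact LinearMap.congr_fun h x

theorem theta_one_left (h2 : (2 : F) ≠ 0) (ψ : AddChar F ℂ) (hψ : ψ ≠ 1)
    (x : ((Fin n → F) → ℂ) →ₗ[ℂ] ((Fin n → F) → ℂ)) :
    theta h2 ψ hψ (1 : Matrix.symplecticGroup (Fin n) F) x = x := by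
  have h : theta h2 ψ hψ (1 : Matrix.symplecticGroup (Fin n) F) = LinearMap.id := by
    apply (hB h2 ψ hψ).ext
    intro v
    rw [hB_apply, theta_hS, sp_coe_one, Matrix.one_mulVec, LinearMap.id_apply]
  rw [h, LinearMap.id_apply]

/-- the permutation of `F^{2n}` given by a symplectic matrix -/
def spEquiv (g : Matrix.symplecticGroup (Fin n) F) :
    (Fin n ⊕ Fin n → F) ≃ (Fin n ⊕ Fin n → F) where
  toFun v := (g : Matrix (Fin n ⊕ Fin n) (Fin n ⊕ Fin n) F) *ᵥ v
  invFun v := ((g⁻¹ : Matrix.symplecticGroup (Fin n) F) :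
    Matrix (Fin n ⊕ Fin n) (Fin n ⊕ Fin n) F) *ᵥ v
  left_inv v := sp_inv_mulVec g v
  right_inv v := sp_mulVec_inv g v

theorem spEquiv_apply (g : Matrix.symplecticGroup (Fin n) F) (v : Fin n ⊕ Fin n → F) :
    spEquiv g v = (g : Matrix (Fin n ⊕ Fin n) (Fin n ⊕ Fin n) F) *ᵥ v := rfl

theorem theta_hJ (h2 : (2 : F) ≠ 0) (ψ : AddChar F ℂ) (hψ : ψ ≠ 1)
    (g : Matrix.symplecticGroup (Fin n) F) : theta h2 ψ hψ g (hJ F n) = hJ F n := by
  classical
  have hN : ((Fintype.card F : ℂ) ^ n) ≠ 0 := by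
    have := Fintype.card_pos (α := F)
    exact pow_ne_zero _ (by exact_mod_cast this.ne')
  have h1 : theta h2 ψ hψ g (((Fintype.card F : ℂ) ^ n) • hJ F n) =
      ((Fintype.card F : ℂ) ^ n) • hJ F n := by
    rw [← sum_hS h2 ψ hψ, map_sum]
    simp only [theta_hS]
    exact Equiv.sum_comp (spEquiv g) (fun v => hS ψ v)
  rw [map_smul] at h1
  exact smul_right_injective _ hN h1

/-- the action on the endomorphism algebra is inner (Skolem–Noether) -/
theorem exists_inner (h2 : (2 : F) ≠ 0) (ψ : AddChar F ℂ) (hψ : ψ ≠ 1)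
    (g : Matrix.symplecticGroup (Fin n) F) :
    ∃ T : ((Fin n → F) → ℂ) ≃ₗ[ℂ] ((Fin n → F) → ℂ), ∀ x,
      theta h2 ψ hψ g x = T.toLinearMap * x * T.symm.toLinearMap := by
  let L : (((Fin n → F) → ℂ) →ₗ[ℂ] ((Fin n → F) → ℂ)) ≃ₗ[ℂ]
      (((Fin n → F) → ℂ) →ₗ[ℂ] ((Fin n → F) → ℂ)) :=
    LinearEquiv.ofLinearMap (theta h2 ψ hψ g) (theta h2 ψ hψ g⁻¹)
      (LinearMap.ext fun x => by
        rw [LinearMap.comp_apply, theta_theta, mul_inv_cancel, theta_one_left, LinearMap.id_apply])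
      (LinearMap.ext fun x => by
        rw [LinearMap.comp_apply, theta_theta, inv_mul_cancel, theta_one_left, LinearMap.id_apply])
  let A : (((Fin n → F) → ℂ) →ₗ[ℂ] ((Fin n → F) → ℂ)) ≃ₐ[ℂ]
      (((Fin n → F) → ℂ) →ₗ[ℂ] ((Fin n → F) → ℂ)) :=
    AlgEquiv.ofLinearEquiv L (theta_one h2 ψ hψ g) (theta_mul h2 ψ hψ g)
  obtain ⟨T, hT⟩ := A.eq_linearEquivConjAlgEquiv
  refine ⟨T, fun x => ?_⟩
  have h3 : A x = T.conjAlgEquiv ℂ x := by rw [hT]
  rw [LinearEquiv.conjAlgEquiv_apply] at h3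
  exact h3

/-- **the Weil representation** on the space of all functions -/
theorem exists_weilW (h2 : (2 : F) ≠ 0) (ψ : AddChar F ℂ) (hψ : ψ ≠ 1) :
    ∃ W : Matrix.symplecticGroup (Fin n) F →* (((Fin n → F) → ℂ) →ₗ[ℂ] ((Fin n → F) → ℂ)),
      ∀ g x, W g * x = theta h2 ψ hψ g x * W g := by
  choose T hT using exists_inner (n := n) h2 ψ hψ
  have hTs : ∀ g, (T g).toLinearMap * (T g).symm.toLinearMap = 1 := by
    intro g
    apply LinearMap.ext
    intro x
    simp
  have hsT : ∀ g, (T g).symm.toLinearMap * (T g).toLinearMap = 1 := by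
    intro g
    apply LinearMap.ext
    intro x
    simp
  have hinv : ∀ g, ∃ s, (T g).toLinearMap * s = 1 ∧ s * (T g).toLinearMap = 1 :=
    fun g => ⟨(T g).symm.toLinearMap, hTs g, hsT g⟩
  have hcomm : ∀ g, (T g).toLinearMap * hJ F n = hJ F n * (T g).toLinearMap := by
    intro g
    have h := hT g (hJ F n)
    rw [theta_hJ] at h
    calc (T g).toLinearMap * hJ F n
        = (T g).toLinearMap * hJ F n * ((T g).symm.toLinearMap * (T g).toLinearMap) := by
          rw [hsT, mul_one]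
      _ = ((T g).toLinearMap * hJ F n * (T g).symm.toLinearMap) * (T g).toLinearMap := by
          simp only [mul_assoc]
      _ = hJ F n * (T g).toLinearMap := by rw [← h]
  have hmul : ∀ g g', ∃ α : ℂ, (T (g * g')).toLinearMap =
      α • ((T g).toLinearMap * (T g').toLinearMap) := by
    intro g g'
    have hZ : ∀ x : ((Fin n → F) → ℂ) →ₗ[ℂ] ((Fin n → F) → ℂ),
        ((T g').symm.toLinearMap * (T g).symm.toLinearMap * (T (g * g')).toLinearMap) * x =
        x * ((T g').symm.toLinearMap * (T g).symm.toLinearMap * (T (g * g')).toLinearMap) := by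
      intro x
      have h5 := theta_theta h2 ψ hψ g g' x
      rw [hT (g * g') x, hT g' x, hT g] at h5
      -- h5 : Tg * (Tg' * x * Tg'⁻¹) * Tg⁻¹ = Tgg' * x * Tgg'⁻¹
      calc ((T g').symm.toLinearMap * (T g).symm.toLinearMap * (T (g * g')).toLinearMap) * x
          = (T g').symm.toLinearMap * (T g).symm.toLinearMap *
            ((T (g * g')).toLinearMap * x * (T (g * g')).symm.toLinearMap) *
              (T (g * g')).toLinearMap := by
            simp only [mul_assoc]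
            rw [hsT, mul_one]
        _ = (T g').symm.toLinearMap * (T g).symm.toLinearMap *
            ((T g).toLinearMap * ((T g').toLinearMap * x * (T g').symm.toLinearMap) *
              (T g).symm.toLinearMap) * (T (g * g')).toLinearMap := by rw [h5]
        _ = ((T g').symm.toLinearMap * ((T g).symm.toLinearMap * (T g).toLinearMap) *
            (T g').toLinearMap) * x * ((T g').symm.toLinearMap * (T g).symm.toLinearMap *
              (T (g * g')).toLinearMap) := by simp only [mul_assoc]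
        _ = x * ((T g').symm.toLinearMap * (T g).symm.toLinearMap *
              (T (g * g')).toLinearMap) := by rw [hsT, mul_one, hsT, one_mul]
    obtain ⟨α, hα⟩ := central_scalar _ hZ
    refine ⟨α, ?_⟩
    calc (T (g * g')).toLinearMap
        = (T g).toLinearMap * ((T g').toLinearMap * (T g').symm.toLinearMap) *
          (T g).symm.toLinearMap * (T (g * g')).toLinearMap := by
          rw [hTs, mul_one, hTs, one_mul]
      _ = (T g).toLinearMap * (T g').toLinearMap *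
          ((T g').symm.toLinearMap * (T g).symm.toLinearMap * (T (g * g')).toLinearMap) := by
          simp only [mul_assoc]
      _ = α • ((T g).toLinearMap * (T g').toLinearMap) := by
          rw [hα, mul_smul_comm, mul_one]
  obtain ⟨W, hW⟩ := exists_lift (hJ F n) hJ_mul_self (hJ_trace h2 ψ hψ)
    (fun g => (T g).toLinearMap) hinv hcomm hmul
  refine ⟨W, fun g x => ?_⟩
  obtain ⟨c, hc, hWg⟩ := hW g
  rw [hWg, hT g x, smul_mul_assoc, mul_smul_comm, mul_assoc, mul_assoc, hsT, mul_one]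

end theta

end Cfsg.Agent.Helper60.SpWeil
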