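import Mathlib
import Cfsg.Agent.Helper60.SpWeil2

/-!
# The Weil representation of `Sp_{2n}(q)`, `q` odd, III: irreducibility (helper60)

The commutant of the Weil representation is spanned by `1` and the reflection `hJ`; hence the
`-1`-eigenspace of the reflection is an irreducible representation of degree `(q^n - 1)/2`.
-/

set_option autoImplicit false
set_option linter.unusedSectionVars false
set_option linter.unusedVariables false
set_option linter.unusedSimpArgs false

namespace Cfsg.Agent.Helper60.SpWeil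

open Matrix Module
open Cfsg.Agent.Helper5

section irr
variable {F : Type*} [Field F] [Fintype F] {m : ℕ}

/-- the operators fixed by the action of the symplectic group are spanned by `1` and `hJ` -/
theorem weil_commutant (h2 : (2 : F) ≠ 0) (ψ : AddChar F ℂ) (hψ : ψ ≠ 1)
    (T : ((Fin (m + 1) → F) → ℂ) →ₗ[ℂ] ((Fin (m + 1) → F) → ℂ))
    (hT : ∀ g : Matrix.symplecticGroup (Fin (m + 1)) F, theta h2 ψ hψ g T = T) :
    ∃ α β : ℂ, T = α • (1 : ((Fin (m + 1) → F) → ℂ) →ₗ[ℂ] ((Fin (m + 1) → F) → ℂ)) +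
      β • hJ F (m + 1) := by
  classical
  obtain ⟨c, hc⟩ : ∃ c : (Fin (m + 1) ⊕ Fin (m + 1) → F) → ℂ, T = ∑ v, c v • hS ψ v := by
    refine ⟨fun v => (hB h2 ψ hψ).repr T v, ?_⟩
    have h := (hB h2 ψ hψ).sum_repr T
    simp only [hB_apply] at h
    exact h.symm
  have hli := Fintype.linearIndependent_iff.1 (hS_linearIndependent (n := m + 1) h2 ψ hψ)
  have hinv : ∀ (g : Matrix.symplecticGroup (Fin (m + 1)) F) (v : Fin (m + 1) ⊕ Fin (m + 1) → F),
      c ((g : Matrix (Fin (m + 1) ⊕ Fin (m + 1)) (Fin (m + 1) ⊕ Fin (m + 1)) F) *ᵥ v) = c v := by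
    intro g v
    have h1 : theta h2 ψ hψ g T = ∑ w, c ((spEquiv g).symm w) • hS ψ w := by
      rw [hc, map_sum]
      simp only [map_smul, theta_hS]
      rw [← Equiv.sum_comp (spEquiv g) (fun w => c ((spEquiv g).symm w) • hS ψ w)]
      refine Finset.sum_congr rfl (fun w _ => ?_)
      rw [Equiv.symm_apply_apply, spEquiv_apply]
    rw [hT g] at h1
    have h3 : ∑ w, (c ((spEquiv g).symm w) - c w) • hS ψ w = 0 := by
      rw [Finset.sum_congr rfl (fun w _ => sub_smul (c ((spEquiv g).symm w)) (c w) (hS ψ w)),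
        Finset.sum_sub_distrib, ← h1, ← hc, sub_self]
    have h4 := hli _ h3 (spEquiv g v)
    rw [Equiv.symm_apply_apply, spEquiv_apply, sub_eq_zero] at h4
    exact h4.symm
  have hconst : ∀ v : Fin (m + 1) ⊕ Fin (m + 1) → F, v ≠ 0 →
      c v = c (Pi.single (Sum.inl 0) 1) := by
    intro v hv
    obtain ⟨g, hg⟩ := symp_transitive (Pi.single (Sum.inl (0 : Fin (m + 1))) (1 : F)) v
      (single_inl_ne_zero 0) hv
    rw [← hg, hinv]
  refine ⟨c 0 - c (Pi.single (Sum.inl 0) 1),
    c (Pi.single (Sum.inl 0) 1) * (Fintype.card F : ℂ) ^ (m + 1), ?_⟩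
  rw [mul_smul, ← sum_hS h2 ψ hψ, Finset.smul_sum, hc, ← hS_zero ψ]
  have h5 : ∀ v : Fin (m + 1) ⊕ Fin (m + 1) → F, c v • hS ψ v =
      (if v = 0 then (c 0 - c (Pi.single (Sum.inl 0) 1)) • hS ψ (0 : Fin (m + 1) ⊕ Fin (m + 1) → F)
        else 0) + c (Pi.single (Sum.inl 0) 1) • hS ψ v := by
    intro v
    split_ifs with hv
    · rw [hv, ← add_smul, sub_add_cancel]
    · rw [zero_add, hconst v hv]
  rw [Finset.sum_congr rfl (fun v _ => h5 v), Finset.sum_add_distrib, Finset.sum_ite_eq'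
    Finset.univ (0 : Fin (m + 1) ⊕ Fin (m + 1) → F), if_pos (Finset.mem_univ _)]

/-- **irreducibility** of the odd part of the Weil representation -/
theorem weil_minus_irr (h2 : (2 : F) ≠ 0) (ψ : AddChar F ℂ) (hψ : ψ ≠ 1)
    (W : Matrix.symplecticGroup (Fin (m + 1)) F →*
      (((Fin (m + 1) → F) → ℂ) →ₗ[ℂ] ((Fin (m + 1) → F) → ℂ)))
    (hW : ∀ g x, W g * x = theta h2 ψ hψ g x * W g)
    (U : Submodule ℂ ((Fin (m + 1) → F) → ℂ)) (hU : U ≤ eigM (hJ F (m + 1))) (hU0 : U ≠ ⊥)
    (hinv : ∀ g, ∀ x ∈ U, W g x ∈ U) : U = eigM (hJ F (m + 1)) := by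
  classical
  let _ : Fintype ↥(Matrix.symplecticGroup (Fin (m + 1)) F) := Fintype.ofFinite _
  obtain ⟨π₀, hπ₀⟩ := LinearMap.exists_leftInverse_of_injective U.subtype (Submodule.ker_subtype U)
  have hp₀U : ∀ x, (U.subtype ∘ₗ π₀) x ∈ U := fun x => (π₀ x).2
  have hp₀id : ∀ x ∈ U, (U.subtype ∘ₗ π₀) x = x := by
    intro x hx
    have h := LinearMap.congr_fun hπ₀ ⟨x, hx⟩
    rw [LinearMap.comp_apply, LinearMap.id_apply, Submodule.subtype_apply] at h
    rw [LinearMap.comp_apply, h, Submodule.subtype_apply]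
  have hWW : ∀ g : Matrix.symplecticGroup (Fin (m + 1)) F, W g * W g⁻¹ = 1 := by
    intro g
    rw [← map_mul, mul_inv_cancel, map_one]
  have hcard : (Fintype.card ↥(Matrix.symplecticGroup (Fin (m + 1)) F) : ℂ) ≠ 0 := by
    have := Fintype.card_pos (α := ↥(Matrix.symplecticGroup (Fin (m + 1)) F))
    exact_mod_cast this.ne'
  obtain ⟨π, hπ⟩ : ∃ π : ((Fin (m + 1) → F) → ℂ) →ₗ[ℂ] ((Fin (m + 1) → F) → ℂ),
      π = (Fintype.card ↥(Matrix.symplecticGroup (Fin (m + 1)) F) : ℂ)⁻¹ •
        ∑ g : Matrix.symplecticGroup (Fin (m + 1)) F, W g * (U.subtype ∘ₗ π₀) * W g⁻¹ :=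
    ⟨_, rfl⟩
  have hπU : ∀ x, π x ∈ U := by
    intro x
    rw [hπ, LinearMap.smul_apply, LinearMap.sum_apply]
    refine U.smul_mem _ (U.sum_mem (fun g _ => ?_))
    rw [Module.End.mul_apply, Module.End.mul_apply]
    exact hinv g _ (hp₀U _)
  have hπid : ∀ x ∈ U, π x = x := by
    intro x hx
    rw [hπ, LinearMap.smul_apply, LinearMap.sum_apply]
    have h1 : ∀ g : Matrix.symplecticGroup (Fin (m + 1)) F,
        (W g * (U.subtype ∘ₗ π₀) * W g⁻¹) x = x := by
      intro g
      rw [Module.End.mul_apply, Module.End.mul_apply, hp₀id _ (hinv g⁻¹ x hx),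
        ← Module.End.mul_apply, hWW, Module.End.one_apply]
    rw [Finset.sum_congr rfl (fun g _ => h1 g), Finset.sum_const, Finset.card_univ,
      ← Nat.cast_smul_eq_nsmul ℂ, smul_smul, inv_mul_cancel₀ hcard, one_smul]
  have hπcomm : ∀ h : Matrix.symplecticGroup (Fin (m + 1)) F, W h * π = π * W h := by
    intro h
    rw [hπ, mul_smul_comm, smul_mul_assoc, Finset.mul_sum, Finset.sum_mul]
    congr 1
    rw [← Equiv.sum_comp (Equiv.mulLeft h) (fun g => W g * (U.subtype ∘ₗ π₀) * W g⁻¹ * W h)]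
    refine Finset.sum_congr rfl (fun g _ => ?_)
    have e1 : W h⁻¹ * W h = 1 := by rw [← map_mul, inv_mul_cancel, map_one]
    rw [Equiv.coe_mulLeft, _root_.mul_inv_rev, map_mul, map_mul]
    simp only [mul_assoc]
    rw [e1, mul_one]
  have hθ : ∀ g, theta h2 ψ hψ g π = π := by
    intro g
    have h1 := hW g π
    rw [hπcomm g] at h1
    calc theta h2 ψ hψ g π = theta h2 ψ hψ g π * (W g * W g⁻¹) := by rw [hWW, mul_one]
      _ = (theta h2 ψ hψ g π * W g) * W g⁻¹ := by rw [mul_assoc]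
      _ = π * W g * W g⁻¹ := by rw [← h1]
      _ = π := by rw [mul_assoc, hWW, mul_one]
  obtain ⟨α, β, hαβ⟩ := weil_commutant h2 ψ hψ π hθ
  obtain ⟨u, huU, hu0⟩ := (Submodule.ne_bot_iff U).1 hU0
  have h1 : α - β = 1 := by
    have h3 := hπid u huU
    rw [hαβ, LinearMap.add_apply, LinearMap.smul_apply, LinearMap.smul_apply, Module.End.one_apply,
      mem_eigM.1 (hU huU), smul_neg, ← sub_eq_add_neg, ← sub_smul] at h3
    have h4 : (α - β - 1) • u = 0 := by rw [sub_smul, h3, one_smul, sub_self]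
    rcases smul_eq_zero.1 h4 with h5 | h5
    · linear_combination h5
    · exact absurd h5 hu0
  apply le_antisymm hU
  intro x hx
  have h3 : π x = x := by
    rw [hαβ, LinearMap.add_apply, LinearMap.smul_apply, LinearMap.smul_apply, Module.End.one_apply,
      mem_eigM.1 hx, smul_neg, ← sub_eq_add_neg, ← sub_smul, h1, one_smul]
  rw [← h3]
  exact hπU x

end irr

section final

/-- transporting an irreducible action to the standard coordinate space -/
theorem irr_transport {G : Type*} [Group G] {M : Type*} [AddCommGroup M] [Module ℂ M] {d : ℕ}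
    (hd : 1 ≤ d) (e : M ≃ₗ[ℂ] (Fin d → ℂ)) (ρ₀ : G →* (M →ₗ[ℂ] M))
    (hirr : ∀ U : Submodule ℂ M, (∀ g, ∀ x ∈ U, ρ₀ g x ∈ U) → U = ⊥ ∨ U = ⊤) :
    ∃ ρ : Representation ℂ G (Fin d → ℂ), ρ.IsIrreducible := by
  let ρ : Representation ℂ G (Fin d → ℂ) :=
    { toFun := fun g => e.toLinearMap ∘ₗ ρ₀ g ∘ₗ e.symm.toLinearMap
      map_one' := by
        apply LinearMap.ext
        intro x
        simp
      map_mul' := by
        intro g g'
        apply LinearMap.ext
        intro x
        simp }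
  have hρ : ∀ g x, ρ g x = e (ρ₀ g (e.symm x)) := fun g x => rfl
  refine ⟨ρ, ?_⟩
  have hnt : Nontrivial (Subrepresentation ρ) := by
    refine ⟨⟨⊥, ⊤, fun h => ?_⟩⟩
    have h1 : (⊥ : Submodule ℂ (Fin d → ℂ)) = ⊤ := congrArg Subrepresentation.toSubmodule h
    have h3 : Pi.single (⟨0, by omega⟩ : Fin d) (1 : ℂ) ∈ (⊥ : Submodule ℂ (Fin d → ℂ)) := by
      rw [h1]
      exact Submodule.mem_top
    have h4 := congrFun ((Submodule.mem_bot ℂ).1 h3) ⟨0, by omega⟩
    simp at h4
  refine ⟨fun σ => ?_⟩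
  have hinv : ∀ g, ∀ x ∈ σ.toSubmodule.comap e.toLinearMap,
      ρ₀ g x ∈ σ.toSubmodule.comap e.toLinearMap := by
    intro g x hx
    rw [Submodule.mem_comap] at hx ⊢
    have h5 := σ.apply_mem_toSubmodule g hx
    rw [hρ] at h5
    simpa using h5
  rcases hirr _ hinv with h | h
  · left
    apply Subrepresentation.toSubmodule_injective
    show σ.toSubmodule = ⊥
    rw [eq_bot_iff]
    intro z hz
    have h3 : e.symm z ∈ σ.toSubmodule.comap e.toLinearMap := by
      rw [Submodule.mem_comap]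
      simpa using hz
    rw [h, Submodule.mem_bot] at h3
    rw [Submodule.mem_bot]
    simpa using congrArg e h3
  · right
    apply Subrepresentation.toSubmodule_injective
    show σ.toSubmodule = ⊤
    rw [eq_top_iff]
    intro z _
    have h3 : e.symm z ∈ σ.toSubmodule.comap e.toLinearMap := by
      rw [h]
      exact Submodule.mem_top
    rw [Submodule.mem_comap] at h3
    simpa using h3

variable {F : Type*} [Field F] [Fintype F]

/-- **existence of the Weil representation** of degree `(q^n - 1)/2` of `Sp_{2n}(q)`, `q` odd -/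
theorem exists_weil (hq : Fintype.card F % 2 = 1) (m : ℕ) :
    ∃ ρ : Representation ℂ (Matrix.symplecticGroup (Fin (m + 1)) F)
      (Fin ((Fintype.card F ^ (m + 1) - 1) / 2) → ℂ), ρ.IsIrreducible := by
  classical
  have h2 : (2 : F) ≠ 0 := by
    apply Ring.two_ne_zero
    intro h
    have := FiniteField.even_card_of_char_two h
    omega
  obtain ⟨ψ, hψ1⟩ := (AddChar.exists_apply_ne_zero (α := F) (a := 1)).2 one_ne_zero
  have hψ : ψ ≠ 1 := by
    rintro rfl
    exact hψ1 (AddChar.one_apply _)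
  obtain ⟨W, hW⟩ := exists_weilW (n := m + 1) h2 ψ hψ
  have hWJ : ∀ g, W g * hJ F (m + 1) = hJ F (m + 1) * W g := by
    intro g
    rw [hW g, theta_hJ]
  have hfin : finrank ℂ ↥(eigM (hJ F (m + 1))) = (Fintype.card F ^ (m + 1) - 1) / 2 := by
    have h1 := finrank_eigM (hJ F (m + 1)) hJ_mul_self (hJ_trace h2 ψ hψ)
    rw [Module.finrank_fintype_fun_eq_card, Fintype.card_pi_const] at h1
    omega
  have hd : 1 ≤ (Fintype.card F ^ (m + 1) - 1) / 2 := by
    have h1 : 1 < Fintype.card F := Fintype.one_lt_card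
    have h3 : 3 ≤ Fintype.card F := by omega
    have h4 : Fintype.card F ≤ Fintype.card F ^ (m + 1) := Nat.le_self_pow (by omega) _
    omega
  have e : ↥(eigM (hJ F (m + 1))) ≃ₗ[ℂ] (Fin ((Fintype.card F ^ (m + 1) - 1) / 2) → ℂ) :=
    LinearEquiv.ofFinrankEq _ _ (by rw [hfin, Module.finrank_fin_fun])
  let ρ₀ : Matrix.symplecticGroup (Fin (m + 1)) F →*
      (↥(eigM (hJ F (m + 1))) →ₗ[ℂ] ↥(eigM (hJ F (m + 1)))) :=
    { toFun := fun g => (W g).restrict (maps_eigM (hWJ g))
      map_one' := by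
        apply LinearMap.ext
        intro x
        apply Subtype.ext
        simp [LinearMap.restrict_apply]
      map_mul' := by
        intro g g'
        apply LinearMap.ext
        intro x
        apply Subtype.ext
        simp [LinearMap.restrict_apply] }
  have hρ₀ : ∀ g (y : ↥(eigM (hJ F (m + 1)))), ((ρ₀ g y : ↥(eigM (hJ F (m + 1)))) :
      (Fin (m + 1) → F) → ℂ) = W g y := fun g y => rfl
  apply irr_transport hd e ρ₀
  intro U' hU'
  by_cases hb : U' = ⊥
  · left
    exact hb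
  · right
    have h5 := weil_minus_irr h2 ψ hψ W hW (U'.map (eigM (hJ F (m + 1))).subtype)
      (by
        intro x hx
        obtain ⟨y, hy, rfl⟩ := Submodule.mem_map.1 hx
        exact y.2)
      (by
        intro h
        apply hb
        rw [eq_bot_iff]
        intro y hy
        have h6 : ((y : ↥(eigM (hJ F (m + 1)))) : (Fin (m + 1) → F) → ℂ) ∈
            U'.map (eigM (hJ F (m + 1))).subtype := Submodule.mem_map.2 ⟨y, hy, rfl⟩
        rw [h, Submodule.mem_bot] at h6
        rw [Submodule.mem_bot]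
        exact Subtype.ext h6)
      (by
        intro g x hx
        obtain ⟨y, hy, rfl⟩ := Submodule.mem_map.1 hx
        exact Submodule.mem_map.2 ⟨ρ₀ g y, hU' g y hy, rfl⟩)
    rw [eq_top_iff]
    intro x _
    have hx : ((x : ↥(eigM (hJ F (m + 1)))) : (Fin (m + 1) → F) → ℂ) ∈
        U'.map (eigM (hJ F (m + 1))).subtype := by
      rw [h5]
      exact x.2
    obtain ⟨y, hy, hyx⟩ := Submodule.mem_map.1 hx
    have h7 : y = x := Subtype.ext hyx
    rwa [h7] at hy

end final

end Cfsg.Agent.Helper60.SpWeil
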