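import Mathlib
import Cfsg.Prelude.Def_LieExceptional
import Cfsg.Agent.Helper60.SzSubC

set_option autoImplicit false
set_option linter.unusedSectionVars false
set_option linter.unusedVariables false
set_option linter.unusedSimpArgs false

namespace Cfsg.Agent.Helper60

open Matrix Cfsg.Agent.Helper6
open scoped Pointwise

/-- a finite family of commuting involutions has a common eigenvector, obtained from any given
non-zero vector by applying polynomials in the involutions -/
theorem exists_common_eigen {V : Type*} [AddCommGroup V] [Module ℂ V] {ι : Type*}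
    (A : ι → (V →ₗ[ℂ] V)) (hinv : ∀ i, A i * A i = 1) (hcomm : ∀ i j, A i * A j = A j * A i)
    (s : Finset ι) (v : V) (hv : v ≠ 0) :
    ∃ v' : V, v' ≠ 0 ∧ (∀ i ∈ s, A i v' = v' ∨ A i v' = -v') ∧
      (∀ B : V →ₗ[ℂ] V, (∀ i, B * A i = A i * B) → ∀ μ : ℂ, B v = μ • v → B v' = μ • v') := by
  classical
  induction s using Finset.induction_on with
  | empty => exact ⟨v, hv, by simp, fun B _ μ h => h⟩
  | insert i s hi ih =>
    obtain ⟨v', hv', hs, hB⟩ := ih
    have hii : ∀ x, A i (A i x) = x := by
      intro x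
      rw [← Module.End.mul_apply, hinv]
      rfl
    have hij : ∀ j x, A j (A i x) = A i (A j x) := by
      intro j x
      rw [← Module.End.mul_apply, hcomm, Module.End.mul_apply]
    by_cases hplus : v' + A i v' = 0
    · -- then `A i v' = -v'`
      refine ⟨v', hv', ?_, hB⟩
      intro j hj
      rcases Finset.mem_insert.1 hj with rfl | hj
      · right
        exact eq_neg_of_add_eq_zero_right hplus
      · exact hs j hj
    · refine ⟨v' + A i v', hplus, ?_, ?_⟩
      · intro j hj
        rcases Finset.mem_insert.1 hj with rfl | hj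
        · left
          rw [map_add, hii, add_comm]
        · rcases hs j hj with h | h
          · left
            rw [map_add, hij, h]
          · right
            rw [map_add, hij, h, map_neg, neg_add]
      · intro B hBc μ hBv
        have h1 := hB B hBc μ hBv
        have h2 : B (A i v') = A i (B v') := by
          rw [← Module.End.mul_apply, hBc, Module.End.mul_apply]
        rw [map_add, h2, h1, map_smul, smul_add]

section Tw
variable {F : Type*} [Field F] [Fintype F] [CharP F 2] {m : ℕ}

/-- the image of `x ↦ x + σ x` has index two -/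
theorem sigma_add_index (hF : Fintype.card F = 2 ^ (2 * m + 1)) :
    ∃ y₀ : F, ∀ x : F, (∃ z, x = z + szS F m z) ∨ (∃ z, x + y₀ = z + szS F m z) := by
  classical
  have h2 : (2 : F) = 0 := sz_two
  let g : F →+ F :=
    { toFun := fun x => x + szS F m x
      map_zero' := by simp
      map_add' := by
        intro x y
        simp only [map_add]
        ring }
  have hker : ∀ x, g x = 0 ↔ x = 0 ∨ x = 1 := by
    intro x
    constructor
    · intro h
      have h0 : x + szS F m x = 0 := h
      have h1 : szS F m x = x := by linear_combination h0 - x * h2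
      have h3 : x ^ 2 = x := by
        have := szS_szS hF x
        rw [h1, h1] at this
        exact this.symm
      have h4 : x * (x - 1) = 0 := by linear_combination h3
      rcases mul_eq_zero.1 h4 with h5 | h5
      · exact Or.inl h5
      · exact Or.inr (sub_eq_zero.1 h5)
    · rintro (rfl | rfl)
      · exact map_zero g
      · show (1 : F) + szS F m 1 = 0
        rw [map_one]
        linear_combination h2
  have hidx : (AddMonoidHom.range g).index = 2 := by
    have hk : Nat.card (AddMonoidHom.ker g) = 2 := by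
      have hset : ((AddMonoidHom.ker g : AddSubgroup F) : Set F) = {0, 1} := by
        ext x
        simp only [SetLike.mem_coe, AddMonoidHom.mem_ker, Set.mem_insert_iff,
          Set.mem_singleton_iff]
        exact hker x
      have h3 : Nat.card (AddMonoidHom.ker g) = ((AddMonoidHom.ker g : AddSubgroup F) : Set F).ncard :=
        rfl
      rw [h3, hset, Set.ncard_pair zero_ne_one]
    have h1 := AddSubgroup.card_mul_index (AddMonoidHom.ker g)
    have h2' := AddSubgroup.index_ker g
    have h3 := AddSubgroup.card_mul_index (AddMonoidHom.range g)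
    rw [hk, h2'] at h1
    have hpos : 0 < Nat.card (AddMonoidHom.range g) := Nat.card_pos
    have h4 : Nat.card (AddMonoidHom.range g) * (AddMonoidHom.range g).index =
        Nat.card (AddMonoidHom.range g) * 2 := by rw [h3, ← h1, mul_comm]
    exact Nat.eq_of_mul_eq_mul_left hpos h4
  obtain ⟨a, ha⟩ := AddSubgroup.index_eq_two_iff.1 hidx
  refine ⟨a, fun x => ?_⟩
  rcases ha x with ⟨h, -⟩ | ⟨h, -⟩
  · right
    obtain ⟨z, hz⟩ := h
    exact ⟨z, hz.symm⟩
  · left
    obtain ⟨z, hz⟩ := h
    exact ⟨z, hz.symm⟩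

/-- **dimension bound for the twisted group algebra**: operators `T a b` on a non-zero complex
vector space multiplying like the translations of the Suzuki group, with the central ones acting
through a non-trivial character, need dimension at least `2 ^ m` -/
theorem tw_dim_bound (hF : Fintype.card F = 2 ^ (2 * m + 1))
    {W : Type*} [AddCommGroup W] [Module ℂ W] [FiniteDimensional ℂ W] [Nontrivial W]
    (lam : F → ℂ) (hl2 : ∀ b, lam b = 1 ∨ lam b = -1)
    (hladd : ∀ b b', lam (b + b') = lam b * lam b') (hl1 : lam 1 = -1)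
    (T : F → F → (W →ₗ[ℂ] W))
    (hTmul : ∀ a b a' b', T a b * T a' b' = T (a + a') (b + b' + szS F m a * a'))
    (hT0 : ∀ b, T 0 b = lam b • (1 : W →ₗ[ℂ] W)) :
    2 ^ m ≤ Module.finrank ℂ W := by
  classical
  have h2 : (2 : F) = 0 := sz_two
  have hl0 : lam 0 = 1 := by
    have h := hladd 0 0
    rw [add_zero] at h
    rcases hl2 0 with h' | h'
    · exact h'
    · rw [h'] at h; norm_num at h
  have hlsq : ∀ b, lam b * lam b = 1 := by
    intro b
    rcases hl2 b with h | h <;> rw [h] <;> norm_num
  have hlne : ∀ b, lam b ≠ 0 := by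
    intro b
    rcases hl2 b with h | h <;> rw [h] <;> norm_num
  have hUmul : ∀ a a', T a 0 * T a' 0 = lam (szS F m a * a') • T (a + a') 0 := by
    intro a a'
    have e1 : T a 0 * T a' 0 = T (a + a') (szS F m a * a') := by
      rw [hTmul]; congr 1; ring
    have e2 : T (a + a') (szS F m a * a') = lam (szS F m a * a') • T (a + a') 0 := by
      have h := hTmul (a + a') 0 0 (szS F m a * a')
      rw [hT0] at h
      have e3 : T (a + a' + 0) (0 + szS F m a * a' + szS F m (a + a') * 0) =
          T (a + a') (szS F m a * a') := by congr 1 <;> ring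
      rw [e3] at h
      rw [← h, mul_smul_comm, mul_one]
    rw [e1, e2]
  have hU0 : T 0 0 = 1 := by rw [hT0, hl0, one_smul]
  have hUsq : ∀ a, T a 0 * T a 0 = lam (szS F m a * a) • (1 : W →ₗ[ℂ] W) := by
    intro a
    rw [hUmul]
    have : a + a = 0 := by linear_combination a * h2
    rw [this, hU0]
  have hUcomm : ∀ a a', T a 0 * T a' 0 =
      (lam (szS F m a * a' + szS F m a' * a)) • (T a' 0 * T a 0) := by
    intro a a'
    rw [hUmul a a', hUmul a' a, add_comm a' a, smul_smul, hladd]
    congr 1
    rw [mul_assoc, hlsq, mul_one]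
  have htr0 : ∀ a a', lam (szS F m a * a' + szS F m a' * a) = -1 →
      LinearMap.trace ℂ W (T a 0) = 0 := by
    intro a a' hneg
    have hc := hUcomm a a'
    rw [hneg] at hc
    have e1 : LinearMap.trace ℂ W (T a 0 * T a' 0 * T a' 0) =
        LinearMap.trace ℂ W (T a' 0 * T a 0 * T a' 0) := by
      rw [LinearMap.trace_mul_comm, ← mul_assoc]
    have e2 : T a 0 * T a' 0 * T a' 0 = lam (szS F m a' * a') • T a 0 := by
      rw [mul_assoc, hUsq, mul_smul_comm, mul_one]
    have e3 : T a' 0 * T a 0 * T a' 0 = -(lam (szS F m a' * a') • T a 0) := by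
      have h : T a' 0 * T a 0 = -(T a 0 * T a' 0) := by rw [hc]; simp
      rw [h, neg_mul, e2]
    rw [e2, e3, map_neg, map_smul] at e1
    have h3 : lam (szS F m a' * a') • LinearMap.trace ℂ W (T a 0) = 0 := by
      linear_combination e1 / 2
    exact (smul_eq_zero.1 h3).resolve_left (hlne _)
  -- the radical of the commutator pairing
  obtain ⟨y₀, hy₀⟩ := sigma_add_index hF
  have key : ∀ a : F, a ≠ 0 → (∀ x, lam (szS F m a * x + szS F m x * a) = 1) →
      (∀ z, lam (a * szS F m a * (z + szS F m z)) = 1) ∧ lam (a * szS F m a * y₀) = -1 := by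
    intro a ha hR
    have hL : ∀ z, lam (a * szS F m a * (z + szS F m z)) = 1 := by
      intro z
      have h := hR (a * z)
      rw [map_mul] at h
      have e : szS F m a * (a * z) + szS F m a * szS F m z * a =
          a * szS F m a * (z + szS F m z) := by ring
      rwa [e] at h
    refine ⟨hL, ?_⟩
    by_contra hne
    have hy1 : lam (a * szS F m a * y₀) = 1 := (hl2 _).resolve_right hne
    have hall : ∀ x, lam (a * szS F m a * x) = 1 := by
      intro x
      rcases hy₀ x with ⟨z, hz⟩ | ⟨z, hz⟩
      · rw [hz]; exact hL z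
      · have h3 := hL z
        rw [← hz, mul_add, hladd, hy1, mul_one] at h3
        exact h3
    have hsa : szS F m a ≠ 0 := by simpa using ha
    have h4 := hall ((a * szS F m a)⁻¹)
    rw [mul_inv_cancel₀ (mul_ne_zero ha hsa), hl1] at h4
    norm_num at h4
  have hrad : ∀ a a' : F, a ≠ 0 → a' ≠ 0 →
      (∀ x, lam (szS F m a * x + szS F m x * a) = 1) →
      (∀ x, lam (szS F m a' * x + szS F m x * a') = 1) → a = a' := by
    intro a a' ha ha' hR hR'
    obtain ⟨hL, hy⟩ := key a ha hR
    obtain ⟨hL', hy'⟩ := key a' ha' hR'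
    have hall : ∀ x, lam ((a * szS F m a + a' * szS F m a') * x) = 1 := by
      intro x
      rcases hy₀ x with ⟨z, hz⟩ | ⟨z, hz⟩
      · rw [hz, add_mul, hladd, hL, hL', mul_one]
      · have h3 : lam ((a * szS F m a + a' * szS F m a') * (x + y₀)) = 1 := by
          rw [hz, add_mul, hladd, hL, hL', mul_one]
        rw [mul_add, hladd, add_mul (a * szS F m a) _ y₀, hladd, hy, hy'] at h3
        norm_num at h3
        exact h3
    have hc0 : a * szS F m a + a' * szS F m a' = 0 := by
      by_contra hne
      have h4 := hall ((a * szS F m a + a' * szS F m a')⁻¹)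
      rw [mul_inv_cancel₀ hne, hl1] at h4
      norm_num at h4
    have hc : a * szS F m a = a' * szS F m a' := by
      linear_combination hc0 - (a' * szS F m a') * h2
    apply nu_inj hF ha ha'
    have h5 : (a * szS F m a) ^ 2 = (a' * szS F m a') ^ 2 := by rw [hc]
    linear_combination h5
  obtain ⟨e, he0, heR⟩ : ∃ e : F, e ≠ 0 ∧ ∀ a : F, a ≠ 0 →
      (∀ x, lam (szS F m a * x + szS F m x * a) = 1) → a = e := by
    by_cases hex : ∃ e : F, e ≠ 0 ∧ ∀ x, lam (szS F m e * x + szS F m x * e) = 1
    · obtain ⟨e, he0, heR⟩ := hex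
      exact ⟨e, he0, fun a ha hR => hrad a e ha he0 hR heR⟩
    · push Not at hex
      refine ⟨1, one_ne_zero, fun a ha hR => ?_⟩
      obtain ⟨x, hx⟩ := hex a ha
      exact absurd (hR x) hx
  -- an index two subgroup avoiding the radical
  let SA : AddSubgroup F :=
    { carrier := {a | lam (e⁻¹ * a) = 1}
      zero_mem' := by
        show lam (e⁻¹ * 0) = 1
        rw [mul_zero, hl0]
      add_mem' := by
        intro a a' ha ha'
        show lam (e⁻¹ * (a + a')) = 1
        have ha1 : lam (e⁻¹ * a) = 1 := ha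
        have ha2 : lam (e⁻¹ * a') = 1 := ha'
        rw [mul_add, hladd, ha1, ha2, mul_one]
      neg_mem' := by
        intro a ha
        show lam (e⁻¹ * (-a)) = 1
        have : -a = a := by linear_combination (-a) * h2
        rw [this]
        exact ha }
  have hSAmem : ∀ a : F, a ∈ SA ↔ lam (e⁻¹ * a) = 1 := fun a => Iff.rfl
  have heS : e ∉ SA := by
    rw [hSAmem, inv_mul_cancel₀ he0, hl1]
    norm_num
  have hidx : SA.index = 2 := by
    rw [AddSubgroup.index_eq_two_iff]
    refine ⟨e, fun b => ?_⟩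
    have hb : lam (e⁻¹ * (b + e)) = -lam (e⁻¹ * b) := by
      rw [mul_add, hladd, inv_mul_cancel₀ he0, hl1]; ring
    rcases hl2 (e⁻¹ * b) with h | h
    · right
      refine ⟨(hSAmem b).2 h, ?_⟩
      rw [hSAmem, hb, h]
      norm_num
    · left
      refine ⟨?_, ?_⟩
      · rw [hSAmem, hb, h]
        norm_num
      · rw [hSAmem, h]
        norm_num
  haveI : Fintype SA := Fintype.ofFinite SA
  have hScard : Fintype.card SA = 2 ^ (2 * m) := by
    have h1 := AddSubgroup.card_mul_index SA
    rw [hidx, Nat.card_eq_fintype_card (α := F), hF, pow_succ, Nat.card_eq_fintype_card] at h1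
    exact Nat.eq_of_mul_eq_mul_right (by norm_num) h1
  have hd : (Module.finrank ℂ W : ℂ) ≠ 0 := by
    have hpos : 0 < Module.finrank ℂ W := Module.finrank_pos
    exact_mod_cast hpos.ne'
  have hli : LinearIndependent ℂ (fun a : SA => T (a : F) 0) := by
    rw [Fintype.linearIndependent_iff]
    intro c hc a₀
    have h3 := congrArg (fun X => LinearMap.trace ℂ W (T (a₀ : F) 0 * X)) hc
    simp only [Finset.mul_sum, mul_smul_comm, map_sum, map_smul, mul_zero, map_zero] at h3
    rw [Finset.sum_eq_single a₀] at h3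
    · rw [hUsq, map_smul, LinearMap.trace_one] at h3
      have h4 : c a₀ * (lam (szS F m (a₀ : F) * (a₀ : F)) * (Module.finrank ℂ W : ℂ)) = 0 := h3
      rcases mul_eq_zero.1 h4 with h5 | h5
      · exact h5
      · exact absurd h5 (mul_ne_zero (hlne _) hd)
    · intro a _ hne
      rw [hUmul, map_smul]
      have hsum : (a₀ : F) + a ≠ 0 := by
        intro h
        apply hne
        apply Subtype.ext
        linear_combination h - (a₀ : F) * h2
      have hS' : (a₀ : F) + a ∈ SA := SA.add_mem a₀.2 a.2
      have hnR : ¬ ∀ x, lam (szS F m ((a₀ : F) + a) * x + szS F m x * ((a₀ : F) + a)) = 1 := by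
        intro hR
        have h5 := heR _ hsum hR
        exact heS (h5 ▸ hS')
      push Not at hnR
      obtain ⟨x, hx⟩ := hnR
      have hx' : lam (szS F m ((a₀ : F) + a) * x + szS F m x * ((a₀ : F) + a)) = -1 :=
        (hl2 _).resolve_left hx
      rw [htr0 _ x hx', smul_zero, smul_zero]
    · intro h
      exact absurd (Finset.mem_univ a₀) h
  have hcard := hli.fintype_card_le_finrank
  rw [Module.finrank_linearMap, hScard] at hcard
  by_contra hlt
  push Not at hlt
  have e2 : 2 ^ (2 * m) = 2 ^ m * 2 ^ m := by ring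
  rw [e2] at hcard
  nlinarith

end Tw

section SzRep
variable {F : Type*} [Field F] [Fintype F] [CharP F 2] {m : ℕ}

/-- **the Landazuri–Seitz bound for the Suzuki groups**: a complex representation in which a
central involution of the translation group acts non-trivially has degree at least
`2 ^ m * (q - 1)` -/
theorem sz_rep_bound (hm : 1 ≤ m) (hF : Fintype.card F = 2 ^ (2 * m + 1))
    {V : Type*} [AddCommGroup V] [Module ℂ V] [FiniteDimensional ℂ V]
    (ρ : ↥(Cfsg.Sz F m) →* (V →ₗ[ℂ] V)) (hne : ρ (tG hF 0 1) ≠ 1) :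
    2 ^ m * (2 ^ (2 * m + 1) - 1) ≤ Module.finrank ℂ V := by
  classical
  have h2 : (2 : F) = 0 := sz_two
  have hZmul : ∀ b b' : F, ρ (tG hF 0 b) * ρ (tG hF 0 b') = ρ (tG hF 0 (b + b')) := by
    intro b b'
    rw [← map_mul, tG_mul]
    congr 2 <;> simp
  have hZ0 : ρ (tG hF 0 0) = 1 := by rw [tG_zero, map_one]
  have hZinv : ∀ b : F, ρ (tG hF 0 b) * ρ (tG hF 0 b) = 1 := by
    intro b
    rw [hZmul]
    have : b + b = 0 := by linear_combination b * h2
    rw [this, hZ0]
  have hZcomm : ∀ b b' : F, ρ (tG hF 0 b) * ρ (tG hF 0 b') = ρ (tG hF 0 b') * ρ (tG hF 0 b) := by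
    intro b b'
    rw [hZmul, hZmul, add_comm]
  obtain ⟨v, hv⟩ : ∃ v, ρ (tG hF 0 1) v ≠ v := by
    by_contra h
    push Not at h
    exact hne (LinearMap.ext h)
  have hw : v - ρ (tG hF 0 1) v ≠ 0 := fun h => hv (sub_eq_zero.1 h).symm
  have hw1 : ρ (tG hF 0 1) (v - ρ (tG hF 0 1) v) = (-1 : ℂ) • (v - ρ (tG hF 0 1) v) := by
    rw [map_sub, ← Module.End.mul_apply, hZinv]
    simp
  obtain ⟨v₀, hv₀, hev, hB⟩ := exists_common_eigen (fun b : F => ρ (tG hF 0 b)) hZinv hZcomm
    Finset.univ (v - ρ (tG hF 0 1) v) hw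
  have hv₀1 : ρ (tG hF 0 1) v₀ = (-1 : ℂ) • v₀ :=
    hB (ρ (tG hF 0 1)) (fun i => hZcomm 1 i) (-1) hw1
  let lam : F → ℂ := fun b => if ρ (tG hF 0 b) v₀ = v₀ then 1 else -1
  have hlam : ∀ b, ρ (tG hF 0 b) v₀ = lam b • v₀ := by
    intro b
    by_cases h : ρ (tG hF 0 b) v₀ = v₀
    · simp [lam, h]
    · have h' := (hev b (Finset.mem_univ b)).resolve_left h
      simp [lam, h, h']
  have hl2 : ∀ b, lam b = 1 ∨ lam b = -1 := by
    intro b
    by_cases h : ρ (tG hF 0 b) v₀ = v₀ <;> simp [lam, h]
  have hladd : ∀ b b', lam (b + b') = lam b * lam b' := by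
    intro b b'
    have h3 : lam (b + b') • v₀ = (lam b * lam b') • v₀ := by
      rw [← hlam, ← hZmul, Module.End.mul_apply, hlam b', map_smul, hlam b, smul_smul, mul_comm]
    exact smul_left_injective ℂ hv₀ h3
  have hl1 : lam 1 = -1 := by
    have h3 : lam 1 • v₀ = (-1 : ℂ) • v₀ := by rw [← hlam, hv₀1]
    exact smul_left_injective ℂ hv₀ h3
  have hl0 : lam 0 = 1 := by
    have h := hladd 0 0
    rw [add_zero] at h
    rcases hl2 0 with h' | h'
    · exact h'
    · rw [h'] at h; norm_num at h
  let W : Submodule ℂ V :=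
    { carrier := {w | ∀ b, ρ (tG hF 0 b) w = lam b • w}
      add_mem' := by
        intro x y hx hy b
        rw [map_add, hx b, hy b, smul_add]
      zero_mem' := by
        intro b
        simp
      smul_mem' := by
        intro c x hx b
        rw [map_smul, hx b, smul_comm] }
  have hWmem : ∀ w, w ∈ W ↔ ∀ b, ρ (tG hF 0 b) w = lam b • w := fun w => Iff.rfl
  have hv₀W : v₀ ∈ W := hlam
  haveI : Nontrivial W := ⟨⟨⟨v₀, hv₀W⟩, 0, fun h => hv₀ (congrArg Subtype.val h)⟩⟩
  have hmaps : ∀ a b : F, ∀ w ∈ W, ρ (tG hF a b) w ∈ W := by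
    intro a b w hw b'
    show ρ (tG hF 0 b') (ρ (tG hF a b) w) = lam b' • ρ (tG hF a b) w
    rw [← Module.End.mul_apply, ← map_mul]
    have e : tG hF 0 b' * tG hF a b = tG hF a b * tG hF 0 b' := by
      rw [tG_mul, tG_mul]
      congr 1
      · ring
      · simp only [map_zero, zero_mul, mul_zero]
        ring
    rw [e, map_mul, Module.End.mul_apply, hw b', map_smul]
  let T : F → F → (W →ₗ[ℂ] W) := fun a b => (ρ (tG hF a b)).restrict (hmaps a b)
  have hTmul : ∀ a b a' b', T a b * T a' b' = T (a + a') (b + b' + szS F m a * a') := by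
    intro a b a' b'
    apply LinearMap.ext
    intro w
    apply Subtype.ext
    show ρ (tG hF a b) (ρ (tG hF a' b') w) = ρ (tG hF (a + a') (b + b' + szS F m a * a')) w
    rw [← Module.End.mul_apply, ← map_mul, tG_mul]
  have hT0 : ∀ b, T 0 b = lam b • (1 : W →ₗ[ℂ] W) := by
    intro b
    apply LinearMap.ext
    intro w
    apply Subtype.ext
    show ρ (tG hF 0 b) w = lam b • (w : V)
    exact w.2 b
  have hdW := tw_dim_bound hF lam hl2 hladd hl1 T hTmul hT0
  -- the action of the diagonal elements
  have hDZ : ∀ (t : Fˣ) (b : F), ρ (tG hF 0 b) * ρ (dG hF t) =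
      ρ (dG hF t) * ρ (tG hF 0 ((szS F m t ^ 2 * (t : F) ^ 2)⁻¹ * b)) := by
    intro t b
    rw [← map_mul, ← map_mul]
    congr 1
    rw [dG_mul_tG]
    have hst := szS_unit_ne_zero (m := m) t
    have ht := t.ne_zero
    congr 2
    · simp
    · field_simp
  have hDinj : ∀ t : Fˣ, Function.Injective (ρ (dG hF t)) := by
    intro t x y h
    have h3 := congrArg (ρ (dG hF t⁻¹)) h
    rw [← Module.End.mul_apply, ← Module.End.mul_apply, ← map_mul, ← dG_mul, inv_mul_cancel,
      dG_one, map_one] at h3
    exact h3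
  have hsum0 : ∀ c : F, c ≠ 0 → ∑ b : F, lam (c * b) = 0 := by
    intro c hc
    have e : ∑ b : F, lam (c * b) = ∑ b : F, lam (c * (b + c⁻¹)) :=
      (Equiv.sum_comp (Equiv.addRight c⁻¹) (fun b => lam (c * b))).symm
    have e2 : ∑ b : F, lam (c * (b + c⁻¹)) = -∑ b : F, lam (c * b) := by
      rw [← Finset.sum_neg_distrib]
      apply Finset.sum_congr rfl
      intro b _
      rw [mul_add, mul_inv_cancel₀ hc, hladd, hl1]
      ring
    linear_combination (e.trans e2) / 2
  have hsum1 : ∑ b : F, lam (0 * b) = (Fintype.card F : ℂ) := by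
    simp [hl0]
  let Φ : (Fˣ → W) →ₗ[ℂ] V :=
    { toFun := fun f => ∑ t : Fˣ, ρ (dG hF t) (f t : V)
      map_add' := by
        intro f g
        simp [Finset.sum_add_distrib]
      map_smul' := by
        intro c f
        simp [Finset.smul_sum] }
  have hΦinj : Function.Injective Φ := by
    rw [← LinearMap.ker_eq_bot, LinearMap.ker_eq_bot']
    intro f hf
    have hf' : ∑ t : Fˣ, ρ (dG hF t) (f t : V) = 0 := hf
    funext s
    have hP := congrArg (fun x => ∑ b : F,
      lam ((szS F m s ^ 2 * (s : F) ^ 2)⁻¹ * b) • ρ (tG hF 0 b) x) hf'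
    simp only [map_sum, map_zero, smul_zero, Finset.sum_const_zero] at hP
    have hterm : ∀ (b : F) (t : Fˣ), ρ (tG hF 0 b) (ρ (dG hF t) (f t : V)) =
        lam ((szS F m t ^ 2 * (t : F) ^ 2)⁻¹ * b) • ρ (dG hF t) (f t : V) := by
      intro b t
      rw [← Module.End.mul_apply, hDZ, Module.End.mul_apply, (f t).2 _, map_smul]
    simp only [hterm, Finset.smul_sum, smul_smul] at hP
    rw [Finset.sum_comm] at hP
    simp only [← Finset.sum_smul] at hP
    have hcoef : ∀ t : Fˣ, ∑ b : F, lam ((szS F m s ^ 2 * (s : F) ^ 2)⁻¹ * b) *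
        lam ((szS F m t ^ 2 * (t : F) ^ 2)⁻¹ * b) =
        if t = s then (Fintype.card F : ℂ) else 0 := by
      intro t
      have e : ∀ b, lam ((szS F m s ^ 2 * (s : F) ^ 2)⁻¹ * b) *
          lam ((szS F m t ^ 2 * (t : F) ^ 2)⁻¹ * b) =
          lam (((szS F m s ^ 2 * (s : F) ^ 2)⁻¹ + (szS F m t ^ 2 * (t : F) ^ 2)⁻¹) * b) := by
        intro b
        rw [add_mul, hladd]
      simp only [e]
      by_cases hts : t = s
      · subst hts
        have e0 : (szS F m t ^ 2 * (t : F) ^ 2)⁻¹ + (szS F m t ^ 2 * (t : F) ^ 2)⁻¹ = 0 := by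
          linear_combination ((szS F m t ^ 2 * (t : F) ^ 2)⁻¹) * h2
        rw [e0, hsum1, if_pos rfl]
      · rw [if_neg hts]
        apply hsum0
        intro h0
        apply hts
        have h1 : (szS F m s ^ 2 * (s : F) ^ 2)⁻¹ = (szS F m t ^ 2 * (t : F) ^ 2)⁻¹ := by
          linear_combination h0 - ((szS F m t ^ 2 * (t : F) ^ 2)⁻¹) * h2
        have h3 : szS F m (s : F) ^ 2 * (s : F) ^ 2 = szS F m (t : F) ^ 2 * (t : F) ^ 2 :=
          inv_injective h1
        exact (Units.ext (nu_inj hF s.ne_zero t.ne_zero h3)).symm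
    simp only [hcoef] at hP
    rw [Finset.sum_eq_single s] at hP
    · rw [if_pos rfl] at hP
      have hq : (Fintype.card F : ℂ) ≠ 0 := by exact_mod_cast Fintype.card_ne_zero
      have h4 : ρ (dG hF s) (f s : V) = 0 := (smul_eq_zero.1 hP).resolve_left hq
      have h5 : (f s : V) = 0 := hDinj s (by rw [h4, map_zero])
      exact Subtype.ext h5
    · intro t _ hts
      rw [if_neg hts, zero_smul]
    · intro h
      exact absurd (Finset.mem_univ s) h
  have hle := LinearMap.finrank_le_finrank_of_injective hΦinj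
  rw [Module.finrank_pi_fintype] at hle
  simp only [Finset.sum_const, Finset.card_univ, smul_eq_mul] at hle
  rw [Fintype.card_units, hF] at hle
  calc 2 ^ m * (2 ^ (2 * m + 1) - 1) ≤ Module.finrank ℂ W * (2 ^ (2 * m + 1) - 1) :=
        Nat.mul_le_mul_right _ hdW
    _ = (2 ^ (2 * m + 1) - 1) * Module.finrank ℂ W := mul_comm _ _
    _ ≤ Module.finrank ℂ V := hle

end SzRep

end Cfsg.Agent.Helper60
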